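import Cfsg.Agent.H96.Fx.Base

/-! # S3365, piece B1. -/

set_option autoImplicit false
open MulAction
open scoped Pointwise

namespace Cfsg.Agent.H96.Fx

theorem B1.mem_of_order {p : ℕ} {G : Type*} [Group G] [Finite G] (hp : p.Prime) (M D : Subgroup G)
    (hDn : (D.subgroupOf M).Normal) (hidx : ¬ p ∣ D.relIndex M) (w : G) (hw : w ∈ M) (hwp : orderOf w = p) :
    w ∈ D := by
  have h1 : orderOf (QuotientGroup.mk' (D.subgroupOf M) (⟨w, hw⟩ : M)) ∣ p := by
    have h2 := orderOf_map_dvd (QuotientGroup.mk' (D.subgroupOf M)) (⟨w, hw⟩ : M)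
    rwa [Subgroup.orderOf_mk, hwp] at h2
  have h3 : orderOf (QuotientGroup.mk' (D.subgroupOf M) (⟨w, hw⟩ : M)) ∣ D.relIndex M := by
    have h4 := orderOf_dvd_natCard (QuotientGroup.mk' (D.subgroupOf M) (⟨w, hw⟩ : M))
    exact h4
  have h5 : orderOf (QuotientGroup.mk' (D.subgroupOf M) (⟨w, hw⟩ : M)) = 1 := by
    rcases (Nat.dvd_prime hp).1 h1 with h | h
    · exact h
    · rw [h] at h3; exact absurd h3 hidx
  rw [orderOf_eq_one_iff, QuotientGroup.mk'_apply, QuotientGroup.eq_one_iff] at h5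
  exact Subgroup.mem_subgroupOf.1 h5

section geo
variable {G Ω : Type*} [Group G] [Finite G] [MulAction G Ω] [Finite Ω]

/-- [B1] general p -/
theorem b1 (p : ℕ) [Fact p.Prime] (Λ : Set Ω)
    (hfx : ∀ w ∈ fixingSubgroup G Λ, w ≠ 1 → (∃ k : ℕ, w ^ p ^ k = 1) → fixedBy Ω w = Λ)
    (hMD : ¬ p ∣ (fixingSubgroup G Λ).relIndex (stabilizer G Λ)) :
    ∀ g ∉ stabilizer G Λ, ¬ p ∣ Nat.card ↥(stabilizer G Λ ⊓ (stabilizer G Λ).map (MulAut.conj g).toMonoidHom) := by
  intro g hg hdvd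
  have hp : p.Prime := Fact.out
  obtain ⟨w, hw⟩ := exists_prime_orderOf_dvd_card' p hdvd
  have hwp : orderOf (w : G) = p := by rw [Subgroup.orderOf_coe]; exact hw
  have hDn : ((fixingSubgroup G Λ).subgroupOf (stabilizer G Λ)).Normal := by
    constructor
    intro d hd m
    rw [Subgroup.mem_subgroupOf] at hd ⊢
    exact conj_mem_fixing m.2 hd
  have hw1 : (w : G) ∈ stabilizer G Λ := (Subgroup.mem_inf.1 w.2).1
  obtain ⟨v, hv, hvw⟩ := (Subgroup.mem_inf.1 w.2).2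
  have hvw' : g * v * g⁻¹ = (w : G) := hvw
  have hvp : orderOf v = p := by
    rw [← hwp, ← hvw']
    have := orderOf_injective (MulAut.conj g).toMonoidHom (MulAut.conj g).injective v
    exact this.symm
  have hwD := B1.mem_of_order hp _ _ hDn hMD _ hw1 hwp
  have hvD := B1.mem_of_order hp _ _ hDn hMD _ hv hvp
  have hne : ∀ x : G, orderOf x = p → x ≠ 1 := by
    intro x hx h1
    rw [h1, orderOf_one] at hx
    exact hp.one_lt.ne hx
  have hpow : ∀ x : G, orderOf x = p → ∃ k : ℕ, x ^ p ^ k = 1 := by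
    intro x hx
    exact ⟨1, by rw [pow_one, ← hx]; exact pow_orderOf_eq_one x⟩
  have e1 := hfx v hvD (hne v hvp) (hpow v hvp)
  have e2 := hfx w hwD (hne w hwp) (hpow w hwp)
  rw [← hvw'] at e2
  exact hg (mem_stab_of_conj e1 e2)

end geo

end Cfsg.Agent.H96.Fx
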