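import Cfsg.Agent.Fus.SmallP

set_option autoImplicit false

/-!
Permutation groups of degree four and order eight are dihedral.
-/

open scoped Pointwise

namespace Cfsg.Agent.H96.Fx

namespace D8

/-- a central involution of a dihedral subgroup -/
def z0 : Equiv.Perm (Fin 4) := Equiv.swap 0 1 * Equiv.swap 2 3
/-- a transposition -/
def x0 : Equiv.Perm (Fin 4) := Equiv.swap 0 1
/-- another involution -/
def y0 : Equiv.Perm (Fin 4) := Equiv.swap 0 2 * Equiv.swap 1 3

theorem card_D : Nat.card (Subgroup.centralizer ({z0} : Set (Equiv.Perm (Fin 4)))) = 8 := by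
  have h : ∀ g : Equiv.Perm (Fin 4), g ∈ Subgroup.centralizer ({z0} : Set (Equiv.Perm (Fin 4))) ↔ g * z0 = z0 * g := by
    intro g
    exact Subgroup.mem_centralizer_singleton_iff
  have h2 : Nat.card (Subgroup.centralizer ({z0} : Set (Equiv.Perm (Fin 4)))) =
      Nat.card {g : Equiv.Perm (Fin 4) // g * z0 = z0 * g} := Nat.card_congr (Equiv.subtypeEquivRight h)
  rw [h2, Nat.card_eq_fintype_card, Fintype.card_subtype]
  decide +kernel

theorem fac24 : (Nat.card (Equiv.Perm (Fin 4))).factorization 2 = 3 := by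
  have h1 : Nat.card (Equiv.Perm (Fin 4)) = 2 ^ 3 * 3 := by
    rw [Nat.card_eq_fintype_card, Fintype.card_perm, Fintype.card_fin]; decide
  rw [h1, Nat.factorization_mul (by norm_num) (by norm_num), Nat.Prime.factorization_pow Nat.prime_two]
  have h2 : Nat.factorization 3 2 = 0 := Nat.factorization_eq_zero_of_not_dvd (by norm_num)
  simp [h2]

theorem main (H : Subgroup (Equiv.Perm (Fin 4))) (hH : Nat.card H = 8) : Nonempty (H ≃* DihedralGroup 4) := by
  have h2 : Fact (Nat.Prime 2) := ⟨Nat.prime_two⟩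
  let P : Sylow 2 (Equiv.Perm (Fin 4)) := Sylow.ofCard (Subgroup.centralizer ({z0} : Set (Equiv.Perm (Fin 4))))
    (by rw [card_D, fac24]; norm_num)
  let Q : Sylow 2 (Equiv.Perm (Fin 4)) := Sylow.ofCard H (by rw [hH, fac24]; norm_num)
  obtain ⟨g, hg⟩ := MulAction.exists_smul_eq (Equiv.Perm (Fin 4)) P Q
  have hmem : ∀ a : Equiv.Perm (Fin 4), a * z0 = z0 * a → g * a * g⁻¹ ∈ H := by
    intro a ha
    have h3 : a ∈ (P : Subgroup (Equiv.Perm (Fin 4))) := Subgroup.mem_centralizer_singleton_iff.2 ha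
    have h4 : g * a * g⁻¹ ∈ ((g • P : Sylow 2 (Equiv.Perm (Fin 4))) : Subgroup (Equiv.Perm (Fin 4))) := by
      have := Subgroup.smul_mem_pointwise_smul a (MulAut.conj g) (P : Subgroup (Equiv.Perm (Fin 4))) h3
      show g * a * g⁻¹ ∈ MulAut.conj g • (P : Subgroup (Equiv.Perm (Fin 4)))
      simpa [MulAut.smul_def] using this
    rw [hg] at h4
    exact h4
  have hx : x0 * z0 = z0 * x0 := by decide
  have hy : y0 * z0 = z0 * y0 := by decide
  have hx2 : x0 * x0 = 1 := by decide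
  have hy2 : y0 * y0 = 1 := by decide
  have hxy : x0 * y0 ≠ y0 * x0 := by decide
  refine Cfsg.Agent.Fus.dihedral4_of_involutions (G := H) hH (x := ⟨_, hmem x0 hx⟩) (y := ⟨_, hmem y0 hy⟩)
    (Subtype.ext ?_) (Subtype.ext ?_) ?_
  · show (g * x0 * g⁻¹) ^ 2 = 1
    rw [conj_pow, sq, hx2]; group
  · show (g * y0 * g⁻¹) ^ 2 = 1
    rw [conj_pow, sq, hy2]; group
  · intro h
    have h3 : g * x0 * g⁻¹ * (g * y0 * g⁻¹) = g * y0 * g⁻¹ * (g * x0 * g⁻¹) := congrArg Subtype.val h
    apply hxy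
    have h4 : g * (x0 * y0) * g⁻¹ = g * (y0 * x0) * g⁻¹ := by
      calc g * (x0 * y0) * g⁻¹ = g * x0 * g⁻¹ * (g * y0 * g⁻¹) := by group
        _ = _ := by rw [h3]; group
    exact mul_left_cancel (mul_right_cancel h4)

end D8

/-- [D8] -/
theorem d8_of_perm {R : Type*} [Group R] [Finite R] {X : Type*} [Finite X] (hX : Nat.card X = 4)
    (ρ : R →* Equiv.Perm X) (h : Nat.card ρ.range = 8) :
    ∃ φ : R →* DihedralGroup 4, φ.ker = ρ.ker := by
  let e : X ≃ Fin 4 := Finite.equivFinOfCardEq hX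
  let Φ : Equiv.Perm X ≃* Equiv.Perm (Fin 4) := e.permCongrHom
  let ψ : R →* Equiv.Perm (Fin 4) := Φ.toMonoidHom.comp ρ
  have hcard : Nat.card ψ.range = 8 := by
    have h1 : ψ.range = ρ.range.map Φ.toMonoidHom := MonoidHom.range_comp Φ.toMonoidHom ρ
    rw [h1, ← h]
    exact (Nat.card_congr (ρ.range.equivMapOfInjective Φ.toMonoidHom Φ.injective).toEquiv).symm
  obtain ⟨θ⟩ := D8.main ψ.range hcard
  refine ⟨θ.toMonoidHom.comp ψ.rangeRestrict, ?_⟩
  ext r
  rw [MonoidHom.mem_ker, MonoidHom.mem_ker]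
  constructor
  · intro hr
    have h1 : ψ.rangeRestrict r = 1 := (map_eq_one_iff θ.toMonoidHom θ.injective).1 hr
    have h2 : ψ r = 1 := congrArg Subtype.val h1
    exact (map_eq_one_iff Φ.toMonoidHom Φ.injective).1 h2
  · intro hr
    have h2 : ψ r = 1 := by
      show Φ (ρ r) = 1
      rw [hr, map_one]
    have h1 : ψ.rangeRestrict r = 1 := Subtype.ext h2
    show θ (ψ.rangeRestrict r) = 1
    rw [h1, map_one]

end Cfsg.Agent.H96.Fx
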