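import Mathlib
import Cfsg.Prelude

set_option autoImplicit false

namespace Cfsg.Agent.H96.Fx.L16

theorem cls {S : Type*} [Group S] [Finite S] (H K : Subgroup S) (h2 : ∀ x ∈ H, x ^ 2 ∈ K) (r : S)
    (hr : r ∈ H) : Nat.card H ≤ Nat.card K * Nat.card (Subgroup.centralizer ({r} : Set S)) := by
  classical
  have hc : ∀ x : H, (x : S) * r * (x : S)⁻¹ * r⁻¹ ∈ K := by
    intro x
    have e : (x : S) * r * (x : S)⁻¹ * r⁻¹ = (x : S) ^ 2 * ((x : S)⁻¹ * r) ^ 2 * (r⁻¹) ^ 2 := by
      simp only [pow_two]; group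
    rw [e]
    exact K.mul_mem (K.mul_mem (h2 _ x.2) (h2 _ (H.mul_mem (H.inv_mem x.2) hr))) (h2 _ (H.inv_mem hr))
  let k : H → K := fun x => ⟨_, hc x⟩
  have hs : ∀ x : H, ∃ y : H, k y = k x := fun x => ⟨x, rfl⟩
  let s : K → H := fun c => if h : ∃ y : H, k y = c then h.choose else 1
  have hsk : ∀ x : H, k (s (k x)) = k x := by
    intro x
    have h : ∃ y : H, k y = k x := ⟨x, rfl⟩
    have : s (k x) = h.choose := dif_pos h
    rw [this]
    exact h.choose_spec
  have hcen : ∀ x : H, ((s (k x) : H) : S)⁻¹ * (x : S) ∈ Subgroup.centralizer ({r} : Set S) := by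
    intro x
    rw [Subgroup.mem_centralizer_singleton_iff]
    have h1 := congrArg Subtype.val (hsk x)
    have h2 : ((s (k x) : H) : S) * r * ((s (k x) : H) : S)⁻¹ * r⁻¹ = (x : S) * r * (x : S)⁻¹ * r⁻¹ := h1
    have h3 : ((s (k x) : H) : S) * r * ((s (k x) : H) : S)⁻¹ = (x : S) * r * (x : S)⁻¹ :=
      mul_right_cancel h2
    set y : S := ((s (k x) : H) : S)
    calc y⁻¹ * (x : S) * r = y⁻¹ * ((x : S) * r * (x : S)⁻¹) * x := by group
      _ = y⁻¹ * (y * r * y⁻¹) * x := by rw [h3]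
      _ = r * (y⁻¹ * x) := by group
  rw [← Nat.card_prod]
  apply Nat.card_le_card_of_injective
    (fun x : H => ((k x, ⟨_, hcen x⟩) : K × Subgroup.centralizer ({r} : Set S)))
  intro x y hxy
  have h1 : k x = k y := congrArg Prod.fst hxy
  have h2 := congrArg (fun t => ((Prod.snd t : Subgroup.centralizer ({r} : Set S)) : S)) hxy
  simp only [] at h2
  rw [h1] at h2
  exact Subtype.ext (mul_left_cancel h2)

/-- criterion for sectional 2-rank at most 4 -/
theorem crit {S : Type*} [Group S] [Finite S]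
    (h : ∀ H K : Subgroup S, K ≤ H → (∀ x ∈ H, ∀ k ∈ K, x * k * x⁻¹ ∈ K) → (∀ x ∈ H, x ^ 2 ∈ K) →
      Nat.card H = 32 * Nat.card K → ∃ r ∈ H, Nat.card (Subgroup.centralizer ({r} : Set S)) ≤ 16) :
    Cfsg.SectionalPRankLE 2 4 S := by
  classical
  haveI : Fact (Nat.Prime 2) := ⟨Nat.prime_two⟩
  intro H N hN A hAc hA2
  by_contra hgt
  push Not at hgt
  have hAp : IsPGroup 2 A := by
    intro a
    refine ⟨1, ?_⟩
    apply Subtype.ext
    have := hA2 a a.2
    simpa using this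
  obtain ⟨k, hk⟩ := IsPGroup.iff_card.mp hAp
  have hk5 : 5 ≤ k := by
    by_contra hlt
    push Not at hlt
    have : 2 ^ k ≤ 2 ^ 4 := Nat.pow_le_pow_right (by norm_num) (by omega)
    omega
  obtain ⟨B, hB⟩ := Sylow.exists_subgroup_card_pow_prime (G := A) 2 (n := 5)
    (by rw [hk]; exact pow_dvd_pow 2 hk5)
  -- B ≤ A of order 32; take its image in H ⧸ N, then the preimage in H, then the image in S
  let B' : Subgroup (H ⧸ N) := B.map A.subtype
  have hB' : Nat.card B' = 32 := by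
    have : Nat.card B' = Nat.card B :=
      Nat.card_congr (B.equivMapOfInjective A.subtype A.subtype_injective).symm.toEquiv
    rw [this, hB]; norm_num
  have hB2 : ∀ b ∈ B', b ^ 2 = 1 := by
    rintro b ⟨a, _, rfl⟩
    exact hA2 a a.2
  let H1 : Subgroup H := B'.comap (QuotientGroup.mk' N)
  have hNH1 : N ≤ H1 := by
    intro n hn
    show (QuotientGroup.mk' N) n ∈ B'
    have : (QuotientGroup.mk' N) n = 1 := (QuotientGroup.eq_one_iff n).2 hn
    rw [this]; exact B'.one_mem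
  have hcard : Nat.card H1 = 32 * Nat.card N := by
    have h1 : Nat.card H1 * H1.index = Nat.card H := H1.card_mul_index
    have h2 : Nat.card B' * B'.index = Nat.card (H ⧸ N) := B'.card_mul_index
    have h3 : H1.index = B'.index :=
      Subgroup.index_comap_of_surjective B' (QuotientGroup.mk'_surjective N)
    have h4 : Nat.card N * N.index = Nat.card H := N.card_mul_index
    have h5 : Nat.card (H ⧸ N) = N.index := rfl
    rw [h5, hB'] at h2
    rw [← h2, ← h1, h3] at h4
    have hpos : 0 < B'.index := Nat.pos_of_ne_zero Subgroup.index_ne_zero_of_finite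
    have h6 : Nat.card H1 * B'.index = (32 * Nat.card N) * B'.index := by
      rw [← h4]; ring
    exact Nat.eq_of_mul_eq_mul_right hpos h6
  have hinj : Function.Injective H.subtype := H.subtype_injective
  have cm : ∀ L : Subgroup H, Nat.card (L.map H.subtype) = Nat.card L := fun L =>
    Nat.card_congr (L.equivMapOfInjective H.subtype hinj).symm.toEquiv
  obtain ⟨r, hr, hrc⟩ := h (H1.map H.subtype) (N.map H.subtype) (Subgroup.map_mono hNH1)
    (by
      rintro _ ⟨x, hx, rfl⟩ _ ⟨n, hn, rfl⟩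
      exact ⟨x * n * x⁻¹, hN.conj_mem n hn x, by simp⟩)
    (by
      rintro _ ⟨x, hx, rfl⟩
      refine ⟨x ^ 2, ?_, by simp⟩
      have h1 : ((QuotientGroup.mk' N) x) ^ 2 = 1 := hB2 _ hx
      rw [← map_pow] at h1
      exact (QuotientGroup.eq_one_iff _).1 h1)
    (by rw [cm, cm, hcard])
  have h1 := cls (H1.map H.subtype) (N.map H.subtype)
    (by
      rintro _ ⟨x, hx, rfl⟩
      refine ⟨x ^ 2, ?_, by simp⟩
      have h1 : ((QuotientGroup.mk' N) x) ^ 2 = 1 := hB2 _ hx
      rw [← map_pow] at h1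
      exact (QuotientGroup.eq_one_iff _).1 h1) r hr
  rw [cm, cm, hcard] at h1
  have h2 : Nat.card N * Nat.card (Subgroup.centralizer ({r} : Set S)) ≤ Nat.card N * 16 :=
    Nat.mul_le_mul_left _ hrc
  have h3 : 0 < Nat.card N := Nat.card_pos
  omega

/-- two subgroups of `N` -/
theorem card_inf {S : Type*} [Group S] [Finite S] (A B N : Subgroup S) (hA : A ≤ N) (hB : B ≤ N) :
    Nat.card A * Nat.card B ≤ Nat.card ↥(A ⊓ B) * Nat.card N := by
  have key : ∀ A B : Subgroup N, Nat.card A * Nat.card B ≤ Nat.card ↥(A ⊓ B) * Nat.card N := by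
    intro A B
    have h1 := A.card_mul_index
    have h2 := B.card_mul_index
    have h3 := (A ⊓ B).card_mul_index
    have h4 : (A ⊓ B).index ≤ A.index * B.index := Subgroup.index_inf_le
    have hpos : 0 < (A ⊓ B).index := Nat.pos_of_ne_zero Subgroup.index_ne_zero_of_finite
    apply Nat.le_of_mul_le_mul_right _ hpos
    calc Nat.card A * Nat.card B * (A ⊓ B).index
        ≤ Nat.card A * Nat.card B * (A.index * B.index) := Nat.mul_le_mul_left _ h4
      _ = (Nat.card A * A.index) * (Nat.card B * B.index) := by ring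
      _ = (Nat.card ↥(A ⊓ B) * (A ⊓ B).index) * Nat.card N := by rw [h1, h2, h3]
      _ = Nat.card ↥(A ⊓ B) * Nat.card N * (A ⊓ B).index := by ring
  have e : ∀ C : Subgroup S, C ≤ N → Nat.card (C.subgroupOf N) = Nat.card C := fun C hC =>
    Nat.card_congr (Subgroup.subgroupOfEquivOfLe hC).toEquiv
  have h := key (A.subgroupOf N) (B.subgroupOf N)
  rw [e A hA, e B hB] at h
  have h5 : Nat.card ↥(A.subgroupOf N ⊓ B.subgroupOf N) = Nat.card ↥(A ⊓ B) := by
    rw [← e (A ⊓ B) (inf_le_left.trans hA)]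
    rfl
  rw [h5] at h
  exact h

/-- the complement of `Z` in `R` -/
theorem card_compl {S : Type*} [Group S] [Finite S] (R Z : Subgroup S) :
    Nat.card {x : S // x ∈ R ∧ x ∉ Z} + Nat.card ↥(R ⊓ Z) = Nat.card R := by
  classical
  have h1 : Nat.card {x : S // x ∈ R ∧ x ∉ Z} = ((R : Set S) \ (Z : Set S)).ncard :=
    Nat.card_coe_set_eq ((R : Set S) \ (Z : Set S))
  have h2 : Nat.card ↥(R ⊓ Z) = ((R : Set S) ∩ (Z : Set S)).ncard :=
    Nat.card_coe_set_eq ((R : Set S) ∩ (Z : Set S))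
  have h3 : Nat.card R = ((R : Set S)).ncard := Nat.card_coe_set_eq (R : Set S)
  rw [h1, h2, h3, add_comm]
  exact Set.ncard_inter_add_ncard_diff_eq_ncard _ _ (Set.toFinite _)

/-- A 2-group normalising a fours group `U` with `C(u) = R` for all `u ≠ 1` lies in `R`. -/
theorem norm_le {S : Type*} [Group S] [Finite S] (hS : IsPGroup 2 S) (R U : Subgroup S)
    (hU : Nat.card U = 4) (hC : ∀ u ∈ U, u ≠ 1 → Subgroup.centralizer ({u} : Set S) = R)
    (n : S) (hn : ∀ v ∈ U, n * v * n⁻¹ ∈ U) : n ∈ R := by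
  classical
  haveI : Fact (Nat.Prime 2) := ⟨Nat.prime_two⟩
  have hnN : n ∈ Subgroup.normalizer (U : Set S) := by
    rw [Subgroup.mem_normalizer_iff]
    intro h
    constructor
    · exact hn h
    · intro hh
      let f : U → U := fun v => ⟨n * v * n⁻¹, hn v v.2⟩
      have hf : Function.Injective f := by
        intro a b hab
        have := congrArg Subtype.val hab
        apply Subtype.ext
        simpa [f] using this
      obtain ⟨v, hv⟩ := (Finite.injective_iff_surjective.1 hf) ⟨_, hh⟩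
      have h1 : n * (v : S) * n⁻¹ = n * h * n⁻¹ := congrArg Subtype.val hv
      have h2 : (v : S) = h := by simpa using h1
      rw [← h2]; exact v.2
  let N : Subgroup S := Subgroup.normalizer (U : Set S)
  letI act : MulAction N U := MulAction.compHom U (U.normalizerMonoidHom)
  have hact : ∀ (m : N) (v : U), ((m • v : U) : S) = (m : S) * v * (m : S)⁻¹ := fun m v => rfl
  have hmod := (hS.to_subgroup N).card_modEq_card_fixedPoints U
  rw [hU] at hmod
  have h1 : (1 : U) ∈ MulAction.fixedPoints N U := by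
    intro m
    apply Subtype.ext
    rw [hact]; simp
  haveI : Nonempty (MulAction.fixedPoints N U) := ⟨⟨1, h1⟩⟩
  have hpos : 0 < Nat.card (MulAction.fixedPoints N U) := Nat.card_pos
  have h2 : 1 < Nat.card (MulAction.fixedPoints N U) := by
    have : (4 : ℕ) % 2 = Nat.card (MulAction.fixedPoints N U) % 2 := hmod
    omega
  haveI : Finite (MulAction.fixedPoints N U) := inferInstance
  obtain ⟨x, y, hxy⟩ := (Finite.one_lt_card_iff_nontrivial.1 h2).exists_pair_ne
  obtain ⟨z, hz1⟩ : ∃ z : MulAction.fixedPoints N U, (z : U) ≠ 1 := by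
    by_cases hx : (x : U) = 1
    · refine ⟨y, fun hy => hxy (Subtype.ext (hx.trans hy.symm))⟩
    · exact ⟨x, hx⟩
  have hz : (n : S) * ((z : U) : S) * n⁻¹ = ((z : U) : S) := by
    have := congrArg Subtype.val (z.2 ⟨n, hnN⟩)
    rwa [hact] at this
  have hz1' : ((z : U) : S) ≠ 1 := fun h => hz1 (Subtype.ext h)
  rw [← hC _ (z : U).2 hz1', Subgroup.mem_centralizer_singleton_iff]
  calc n * ((z : U) : S) = (n * ((z : U) : S) * n⁻¹) * n := by group
    _ = ((z : U) : S) * n := by rw [hz]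

theorem mem_conj_map {S : Type*} [Group S] (R : Subgroup S) (g x : S) :
    x ∈ R.map (MulAut.conj g).toMonoidHom ↔ g⁻¹ * x * g ∈ R := by
  constructor
  · rintro ⟨r, hr, rfl⟩
    have : g⁻¹ * ((MulAut.conj g).toMonoidHom r) * g = r := by
      show g⁻¹ * (g * r * g⁻¹) * g = r
      group
    rw [this]; exact hr
  · intro h
    refine ⟨_, h, ?_⟩
    show g * (g⁻¹ * x * g) * g⁻¹ = x
    group

theorem card_conj_map {S : Type*} [Group S] (R : Subgroup S) (g : S) :
    Nat.card (R.map (MulAut.conj g).toMonoidHom) = Nat.card R :=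
  Nat.card_congr (R.equivMapOfInjective _ (MulAut.conj g).injective).symm.toEquiv

theorem mem_norm {S : Type*} [Group S] [Finite S] (R : Subgroup S) (n : S)
    (h : ∀ r ∈ R, n * r * n⁻¹ ∈ R) : n ∈ Subgroup.normalizer (R : Set S) := by
  rw [Subgroup.mem_normalizer_iff]
  intro x
  constructor
  · exact h x
  · intro hh
    let f : R → R := fun v => ⟨n * v * n⁻¹, h v v.2⟩
    have hf : Function.Injective f := by
      intro a b hab
      have := congrArg Subtype.val hab
      apply Subtype.ext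
      simpa [f] using this
    obtain ⟨v, hv⟩ := (Finite.injective_iff_surjective.1 hf) ⟨_, hh⟩
    have h1 : n * (v : S) * n⁻¹ = n * x * n⁻¹ := congrArg Subtype.val hv
    have h2 : (v : S) = x := by simpa using h1
    rw [← h2]; exact v.2

theorem exists_not {S : Type*} [Group S] [Finite S] (A B : Subgroup S) (h : Nat.card B < Nat.card A) :
    ∃ x ∈ A, x ∉ B := by
  by_contra hc
  push Not at hc
  have : Nat.card A ≤ Nat.card B := Subgroup.card_le_of_le hc
  omega

/-- the map of the proof -/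
theorem exists_map {S : Type*} [Group S] [Finite S] (R U Z N : Subgroup S) (hRN : R ≤ N)
    (hNR : ∀ n ∈ N, ∀ r ∈ R, n * r * n⁻¹ ∈ R) (hUR : U ≤ R)
    (hRab : ∀ a ∈ R, ∀ b ∈ R, a * b = b * a)
    (hTI : ∀ n ∈ N, ∀ u ∈ U, u ≠ 1 → n * u * n⁻¹ ∈ U → n ∈ R)
    (hZ : ∀ n ∈ N, ∀ u ∈ U, u ≠ 1 → n * u * n⁻¹ ∉ Z) :
    ∃ f : (N ⧸ R.subgroupOf N) × {u : S // u ∈ U ∧ u ∉ (⊥ : Subgroup S)} → {x : S // x ∈ R ∧ x ∉ Z},
      Function.Injective f ∧ ∀ c, ∃ n ∈ N, ∃ u ∈ U, u ≠ 1 ∧ (f c : S) = n * u * n⁻¹ := by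
  classical
  have hne : ∀ u : {u : S // u ∈ U ∧ u ∉ (⊥ : Subgroup S)}, (u : S) ≠ 1 := by
    intro u h
    exact u.2.2 (Subgroup.mem_bot.2 h)
  refine ⟨fun c => ⟨(c.1.out : S) * c.2 * (c.1.out : S)⁻¹,
    hNR _ c.1.out.2 _ (hUR c.2.2.1), hZ _ c.1.out.2 _ c.2.2.1 (hne _)⟩, ?_, ?_⟩
  · rintro ⟨c, u⟩ ⟨d, v⟩ h
    have h1 : (c.out : S) * u * (c.out : S)⁻¹ = (d.out : S) * v * (d.out : S)⁻¹ :=
      congrArg Subtype.val h
    set n : N := c.out with hn
    set m : N := d.out with hm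
    have h2 : ((m : S)⁻¹ * (n : S)) * u * ((m : S)⁻¹ * (n : S))⁻¹ = v := by
      calc ((m : S)⁻¹ * (n : S)) * u * ((m : S)⁻¹ * (n : S))⁻¹
          = (m : S)⁻¹ * ((n : S) * u * (n : S)⁻¹) * m := by group
        _ = (m : S)⁻¹ * ((m : S) * v * (m : S)⁻¹) * m := by rw [h1]
        _ = v := by group
    have h3 : (m : S)⁻¹ * (n : S) ∈ R :=
      hTI _ (N.mul_mem (N.inv_mem m.2) n.2) u u.2.1 (hne u) (by rw [h2]; exact v.2.1)
    have h4 : d = c := by
      rw [← QuotientGroup.out_eq' c, ← QuotientGroup.out_eq' d]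
      apply QuotientGroup.eq.2
      exact h3
    have h5 : m = n := by rw [hm, hn, h4]
    have h6 : (u : S) = v := by
      rw [← h2, h5]; simp
    rw [h4, Subtype.ext h6]
  · intro c
    exact ⟨_, c.1.out.2, _, c.2.2.1, hne _, rfl⟩

end Cfsg.Agent.H96.Fx.L16

namespace Cfsg.Agent.H96.Fx

open L16

/-- [L16] -/
theorem l16 {S : Type*} [Group S] [Finite S] (hS : IsPGroup 2 S) (R U : Subgroup S) (hUR : U ≤ R)
    (hU : Nat.card U = 4) (hR : Nat.card R = 16) (hRe : ∀ r ∈ R, r ^ 2 = 1)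
    (hC : ∀ u ∈ U, u ≠ 1 → Subgroup.centralizer ({u} : Set S) = R)
    (hTI : ∀ n ∈ Subgroup.normalizer (R : Set S), ∀ u ∈ U, u ≠ 1 → n * u * n⁻¹ ∈ U → ∀ v ∈ U, n * v * n⁻¹ ∈ U) :
    Cfsg.SectionalPRankLE 2 4 S := by
  classical
  haveI : Fact (Nat.Prime 2) := ⟨Nat.prime_two⟩
  haveI : Group.IsNilpotent S := hS.isNilpotent
  have hncond : NormalizerCondition S := Group.normalizerCondition_of_isNilpotent
  set N : Subgroup S := Subgroup.normalizer (R : Set S) with hN
  have hRN : R ≤ N := Subgroup.le_normalizer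
  have hNR : ∀ n ∈ N, ∀ r ∈ R, n * r * n⁻¹ ∈ R := fun n hn r hr =>
    (Subgroup.mem_normalizer_iff.1 hn r).1 hr
  have habE : ∀ E : Subgroup S, (∀ r ∈ E, r ^ 2 = 1) → ∀ a ∈ E, ∀ b ∈ E, a * b = b * a := by
    intro E hE a ha b hb
    have h1 := hE a ha
    have h2 := hE b hb
    have h3 := hE _ (E.mul_mem ha hb)
    rw [pow_two] at h1 h2 h3
    have ia : a⁻¹ = a := inv_eq_of_mul_eq_one_right h1
    have ib : b⁻¹ = b := inv_eq_of_mul_eq_one_right h2
    have iab : (a * b)⁻¹ = a * b := inv_eq_of_mul_eq_one_right h3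
    rw [mul_inv_rev, ia, ib] at iab
    exact iab.symm
  have hRab := habE R hRe
  have hcen1 : ∀ E : Subgroup S, (∀ r ∈ E, r ^ 2 = 1) → ∀ x ∈ E,
      Subgroup.centralizer ({x} : Set S) = R → E ≤ R := by
    intro E hE x hx hxR y hy
    rw [← hxR, Subgroup.mem_centralizer_singleton_iff]
    exact habE E hE y hy x hx
  have hcenconj : ∀ n x : S, ∀ Q : Subgroup S, Subgroup.centralizer ({x} : Set S) = Q →
      ∀ y, y ∈ Subgroup.centralizer ({n * x * n⁻¹} : Set S) ↔ n⁻¹ * y * n ∈ Q := by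
    intro n x Q hQ y
    rw [← hQ, Subgroup.mem_centralizer_singleton_iff, Subgroup.mem_centralizer_singleton_iff]
    constructor
    · intro h
      calc n⁻¹ * y * n * x = n⁻¹ * (y * (n * x * n⁻¹)) * n := by group
        _ = n⁻¹ * ((n * x * n⁻¹) * y) * n := by rw [h]
        _ = x * (n⁻¹ * y * n) := by group
    · intro h
      calc y * (n * x * n⁻¹) = n * (n⁻¹ * y * n * x) * n⁻¹ := by group
        _ = n * (x * (n⁻¹ * y * n)) * n⁻¹ := by rw [h]
        _ = (n * x * n⁻¹) * y := by group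
  have hconjR : ∀ n ∈ N, ∀ u ∈ U, u ≠ 1 → Subgroup.centralizer ({n * u * n⁻¹} : Set S) = R := by
    intro n hn u hu h1
    ext y
    rw [hcenconj n u R (hC u hu h1)]
    constructor
    · intro h
      have := hNR n hn _ h
      have e : n * (n⁻¹ * y * n) * n⁻¹ = y := by group
      rwa [e] at this
    · intro h
      have := hNR n⁻¹ (N.inv_mem hn) _ h
      simpa using this
  have hTI' : ∀ n ∈ N, ∀ u ∈ U, u ≠ 1 → n * u * n⁻¹ ∈ U → n ∈ R := fun n hn u hu h1 h =>
    norm_le hS R U hU hC n (hTI n hn u hu h1 h)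
  have h3 : Nat.card {u : S // u ∈ U ∧ u ∉ (⊥ : Subgroup S)} = 3 := by
    have := card_compl U ⊥
    rw [hU, inf_bot_eq, Subgroup.card_bot] at this
    omega
  -- index of `R` in `N`
  set i : ℕ := Nat.card (N ⧸ R.subgroupOf N) with hi
  have hiN : 16 * i = Nat.card N := by
    have h1 := (R.subgroupOf N).card_mul_index
    have h2 : Nat.card (R.subgroupOf N) = 16 := by
      rw [Nat.card_congr (Subgroup.subgroupOfEquivOfLe hRN).toEquiv, hR]
    rw [h2] at h1
    exact h1
  have hi5 : i * 3 ≤ 15 := by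
    obtain ⟨f, hf, _⟩ := exists_map R U ⊥ N hRN hNR hUR hRab hTI' (by
      intro n _ u _ h1 h
      rw [Subgroup.mem_bot] at h
      apply h1
      have : u = n⁻¹ * (n * u * n⁻¹) * n := by group
      rw [this, h]; simp)
    have h1 := Nat.card_le_card_of_injective f hf
    rw [Nat.card_prod, h3] at h1
    have h2 := card_compl R ⊥
    rw [inf_bot_eq, Subgroup.card_bot, hR] at h2
    omega
  have hi4 : i ≤ 4 := by
    by_contra hgt
    have h5 : i = 5 := by omega
    obtain ⟨k, hk⟩ := IsPGroup.iff_card.mp (hS.to_subgroup N)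
    have h6 : 5 ∣ 2 ^ k := by
      rw [← hk, ← hiN, h5]; norm_num
    have := (Nat.Prime.dvd_of_dvd_pow (by norm_num) h6)
    omega
  by_cases hNtop : N = ⊤
  · -- |S| ≤ 64
    have hS64 : Nat.card S ≤ 64 := by
      have : Nat.card N = Nat.card S := by rw [hNtop]; exact Subgroup.card_top
      omega
    apply crit
    intro H K hKH _ _ hHK
    have hK : 0 < Nat.card K := Nat.card_pos
    have h1 := card_inf H U ⊤ le_top le_top
    rw [hU, Subgroup.card_top] at h1
    have h2 : 1 < Nat.card ↥(H ⊓ U) := by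
      by_contra hc
      have h4 : Nat.card ↥(H ⊓ U) * Nat.card S ≤ 1 * 64 := Nat.mul_le_mul (by omega) hS64
      omega
    obtain ⟨r, hr, hr1⟩ := exists_not (H ⊓ U) ⊥ (by rw [Subgroup.card_bot]; exact h2)
    refine ⟨r, hr.1, ?_⟩
    rw [hC r hr.2 (fun h => hr1 (Subgroup.mem_bot.2 h)), hR]
  -- now `N < normalizer N`
  have hlt := hncond N (lt_top_iff_ne_top.2 hNtop)
  obtain ⟨g, hgT, hgN⟩ := SetLike.exists_of_lt hlt
  have hgc : ∀ n ∈ N, g * n * g⁻¹ ∈ N := fun n hn => (Subgroup.mem_normalizer_iff.1 hgT n).1 hn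
  have hgc' : ∀ n ∈ N, g⁻¹ * n * g ∈ N := by
    intro n hn
    have := (Subgroup.mem_normalizer_iff.1 ((Subgroup.normalizer (N : Set S)).inv_mem hgT) n).1 hn
    simpa using this
  set R' : Subgroup S := R.map (MulAut.conj g).toMonoidHom with hR'
  have mR' : ∀ x, x ∈ R' ↔ g⁻¹ * x * g ∈ R := mem_conj_map R g
  have cR' : Nat.card R' = 16 := by rw [hR', card_conj_map, hR]
  have sqconj : ∀ a x : S, (a * x * a⁻¹) ^ 2 = a * x ^ 2 * a⁻¹ := by
    intro a x; rw [pow_two, pow_two]; group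
  have hR'e : ∀ r ∈ R', r ^ 2 = 1 := by
    rintro _ ⟨r, hr, rfl⟩
    show (g * r * g⁻¹) ^ 2 = 1
    rw [sqconj, hRe r hr]; simp
  have hR'ab := habE R' hR'e
  have hR'N : R' ≤ N := by
    rintro _ ⟨r, hr, rfl⟩
    exact hgc r (hRN hr)
  have hR'norm : ∀ n ∈ N, ∀ x ∈ R', n * x * n⁻¹ ∈ R' := by
    intro n hn x hx
    rw [mR'] at hx ⊢
    have := hNR _ (hgc' n hn) _ hx
    have e : g⁻¹ * n * g * (g⁻¹ * x * g) * (g⁻¹ * n * g)⁻¹ = g⁻¹ * (n * x * n⁻¹) * g := by group
    rwa [e] at this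
  have hR'ne : ¬ R' ≤ R := by
    intro hle
    have heq : R' = R := Subgroup.eq_of_le_of_card_ge hle (by rw [cR', hR])
    apply hgN
    apply mem_norm
    intro r hr
    rw [← heq]
    exact ⟨r, hr, rfl⟩
  have hdis : ∀ n ∈ N, ∀ u ∈ U, u ≠ 1 → n * u * n⁻¹ ∉ R' := by
    intro n hn u hu h1 h
    exact hR'ne (hcen1 R' hR'e _ h (hconjR n hn u hu h1))
  have hRR'U : (R ⊓ R') ⊓ U = ⊥ := by
    rw [eq_bot_iff]
    intro x hx
    rw [Subgroup.mem_bot]
    by_contra h1
    have := hdis 1 N.one_mem x hx.2 h1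
    simp at this
    exact this hx.1.2
  have hle4 : Nat.card ↥(R ⊓ R') ≤ 4 := by
    have h1 := card_inf (R ⊓ R') U R inf_le_left hUR
    rw [hRR'U, Subgroup.card_bot, hU, hR] at h1
    omega
  have h256 := card_inf R R' N hRN hR'N
  rw [hR, cR'] at h256
  have hi4' : i = 4 ∧ Nat.card ↥(R ⊓ R') = 4 := by
    have h1 : Nat.card ↥(R ⊓ R') * Nat.card N ≤ 4 * Nat.card N := Nat.mul_le_mul_right _ hle4
    have h2 : i = 4 := by omega
    have h3 : Nat.card N = 64 := by omega
    rw [h3] at h256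
    exact ⟨h2, by omega⟩
  obtain ⟨hi4e, hZ4⟩ := hi4'
  have hN64 : Nat.card N = 64 := by omega
  -- centralizers of the elements of `R ∖ R'`
  have hcR : ∀ r ∈ R, r ∉ R' → Subgroup.centralizer ({r} : Set S) = R := by
    obtain ⟨f, hf, hf2⟩ := exists_map R U R' N hRN hNR hUR hRab hTI' hdis
    have hbij : Function.Bijective f := by
      apply hf.bijective_of_nat_card_le
      rw [Nat.card_prod, h3, ← hi, hi4e]
      have h2 := card_compl R R'
      rw [hZ4, hR] at h2
      omega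
    intro r hr hr'
    obtain ⟨c, hc⟩ := hbij.2 ⟨r, hr, hr'⟩
    obtain ⟨n, hn, u, hu, h1, he⟩ := hf2 c
    rw [hc] at he
    have he' : r = n * u * n⁻¹ := he
    rw [he']
    exact hconjR n hn u hu h1
  have hsupN : R ⊔ R' = N := by
    apply le_antisymm (sup_le hRN hR'N)
    have h1 := card_inf R R' (R ⊔ R') le_sup_left le_sup_right
    rw [hR, cR', hZ4] at h1
    have h2 : R ⊔ R' = N := Subgroup.eq_of_le_of_card_ge (sup_le hRN hR'N) (by omega)
    exact h2.ge
  -- product decomposition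
  have hdec : ∀ n ∈ N, ∃ a ∈ R', ∃ b ∈ R, n = a * b := by
    intro n hn
    haveI : (R.subgroupOf N).Normal := ⟨fun r hr m => hNR _ m.2 _ hr⟩
    have htop : (R'.subgroupOf N) ⊔ (R.subgroupOf N) = ⊤ := by
      rw [sup_comm, ← Subgroup.subgroupOf_sup hRN hR'N, hsupN]
      exact Subgroup.subgroupOf_self N
    have hmem : (⟨n, hn⟩ : N) ∈ (R'.subgroupOf N) ⊔ (R.subgroupOf N) := by
      rw [htop]; exact Subgroup.mem_top _
    obtain ⟨y, hy, z, hz, hyz⟩ := Subgroup.mem_sup_of_normal_right.1 hmem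
    exact ⟨y, hy, z, hz, (congrArg Subtype.val hyz).symm⟩
  have hinv : ∀ x ∈ N, x ^ 2 = 1 → x ∈ R ∨ x ∈ R' := by
    intro x hx hx2
    obtain ⟨a, ha, b, hb, rfl⟩ := hdec x hx
    by_cases hbR' : b ∈ R'
    · right; exact R'.mul_mem ha hbR'
    · left
      refine R.mul_mem ?_ hb
      rw [← hcR b hb hbR', Subgroup.mem_centralizer_singleton_iff]
      have h1 := hR'e a ha
      have h2 := hRe b hb
      rw [pow_two] at h1 h2 hx2
      have ia : a⁻¹ = a := inv_eq_of_mul_eq_one_right h1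
      have ib : b⁻¹ = b := inv_eq_of_mul_eq_one_right h2
      have iab : (a * b)⁻¹ = a * b := inv_eq_of_mul_eq_one_right hx2
      rw [mul_inv_rev, ia, ib] at iab
      exact iab.symm
  have hsub : ∀ E ≤ N, (∀ r ∈ E, r ^ 2 = 1) → E ≤ R ∨ E ≤ R' := by
    intro E hEN hE
    by_contra hc
    push Not at hc
    obtain ⟨h1, h2⟩ := hc
    obtain ⟨e, he, heR⟩ := SetLike.not_le_iff_exists.1 h1
    obtain ⟨f, hf, hfR⟩ := SetLike.not_le_iff_exists.1 h2
    have he' : e ∈ R' := (hinv e (hEN he) (hE e he)).resolve_left heR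
    have hf' : f ∈ R := (hinv f (hEN hf) (hE f hf)).resolve_right hfR
    have hef := E.mul_mem he hf
    rcases hinv _ (hEN hef) (hE _ hef) with h | h
    · exact heR ((R.mul_mem_cancel_right hf').1 h)
    · exact hfR ((R'.mul_mem_cancel_left he').1 h)
  -- (K)
  have hK : ∀ y : S, (∀ r ∈ R, y * r * y⁻¹ ∈ N) → y ∈ N ∨ g⁻¹ * y ∈ N := by
    intro y hy
    have h1 : R.map (MulAut.conj y).toMonoidHom ≤ N := by
      rintro _ ⟨r, hr, rfl⟩
      exact hy r hr
    have h2 : ∀ r ∈ R.map (MulAut.conj y).toMonoidHom, r ^ 2 = 1 := by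
      rintro _ ⟨r, hr, rfl⟩
      show (y * r * y⁻¹) ^ 2 = 1
      rw [sqconj, hRe r hr]; simp
    rcases hsub _ h1 h2 with h | h
    · left
      apply mem_norm
      intro r hr
      exact h ⟨r, hr, rfl⟩
    · right
      apply mem_norm
      intro r hr
      have h4 : y * r * y⁻¹ ∈ R' := h ⟨r, hr, rfl⟩
      rw [mR'] at h4
      have e : g⁻¹ * y * r * (g⁻¹ * y)⁻¹ = g⁻¹ * (y * r * y⁻¹) * g := by group
      rw [e]; exact h4
  set T : Subgroup S := Subgroup.normalizer (N : Set S) with hT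
  have hNT : N ≤ T := Subgroup.le_normalizer
  have hTc : ∀ t ∈ T, ∀ n ∈ N, t * n * t⁻¹ ∈ N := fun t ht n hn =>
    (Subgroup.mem_normalizer_iff.1 ht n).1 hn
  have hTd : ∀ t ∈ T, t ∈ N ∨ g⁻¹ * t ∈ N := fun t ht => hK t (fun r hr => hTc t ht r (hRN hr))
  have hT128 : Nat.card T ≤ 128 := by
    let f : T → N × Bool := fun t =>
      if h : (t : S) ∈ N then (⟨t, h⟩, true) else (⟨g⁻¹ * t, (hTd t t.2).resolve_left h⟩, false)
    have hf : Function.Injective f := by
      intro a b hab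
      by_cases ha : (a : S) ∈ N
      · by_cases hb : (b : S) ∈ N
        · simp only [f, dif_pos ha, dif_pos hb, Prod.mk.injEq, Subtype.mk.injEq, and_true] at hab
          exact Subtype.ext hab
        · simp only [f, dif_pos ha, dif_neg hb, Prod.mk.injEq] at hab
          exact absurd hab.2 (by simp)
      · by_cases hb : (b : S) ∈ N
        · simp only [f, dif_neg ha, dif_pos hb, Prod.mk.injEq] at hab
          exact absurd hab.2 (by simp)
        · simp only [f, dif_neg ha, dif_neg hb, Prod.mk.injEq, Subtype.mk.injEq, and_true] at hab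
          exact Subtype.ext (mul_left_cancel hab)
    have h1 := Nat.card_le_card_of_injective f hf
    rw [Nat.card_prod, hN64] at h1
    simpa using h1
  have hTtop : T = ⊤ := by
    by_contra hne
    have hlt2 := hncond T (lt_top_iff_ne_top.2 hne)
    obtain ⟨y, hyT, hy⟩ := SetLike.exists_of_lt hlt2
    apply hy
    have hgoal : ∀ r ∈ R, y * r * y⁻¹ ∈ N := by
      by_contra hc
      push Not at hc
      obtain ⟨r0, hr0, he0⟩ := hc
      set e : S := y * r0 * y⁻¹ with he
      set E : Subgroup S := R.map (MulAut.conj y).toMonoidHom with hE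
      have hET : E ≤ T := by
        rintro _ ⟨r, hr, rfl⟩
        exact (Subgroup.mem_normalizer_iff.1 hyT r).1 (hNT (hRN hr))
      have hEe : ∀ r ∈ E, r ^ 2 = 1 := by
        rintro _ ⟨r, hr, rfl⟩
        show (y * r * y⁻¹) ^ 2 = 1
        rw [sqconj, hRe r hr]; simp
      have hEab := habE E hEe
      have heE : e ∈ E := ⟨r0, hr0, rfl⟩
      have hcE : Nat.card E = 16 := by rw [hE, card_conj_map, hR]
      have h1 := card_inf E N T hET hNT
      rw [hcE, hN64] at h1
      have h2 : Nat.card ↥(E ⊓ N) * Nat.card T ≤ Nat.card ↥(E ⊓ N) * 128 :=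
        Nat.mul_le_mul_left _ hT128
      have h8 : 8 ≤ Nat.card ↥(E ⊓ N) := by omega
      have hn : g⁻¹ * e ∈ N := (hTd e (hET heE)).resolve_left he0
      set n : S := g⁻¹ * e with hnd
      have hen : e = g * n := by rw [hnd]; group
      have hle : E ⊓ N ≤ R ⊓ R' := by
        have hboth : ∀ x ∈ E, (x ∈ R ↔ x ∈ R') := by
          intro x hx
          have hcomm : e * x = x * e := hEab e heE x hx
          constructor
          · intro hxR
            rw [mR']
            have h5 : n * x * n⁻¹ ∈ R := hNR n hn x hxR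
            have h6 : n * x * n⁻¹ = g⁻¹ * x * g := by
              rw [hnd]
              calc g⁻¹ * e * x * (g⁻¹ * e)⁻¹ = g⁻¹ * (e * x) * e⁻¹ * g := by group
                _ = g⁻¹ * (x * e) * e⁻¹ * g := by rw [hcomm]
                _ = g⁻¹ * x * g := by group
            rwa [h6] at h5
          · intro hxR
            rw [mR'] at hxR
            have h5 := hNR n⁻¹ (N.inv_mem hn) _ hxR
            have h6 : n⁻¹ * (g⁻¹ * x * g) * n⁻¹⁻¹ = x := by
              rw [hnd]
              calc (g⁻¹ * e)⁻¹ * (g⁻¹ * x * g) * (g⁻¹ * e)⁻¹⁻¹ = e⁻¹ * (x * e) := by group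
                _ = e⁻¹ * (e * x) := by rw [hcomm]
                _ = x := by group
            rwa [h6] at h5
        intro x hx
        rcases hinv x hx.2 (hEe x hx.1) with h | h
        · exact ⟨h, (hboth x hx.1).1 h⟩
        · exact ⟨(hboth x hx.1).2 h, h⟩
      have := Subgroup.card_le_of_le hle
      omega
    rcases hK y hgoal with h | h
    · exact hNT h
    · have h5 := T.mul_mem hgT (hNT h)
      have e5 : g * (g⁻¹ * y) = y := by group
      rwa [e5] at h5
  have hS128 : Nat.card S ≤ 128 := by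
    have : Nat.card T = Nat.card S := by rw [hTtop]; exact Subgroup.card_top
    omega
  -- centralizers of the elements of `R' ∖ R`
  have hcR' : ∀ r ∈ R', r ∉ R → Nat.card (Subgroup.centralizer ({r} : Set S)) ≤ 16 := by
    intro r hr hrR
    have hx0 := (mR' r).1 hr
    set x0 : S := g⁻¹ * r * g with hx0d
    have hrx : r = g * x0 * g⁻¹ := by rw [hx0d]; group
    by_cases hx0' : x0 ∈ R'
    · exfalso
      have hcN : N ≤ Subgroup.centralizer ({x0} : Set S) := by
        rw [← hsupN]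
        apply sup_le
        · intro a ha
          rw [Subgroup.mem_centralizer_singleton_iff]
          exact hRab a ha x0 hx0
        · intro a ha
          rw [Subgroup.mem_centralizer_singleton_iff]
          exact hR'ab a ha x0 hx0'
      obtain ⟨u, hu, hu1⟩ := exists_not U ⊥ (by rw [Subgroup.card_bot, hU]; norm_num)
      have hu1' : u ≠ 1 := fun h => hu1 (Subgroup.mem_bot.2 h)
      have h5 := hcN (hgc' u (hRN (hUR hu)))
      rw [Subgroup.mem_centralizer_singleton_iff] at h5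
      apply hrR
      rw [← hC u hu hu1', Subgroup.mem_centralizer_singleton_iff, hrx]
      calc g * x0 * g⁻¹ * u = g * (x0 * (g⁻¹ * u * g)) * g⁻¹ := by group
        _ = g * ((g⁻¹ * u * g) * x0) * g⁻¹ := by rw [h5]
        _ = u * (g * x0 * g⁻¹) := by group
    · have h6 : Subgroup.centralizer ({r} : Set S) = R' := by
        ext y
        rw [hrx, hcenconj g x0 R (hcR x0 hx0 hx0'), mR']
      rw [h6, cR']
  apply crit
  intro H K hKH _ hH2 hHK
  have hKpos : 0 < Nat.card K := Nat.card_pos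
  by_cases hK1 : Nat.card K = 1
  · have hKbot : K = ⊥ := Subgroup.card_eq_one.1 hK1
    have hHe : ∀ x ∈ H, x ^ 2 = 1 := by
      intro x hx
      have := hH2 x hx
      rw [hKbot, Subgroup.mem_bot] at this
      exact this
    have h1 := card_inf H N ⊤ le_top le_top
    rw [hHK, hK1, hN64, Subgroup.card_top] at h1
    have h2 : Nat.card ↥(H ⊓ N) * Nat.card S ≤ Nat.card ↥(H ⊓ N) * 128 :=
      Nat.mul_le_mul_left _ hS128
    have h16 : 16 ≤ Nat.card ↥(H ⊓ N) := by omega
    obtain ⟨x, hx, hxn⟩ := exists_not (H ⊓ N) (R ⊓ R') (by omega)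
    refine ⟨x, hx.1, ?_⟩
    rcases hinv x hx.2 (hHe x hx.1) with h | h
    · rw [hcR x h (fun h' => hxn ⟨h, h'⟩), hR]
    · exact hcR' x h (fun h' => hxn ⟨h', h⟩)
  · have h1 := card_inf H R ⊤ le_top le_top
    rw [hHK, hR, Subgroup.card_top] at h1
    have h2 : Nat.card ↥(H ⊓ R) * Nat.card S ≤ Nat.card ↥(H ⊓ R) * 128 :=
      Nat.mul_le_mul_left _ hS128
    have h8 : 8 ≤ Nat.card ↥(H ⊓ R) := by omega
    obtain ⟨x, hx, hxn⟩ := exists_not (H ⊓ R) (R ⊓ R') (by omega)
    refine ⟨x, hx.1, ?_⟩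
    rw [hcR x hx.2 (fun h' => hxn ⟨hx.2, h'⟩), hR]

end Cfsg.Agent.H96.Fx
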