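import Cfsg.Agent.H73.Sec2

/-! # S3365, piece L16A -/

set_option autoImplicit false

namespace Cfsg.Agent.H96.Fx.L16A

open Subgroup

theorem small {S : Type*} [Group S] [Finite S] (hS : IsPGroup 2 S) (h32 : Nat.card S ≤ 32)
    (hna : Nat.card S = 32 → ∃ a b : S, a * b ≠ b * a) : Cfsg.SectionalPRankLE 2 4 S := by
  apply Cfsg.Agent.H73.Sec.intro
  intro L N hNL hc h2
  by_contra hlt
  push Not at hlt
  have h1 := Cfsg.Agent.H63.card_mul_relIndex hNL
  have h3 : Nat.card L ≤ Nat.card S := Nat.card_le_card_of_injective _ L.subtype_injective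
  obtain ⟨j, hj⟩ := (IsPGroup.iff_card.1 (hS.to_subgroup L))
  have h4 : N.relIndex L ∣ 2 ^ j := by rw [← hj, ← h1]; exact Dvd.intro_left _ rfl
  obtain ⟨i, hi, hi'⟩ := (Nat.dvd_prime_pow Nat.prime_two).1 h4
  have h5 : 5 ≤ i := by
    by_contra h
    have : 2 ^ i ≤ 2 ^ 4 := Nat.pow_le_pow_right (by norm_num) (by omega)
    rw [← hi'] at this
    omega
  have h6 : 2 ^ 5 ≤ N.relIndex L := by rw [hi']; exact Nat.pow_le_pow_right (by norm_num) h5
  have hNpos : 0 < Nat.card N := Nat.card_pos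
  have h7 : Nat.card N * 32 ≤ 32 := by
    calc Nat.card N * 32 ≤ Nat.card N * N.relIndex L := Nat.mul_le_mul_left _ h6
      _ = Nat.card L := h1
      _ ≤ 32 := h3.trans h32
  have h8 : Nat.card N = 1 := by omega
  have h9 : Nat.card S = 32 := by
    apply le_antisymm h32
    calc 32 ≤ N.relIndex L := h6
      _ = Nat.card N * N.relIndex L := by rw [h8, one_mul]
      _ = Nat.card L := h1
      _ ≤ _ := h3
  have h10 : Nat.card L = Nat.card S := by
    apply le_antisymm h3
    rw [h9]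
    calc 32 ≤ N.relIndex L := h6
      _ = Nat.card N * N.relIndex L := by rw [h8, one_mul]
      _ = Nat.card L := h1
  have h11 : L = ⊤ := Subgroup.eq_top_of_card_eq L h10
  have h12 : N = ⊥ := Subgroup.card_eq_one.1 h8
  obtain ⟨a, b, hab⟩ := hna h9
  apply hab
  have := hc a (by rw [h11]; trivial) b (by rw [h11]; trivial)
  rw [h12, mem_bot] at this
  have h13 : a * b = (a * b * a⁻¹ * b⁻¹) * (b * a) := by group
  rw [h13, this, one_mul]

end Cfsg.Agent.H96.Fx.L16A

namespace Cfsg.Agent.H96.Fx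
open Subgroup

/-- [L16A] -/
theorem l16a {S : Type*} [Group S] [Finite S] (hS : IsPGroup 2 S) (R U₁ U₂ : Subgroup S)
    (hR : Nat.card R = 16) (hab : ∀ a ∈ R, ∀ b ∈ R, a * b = b * a) (h1 : U₁ ≤ R) (h2 : U₂ ≤ R)
    (c1 : Nat.card U₁ = 4) (c2 : Nat.card U₂ = 4) (hd : U₁ ⊓ U₂ = ⊥) (hne : ∃ r ∈ R, r ^ 2 ≠ 1)
    (hC : ∀ u ∈ U₂, orderOf u = 2 → Subgroup.centralizer ({u} : Set S) = R) :
    Cfsg.SectionalPRankLE 2 4 S := by
  -- an involution of U₂
  have key : ∀ T : Subgroup S, T ≤ U₂ → T ≠ ⊥ → ∃ y ∈ T, orderOf y = 2 := by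
    intro T hT hT1
    have h : 2 ∣ Nat.card T := by
      rcases (hS.to_subgroup T).card_eq_or_dvd with h | h
      · exact absurd (Subgroup.card_eq_one.1 h) hT1
      · exact h
    obtain ⟨y, hy⟩ := exists_prime_orderOf_dvd_card' 2 h
    exact ⟨y, y.2, by rwa [orderOf_submonoid] at *⟩
  have hU2ne : U₂ ≠ ⊥ := by
    intro h; rw [h, Subgroup.card_bot] at c2; omega
  obtain ⟨u, huU, hu2⟩ := key U₂ le_rfl hU2ne
  have hcu := hC u huU hu2
  -- R = ⊤
  by_cases hRt : R = ⊤
  · apply L16A.small hS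
    · rw [← Subgroup.card_top (G := S), ← hRt, hR]; norm_num
    · intro h
      rw [← Subgroup.card_top (G := S), ← hRt, hR] at h
      omega
  have hlt : R < normalizer (R : Set S) := by
    have := hS.isNilpotent
    exact Group.normalizerCondition_of_isNilpotent R (lt_top_iff_ne_top.2 hRt)
  set N := normalizer (R : Set S) with hN
  have hRN : R ≤ N := hlt.le
  have hnR : ∀ n ∈ N, ∀ r ∈ R, n * r * n⁻¹ ∈ R := fun n hn r hr => (mem_normalizer_iff.1 hn r).1 hr
  obtain ⟨n0, hn0, hn0R⟩ := SetLike.exists_of_lt hlt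
  -- the squares
  let Φ : Subgroup S :=
    { carrier := {x | ∃ r ∈ R, r ^ 2 = x}
      one_mem' := ⟨1, R.one_mem, by simp⟩
      mul_mem' := by
        rintro _ _ ⟨r, hr, rfl⟩ ⟨s, hs, rfl⟩
        refine ⟨r * s, R.mul_mem hr hs, ?_⟩
        have := hab r hr s hs
        rw [(show Commute r s from this).mul_pow]
      inv_mem' := by
        rintro _ ⟨r, hr, rfl⟩
        exact ⟨r⁻¹, R.inv_mem hr, by rw [inv_pow]⟩ }
  have hΦR : Φ ≤ R := by
    rintro _ ⟨r, hr, rfl⟩; exact R.pow_mem hr 2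
  have hΦN : (Φ.subgroupOf N).Normal := by
    constructor
    rintro ⟨x, hxN⟩ hx ⟨n, hn⟩
    rw [mem_subgroupOf] at hx ⊢
    obtain ⟨r, hr, hrx⟩ := hx
    refine ⟨n * r * n⁻¹, hnR n hn r hr, ?_⟩
    show (n * r * n⁻¹) ^ 2 = n * x * n⁻¹
    have : r ^ 2 = x := hrx
    rw [← this]
    rw [conj_pow]
  have hΦne : Φ.subgroupOf N ≠ ⊥ := by
    obtain ⟨r, hr, hr2⟩ := hne
    intro h
    have h3 : (⟨r ^ 2, hRN (R.pow_mem hr 2)⟩ : N) ∈ Φ.subgroupOf N := by
      rw [mem_subgroupOf]; exact ⟨r, hr, rfl⟩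
    rw [h, mem_bot] at h3
    exact hr2 (congrArg Subtype.val h3)
  have h4R : ∀ r ∈ R, r ^ 4 = 1 := by
    intro r hr
    have aux : ∀ U : Subgroup S, U ≤ R → Nat.card U = 4 → r ^ 4 ∈ U := by
      intro U hU cU
      have hn : (U.subgroupOf R).Normal := by
        constructor
        rintro ⟨x, hxR⟩ hx ⟨n, hn⟩
        rw [mem_subgroupOf] at hx ⊢
        show n * x * n⁻¹ ∈ U
        rw [hab n hn x hxR, mul_inv_cancel_right]; exact hx
      have hi : (U.subgroupOf R).index = 4 := by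
        have := Cfsg.Agent.H63.card_mul_relIndex hU
        rw [hR, cU] at this
        have h' : U.relIndex R = (U.subgroupOf R).index := rfl
        omega
      have := (U.subgroupOf R).pow_index_mem ⟨r, hr⟩
      rw [hi, mem_subgroupOf] at this
      exact_mod_cast this
    have h3 : r ^ 4 ∈ U₁ ⊓ U₂ := ⟨aux U₁ h1 c1, aux U₂ h2 c2⟩
    rwa [hd, mem_bot] at h3
  have hNp : IsPGroup 2 N := hS.to_subgroup N
  -- z
  obtain ⟨z, hzΦ, hzc, hz1⟩ : ∃ z : S, z ∈ Φ ∧ (∀ n ∈ N, n * z = z * n) ∧ z ≠ 1 := by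
    have h3 := Cfsg.Agent.H63.inf_center_ne_bot hNp (Φ.subgroupOf N) hΦne
    obtain ⟨⟨⟨z, hzN⟩, hz⟩, hz1'⟩ := Subgroup.ne_bot_iff_exists_ne_one.1 h3
    have hz1 : (⟨z, hzN⟩ : N) ≠ 1 := fun h => hz1' (Subtype.ext h)
    refine ⟨z, mem_subgroupOf.1 hz.1, ?_, fun h => hz1 (Subtype.ext h)⟩
    intro n hn
    exact congrArg Subtype.val (Subgroup.mem_center_iff.1 hz.2 ⟨n, hn⟩)
  obtain ⟨r0, hr0, hr0z⟩ := hzΦ
  have hz2 : z ^ 2 = 1 := by
    rw [← hr0z, ← pow_mul]; exact h4R r0 hr0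
  have hzR : z ∈ R := by rw [← hr0z]; exact R.pow_mem hr0 2
  have hzz : z * z = 1 := by rw [← sq]; exact hz2
  have hzU : z ∉ U₂ := by
    intro h
    have h3 := hC z h (orderOf_eq_prime hz2 hz1)
    apply hn0R
    rw [← h3, mem_centralizer_singleton_iff]
    exact hzc n0 hn0
  -- (4)
  let K : Subgroup S :=
    { carrier := {k | k ∈ R ∧ (k ∈ U₂ ∨ k * z ∈ U₂)}
      one_mem' := ⟨R.one_mem, Or.inl U₂.one_mem⟩
      mul_mem' := by
        rintro a b ⟨haR, ha⟩ ⟨hbR, hb⟩
        refine ⟨R.mul_mem haR hbR, ?_⟩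
        rcases ha with ha | ha <;> rcases hb with hb | hb
        · exact Or.inl (U₂.mul_mem ha hb)
        · right; rw [mul_assoc]; exact U₂.mul_mem ha hb
        · right
          have : a * b * z = (a * z) * b := by
            rw [mul_assoc, hab b hbR z hzR, ← mul_assoc]
          rw [this]; exact U₂.mul_mem ha hb
        · left
          have : a * b = (a * z) * (b * z) := by
            rw [mul_assoc a z, ← mul_assoc z b z, hab z hzR b hbR, mul_assoc b z z, hzz, mul_one]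
          rw [this]; exact U₂.mul_mem ha hb
      inv_mem' := by
        rintro a ⟨haR, ha⟩
        refine ⟨R.inv_mem haR, ?_⟩
        rcases ha with ha | ha
        · exact Or.inl (U₂.inv_mem ha)
        · right
          have : a⁻¹ * z = (a * z)⁻¹ := by
            rw [mul_inv_rev, eq_comm, inv_mul_eq_iff_eq_mul, ← mul_assoc, hab z hzR _ (R.inv_mem haR), mul_assoc, hzz, mul_one]
          rw [this]; exact U₂.inv_mem ha }
  have hKR : K ≤ R := fun k hk => hk.1
  have hU2K : U₂ ≤ K := fun k hk => ⟨h2 hk, Or.inl hk⟩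
  have hzK : z ∈ K := ⟨hzR, Or.inr (by rw [hzz]; exact U₂.one_mem)⟩
  have hsqK : ∀ k ∈ K, k ^ 2 ∈ U₂ := by
    rintro k ⟨hkR, hk | hk⟩
    · exact U₂.pow_mem hk 2
    · have : k ^ 2 = (k * z) ^ 2 := by
        rw [(show Commute k z from hab k hkR z hzR).mul_pow, hz2, mul_one]
      rw [this]; exact U₂.pow_mem hk 2
  have hr0K : r0 ∉ K := fun h => hzU (by rw [← hr0z]; exact hsqK r0 h)
  have hKi : (K.subgroupOf R).index = 2 := by
    have e1 := Cfsg.Agent.H63.card_mul_relIndex hKR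
    have e2 := Cfsg.Agent.H63.card_mul_relIndex hU2K
    have e3 : K.relIndex R = (K.subgroupOf R).index := rfl
    rw [c2] at e2
    rw [hR] at e1
    rw [← e3]
    have e4 : K.relIndex R ≠ 1 := by
      intro h
      exact hr0K (Subgroup.relIndex_eq_one.1 h hr0)
    have e5 : U₂.relIndex K ≠ 1 := by
      intro h
      exact hzU (Subgroup.relIndex_eq_one.1 h hzK)
    have e6 : U₂.relIndex K * K.relIndex R = 4 := by
      have : 4 * (U₂.relIndex K * K.relIndex R) = 16 := by rw [← mul_assoc, e2, e1]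
      omega
    have e7 : K.relIndex R ∣ 4 := Dvd.intro_left _ e6
    have e8 : K.relIndex R ≤ 4 := Nat.le_of_dvd (by norm_num) e7
    interval_cases h : K.relIndex R
    · omega
    · omega
    · rfl
    · omega
    · omega
  have hO : ∀ x ∈ R, x ^ 2 = 1 → x ∈ U₂ ∨ x * z ∈ U₂ := by
    intro x hx hx2
    suffices h : x ∈ K from h.2
    by_contra hxK
    have h3 : (⟨x, hx⟩ : R) * ⟨r0, hr0⟩ ∈ K.subgroupOf R := by
      rw [Subgroup.mul_mem_iff_of_index_two hKi, mem_subgroupOf, mem_subgroupOf]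
      exact ⟨fun h => absurd h hxK, fun h => absurd h hr0K⟩
    rw [mem_subgroupOf] at h3
    have h4 := hsqK _ h3
    apply hzU
    have h5 : ((((⟨x, hx⟩ : R) * ⟨r0, hr0⟩ : R) : S)) ^ 2 = z := by
      show (x * r0) ^ 2 = z
      rw [(show Commute x r0 from hab x hx r0 hr0).mul_pow, hx2, one_mul, hr0z]
    rwa [h5] at h4
  -- (5)
  obtain ⟨w, hwU, hw1, hw2, hwn⟩ : ∃ w : S, w ∈ U₂ ∧ w ≠ 1 ∧ w ^ 2 = 1 ∧ ∀ n ∈ N, n * w * n⁻¹ = w ∨ n * w * n⁻¹ = w * z := by
    let Z : Subgroup N := zpowers (⟨z, hRN hzR⟩ : N)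
    have hZn : Z.Normal := by
      constructor
      rintro _ ⟨k, rfl⟩ ⟨n, hn⟩
      refine ⟨k, ?_⟩
      have : Commute (⟨n, hn⟩ : N) (⟨z, hRN hzR⟩ : N) := Subtype.ext (hzc n hn)
      show _ = _
      dsimp only
      rw [(this.zpow_right k).eq, mul_inv_cancel_right]
    have hZmem : ∀ x : N, x ∈ Z → (x : S) = 1 ∨ (x : S) = z := by
      rintro _ ⟨k, rfl⟩
      have hzN2 : (⟨z, hRN hzR⟩ : N) ^ 2 = 1 := Subtype.ext hz2
      rcases Int.even_or_odd' k with ⟨m, rfl | rfl⟩
      · left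
        dsimp only
        rw [zpow_mul, show ((⟨z, hRN hzR⟩ : N) ^ (2 : ℤ)) = 1 from by exact_mod_cast hzN2, one_zpow]; rfl
      · right
        dsimp only
        rw [zpow_add, zpow_mul, show ((⟨z, hRN hzR⟩ : N) ^ (2 : ℤ)) = 1 from by exact_mod_cast hzN2, one_zpow, one_mul, zpow_one]
    let Ω : Subgroup N :=
      { carrier := {x | (x : S) ∈ R ∧ (x : S) ^ 2 = 1}
        one_mem' := ⟨R.one_mem, by simp⟩
        mul_mem' := by
          rintro a b ⟨haR, ha⟩ ⟨hbR, hb⟩
          refine ⟨R.mul_mem haR hbR, ?_⟩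
          show ((a : S) * (b : S)) ^ 2 = 1
          rw [(show Commute (a : S) (b : S) from hab a haR b hbR).mul_pow, ha, hb, one_mul]
        inv_mem' := by
          rintro a ⟨haR, ha⟩
          refine ⟨R.inv_mem haR, ?_⟩
          show ((a : S)⁻¹) ^ 2 = 1
          rw [inv_pow, ha, inv_one] }
    have hΩn : Ω.Normal := by
      constructor
      rintro ⟨x, hxN⟩ ⟨hxR, hx⟩ ⟨n, hn⟩
      refine ⟨hnR n hn x hxR, ?_⟩
      show (n * x * n⁻¹) ^ 2 = 1
      have : x ^ 2 = 1 := hx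
      rw [conj_pow, this, mul_one, mul_inv_cancel]
    have hQ : IsPGroup 2 (N ⧸ Z) := hNp.to_quotient Z
    have hΩ' : (Ω.map (QuotientGroup.mk' Z)).Normal := hΩn.map _ (QuotientGroup.mk'_surjective Z)
    have huN : u ∈ N := hRN (h2 huU)
    have hΩne : Ω.map (QuotientGroup.mk' Z) ≠ ⊥ := by
      intro h
      have h3 : QuotientGroup.mk' Z ⟨u, huN⟩ ∈ Ω.map (QuotientGroup.mk' Z) :=
        ⟨⟨u, huN⟩, ⟨h2 huU, by show u ^ 2 = 1; rw [← hu2]; exact pow_orderOf_eq_one u⟩, rfl⟩
      rw [h, mem_bot, QuotientGroup.mk'_apply, QuotientGroup.eq_one_iff] at h3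
      rcases hZmem _ h3 with h4 | h4
      · have : u = 1 := h4
        rw [this, orderOf_one] at hu2; omega
      · have : u = z := h4
        exact hzU (this ▸ huU)
    have h3 := Cfsg.Agent.H63.inf_center_ne_bot hQ _ hΩne
    obtain ⟨⟨q, hq⟩, hq1⟩ := Subgroup.ne_bot_iff_exists_ne_one.1 h3
    obtain ⟨⟨⟨w, hwN⟩, ⟨hwR, hw2⟩, hwq⟩, hqc⟩ := hq
    have hqne : q ≠ 1 := fun h => hq1 (Subtype.ext h)
    have hw2' : w ^ 2 = 1 := hw2
    have hwR' : w ∈ R := hwR
    have hw1 : w ≠ 1 := by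
      rintro rfl
      apply hqne
      rw [← hwq]
      exact map_one _
    have hwz : w ≠ z := by
      rintro rfl
      apply hqne
      rw [← hwq, QuotientGroup.mk'_apply, QuotientGroup.eq_one_iff]
      exact mem_zpowers _
    have hwn : ∀ n ∈ N, n * w * n⁻¹ = w ∨ n * w * n⁻¹ = w * z := by
      intro n hn
      have h4 := Subgroup.mem_center_iff.1 hqc (QuotientGroup.mk' Z ⟨n, hn⟩)
      rw [← hwq, ← map_mul, ← map_mul, QuotientGroup.mk'_apply, QuotientGroup.mk'_apply, QuotientGroup.eq] at h4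
      rcases hZmem _ h4 with h5 | h5
      · left
        have h6 : (n * w)⁻¹ * (w * n) = 1 := h5
        rw [inv_mul_eq_one] at h6
        rw [h6, mul_inv_cancel_right]
      · right
        have h6 : (n * w)⁻¹ * (w * n) = z := h5
        rw [inv_mul_eq_iff_eq_mul] at h6
        -- w n = n w z
        have h7 : n * w = w * z * n := by
          calc n * w = n * w * z * z := by rw [mul_assoc, hzz, mul_one]
            _ = w * n * z := by rw [← h6]
            _ = w * z * n := by rw [mul_assoc, hzc n hn, ← mul_assoc]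
        rw [h7, mul_inv_cancel_right]
    rcases hO w hwR' hw2' with h4 | h4
    · exact ⟨w, h4, hw1, hw2', hwn⟩
    · refine ⟨w * z, h4, ?_, ?_, ?_⟩
      · intro h
        apply hwz
        calc w = w * z * z := by rw [mul_assoc, hzz, mul_one]
          _ = z := by rw [h, one_mul]
      · rw [(show Commute w z from hab w hwR' z hzR).mul_pow, hw2', hz2, one_mul]
      · intro n hn
        have h5 : n * (w * z) * n⁻¹ = (n * w * n⁻¹) * z := by
          calc n * (w * z) * n⁻¹ = n * w * (z * n⁻¹) := by group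
            _ = n * w * (n⁻¹ * z) := by rw [hzc n⁻¹ (N.inv_mem hn)]
            _ = _ := by group
        rw [h5]
        rcases hwn n hn with h6 | h6
        · left; rw [h6]
        · right; rw [h6]
  have hcw : centralizer ({w} : Set S) = R := hC w hwU (orderOf_eq_prime hw2 hw1)
  have hout : ∀ n ∈ N, n ∉ R → n * w * n⁻¹ = w * z := by
    intro n hn hnR'
    rcases hwn n hn with h | h
    · exfalso; apply hnR'
      rw [← hcw, mem_centralizer_singleton_iff]
      rw [mul_inv_eq_iff_eq_mul] at h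
      exact h
    · exact h
  -- (6)
  have hi2 : (R.subgroupOf N).index = 2 := by
    rw [Subgroup.index_eq_two_iff]
    refine ⟨⟨n0, hn0⟩, ?_⟩
    rintro ⟨b, hb⟩
    rw [mem_subgroupOf, mem_subgroupOf]
    show Xor (b * n0 ∈ R) (b ∈ R)
    by_cases hbR : b ∈ R
    · right
      exact ⟨hbR, fun h => hn0R ((R.mul_mem_cancel_left hbR).1 h)⟩
    · left
      refine ⟨?_, hbR⟩
      have hbi : b⁻¹ ∉ R := fun h => hbR (by simpa using R.inv_mem h)
      have e1 := hout n0 hn0 hn0R
      have e2 := hout b⁻¹ (N.inv_mem hb) hbi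
      rw [← hcw, mem_centralizer_singleton_iff]
      -- b n0 w = w b n0
      rw [inv_inv] at e2
      have e3 : n0 * w = w * z * n0 := by rw [← e1]; group
      have e4 : w * b = b * (w * z) := by rw [← e2]; group
      rw [← mul_assoc, e4, mul_assoc b n0 w, e3]
      group
  have hNc : Nat.card N = 32 := by
    have e1 := Cfsg.Agent.H63.card_mul_relIndex hRN
    have e3 : R.relIndex N = (R.subgroupOf N).index := rfl
    rw [hR, e3, hi2] at e1
    omega
  -- (7)
  have hNN : normalizer (N : Set S) ≤ N := by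
    intro g hg
    by_contra hgN
    have h3 : ∃ r ∈ R, g * r * g⁻¹ ∉ R := by
      by_contra h
      push Not at h
      apply hgN
      have h4 : R.map (MulAut.conj g).toMonoidHom ≤ R := by
        rintro _ ⟨r, hr, rfl⟩
        exact h r hr
      have h5 : R.map (MulAut.conj g).toMonoidHom = R := by
        apply Subgroup.eq_of_le_of_card_ge h4
        rw [Subgroup.card_map_of_injective (MulAut.conj g).injective]
      rw [hN, mem_normalizer_iff]
      intro x
      constructor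
      · intro hx; exact h x hx
      · intro hx
        have hx' : g * x * g⁻¹ ∈ R.map (MulAut.conj g).toMonoidHom := by rw [h5]; exact hx
        obtain ⟨y, hy, hyx⟩ := hx'
        have h6 : g * y * g⁻¹ = g * x * g⁻¹ := hyx
        have h7 : y = x := mul_left_cancel (mul_right_cancel h6)
        rw [← h7]; exact hy
    obtain ⟨r, hr, hs⟩ := h3
    set Rg := R.map (MulAut.conj g).toMonoidHom with hRg
    have hRgN : Rg ≤ N := by
      rintro _ ⟨x, hx, rfl⟩
      exact (mem_normalizer_iff.1 hg x).1 (hRN hx)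
    have hRgc : Nat.card Rg = 16 := by
      rw [hRg, Subgroup.card_map_of_injective (MulAut.conj g).injective, hR]
    have e1 := Cfsg.Agent.H63.card_mul_card_le R Rg N hRN hRgN
    rw [hR, hRgc, hNc] at e1
    have e2 := Cfsg.Agent.H63.card_mul_card_le (R ⊓ Rg) U₂ R inf_le_left h2
    rw [hR, c2] at e2
    have hTne : (R ⊓ Rg) ⊓ U₂ ≠ ⊥ := by
      intro h
      rw [h, Subgroup.card_bot] at e2
      omega
    obtain ⟨y, ⟨⟨_, hyg⟩, hyU⟩, hy2⟩ := key _ inf_le_right hTne
    have hcy := hC y hyU hy2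
    apply hs
    rw [← hcy, mem_centralizer_singleton_iff]
    obtain ⟨x, hx, rfl⟩ := hyg
    show g * r * g⁻¹ * (g * x * g⁻¹) = g * x * g⁻¹ * (g * r * g⁻¹)
    calc g * r * g⁻¹ * (g * x * g⁻¹) = g * (r * x) * g⁻¹ := by group
      _ = g * (x * r) * g⁻¹ := by rw [hab r hr x hx]
      _ = _ := by group
  have hNtop : N = ⊤ := by
    by_contra h
    have := hS.isNilpotent
    exact absurd hNN (Group.normalizerCondition_of_isNilpotent N (lt_top_iff_ne_top.2 h)).not_ge
  have hSc : Nat.card S = 32 := by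
    rw [← Subgroup.card_top (G := S), ← hNtop, hNc]
  apply L16A.small hS hSc.le
  intro _
  refine ⟨n0, w, ?_⟩
  intro h
  apply hn0R
  rw [← hcw, mem_centralizer_singleton_iff]
  exact h

end Cfsg.Agent.H96.Fx
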