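import Mathlib
import Cfsg.Prelude
import Cfsg.Agent.H20.HarMain

set_option autoImplicit false

namespace Cfsg.Agent.H96.Fx

namespace L32

/-- the index-two predicate on one factor -/
def chi (p q : Bool) : DihedralGroup 4 → Bool
  | .r i => if i.val % 2 = 0 then true else p
  | .sr i => if i.val % 2 = 0 then q else (q == p)

def wit (q : Bool) : DihedralGroup 4 := if q = true then .sr 1 else .sr 0

/-- membership in the centralizer of the witness inside `Q` -/
def inC (p q p' q' : Bool) (y : DihedralGroup 4 × DihedralGroup 4) : Bool :=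
  (chi p q y.1 == chi p' q' y.2) && decide (y.1 * wit q = wit q * y.1) && decide (y.2 * wit q' = wit q' * y.2)

theorem tab : ∀ p q p' q' : Bool, (p && q) = false → (p' && q') = false →
    (chi p q (wit q) == chi p' q' (wit q')) = true ∧
    (∀ y, inC p q p' q' y = true → y * y = 1) ∧
    (Finset.univ.filter (fun y => inC p q p' q' y = true)).card = 8 := by
  decide +kernel

/-- an indicator of an index two subgroup of `D₈` -/
theorem chi_eq (m : DihedralGroup 4 → Bool) (hm : ∀ x y, m (x * y) = (m x == m y)) (c : DihedralGroup 4) :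
    m c = chi (m (.r 1)) (m (.sr 0)) c := by
  have h1 : m 1 = true := by
    have := hm 1 1
    rw [mul_one] at this
    rw [this]; simp
  have hr0 : m (.r 0) = true := h1
  have hr2 : m (.r 2) = true := by
    have := hm (.r 1) (.r 1)
    rw [show (DihedralGroup.r 1 : DihedralGroup 4) * .r 1 = .r 2 from by decide] at this
    rw [this]; simp
  have hr3 : m (.r 3) = m (.r 1) := by
    have := hm (.r 2) (.r 1)
    rw [show (DihedralGroup.r 2 : DihedralGroup 4) * .r 1 = .r 3 from by decide, hr2] at this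
    rw [this]; simp
  have hs1 : m (.sr 1) = (m (.sr 0) == m (.r 1)) := by
    have := hm (.sr 0) (.r 1)
    rwa [show (DihedralGroup.sr 0 : DihedralGroup 4) * .r 1 = .sr 1 from by decide] at this
  have hs2 : m (.sr 2) = m (.sr 0) := by
    have := hm (.sr 0) (.r 2)
    rw [show (DihedralGroup.sr 0 : DihedralGroup 4) * .r 2 = .sr 2 from by decide, hr2] at this
    rw [this]; simp
  have hs3 : m (.sr 3) = (m (.sr 0) == m (.r 1)) := by
    have := hm (.sr 0) (.r 3)
    rwa [show (DihedralGroup.sr 0 : DihedralGroup 4) * .r 3 = .sr 3 from by decide, hr3] at this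
  rcases c with i | i
  · fin_cases i
    · exact hr0
    · rfl
    · exact hr2
    · exact hr3
  · fin_cases i
    · rfl
    · exact hs1
    · exact hs2
    · exact hs3

end L32

theorem l32 {S : Type*} [Group S] [Finite S] (hS : IsPGroup 2 S) (u : S) (hu : orderOf u = 2)
    (R U₁ U₂ : Subgroup S) (hR : Subgroup.centralizer ({u} : Set S) = R) (hc : Nat.card R = 32)
    (h1 : U₁ ≤ R) (h2 : U₂ ≤ R) (c1 : Nat.card U₁ = 4) (c2 : Nat.card U₂ = 4) (hd : U₁ ⊓ U₂ = ⊥)
    (φ₁ φ₂ : R →* DihedralGroup 4) (k1 : φ₁.ker = U₁.subgroupOf R) (k2 : φ₂.ker = U₂.subgroupOf R) :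
    Cfsg.SectionalPRankLE 2 4 S := by
  classical
  let ψ : R →* DihedralGroup 4 × DihedralGroup 4 := φ₁.prod φ₂
  have hψi : Function.Injective ψ := by
    rw [← MonoidHom.ker_eq_bot_iff, eq_bot_iff]
    intro x hx
    have hx' : φ₁ x = 1 ∧ φ₂ x = 1 := Prod.ext_iff.1 hx
    have e1 : x ∈ U₁.subgroupOf R := by rw [← k1]; exact hx'.1
    have e2 : x ∈ U₂.subgroupOf R := by rw [← k2]; exact hx'.2
    have e3 : (x : S) ∈ U₁ ⊓ U₂ := ⟨e1, e2⟩
    rw [hd, Subgroup.mem_bot] at e3
    exact Subgroup.mem_bot.2 (Subtype.ext e3)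
  set Q : Subgroup (DihedralGroup 4 × DihedralGroup 4) := ψ.range with hQ
  have hQc : Nat.card Q = 32 := by
    rw [← hc]
    exact (Nat.card_congr (MonoidHom.ofInjective hψi).toEquiv).symm
  have h64 : Nat.card (DihedralGroup 4 × DihedralGroup 4) = 64 := by
    rw [Nat.card_prod, DihedralGroup.nat_card]
  have hidx : Q.index = 2 := by
    have := Q.card_mul_index
    rw [hQc, h64] at this
    omega
  let m : DihedralGroup 4 × DihedralGroup 4 → Bool := fun y => decide (y ∈ Q)
  have hm : ∀ x y, m (x * y) = (m x == m y) := by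
    intro x y
    have h := Subgroup.mul_mem_iff_of_index_two hidx (a := x) (b := y)
    change decide (x * y ∈ Q) = (decide (x ∈ Q) == decide (y ∈ Q))
    by_cases hx : x ∈ Q <;> by_cases hy : y ∈ Q <;> simp [hx, hy, h]
  let m₁ : DihedralGroup 4 → Bool := fun c => m (c, 1)
  let m₂ : DihedralGroup 4 → Bool := fun d => m (1, d)
  have hm₁ : ∀ x y, m₁ (x * y) = (m₁ x == m₁ y) := fun x y => by
    have := hm (x, 1) (y, 1)
    rwa [Prod.mk_mul_mk, mul_one] at this
  have hm₂ : ∀ x y, m₂ (x * y) = (m₂ x == m₂ y) := fun x y => by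
    have := hm (1, x) (1, y)
    rwa [Prod.mk_mul_mk, mul_one] at this
  have hmm : ∀ c d, m (c, d) = (m₁ c == m₂ d) := fun c d => by
    have := hm (c, 1) (1, d)
    rwa [Prod.mk_mul_mk, mul_one, one_mul] at this
  obtain ⟨p, hp⟩ : ∃ p, p = m₁ (.r 1) := ⟨_, rfl⟩
  obtain ⟨q, hq⟩ : ∃ q, q = m₁ (.sr 0) := ⟨_, rfl⟩
  obtain ⟨p', hp'⟩ : ∃ p, p = m₂ (.r 1) := ⟨_, rfl⟩
  obtain ⟨q', hq'⟩ : ∃ q, q = m₂ (.sr 0) := ⟨_, rfl⟩
  have hc1 : ∀ c, m₁ c = L32.chi p q c := fun c => by rw [hp, hq]; exact L32.chi_eq m₁ hm₁ c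
  have hc2 : ∀ c, m₂ c = L32.chi p' q' c := fun c => by rw [hp', hq']; exact L32.chi_eq m₂ hm₂ c
  have hmemQ : ∀ y, y ∈ Q ↔ (L32.chi p q y.1 == L32.chi p' q' y.2) = true := by
    rintro ⟨c, d⟩
    rw [← hc1, ← hc2, ← hmm]
    exact (decide_eq_true_iff (p := (c, d) ∈ Q)).symm
  have hall : ∀ c, L32.chi true true c = true := by decide
  have hpq : (p && q) = false := by
    by_contra hne
    have hpq1 : p = true ∧ q = true := by
      have h' : (p && q) = true := Bool.eq_true_of_not_eq_false hne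
      rwa [Bool.and_eq_true] at h'
    have hin : ∀ c : DihedralGroup 4, ∃ x : R, ψ x = (c, 1) := fun c => by
      have : (c, 1) ∈ Q := by
        have h3 : m₁ c = true := by rw [hc1, hpq1.1, hpq1.2]; exact hall c
        exact of_decide_eq_true h3
      exact this
    choose g hg using hin
    have hg2 : ∀ c, ((g c : R) : S) ∈ U₂ := fun c => by
      have h3 : g c ∈ φ₂.ker := (Prod.ext_iff.1 (hg c)).2
      rw [k2] at h3
      exact h3
    have hinj : Function.Injective (fun c => (⟨g c, hg2 c⟩ : U₂)) := by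
      intro c c' hcc
      have h4 : g c = g c' := Subtype.ext (congrArg (fun w : U₂ => (w : S)) hcc)
      have h5 := hg c
      rw [h4, hg c'] at h5
      exact (Prod.ext_iff.1 h5).1.symm
    have h6 := Nat.card_le_card_of_injective _ hinj
    rw [DihedralGroup.nat_card, c2] at h6
    omega
  have hpq' : (p' && q') = false := by
    by_contra hne
    have hpq1 : p' = true ∧ q' = true := by
      have h' : (p' && q') = true := Bool.eq_true_of_not_eq_false hne
      rwa [Bool.and_eq_true] at h'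
    have hin : ∀ c : DihedralGroup 4, ∃ x : R, ψ x = (1, c) := fun c => by
      have : (1, c) ∈ Q := by
        have h3 : m₂ c = true := by rw [hc2, hpq1.1, hpq1.2]; exact hall c
        exact of_decide_eq_true h3
      exact this
    choose g hg using hin
    have hg2 : ∀ c, ((g c : R) : S) ∈ U₁ := fun c => by
      have h3 : g c ∈ φ₁.ker := (Prod.ext_iff.1 (hg c)).1
      rw [k1] at h3
      exact h3
    have hinj : Function.Injective (fun c => (⟨g c, hg2 c⟩ : U₁)) := by
      intro c c' hcc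
      have h4 : g c = g c' := Subtype.ext (congrArg (fun w : U₁ => (w : S)) hcc)
      have h5 := hg c
      rw [h4, hg c'] at h5
      exact (Prod.ext_iff.1 h5).2.symm
    have h6 := Nat.card_le_card_of_injective _ hinj
    rw [DihedralGroup.nat_card, c1] at h6
    omega
  obtain ⟨t1, t2, t3⟩ := L32.tab p q p' q' hpq hpq'
  obtain ⟨x, hx⟩ : ∃ x : R, ψ x = (L32.wit q, L32.wit q') := (hmemQ _).2 t1
  -- membership in the centralizer
  have hC : ∀ y : R, y * x = x * y ↔ L32.inC p q p' q' (ψ y) = true := by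
    intro y
    have hyQ : (L32.chi p q (ψ y).1 == L32.chi p' q' (ψ y).2) = true := (hmemQ _).1 ⟨y, rfl⟩
    have h7 : y * x = x * y ↔ ψ y * (L32.wit q, L32.wit q') = (L32.wit q, L32.wit q') * ψ y := by
      rw [← hx, ← map_mul, ← map_mul]
      exact hψi.eq_iff.symm
    rw [h7]
    unfold L32.inC
    rw [hyQ, Prod.ext_iff]
    simp
  let E : Subgroup S := ((Subgroup.centralizer ({x} : Set R))).map R.subtype
  have hEmem : ∀ s : S, s ∈ E ↔ ∃ y : R, (y : S) = s ∧ y * x = x * y := by
    intro s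
    constructor
    · rintro ⟨y, hy, rfl⟩
      exact ⟨y, rfl, Subgroup.mem_centralizer_singleton_iff.1 hy⟩
    · rintro ⟨y, rfl, hy⟩
      exact ⟨y, Subgroup.mem_centralizer_singleton_iff.2 hy, rfl⟩
  have hsq : ∀ s ∈ E, s ^ 2 = 1 := by
    intro s hs
    obtain ⟨y, rfl, hy⟩ := (hEmem s).1 hs
    have h8 := t2 _ ((hC y).1 hy)
    rw [← map_mul] at h8
    have h9 : y * y = 1 := hψi (by rw [h8, map_one])
    rw [pow_two]
    exact congrArg (fun w : R => (w : S)) h9
  have hab : ∀ a ∈ E, ∀ b ∈ E, a * b = b * a := by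
    intro a ha b hb
    have ha2 := hsq a ha
    have hb2 := hsq b hb
    have hab2 := hsq _ (E.mul_mem ha hb)
    have e1 : a⁻¹ = a := inv_eq_of_mul_eq_one_left (by rw [← pow_two]; exact ha2)
    have e2 : b⁻¹ = b := inv_eq_of_mul_eq_one_left (by rw [← pow_two]; exact hb2)
    have e3 : (a * b)⁻¹ = a * b := inv_eq_of_mul_eq_one_left (by rw [← pow_two]; exact hab2)
    rw [mul_inv_rev, e1, e2] at e3
    exact e3.symm
  have hEA : Cfsg.IsElementaryAbelian 2 E :=
    ⟨⟨⟨fun a b => Subtype.ext (hab a.1 a.2 b.1 b.2)⟩⟩, hsq⟩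
  have hE8 : Nat.card E = 8 := by
    have e1 : Nat.card E = Nat.card {y // L32.inC p q p' q' y = true} := by
      refine Nat.card_congr ?_
      refine (Subgroup.equivMapOfInjective _ R.subtype R.subtype_injective).symm.toEquiv.trans ?_
      refine Equiv.ofBijective (fun y => ⟨ψ y.1, (hC y.1).1 (Subgroup.mem_centralizer_singleton_iff.1 y.2)⟩)
        ⟨fun y y' h => Subtype.ext (hψi (congrArg Subtype.val h)), ?_⟩
      rintro ⟨w, hw⟩
      have hwQ : w ∈ Q := (hmemQ w).2 (by
        unfold L32.inC at hw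
        simp only [Bool.and_eq_true] at hw
        exact hw.1.1)
      obtain ⟨y, hy⟩ := hwQ
      have hy' : y * x = x * y := (hC y).2 (by rw [hy]; exact hw)
      exact ⟨⟨y, Subgroup.mem_centralizer_singleton_iff.2 hy'⟩, Subtype.ext hy⟩
    rw [e1, Nat.card_eq_fintype_card, Fintype.card_subtype]
    exact t3
  have hxR : ∀ s ∈ R, s * u = u * s := fun s hs => by
    rw [← hR] at hs
    exact Subgroup.mem_centralizer_singleton_iff.1 hs
  have huR : u ∈ R := by
    rw [← hR]
    exact Subgroup.mem_centralizer_singleton_iff.2 rfl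
  have huE : u ∈ E := (hEmem u).2 ⟨⟨u, huR⟩, rfl, Subtype.ext (hxR x.1 x.2).symm⟩
  have hxE : (x : S) ∈ E := (hEmem _).2 ⟨x, rfl, rfl⟩
  have hCE : Subgroup.centralizer (E : Set S) = E := by
    refine le_antisymm ?_ ?_
    · intro s hs
      have hs' := Subgroup.mem_centralizer_iff.1 hs
      have hsR : s ∈ R := by
        rw [← hR]
        exact Subgroup.mem_centralizer_singleton_iff.2 (hs' u huE).symm
      exact (hEmem s).2 ⟨⟨s, hsR⟩, rfl, Subtype.ext (hs' x hxE).symm⟩
    · intro s hs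
      exact Subgroup.mem_centralizer_iff.2 fun a ha => hab a ha s hs
  exact Cfsg.Agent.H20.Har.harada hS E hEA hE8 hCE

end Cfsg.Agent.H96.Fx
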