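import Cfsg.Agent.H20.HarMain
import Cfsg.Agent.H20.MacWD

/-! # S3365, pieces Z8 and Z16: 2-groups with an involution having a small centralizer. -/

set_option autoImplicit false

namespace Cfsg.Agent.H96.Fx

namespace Z8
open Subgroup

variable {S : Type*} [Group S]

/-- the subgroup `A⟨t⟩` -/
def adj (A : Subgroup S) (t : S) (hA : ∀ a ∈ A, a * t = t * a) (ht : t * t = 1) : Subgroup S where
  carrier := {x | ∃ a ∈ A, x = a ∨ x = a * t}
  one_mem' := ⟨1, A.one_mem, Or.inl rfl⟩
  mul_mem' := by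
    rintro x y ⟨a, ha, hx⟩ ⟨b, hb, hy⟩
    refine ⟨a * b, A.mul_mem ha hb, ?_⟩
    rcases hx with rfl | rfl <;> rcases hy with rfl | rfl
    · left; rfl
    · right; group
    · right
      rw [mul_assoc, ← hA _ hb, ← mul_assoc]
    · left
      rw [mul_assoc, ← mul_assoc t b t, ← hA b hb, mul_assoc b t t, ht, mul_one]
  inv_mem' := by
    rintro x ⟨a, ha, hx⟩
    refine ⟨a⁻¹, A.inv_mem ha, ?_⟩
    rcases hx with rfl | rfl
    · left; rfl
    · right
      have h1 : t⁻¹ = t := inv_eq_of_mul_eq_one_left ht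
      rw [mul_inv_rev, h1, hA _ (A.inv_mem ha)]

theorem card_sq [Finite S] (A : Subgroup S) [A.Normal] (hab : ∀ a ∈ A, ∀ b ∈ A, a * b = b * a)
    (hsq : ∀ a ∈ A, a ^ 2 = 1) (t : S) (ht : t * t = 1) :
    Nat.card A ≤ Nat.card ↥(A ⊓ centralizer ({t} : Set S)) * Nat.card ↥(A ⊓ centralizer ({t} : Set S)) := by
  classical
  have hti : t⁻¹ = t := inv_eq_of_mul_eq_one_left ht
  have hconj : ∀ a ∈ A, t * a * t ∈ A := by
    intro a ha
    have := (inferInstance : A.Normal).conj_mem a ha t
    rwa [hti] at this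
  let φ : A →* S :=
    { toFun := fun a => (a : S) * (t * a * t)
      map_one' := by simp [ht]
      map_mul' := by
        rintro ⟨a, ha⟩ ⟨b, hb⟩
        show a * b * (t * (a * b) * t) = a * (t * a * t) * (b * (t * b * t))
        have h1 : t * (a * b) * t = (t * a * t) * (t * b * t) := by
          calc t * (a * b) * t = t * a * (1) * b * t := by group
            _ = t * a * (t * t) * b * t := by rw [ht]
            _ = (t * a * t) * (t * b * t) := by group
        rw [h1]
        have h2 := hab _ (hconj a ha) b hb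
        calc a * b * ((t * a * t) * (t * b * t)) = a * (b * (t * a * t)) * (t * b * t) := by group
          _ = a * ((t * a * t) * b) * (t * b * t) := by rw [h2]
          _ = a * (t * a * t) * (b * (t * b * t)) := by group }
  have hk : Nat.card φ.ker ≤ Nat.card ↥(A ⊓ centralizer ({t} : Set S)) := by
    apply Nat.card_le_card_of_injective (fun x : φ.ker => (⟨(x : A), by
      refine Subgroup.mem_inf.2 ⟨(x : A).2, ?_⟩
      rw [mem_centralizer_singleton_iff]
      have hx : ((x : A) : S) * (t * (x : A) * t) = 1 := x.2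
      have h3 : t * ((x : A) : S) * t = ((x : A) : S)⁻¹ := (inv_eq_of_mul_eq_one_right hx).symm
      have h4 : (((x : A) : S))⁻¹ = ((x : A) : S) := by
        apply inv_eq_of_mul_eq_one_left
        rw [← pow_two]; exact hsq _ (x : A).2
      rw [h4] at h3
      calc ((x : A) : S) * t = (t * ((x : A) : S) * t) * t := by rw [h3]
        _ = t * ((x : A) : S) * (t * t) := by group
        _ = t * ((x : A) : S) := by rw [ht, mul_one]⟩ : ↥(A ⊓ centralizer ({t} : Set S))))
    intro x y h
    have := congrArg (fun z : ↥(A ⊓ centralizer ({t} : Set S)) => (z : S)) h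
    exact Subtype.ext (Subtype.ext this)
  have hr : Nat.card φ.range ≤ Nat.card ↥(A ⊓ centralizer ({t} : Set S)) := by
    apply Subgroup.card_le_of_le
    rintro x ⟨⟨a, ha⟩, rfl⟩
    show a * (t * a * t) ∈ _
    refine Subgroup.mem_inf.2 ⟨A.mul_mem ha (hconj a ha), ?_⟩
    rw [mem_centralizer_singleton_iff]
    have h2 := hab _ (hconj a ha) a ha
    calc a * (t * a * t) * t = a * t * a * (t * t) := by group
      _ = (t * t) * a * t * a := by rw [ht]; group
      _ = t * ((t * a * t) * a) := by group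
      _ = t * (a * (t * a * t)) := by rw [h2]
  have := Subgroup.card_eq_card_quotient_mul_card_subgroup φ.ker
  have h5 : Nat.card (A ⧸ φ.ker) = Nat.card φ.range :=
    Nat.card_congr (QuotientGroup.quotientKerEquivRange φ).toEquiv
  rw [this, h5]
  exact Nat.mul_le_mul hr hk

theorem exists_B [Finite S] (hS : IsPGroup 2 S) (t : S) (ht : orderOf t = 2) :
    Cfsg.SectionalPRankLE 2 4 S ∨ ∃ B : Subgroup S, B ≤ centralizer ({t} : Set S) ∧ t ∈ B ∧
      (∀ a ∈ B, ∀ b ∈ B, a * b = b * a) ∧ (∀ a ∈ B, a ^ 2 = 1) ∧ 8 ≤ Nat.card B := by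
  classical
  by_cases h : ∀ A : Subgroup S, A.Normal → IsMulCommutative A → (∀ a ∈ A, a ^ 2 = 1) → Nat.card A ≤ 4
  · left
    exact Cfsg.Agent.H20.MacW.macwilliams hS h
  right
  push Not at h
  obtain ⟨A, hAn, hAc, hA2, hA4⟩ := h
  have htt : t * t = 1 := by rw [← pow_two, ← ht]; exact pow_orderOf_eq_one t
  have ht1 : t ≠ 1 := by
    rintro rfl
    simp at ht
  have hab : ∀ a ∈ A, ∀ b ∈ A, a * b = b * a := by
    intro a ha b hb
    have := hAc.is_comm.comm (⟨a, ha⟩ : A) ⟨b, hb⟩
    exact congrArg (fun z : A => (z : S)) this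
  have hsq := card_sq A hab hA2 t htt
  set A0 : Subgroup S := A ⊓ centralizer ({t} : Set S) with hA0
  have hpow : ∀ H : Subgroup S, ∃ k, Nat.card H = 2 ^ k := fun H =>
    IsPGroup.iff_card.1 (hS.to_subgroup H)
  have hA8 : 8 ≤ Nat.card A := by
    obtain ⟨k, hk⟩ := hpow A
    rw [hk] at hA4 ⊢
    have : 2 < k := by
      by_contra hc
      have : 2 ^ k ≤ 2 ^ 2 := Nat.pow_le_pow_right (by norm_num) (not_lt.1 hc)
      omega
    calc 8 = 2 ^ 3 := by norm_num
      _ ≤ 2 ^ k := Nat.pow_le_pow_right (by norm_num) this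
  have hA04 : 4 ≤ Nat.card A0 := by
    obtain ⟨k, hk⟩ := hpow A0
    rw [hk] at hsq ⊢
    have : 1 < k := by
      by_contra hc
      have h1 : 2 ^ k ≤ 2 ^ 1 := Nat.pow_le_pow_right (by norm_num) (not_lt.1 hc)
      have h2 : 2 ^ k * 2 ^ k ≤ 2 ^ 1 * 2 ^ 1 := Nat.mul_le_mul h1 h1
      omega
    calc 4 = 2 ^ 2 := by norm_num
      _ ≤ 2 ^ k := Nat.pow_le_pow_right (by norm_num) this
  have hcom : ∀ a ∈ A0, a * t = t * a := fun a ha =>
    mem_centralizer_singleton_iff.1 (Subgroup.mem_inf.1 ha).2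
  have hA0ab : ∀ a ∈ A0, ∀ b ∈ A0, a * b = b * a := fun a ha b hb =>
    hab a (Subgroup.mem_inf.1 ha).1 b (Subgroup.mem_inf.1 hb).1
  have hA02 : ∀ a ∈ A0, a ^ 2 = 1 := fun a ha => hA2 a (Subgroup.mem_inf.1 ha).1
  refine ⟨adj A0 t hcom htt, ?_, ⟨1, A0.one_mem, Or.inr (one_mul t).symm⟩, ?_, ?_, ?_⟩
  · rintro x ⟨a, ha, rfl | rfl⟩
    · exact (Subgroup.mem_inf.1 ha).2
    · rw [mem_centralizer_singleton_iff]
      rw [mul_assoc, ← mul_assoc t a t, ← hcom a ha, mul_assoc]
  · rintro x ⟨a, ha, rfl | rfl⟩ y ⟨b, hb, rfl | rfl⟩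
    · exact hA0ab _ ha _ hb
    · rw [← mul_assoc, hA0ab _ ha _ hb, mul_assoc, mul_assoc, hcom _ ha]
    · rw [mul_assoc, ← hcom _ hb, ← mul_assoc, hA0ab _ ha _ hb, mul_assoc]
    · calc a * t * (b * t) = a * (t * b) * t := by group
        _ = a * (b * t) * t := by rw [hcom b hb]
        _ = (a * b) * t * t := by group
        _ = (b * a) * t * t := by rw [hA0ab _ ha _ hb]
        _ = b * (a * t) * t := by group
        _ = b * (t * a) * t := by rw [hcom a ha]
        _ = b * t * (a * t) := by group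
  · rintro x ⟨a, ha, rfl | rfl⟩
    · exact hA02 _ ha
    · calc (a * t) ^ 2 = a * (t * a) * t := by rw [pow_two]; group
        _ = a * (a * t) * t := by rw [hcom a ha]
        _ = a ^ 2 * (t * t) := by rw [pow_two]; group
        _ = 1 := by rw [hA02 a ha, htt, mul_one]
  · have hle : A0 ≤ adj A0 t hcom htt := fun a ha => ⟨a, ha, Or.inl rfl⟩
    by_cases htA : t ∈ A
    · have : A ≤ A0 := by
        intro a ha
        refine Subgroup.mem_inf.2 ⟨ha, ?_⟩
        rw [mem_centralizer_singleton_iff]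
        exact hab a ha t htA
      exact hA8.trans (Subgroup.card_le_of_le (this.trans hle))
    · have hd := Subgroup.card_dvd_of_le hle
      have hne : Nat.card A0 ≠ Nat.card ↥(adj A0 t hcom htt) := by
        intro he
        have := Subgroup.eq_of_le_of_card_ge hle he.ge
        apply htA
        have h1 : t ∈ adj A0 t hcom htt := ⟨1, A0.one_mem, Or.inr (one_mul t).symm⟩
        rw [← this] at h1
        exact (Subgroup.mem_inf.1 h1).1
      obtain ⟨c, hc⟩ := hd
      have hc2 : 2 ≤ c := by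
        rcases c with _ | _ | c
        · rw [mul_zero] at hc
          have := Nat.card_pos (α := ↥(adj A0 t hcom htt))
          omega
        · rw [zero_add, mul_one] at hc
          exact absurd hc.symm hne
        · omega
      rw [hc]
      calc 8 = 4 * 2 := by norm_num
        _ ≤ _ := Nat.mul_le_mul hA04 hc2

theorem isComm_of (B : Subgroup S) (h : ∀ a ∈ B, ∀ b ∈ B, a * b = b * a) : IsMulCommutative B :=
  ⟨⟨fun a b => Subtype.ext (h a a.2 b b.2)⟩⟩

end Z8

open Subgroup in
/-- [Z8] -/
theorem z8 {S : Type*} [Group S] [Finite S] (hS : IsPGroup 2 S) (t : S) (ht : orderOf t = 2)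
    (h : Nat.card (Subgroup.centralizer ({t} : Set S)) ≤ 8) : Cfsg.SectionalPRankLE 2 4 S := by
  rcases Z8.exists_B hS t ht with h1 | ⟨B, hBC, htB, hab, hsq, h8⟩
  · exact h1
  have hBe : B = centralizer ({t} : Set S) := Subgroup.eq_of_le_of_card_ge hBC (h.trans h8)
  have hc8 : Nat.card B = 8 := le_antisymm (by rw [hBe]; exact h) h8
  apply Cfsg.Agent.H20.Har.harada hS B ⟨Z8.isComm_of B hab, hsq⟩ hc8
  apply le_antisymm
  · intro x hx
    rw [hBe, mem_centralizer_singleton_iff]
    exact (mem_centralizer_iff.1 hx t htB).symm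
  · intro b hb
    rw [mem_centralizer_iff]
    intro a ha
    exact hab a ha b hb

open Subgroup in
/-- [Z16] -/
theorem z16 {S : Type*} [Group S] [Finite S] (hS : IsPGroup 2 S) (t : S) (ht : orderOf t = 2)
    (h : Nat.card (Subgroup.centralizer ({t} : Set S)) = 16)
    (hna : ∃ a ∈ Subgroup.centralizer ({t} : Set S), ∃ b ∈ Subgroup.centralizer ({t} : Set S), a * b ≠ b * a) :
    Cfsg.SectionalPRankLE 2 4 S := by
  rcases Z8.exists_B hS t ht with h1 | ⟨B, hBC, htB, hab, hsq, h8⟩
  · exact h1
  obtain ⟨p, hp, q, hq, hpq⟩ := hna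
  have hne : Nat.card B ≠ 16 := by
    intro he
    have hBe : B = centralizer ({t} : Set S) := Subgroup.eq_of_le_of_card_ge hBC (by rw [h, he])
    rw [← hBe] at hp hq
    exact hpq (hab p hp q hq)
  have hc8 : Nat.card B = 8 := by
    obtain ⟨c, hc⟩ := Subgroup.card_dvd_of_le hBC
    rw [h] at hc
    have hcpos : 0 < c := by
      rcases Nat.eq_zero_or_pos c with h0 | h0
      · rw [h0] at hc; simp at hc
      · exact h0
    have hc2 : c < 3 := by
      by_contra hcc
      have : 8 * 3 ≤ Nat.card B * c := Nat.mul_le_mul h8 (not_lt.1 hcc)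
      omega
    interval_cases c <;> omega
  have hidx : (B.subgroupOf (centralizer ({t} : Set S))).index = 2 := by
    have := Subgroup.card_mul_index (B.subgroupOf (centralizer ({t} : Set S)))
    rw [Nat.card_congr (Subgroup.subgroupOfEquivOfLe hBC).toEquiv, hc8, h] at this
    omega
  apply Cfsg.Agent.H20.Har.harada hS B ⟨Z8.isComm_of B hab, hsq⟩ hc8
  apply le_antisymm
  · intro x hx
    have hxC : x ∈ centralizer ({t} : Set S) := by
      rw [mem_centralizer_singleton_iff]
      exact (mem_centralizer_iff.1 hx t htB).symm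
    by_contra hxB
    have hxcom : ∀ b ∈ B, b * x = x * b := fun b hb => mem_centralizer_iff.1 hx b hb
    -- every element of the centralizer of `t` is `b` or `b * x`
    have key : ∀ c ∈ centralizer ({t} : Set S), ∃ b ∈ B, c = b ∨ c = b * x := by
      intro c hc
      by_cases hcB : c ∈ B
      · exact ⟨c, hcB, Or.inl rfl⟩
      · refine ⟨c * x⁻¹, ?_, Or.inr (by group)⟩
        have := Subgroup.mul_mem_iff_of_index_two hidx (a := (⟨c, hc⟩ : ↥(centralizer ({t} : Set S))))
          (b := (⟨x, hxC⟩ : ↥(centralizer ({t} : Set S)))⁻¹)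
        have h2 : (⟨c, hc⟩ : ↥(centralizer ({t} : Set S))) * (⟨x, hxC⟩ : ↥(centralizer ({t} : Set S)))⁻¹ ∈
            B.subgroupOf (centralizer ({t} : Set S)) := by
          rw [this]
          constructor
          · intro h3
            exact absurd (Subgroup.mem_subgroupOf.1 h3) hcB
          · intro h3
            have h4 := (Subgroup.inv_mem_iff _).1 h3
            exact absurd (Subgroup.mem_subgroupOf.1 h4) hxB
        exact Subgroup.mem_subgroupOf.1 h2
    obtain ⟨a, ha, hpa⟩ := key p hp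
    obtain ⟨b, hb, hqb⟩ := key q hq
    apply hpq
    rcases hpa with rfl | rfl <;> rcases hqb with rfl | rfl
    · exact hab _ ha _ hb
    · rw [← mul_assoc, hab _ ha _ hb, mul_assoc, mul_assoc, hxcom _ ha]
    · rw [mul_assoc, ← hxcom _ hb, ← mul_assoc, hab _ ha _ hb, mul_assoc]
    · calc a * x * (b * x) = a * (x * b) * x := by group
        _ = a * (b * x) * x := by rw [hxcom b hb]
        _ = (a * b) * x * x := by group
        _ = (b * a) * x * x := by rw [hab _ ha _ hb]
        _ = b * (a * x) * x := by group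
        _ = b * (x * a) * x := by rw [hxcom a ha]
        _ = b * x * (a * x) := by group
  · intro b hb
    rw [mem_centralizer_iff]
    intro a ha
    exact hab a ha b hb

end Cfsg.Agent.H96.Fx
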