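import Cfsg.Agent.H96.Fx.B2c
import Cfsg.Agent.H96.Fx.Z8
import Cfsg.Agent.H96.Fx.L32
import Cfsg.Agent.H96.Fx.L16
import Cfsg.Agent.H96.Fx.L16A
import Cfsg.Agent.H96.Fx.D8

/-! # S3365, piece B2 (helper82) -/

set_option autoImplicit false
open MulAction
open scoped Pointwise

namespace Cfsg.Agent.H96.Fx

variable {G Ω : Type*} [Group G] [Finite G] [MulAction G Ω] [Finite Ω]

/-- [B2] -/
theorem b2 (hfix : ∀ g : G, g ≠ 1 → Nat.card (fixedBy Ω g) ≤ 4) (Λ : Set Ω) (hΛ : Nat.card Λ = 4)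
    (hD2 : 2 ∣ Nat.card (fixingSubgroup G Λ)) (S : Sylow 2 G)
    (hF : ¬ 2 ∣ ((S : Subgroup G) ⊓ stabilizer G Λ).relIndex (stabilizer G Λ))
    (hFE : ¬ (S : Subgroup G) ⊓ stabilizer G Λ ≤ fixingSubgroup G Λ)
    (hFS : ¬ (S : Subgroup G) ≤ stabilizer G Λ) : Cfsg.SectionalPRankLE 2 4 (S : Subgroup G) :=
  B2c.b2_of (fun h t ht hc => z8 h t ht hc) (fun h t ht hc hna => z16 h t ht hc hna)
    (fun h u hu R U₁ U₂ hR hc h1 h2 c1 c2 hd φ₁ φ₂ k1 k2 => l32 h u hu R U₁ U₂ hR hc h1 h2 c1 c2 hd φ₁ φ₂ k1 k2)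
    (fun h R U a b c d e f => l16 h R U a b c d e f)
    (fun h R U₁ U₂ a b c d e f g i j => l16a h R U₁ U₂ a b c d e f g i j)
    (fun hX ρ h => d8_of_perm hX ρ h) hfix Λ hΛ hD2 S hF hFS

end Cfsg.Agent.H96.Fx
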