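import Cfsg.Agent.H96.Fx.B3c

/-! # S3365, piece B2, core (helper82) -/

set_option autoImplicit false
set_option linter.unusedSectionVars false
open MulAction
open scoped Pointwise

namespace Cfsg.Agent.H96.Fx.B2c

open Cfsg.Agent.H96.Fx.B3c

universe u w

section
variable {P : Type u} {Ω : Type w} [Group P] [MulAction P Ω] [Finite P] [Finite Ω]

theorem core2
    (hz8 : ∀ {S : Type u} [Group S] [Finite S] (_ : IsPGroup 2 S) (t : S) (_ : orderOf t = 2)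
      (_ : Nat.card (Subgroup.centralizer ({t} : Set S)) ≤ 8), Cfsg.SectionalPRankLE 2 4 S)
    (hz16 : ∀ {S : Type u} [Group S] [Finite S] (_ : IsPGroup 2 S) (t : S) (_ : orderOf t = 2)
      (_ : Nat.card (Subgroup.centralizer ({t} : Set S)) = 16)
      (_ : ∃ a ∈ Subgroup.centralizer ({t} : Set S), ∃ b ∈ Subgroup.centralizer ({t} : Set S), a * b ≠ b * a),
      Cfsg.SectionalPRankLE 2 4 S)
    (hl32 : ∀ {S : Type u} [Group S] [Finite S] (_ : IsPGroup 2 S) (u : S) (_ : orderOf u = 2)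
      (R U₁ U₂ : Subgroup S) (_ : Subgroup.centralizer ({u} : Set S) = R) (_ : Nat.card R = 32)
      (_ : U₁ ≤ R) (_ : U₂ ≤ R) (_ : Nat.card U₁ = 4) (_ : Nat.card U₂ = 4) (_ : U₁ ⊓ U₂ = ⊥)
      (φ₁ φ₂ : R →* DihedralGroup 4) (_ : φ₁.ker = U₁.subgroupOf R) (_ : φ₂.ker = U₂.subgroupOf R),
      Cfsg.SectionalPRankLE 2 4 S)
    (hl16 : ∀ {S : Type u} [Group S] [Finite S] (_ : IsPGroup 2 S) (R U : Subgroup S) (_ : U ≤ R)
      (_ : Nat.card U = 4) (_ : Nat.card R = 16) (_ : ∀ r ∈ R, r ^ 2 = 1)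
      (_ : ∀ u ∈ U, u ≠ 1 → Subgroup.centralizer ({u} : Set S) = R)
      (_ : ∀ n ∈ Subgroup.normalizer (R : Set S), ∀ u ∈ U, u ≠ 1 → n * u * n⁻¹ ∈ U → ∀ v ∈ U, n * v * n⁻¹ ∈ U),
      Cfsg.SectionalPRankLE 2 4 S)
    (hl16a : ∀ {S : Type u} [Group S] [Finite S] (_ : IsPGroup 2 S) (R U₁ U₂ : Subgroup S)
      (_ : Nat.card R = 16) (_ : ∀ a ∈ R, ∀ b ∈ R, a * b = b * a) (_ : U₁ ≤ R) (_ : U₂ ≤ R)
      (_ : Nat.card U₁ = 4) (_ : Nat.card U₂ = 4) (_ : U₁ ⊓ U₂ = ⊥) (_ : ∃ r ∈ R, r ^ 2 ≠ 1)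
      (_ : ∀ u ∈ U₂, orderOf u = 2 → Subgroup.centralizer ({u} : Set S) = R),
      Cfsg.SectionalPRankLE 2 4 S)
    (hd8 : ∀ {R : Type u} [Group R] [Finite R] {X : Type w} [Finite X], Nat.card X = 4 →
      ∀ (ρ : R →* Equiv.Perm X), Nat.card ρ.range = 8 → ∃ φ : R →* DihedralGroup 4, φ.ker = ρ.ker)
    (hP : IsPGroup 2 P) (hfix : ∀ g : P, g ≠ 1 → Nat.card (fixedBy Ω g) ≤ 4) {Λ Λ' : Set Ω} (hΛ : Nat.card Λ = 4)
    (hΛ' : Nat.card Λ' = 4) (hne : Λ ≠ Λ') (hst : ∀ p : P, p • Λ' = Λ' → p • Λ = Λ) (u : P) (hu2 : orderOf u = 2)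
    (hu : fixedBy Ω u = Λ') : Cfsg.SectionalPRankLE 2 4 P := by
  have h2F : Fact (Nat.Prime 2) := ⟨Nat.prime_two⟩
  by_contra hcon
  -- the centralizer of a good involution
  have hgood : ∀ v : P, orderOf v = 2 → fixedBy Ω v = Λ' →
      (∀ a ∈ Subgroup.centralizer ({v} : Set P), ∀ b ∈ Subgroup.centralizer ({v} : Set P), a * b = b * a) ∧
      Nat.card (Subgroup.centralizer ({v} : Set P)) = 16 ∧
      Nat.card ↥(Subgroup.centralizer ({v} : Set P) ⊓ fixingSubgroup P Λ) = 4 ∧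
      Nat.card ↥(Subgroup.centralizer ({v} : Set P) ⊓ fixingSubgroup P Λ') = 4 := by
    intro v hv2 hv
    set R := Subgroup.centralizer ({v} : Set P) with hR
    have s2 : ∀ r ∈ R, r • Λ' = Λ' := fun r hr => cent_stab hv hr
    have s1 : ∀ r ∈ R, r • Λ = Λ := fun r hr => hst r (s2 r hr)
    have c1 := card_rho Λ R s1
    have c2 := card_rho Λ' R s2
    have r1 := range_dvd hP hΛ R s1
    have r2 := range_dvd hP hΛ' R s2
    have a1 : Nat.card ↥(R ⊓ fixingSubgroup P Λ) ≤ 4 :=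
      card_le hfix hΛ hΛ' hne _ inf_le_right (fun h hh => s2 h hh.1)
    have a2 : Nat.card ↥(R ⊓ fixingSubgroup P Λ') ≤ 4 :=
      card_le hfix hΛ' hΛ hne.symm _ inf_le_right (fun h hh => s1 h hh.1)
    have b1 : Nat.card (rho Λ R s1).range ≤ 8 := Nat.le_of_dvd (by norm_num) r1
    have b2 : Nat.card (rho Λ' R s2).range ≤ 8 := Nat.le_of_dvd (by norm_num) r2
    obtain ⟨k, hk⟩ := IsPGroup.iff_card.mp (hP.to_subgroup R)
    have hR8 : ¬ Nat.card R ≤ 8 := fun h => hcon (hz8 hP v hv2 h)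
    have hR32 : Nat.card R ≤ 32 := by
      rw [← c1]
      calc _ ≤ 4 * 8 := Nat.mul_le_mul a1 b1
        _ = 32 := by norm_num
    have hk45 : k = 4 ∨ k = 5 := by
      rw [hk] at hR8 hR32
      have k1 : 3 < k := by
        by_contra hk3
        apply hR8
        calc 2 ^ k ≤ 2 ^ 3 := Nat.pow_le_pow_right (by norm_num) (by omega)
          _ = 8 := by norm_num
      have k2 : k ≤ 5 := by
        by_contra hk5
        have : 2 ^ 6 ≤ 2 ^ k := Nat.pow_le_pow_right (by norm_num) (by omega)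
        omega
      omega
    rcases hk45 with hk4 | hk5
    · have hR16 : Nat.card R = 16 := by rw [hk, hk4]; norm_num
      have hab : ∀ a ∈ R, ∀ b ∈ R, a * b = b * a := by
        by_contra hna
        push Not at hna
        exact hcon (hz16 hP v hv2 hR16 hna)
      have n1 := not_eight hd8 hΛ R s1 hab
      have n2 := not_eight hd8 hΛ' R s2 hab
      refine ⟨hab, hR16, ?_, ?_⟩
      · have d1 : Nat.card (rho Λ R s1).range ≤ 4 := by
          obtain ⟨c, hc⟩ := r1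
          generalize Nat.card (rho Λ R s1).range = m at *
          interval_cases m <;> omega
        rw [hR16] at c1
        nlinarith
      · have d2 : Nat.card (rho Λ' R s2).range ≤ 4 := by
          obtain ⟨c, hc⟩ := r2
          generalize Nat.card (rho Λ' R s2).range = m at *
          interval_cases m <;> omega
        rw [hR16] at c2
        nlinarith
    · exfalso
      have hR32' : Nat.card R = 32 := by rw [hk, hk5]; norm_num
      rw [hR32'] at c1 c2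
      have e1 : Nat.card (rho Λ R s1).range = 8 := by nlinarith
      have e2 : Nat.card (rho Λ' R s2).range = 8 := by nlinarith
      have f1 : Nat.card ↥(R ⊓ fixingSubgroup P Λ) = 4 := by rw [e1] at c1; omega
      have f2 : Nat.card ↥(R ⊓ fixingSubgroup P Λ') = 4 := by rw [e2] at c2; omega
      obtain ⟨φ₁, hφ₁⟩ := hd8 hΛ (rho Λ R s1) e1
      obtain ⟨φ₂, hφ₂⟩ := hd8 hΛ' (rho Λ' R s2) e2
      rw [ker_rho] at hφ₁ hφ₂
      exact hcon (hl32 hP v hv2 R _ _ rfl hR32' inf_le_left inf_le_left f1 f2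
        (inf_bot hfix hΛ hΛ' hne R) φ₁ φ₂ hφ₁ hφ₂)
  obtain ⟨hab, hR16, hU1, hU2⟩ := hgood u hu2 hu
  set R := Subgroup.centralizer ({u} : Set P) with hR
  -- all involutions of `U₂` have the same centralizer
  have hC : ∀ v ∈ R ⊓ fixingSubgroup P Λ', orderOf v = 2 → Subgroup.centralizer ({v} : Set P) = R := by
    rintro v ⟨hvR, hvD⟩ hv2
    have hv1 : v ≠ 1 := by
      rintro rfl
      rw [orderOf_one] at hv2
      omega
    have hvf := fixedBy_eq hfix hΛ' hvD hv1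
    obtain ⟨-, hv16, -, -⟩ := hgood v hv2 hvf
    symm
    apply Subgroup.eq_of_le_of_card_ge
    · intro r hr
      rw [Subgroup.mem_centralizer_iff]
      rintro _ rfl
      exact hab _ hvR _ hr
    · rw [hv16, hR16]
  by_cases hel : ∀ r ∈ R, r ^ 2 = 1
  · apply hcon
    have hord : ∀ v ∈ R, v ≠ 1 → orderOf v = 2 := fun v hv hv1 => orderOf_eq_prime (hel v hv) hv1
    refine hl16 hP R (R ⊓ fixingSubgroup P Λ') inf_le_left hU2 hR16 hel
      (fun v hv hv1 => hC v hv (hord v hv.1 hv1)) ?_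
    rintro n hn v ⟨hvR, hvD⟩ hv1 ⟨-, hnv⟩ w ⟨hwR, hwD⟩
    refine ⟨(Subgroup.mem_normalizer_iff.mp hn w).mp hwR, ?_⟩
    have hnv1 : n * v * n⁻¹ ≠ 1 := fun h => hv1 (conj_eq_one_iff.mp h)
    have hst' : n ∈ stabilizer P Λ' := mem_stab_of_conj (fixedBy_eq hfix hΛ' hvD hv1) (fixedBy_eq hfix hΛ' hnv hnv1)
    exact conj_mem_fixing hst' hwD
  · push Not at hel
    exact hcon (hl16a hP R _ _ hR16 hab inf_le_left inf_le_left hU1 hU2 (inf_bot hfix hΛ hΛ' hne R) hel hC)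


theorem b2_of
    (hz8 : ∀ {S : Type u} [Group S] [Finite S] (_ : IsPGroup 2 S) (t : S) (_ : orderOf t = 2)
      (_ : Nat.card (Subgroup.centralizer ({t} : Set S)) ≤ 8), Cfsg.SectionalPRankLE 2 4 S)
    (hz16 : ∀ {S : Type u} [Group S] [Finite S] (_ : IsPGroup 2 S) (t : S) (_ : orderOf t = 2)
      (_ : Nat.card (Subgroup.centralizer ({t} : Set S)) = 16)
      (_ : ∃ a ∈ Subgroup.centralizer ({t} : Set S), ∃ b ∈ Subgroup.centralizer ({t} : Set S), a * b ≠ b * a),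
      Cfsg.SectionalPRankLE 2 4 S)
    (hl32 : ∀ {S : Type u} [Group S] [Finite S] (_ : IsPGroup 2 S) (u : S) (_ : orderOf u = 2)
      (R U₁ U₂ : Subgroup S) (_ : Subgroup.centralizer ({u} : Set S) = R) (_ : Nat.card R = 32)
      (_ : U₁ ≤ R) (_ : U₂ ≤ R) (_ : Nat.card U₁ = 4) (_ : Nat.card U₂ = 4) (_ : U₁ ⊓ U₂ = ⊥)
      (φ₁ φ₂ : R →* DihedralGroup 4) (_ : φ₁.ker = U₁.subgroupOf R) (_ : φ₂.ker = U₂.subgroupOf R),
      Cfsg.SectionalPRankLE 2 4 S)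
    (hl16 : ∀ {S : Type u} [Group S] [Finite S] (_ : IsPGroup 2 S) (R U : Subgroup S) (_ : U ≤ R)
      (_ : Nat.card U = 4) (_ : Nat.card R = 16) (_ : ∀ r ∈ R, r ^ 2 = 1)
      (_ : ∀ u ∈ U, u ≠ 1 → Subgroup.centralizer ({u} : Set S) = R)
      (_ : ∀ n ∈ Subgroup.normalizer (R : Set S), ∀ u ∈ U, u ≠ 1 → n * u * n⁻¹ ∈ U → ∀ v ∈ U, n * v * n⁻¹ ∈ U),
      Cfsg.SectionalPRankLE 2 4 S)
    (hl16a : ∀ {S : Type u} [Group S] [Finite S] (_ : IsPGroup 2 S) (R U₁ U₂ : Subgroup S)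
      (_ : Nat.card R = 16) (_ : ∀ a ∈ R, ∀ b ∈ R, a * b = b * a) (_ : U₁ ≤ R) (_ : U₂ ≤ R)
      (_ : Nat.card U₁ = 4) (_ : Nat.card U₂ = 4) (_ : U₁ ⊓ U₂ = ⊥) (_ : ∃ r ∈ R, r ^ 2 ≠ 1)
      (_ : ∀ u ∈ U₂, orderOf u = 2 → Subgroup.centralizer ({u} : Set S) = R),
      Cfsg.SectionalPRankLE 2 4 S)
    (hd8 : ∀ {R : Type u} [Group R] [Finite R] {X : Type w} [Finite X], Nat.card X = 4 →
      ∀ (ρ : R →* Equiv.Perm X), Nat.card ρ.range = 8 → ∃ φ : R →* DihedralGroup 4, φ.ker = ρ.ker)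
    {G : Type u} {Ω : Type w} [Group G] [Finite G] [MulAction G Ω] [Finite Ω]
    (hfix : ∀ g : G, g ≠ 1 → Nat.card (fixedBy Ω g) ≤ 4) (Λ : Set Ω) (hΛ : Nat.card Λ = 4)
    (hD2 : 2 ∣ Nat.card (fixingSubgroup G Λ)) (S : Sylow 2 G)
    (hF : ¬ 2 ∣ ((S : Subgroup G) ⊓ stabilizer G Λ).relIndex (stabilizer G Λ))
    (hFS : ¬ (S : Subgroup G) ≤ stabilizer G Λ) : Cfsg.SectionalPRankLE 2 4 (S : Subgroup G) := by
  have h2F : Fact (Nat.Prime 2) := ⟨Nat.prime_two⟩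
  -- an involution of `S ⊓ D`
  obtain ⟨v, hvS, hvD, hv2⟩ : ∃ v ∈ (S : Subgroup G), v ∈ fixingSubgroup G Λ ∧ orderOf v = 2 := by
    obtain ⟨d, hd⟩ := exists_prime_orderOf_dvd_card' (G := fixingSubgroup G Λ) 2 hD2
    have hdM : (d : G) ∈ stabilizer G Λ := fixing_le_stab Λ d.2
    set M := stabilizer G Λ with hM
    set F : Subgroup M := ((S : Subgroup G) ⊓ M).subgroupOf M with hFdef
    have hFp : IsPGroup 2 F := by
      have h1 : IsPGroup 2 ↥((S : Subgroup G) ⊓ M) := S.2.to_le inf_le_left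
      exact h1.of_equiv (Subgroup.subgroupOfEquivOfLe inf_le_right).symm
    let FS : Sylow 2 M := hFp.toSylow hF
    have hdp : IsPGroup 2 (Subgroup.zpowers (⟨d, hdM⟩ : M)) := by
      apply IsPGroup.of_card (n := 1)
      rw [Nat.card_zpowers, pow_one]
      have : orderOf (⟨(d : G), hdM⟩ : M) = orderOf (d : G) := (Subgroup.orderOf_coe _).symm
      rw [this, Subgroup.orderOf_coe, hd]
    obtain ⟨Q, hQ⟩ := hdp.exists_le_sylow
    obtain ⟨m, hm⟩ := MulAction.exists_smul_eq M Q FS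
    have h3 : m * ⟨d, hdM⟩ * m⁻¹ ∈ (FS : Subgroup M) := by
      rw [← hm]
      exact ⟨⟨d, hdM⟩, hQ (Subgroup.mem_zpowers _), rfl⟩
    have h4 : m * ⟨d, hdM⟩ * m⁻¹ ∈ F := h3
    rw [hFdef, Subgroup.mem_subgroupOf] at h4
    refine ⟨(m : G) * d * (m : G)⁻¹, h4.1, conj_mem_fixing m.2 d.2, ?_⟩
    have h5 : orderOf ((m : G) * d * (m : G)⁻¹) = orderOf (d : G) := by
      have := (MulAut.conj (m : G)).orderOf_eq (d : G)
      simpa using this
    rw [h5, Subgroup.orderOf_coe, hd]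
  have hv1 : v ≠ 1 := by
    rintro rfl
    rw [orderOf_one] at hv2
    omega
  -- an element of the normaliser of `S ⊓ M` in `S`
  let FP : Subgroup ↥(S : Subgroup G) := stabilizer ↥(S : Subgroup G) Λ
  have hFP : FP < ⊤ := by
    rw [lt_top_iff_ne_top]
    intro h
    apply hFS
    intro x hx
    have : (⟨x, hx⟩ : ↥(S : Subgroup G)) ∈ FP := h ▸ Subgroup.mem_top _
    exact this
  have hnil : Group.IsNilpotent ↥(S : Subgroup G) := S.2.isNilpotent
  obtain ⟨s, hsN, hsF⟩ := SetLike.exists_of_lt (Group.normalizerCondition_of_isNilpotent FP hFP)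
  have hΛ' : Nat.card ↥(s • Λ) = 4 := by
    rw [← hΛ]
    exact (Nat.card_congr (Equiv.Set.image (fun x => s • x) Λ (MulAction.injective s))).symm
  have hne : s • Λ ≠ Λ := fun h => hsF h
  refine core2 (P := ↥(S : Subgroup G)) (Ω := Ω) hz8 hz16 hl32 hl16 hl16a hd8 S.2 ?_ hΛ' hΛ hne ?_ ⟨v, hvS⟩ ?_ ?_
  · intro p hp
    exact hfix (p : G) (fun h => hp (Subtype.ext h))
  · intro r hr
    have h1 : r ∈ FP := hr
    have h2 : s⁻¹ * r * s ∈ FP := by
      have := (Subgroup.mem_normalizer_iff.mp (inv_mem hsN) r).mp h1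
      rwa [inv_inv] at this
    have h3 : (s⁻¹ * r * s) • Λ = Λ := h2
    calc r • s • Λ = (s * (s⁻¹ * r * s)) • Λ := by rw [smul_smul]; congr 1; group
      _ = s • Λ := by rw [mul_smul, h3]
  · exact (Subgroup.orderOf_coe (⟨v, hvS⟩ : ↥(S : Subgroup G))).symm.trans hv2
  · exact fixedBy_eq hfix hΛ hvD hv1

end

end Cfsg.Agent.H96.Fx.B2c
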