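import Cfsg.Agent.H96.Fx.Base

/-! # S3365, piece B3, core (helper82) -/

set_option autoImplicit false
set_option linter.unusedSectionVars false
open MulAction
open scoped Pointwise

namespace Cfsg.Agent.H96.Fx.B3c

universe u w

section
variable {P : Type u} {Ω : Type w} [Group P] [MulAction P Ω]

theorem cent_stab {Λ' : Set Ω} {v c : P} (hv : fixedBy Ω v = Λ') (hc : c ∈ Subgroup.centralizer ({v} : Set P)) :
    c • Λ' = Λ' := by
  have h1 : c * v * c⁻¹ = v := by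
    have := Subgroup.mem_centralizer_iff.mp hc v rfl
    rw [← this, mul_inv_cancel_right]
  rw [← hv, ← fixedBy_conj, h1]

/-- the action of a subgroup on an invariant set -/
def rho (Λ : Set Ω) (R : Subgroup P) (h : ∀ r ∈ R, r • Λ = Λ) : R →* Equiv.Perm Λ where
  toFun r :=
    { toFun := fun x => ⟨(r : P) • (x : Ω), by
        have := Set.smul_mem_smul_set (a := (r : P)) x.2
        rwa [h r r.2] at this⟩
      invFun := fun x => ⟨(r : P)⁻¹ • (x : Ω), by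
        have := Set.smul_mem_smul_set (a := (r : P)⁻¹) x.2
        rwa [h _ (R.inv_mem r.2)] at this⟩
      left_inv := fun x => Subtype.ext (inv_smul_smul _ _)
      right_inv := fun x => Subtype.ext (smul_inv_smul _ _) }
  map_one' := by ext x; exact one_smul _ _
  map_mul' := by intro a b; ext x; exact mul_smul _ _ _

theorem ker_rho (Λ : Set Ω) (R : Subgroup P) (h : ∀ r ∈ R, r • Λ = Λ) :
    (rho Λ R h).ker = (R ⊓ fixingSubgroup P Λ).subgroupOf R := by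
  ext r
  rw [MonoidHom.mem_ker, Subgroup.mem_subgroupOf, Subgroup.mem_inf, mem_fixingSubgroup_iff]
  constructor
  · intro h1
    refine ⟨r.2, fun y hy => ?_⟩
    have := congrArg (fun f : Equiv.Perm Λ => ((f ⟨y, hy⟩ : Λ) : Ω)) h1
    exact this
  · rintro ⟨-, h1⟩
    ext x
    exact h1 x x.2

variable [Finite P] [Finite Ω]

theorem card_rho (Λ : Set Ω) (R : Subgroup P) (h : ∀ r ∈ R, r • Λ = Λ) :
    Nat.card ↥(R ⊓ fixingSubgroup P Λ) * Nat.card (rho Λ R h).range = Nat.card R := by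
  have h1 := (rho Λ R h).ker.card_mul_index
  rw [Subgroup.index_ker, ker_rho, Nat.card_congr (Subgroup.subgroupOfEquivOfLe inf_le_left).toEquiv] at h1
  exact h1

theorem range_dvd (hP : IsPGroup 2 P) {Λ : Set Ω} (hΛ : Nat.card Λ = 4) (R : Subgroup P) (h : ∀ r ∈ R, r • Λ = Λ) :
    Nat.card (rho Λ R h).range ∣ 8 := by
  have : Fact (Nat.Prime 2) := ⟨Nat.prime_two⟩
  have h1 : IsPGroup 2 (rho Λ R h).range := (hP.to_subgroup R).of_surjective _ (rho Λ R h).rangeRestrict_surjective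
  obtain ⟨k, hk⟩ := IsPGroup.iff_card.mp h1
  have h2 : Nat.card (rho Λ R h).range ∣ Nat.card (Equiv.Perm Λ) := Subgroup.card_subgroup_dvd_card _
  rw [Nat.card_perm, hΛ, hk] at h2
  rw [hk]
  have h3 : k ≤ 3 := by
    by_contra hcon
    have h4 : 2 ^ 4 ∣ 2 ^ k := pow_dvd_pow 2 (by omega)
    have h5 := h4.trans h2
    revert h5
    decide
  exact pow_dvd_pow 2 h3

/-- semiregularity -/
theorem card_le (hfix : ∀ g : P, g ≠ 1 → Nat.card (fixedBy Ω g) ≤ 4) {Λ Λ' : Set Ω} (hΛ : Nat.card Λ = 4)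
    (hΛ' : Nat.card Λ' = 4) (hne : Λ ≠ Λ') (H : Subgroup P) (h1 : H ≤ fixingSubgroup P Λ) (h2 : ∀ h ∈ H, h • Λ' = Λ') :
    Nat.card H ≤ 4 := by
  obtain ⟨x, hx, hx'⟩ : ∃ x ∈ Λ', x ∉ Λ := by
    by_contra hcon
    push Not at hcon
    apply hne
    symm
    apply Set.eq_of_subset_of_ncard_le hcon
    rw [← Nat.card_coe_set_eq, ← Nat.card_coe_set_eq, hΛ, hΛ']
  have h3 : Function.Injective (fun h : H => (⟨(h : P) • x, by
      have := Set.smul_mem_smul_set (a := (h : P)) hx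
      rwa [h2 h h.2] at this⟩ : Λ')) := by
    intro a b hab
    have h4 : (a : P) • x = (b : P) • x := congrArg Subtype.val hab
    by_contra hne'
    have h5 : (b : P)⁻¹ * a ∈ fixingSubgroup P Λ := h1 (mul_mem (inv_mem b.2) a.2)
    have h6 : (b : P)⁻¹ * a ≠ 1 := by
      intro h7
      apply hne'
      apply Subtype.ext
      exact (inv_mul_eq_one.mp h7).symm
    have h7 := fixedBy_eq hfix hΛ h5 h6
    apply hx'
    rw [← h7, mem_fixedBy, mul_smul, h4, inv_smul_smul]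
  have h8 := Nat.card_le_card_of_injective _ h3
  rwa [hΛ'] at h8

theorem inf_bot (hfix : ∀ g : P, g ≠ 1 → Nat.card (fixedBy Ω g) ≤ 4) {Λ Λ' : Set Ω} (hΛ : Nat.card Λ = 4)
    (hΛ' : Nat.card Λ' = 4) (hne : Λ ≠ Λ') (R : Subgroup P) :
    (R ⊓ fixingSubgroup P Λ) ⊓ (R ⊓ fixingSubgroup P Λ') = ⊥ := by
  rw [eq_bot_iff]
  rintro x ⟨⟨-, h1⟩, ⟨-, h2⟩⟩
  rw [Subgroup.mem_bot]
  by_contra h3
  exact hne ((fixedBy_eq hfix hΛ h1 h3).symm.trans (fixedBy_eq hfix hΛ' h2 h3))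

theorem not_eight (hd8 : ∀ {R : Type u} [Group R] [Finite R] {X : Type w} [Finite X], Nat.card X = 4 →
      ∀ (ρ : R →* Equiv.Perm X), Nat.card ρ.range = 8 → ∃ φ : R →* DihedralGroup 4, φ.ker = ρ.ker)
    {Λ : Set Ω} (hΛ : Nat.card Λ = 4) (R : Subgroup P) (h : ∀ r ∈ R, r • Λ = Λ)
    (hab : ∀ a ∈ R, ∀ b ∈ R, a * b = b * a) : Nat.card (rho Λ R h).range ≠ 8 := by
  intro h8
  obtain ⟨φ, hφ⟩ := hd8 hΛ (rho Λ R h) h8
  have h1 : Nat.card φ.range = 8 := by rw [← Subgroup.index_ker, hφ, Subgroup.index_ker, h8]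
  have h2 : φ.range = ⊤ := by
    apply Subgroup.eq_top_of_card_eq
    rw [h1, DihedralGroup.nat_card]
  obtain ⟨a, ha⟩ : (DihedralGroup.r 1 : DihedralGroup 4) ∈ φ.range := by rw [h2]; trivial
  obtain ⟨b, hb⟩ : (DihedralGroup.sr 0 : DihedralGroup 4) ∈ φ.range := by rw [h2]; trivial
  have h3 : a * b = b * a := Subtype.ext (hab a a.2 b b.2)
  have h4 : φ a * φ b = φ b * φ a := by rw [← map_mul, h3, map_mul]
  rw [ha, hb] at h4
  revert h4
  decide

theorem core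
    (hz8 : ∀ {S : Type u} [Group S] [Finite S] (_ : IsPGroup 2 S) (t : S) (_ : orderOf t = 2)
      (_ : Nat.card (Subgroup.centralizer ({t} : Set S)) ≤ 8), Cfsg.SectionalPRankLE 2 4 S)
    (hz16 : ∀ {S : Type u} [Group S] [Finite S] (_ : IsPGroup 2 S) (t : S) (_ : orderOf t = 2)
      (_ : Nat.card (Subgroup.centralizer ({t} : Set S)) = 16)
      (_ : ∃ a ∈ Subgroup.centralizer ({t} : Set S), ∃ b ∈ Subgroup.centralizer ({t} : Set S), a * b ≠ b * a),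
      Cfsg.SectionalPRankLE 2 4 S)
    (hl32 : ∀ {S : Type u} [Group S] [Finite S] (_ : IsPGroup 2 S) (u : S) (_ : orderOf u = 2)
      (R U₁ U₂ : Subgroup S) (_ : Subgroup.centralizer ({u} : Set S) = R) (_ : Nat.card R = 32)
      (_ : U₁ ≤ R) (_ : U₂ ≤ R) (_ : Nat.card U₁ = 4) (_ : Nat.card U₂ = 4) (_ : U₁ ⊓ U₂ = ⊥)
      (φ₁ φ₂ : R →* DihedralGroup 4) (_ : φ₁.ker = U₁.subgroupOf R) (_ : φ₂.ker = U₂.subgroupOf R),
      Cfsg.SectionalPRankLE 2 4 S)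
    (hl16 : ∀ {S : Type u} [Group S] [Finite S] (_ : IsPGroup 2 S) (R U : Subgroup S) (_ : U ≤ R)
      (_ : Nat.card U = 4) (_ : Nat.card R = 16) (_ : ∀ r ∈ R, r ^ 2 = 1)
      (_ : ∀ u ∈ U, u ≠ 1 → Subgroup.centralizer ({u} : Set S) = R)
      (_ : ∀ n ∈ Subgroup.normalizer (R : Set S), ∀ u ∈ U, u ≠ 1 → n * u * n⁻¹ ∈ U → ∀ v ∈ U, n * v * n⁻¹ ∈ U),
      Cfsg.SectionalPRankLE 2 4 S)
    (hl16a : ∀ {S : Type u} [Group S] [Finite S] (_ : IsPGroup 2 S) (R U₁ U₂ : Subgroup S)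
      (_ : Nat.card R = 16) (_ : ∀ a ∈ R, ∀ b ∈ R, a * b = b * a) (_ : U₁ ≤ R) (_ : U₂ ≤ R)
      (_ : Nat.card U₁ = 4) (_ : Nat.card U₂ = 4) (_ : U₁ ⊓ U₂ = ⊥) (_ : ∃ r ∈ R, r ^ 2 ≠ 1)
      (_ : ∀ u ∈ U₂, orderOf u = 2 → Subgroup.centralizer ({u} : Set S) = R),
      Cfsg.SectionalPRankLE 2 4 S)
    (hd8 : ∀ {R : Type u} [Group R] [Finite R] {X : Type w} [Finite X], Nat.card X = 4 →
      ∀ (ρ : R →* Equiv.Perm X), Nat.card ρ.range = 8 → ∃ φ : R →* DihedralGroup 4, φ.ker = ρ.ker)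
    (hP : IsPGroup 2 P) (hfix : ∀ g : P, g ≠ 1 → Nat.card (fixedBy Ω g) ≤ 4) {Λ Λ' : Set Ω} (hΛ : Nat.card Λ = 4)
    (hΛ' : Nat.card Λ' = 4) (hne : Λ ≠ Λ') (hst : ∀ p : P, p • Λ = Λ) (u : P) (hu2 : orderOf u = 2)
    (hu : fixedBy Ω u = Λ') : Cfsg.SectionalPRankLE 2 4 P := by
  have h2F : Fact (Nat.Prime 2) := ⟨Nat.prime_two⟩
  by_contra hcon
  -- the centralizer of a good involution
  have hgood : ∀ v : P, orderOf v = 2 → fixedBy Ω v = Λ' →
      (∀ a ∈ Subgroup.centralizer ({v} : Set P), ∀ b ∈ Subgroup.centralizer ({v} : Set P), a * b = b * a) ∧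
      Nat.card (Subgroup.centralizer ({v} : Set P)) = 16 ∧
      Nat.card ↥(Subgroup.centralizer ({v} : Set P) ⊓ fixingSubgroup P Λ) = 4 ∧
      Nat.card ↥(Subgroup.centralizer ({v} : Set P) ⊓ fixingSubgroup P Λ') = 4 := by
    intro v hv2 hv
    set R := Subgroup.centralizer ({v} : Set P) with hR
    have s1 : ∀ r ∈ R, r • Λ = Λ := fun r _ => hst r
    have s2 : ∀ r ∈ R, r • Λ' = Λ' := fun r hr => cent_stab hv hr
    have c1 := card_rho Λ R s1
    have c2 := card_rho Λ' R s2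
    have r1 := range_dvd hP hΛ R s1
    have r2 := range_dvd hP hΛ' R s2
    have a1 : Nat.card ↥(R ⊓ fixingSubgroup P Λ) ≤ 4 :=
      card_le hfix hΛ hΛ' hne _ inf_le_right (fun h hh => s2 h hh.1)
    have a2 : Nat.card ↥(R ⊓ fixingSubgroup P Λ') ≤ 4 :=
      card_le hfix hΛ' hΛ hne.symm _ inf_le_right (fun h hh => s1 h hh.1)
    have b1 : Nat.card (rho Λ R s1).range ≤ 8 := Nat.le_of_dvd (by norm_num) r1
    have b2 : Nat.card (rho Λ' R s2).range ≤ 8 := Nat.le_of_dvd (by norm_num) r2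
    obtain ⟨k, hk⟩ := IsPGroup.iff_card.mp (hP.to_subgroup R)
    have hR8 : ¬ Nat.card R ≤ 8 := fun h => hcon (hz8 hP v hv2 h)
    have hR32 : Nat.card R ≤ 32 := by
      rw [← c1]
      calc _ ≤ 4 * 8 := Nat.mul_le_mul a1 b1
        _ = 32 := by norm_num
    have hk45 : k = 4 ∨ k = 5 := by
      rw [hk] at hR8 hR32
      have k1 : 3 < k := by
        by_contra hk3
        apply hR8
        calc 2 ^ k ≤ 2 ^ 3 := Nat.pow_le_pow_right (by norm_num) (by omega)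
          _ = 8 := by norm_num
      have k2 : k ≤ 5 := by
        by_contra hk5
        have : 2 ^ 6 ≤ 2 ^ k := Nat.pow_le_pow_right (by norm_num) (by omega)
        omega
      omega
    rcases hk45 with hk4 | hk5
    · have hR16 : Nat.card R = 16 := by rw [hk, hk4]; norm_num
      have hab : ∀ a ∈ R, ∀ b ∈ R, a * b = b * a := by
        by_contra hna
        push Not at hna
        exact hcon (hz16 hP v hv2 hR16 hna)
      have n1 := not_eight hd8 hΛ R s1 hab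
      have n2 := not_eight hd8 hΛ' R s2 hab
      refine ⟨hab, hR16, ?_, ?_⟩
      · have d1 : Nat.card (rho Λ R s1).range ≤ 4 := by
          obtain ⟨c, hc⟩ := r1
          generalize Nat.card (rho Λ R s1).range = m at *
          interval_cases m <;> omega
        rw [hR16] at c1
        nlinarith
      · have d2 : Nat.card (rho Λ' R s2).range ≤ 4 := by
          obtain ⟨c, hc⟩ := r2
          generalize Nat.card (rho Λ' R s2).range = m at *
          interval_cases m <;> omega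
        rw [hR16] at c2
        nlinarith
    · exfalso
      have hR32' : Nat.card R = 32 := by rw [hk, hk5]; norm_num
      rw [hR32'] at c1 c2
      have e1 : Nat.card (rho Λ R s1).range = 8 := by nlinarith
      have e2 : Nat.card (rho Λ' R s2).range = 8 := by nlinarith
      have f1 : Nat.card ↥(R ⊓ fixingSubgroup P Λ) = 4 := by rw [e1] at c1; omega
      have f2 : Nat.card ↥(R ⊓ fixingSubgroup P Λ') = 4 := by rw [e2] at c2; omega
      obtain ⟨φ₁, hφ₁⟩ := hd8 hΛ (rho Λ R s1) e1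
      obtain ⟨φ₂, hφ₂⟩ := hd8 hΛ' (rho Λ' R s2) e2
      rw [ker_rho] at hφ₁ hφ₂
      exact hcon (hl32 hP v hv2 R _ _ rfl hR32' inf_le_left inf_le_left f1 f2
        (inf_bot hfix hΛ hΛ' hne R) φ₁ φ₂ hφ₁ hφ₂)
  obtain ⟨hab, hR16, hU1, hU2⟩ := hgood u hu2 hu
  set R := Subgroup.centralizer ({u} : Set P) with hR
  -- all involutions of `U₂` have the same centralizer
  have hC : ∀ v ∈ R ⊓ fixingSubgroup P Λ', orderOf v = 2 → Subgroup.centralizer ({v} : Set P) = R := by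
    rintro v ⟨hvR, hvD⟩ hv2
    have hv1 : v ≠ 1 := by
      rintro rfl
      rw [orderOf_one] at hv2
      omega
    have hvf := fixedBy_eq hfix hΛ' hvD hv1
    obtain ⟨-, hv16, -, -⟩ := hgood v hv2 hvf
    symm
    apply Subgroup.eq_of_le_of_card_ge
    · intro r hr
      rw [Subgroup.mem_centralizer_iff]
      rintro _ rfl
      exact hab _ hvR _ hr
    · rw [hv16, hR16]
  by_cases hel : ∀ r ∈ R, r ^ 2 = 1
  · apply hcon
    have hord : ∀ v ∈ R, v ≠ 1 → orderOf v = 2 := fun v hv hv1 => orderOf_eq_prime (hel v hv) hv1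
    refine hl16 hP R (R ⊓ fixingSubgroup P Λ') inf_le_left hU2 hR16 hel
      (fun v hv hv1 => hC v hv (hord v hv.1 hv1)) ?_
    rintro n hn v ⟨hvR, hvD⟩ hv1 ⟨-, hnv⟩ w ⟨hwR, hwD⟩
    refine ⟨(Subgroup.mem_normalizer_iff.mp hn w).mp hwR, ?_⟩
    have hnv1 : n * v * n⁻¹ ≠ 1 := fun h => hv1 (conj_eq_one_iff.mp h)
    have hst' : n ∈ stabilizer P Λ' := mem_stab_of_conj (fixedBy_eq hfix hΛ' hvD hv1) (fixedBy_eq hfix hΛ' hnv hnv1)
    exact conj_mem_fixing hst' hwD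
  · push Not at hel
    exact hcon (hl16a hP R _ _ hR16 hab inf_le_left inf_le_left hU1 hU2 (inf_bot hfix hΛ hΛ' hne R) hel hC)

theorem b3_of
    (hz8 : ∀ {S : Type u} [Group S] [Finite S] (_ : IsPGroup 2 S) (t : S) (_ : orderOf t = 2)
      (_ : Nat.card (Subgroup.centralizer ({t} : Set S)) ≤ 8), Cfsg.SectionalPRankLE 2 4 S)
    (hz16 : ∀ {S : Type u} [Group S] [Finite S] (_ : IsPGroup 2 S) (t : S) (_ : orderOf t = 2)
      (_ : Nat.card (Subgroup.centralizer ({t} : Set S)) = 16)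
      (_ : ∃ a ∈ Subgroup.centralizer ({t} : Set S), ∃ b ∈ Subgroup.centralizer ({t} : Set S), a * b ≠ b * a),
      Cfsg.SectionalPRankLE 2 4 S)
    (hl32 : ∀ {S : Type u} [Group S] [Finite S] (_ : IsPGroup 2 S) (u : S) (_ : orderOf u = 2)
      (R U₁ U₂ : Subgroup S) (_ : Subgroup.centralizer ({u} : Set S) = R) (_ : Nat.card R = 32)
      (_ : U₁ ≤ R) (_ : U₂ ≤ R) (_ : Nat.card U₁ = 4) (_ : Nat.card U₂ = 4) (_ : U₁ ⊓ U₂ = ⊥)
      (φ₁ φ₂ : R →* DihedralGroup 4) (_ : φ₁.ker = U₁.subgroupOf R) (_ : φ₂.ker = U₂.subgroupOf R),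
      Cfsg.SectionalPRankLE 2 4 S)
    (hl16 : ∀ {S : Type u} [Group S] [Finite S] (_ : IsPGroup 2 S) (R U : Subgroup S) (_ : U ≤ R)
      (_ : Nat.card U = 4) (_ : Nat.card R = 16) (_ : ∀ r ∈ R, r ^ 2 = 1)
      (_ : ∀ u ∈ U, u ≠ 1 → Subgroup.centralizer ({u} : Set S) = R)
      (_ : ∀ n ∈ Subgroup.normalizer (R : Set S), ∀ u ∈ U, u ≠ 1 → n * u * n⁻¹ ∈ U → ∀ v ∈ U, n * v * n⁻¹ ∈ U),
      Cfsg.SectionalPRankLE 2 4 S)
    (hl16a : ∀ {S : Type u} [Group S] [Finite S] (_ : IsPGroup 2 S) (R U₁ U₂ : Subgroup S)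
      (_ : Nat.card R = 16) (_ : ∀ a ∈ R, ∀ b ∈ R, a * b = b * a) (_ : U₁ ≤ R) (_ : U₂ ≤ R)
      (_ : Nat.card U₁ = 4) (_ : Nat.card U₂ = 4) (_ : U₁ ⊓ U₂ = ⊥) (_ : ∃ r ∈ R, r ^ 2 ≠ 1)
      (_ : ∀ u ∈ U₂, orderOf u = 2 → Subgroup.centralizer ({u} : Set S) = R),
      Cfsg.SectionalPRankLE 2 4 S)
    (hd8 : ∀ {R : Type u} [Group R] [Finite R] {X : Type w} [Finite X], Nat.card X = 4 →
      ∀ (ρ : R →* Equiv.Perm X), Nat.card ρ.range = 8 → ∃ φ : R →* DihedralGroup 4, φ.ker = ρ.ker)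
    {G : Type u} {Ω : Type w} [Group G] [Finite G] [MulAction G Ω] [Finite Ω]
    (hfix : ∀ g : G, g ≠ 1 → Nat.card (fixedBy Ω g) ≤ 4) (Λ : Set Ω) (hΛ : Nat.card Λ = 4)
    (S : Sylow 2 G) (hSM : (S : Subgroup G) ≤ stabilizer G Λ)
    (u : G) (huS : u ∈ (S : Subgroup G)) (hu2 : orderOf u = 2) (huD : u ∉ fixingSubgroup G Λ)
    (g : G) (hg : g⁻¹ * u * g ∈ fixingSubgroup G Λ) : Cfsg.SectionalPRankLE 2 4 (S : Subgroup G) := by
  have hu1 : g⁻¹ * u * g ≠ 1 := by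
    intro h
    have : u = 1 := by
      have h2 : u = g * (g⁻¹ * u * g) * g⁻¹ := by group
      rw [h2, h]; group
    rw [this, orderOf_one] at hu2
    omega
  have hfu : fixedBy Ω u = g • Λ := by
    have h1 := fixedBy_eq hfix hΛ hg hu1
    have h2 : u = g * (g⁻¹ * u * g) * g⁻¹ := by group
    rw [h2, fixedBy_conj, h1]
  have hΛ' : Nat.card ↥(g • Λ) = 4 := by
    rw [← hΛ]
    exact (Nat.card_congr (Equiv.Set.image (fun x => g • x) Λ (MulAction.injective g))).symm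
  have hne : Λ ≠ g • Λ := by
    intro h
    apply huD
    rw [mem_fixing, hfu, ← h]
  refine core (P := ↥(S : Subgroup G)) (Ω := Ω) hz8 hz16 hl32 hl16 hl16a hd8 S.2 ?_ hΛ hΛ' hne ?_ ⟨u, huS⟩ ?_ ?_
  · intro p hp
    exact hfix (p : G) (fun h => hp (Subtype.ext h))
  · intro p
    exact mem_stab.mp (hSM p.2)
  · exact (Subgroup.orderOf_coe (⟨u, huS⟩ : ↥(S : Subgroup G))).symm.trans hu2
  · exact hfu

end

end Cfsg.Agent.H96.Fx.B3c
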