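import Mathlib

/-! # S3365, piece CNT: the number of conjugates of `z` moving `M` to `gMg⁻¹`. -/

set_option autoImplicit false

namespace Cfsg.Agent.H96.Fx

namespace CNT

section
variable {G : Type*} [Group G] {x y : G}

theorem semi (hx : x * x = 1) (hy : y * y = 1) (m : ℕ) :
    (x * y) ^ m * x * ((x * y) ^ m)⁻¹ = (x * y) ^ (2 * m) * x := by
  have hx' : x⁻¹ = x := inv_eq_of_mul_eq_one_left hx
  have hy' : y⁻¹ = y := inv_eq_of_mul_eq_one_left hy
  have h1 : SemiconjBy x (x * y)⁻¹ (x * y) := by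
    change x * (x * y)⁻¹ = x * y * x
    rw [mul_inv_rev, hx', hy', mul_assoc]
  have h2 := h1.pow_right m
  have h3 : x * ((x * y) ^ m)⁻¹ = (x * y) ^ m * x := by
    rw [← inv_pow]
    exact h2
  rw [mul_assoc, h3, ← mul_assoc, ← pow_add, two_mul]

theorem exists_t (hx : x * x = 1) (hy : y * y = 1) (ho : Odd (orderOf (x * y))) :
    ∃ t, IsConj x t ∧ t * x * t⁻¹ = y := by
  obtain ⟨k, hk⟩ := ho
  have hx' : x⁻¹ = x := inv_eq_of_mul_eq_one_left hx
  have h1 : (x * y) ^ (2 * k + 1) = 1 := by rw [← hk]; exact pow_orderOf_eq_one _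
  have h2 : (x * y) ^ (2 * k) * x = y := by
    have h3 : (x * y) ^ (2 * k) = (x * y)⁻¹ := by
      rw [pow_succ] at h1
      exact eq_inv_of_mul_eq_one_left h1
    rw [h3, mul_inv_rev, hx', mul_assoc, hx, mul_one]
    exact inv_eq_of_mul_eq_one_left hy
  refine ⟨(x * y) ^ k * x, ?_, ?_⟩
  · rw [isConj_iff]
    refine ⟨(x * y) ^ (k * (k + 1)), ?_⟩
    rw [semi hx hy]
    congr 1
    have : 2 * (k * (k + 1)) = (2 * k + 1) * k + k := by ring
    rw [this, pow_add, pow_mul, h1, one_pow, one_mul]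
  · have h3 : (x * y) ^ k * x * x * ((x * y) ^ k * x)⁻¹ = (x * y) ^ k * x * ((x * y) ^ k)⁻¹ := by
      rw [mul_inv_rev]
      group
    rw [h3, semi hx hy, h2]

theorem odd_of {G : Type*} [Group G] [Finite G] (M D : Subgroup G) (hDM : D ≤ M) (z : G) (hz2 : orderOf z = 2)
    (hzM : ∀ g : G, g * z * g⁻¹ ∈ M → g * z * g⁻¹ ∈ D)
    (hTI : ∀ x ∈ D, x ≠ 1 → ∀ g : G, g * x * g⁻¹ ∈ D → g ∈ M)
    (g : G) (hg : g ∉ M) (x y : G) (hx : IsConj z x) (hy : IsConj z y) (hxM : x ∈ M)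
    (hyM : g⁻¹ * y * g ∈ M) : Odd (orderOf (x * y)) := by
  have hzz : z * z = 1 := by rw [← pow_two, ← hz2]; exact pow_orderOf_eq_one z
  have hsq : ∀ w, IsConj z w → w * w = 1 := by
    intro w hw
    obtain ⟨c, rfl⟩ := isConj_iff.1 hw
    have : c * z * c⁻¹ * (c * z * c⁻¹) = c * (z * z) * c⁻¹ := by group
    rw [this, hzz]; group
  have hne : ∀ w, IsConj z w → w ≠ 1 := by
    intro w hw h
    rw [h] at hw
    have h1 : z = 1 := isConj_one_left.1 hw
    rw [h1, orderOf_one] at hz2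
    omega
  have hD : ∀ w, IsConj z w → w ∈ M → w ∈ D := by
    intro w hw hwM
    obtain ⟨c, rfl⟩ := isConj_iff.1 hw
    exact hzM c hwM
  have hx2 := hsq x hx
  have hy2 := hsq y hy
  have hx' : x⁻¹ = x := inv_eq_of_mul_eq_one_left hx2
  have hy' : y⁻¹ = y := inv_eq_of_mul_eq_one_left hy2
  by_contra hcon
  rw [Nat.not_odd_iff_even] at hcon
  obtain ⟨m, hm⟩ := hcon
  have hm0 : 0 < m := by
    have := orderOf_pos (x * y)
    omega
  set w := (x * y) ^ m with hw
  have hww : w * w = 1 := by rw [hw, ← pow_add, ← hm, pow_orderOf_eq_one]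
  have hw1 : w ≠ 1 := by
    intro h
    have := Nat.le_of_dvd hm0 (orderOf_dvd_of_pow_eq_one h)
    omega
  have hw' : w⁻¹ = w := inv_eq_of_mul_eq_one_left hww
  -- w commutes with x and y
  have hwx : w * x = x * w := by
    have h1 := semi hx2 hy2 m
    rw [← hw, two_mul, pow_add, ← hw, hww, one_mul, hw'] at h1
    calc w * x = w * x * w * w := by rw [mul_assoc (w * x), hww, mul_one]
      _ = x * w := by rw [h1]
  have hwy : w * y = y * w := by
    have h1 : w * (x * y) = (x * y) * w := by rw [hw]; exact (Commute.refl _).pow_left m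
    have h2 : y = x * (x * y) := by rw [← mul_assoc, hx2, one_mul]
    rw [h2]
    calc w * (x * (x * y)) = (w * x) * (x * y) := by simp only [mul_assoc]
      _ = x * (w * (x * y)) := by rw [hwx]; simp only [mul_assoc]
      _ = x * (x * y) * w := by rw [h1]; simp only [mul_assoc]
  have hxD := hD x hx hxM
  have hwM : w ∈ M := hTI x hxD (hne x hx) w (by rw [hwx, mul_assoc, mul_inv_cancel, mul_one]; exact hxD)
  have hyc : IsConj z (g⁻¹ * y * g) := hy.trans (isConj_iff.2 ⟨g⁻¹, by group⟩)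
  have hyD := hD _ hyc hyM
  have hwg : g⁻¹ * w * g ∈ M := by
    apply hTI _ hyD (hne _ hyc)
    have : g⁻¹ * w * g * (g⁻¹ * y * g) * (g⁻¹ * w * g)⁻¹ = g⁻¹ * (w * y * w⁻¹) * g := by group
    rw [this, hwy, mul_assoc y, mul_inv_cancel, mul_one]
    exact hyD
  -- the products `w x` and `w y` are conjugates of `z`
  have hpar : (∃ c, c * x * c⁻¹ = w * x) ∨ (∃ c, c * y * c⁻¹ = w * x) := by
    rcases Nat.even_or_odd' m with ⟨j, hj | hj⟩
    · left
      refine ⟨(x * y) ^ j, ?_⟩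
      rw [semi hx2 hy2, ← hj]
    · right
      refine ⟨(x * y) ^ (j + 1), ?_⟩
      have h1 : y = (x * y)⁻¹ * x := by rw [mul_inv_rev, hx', hy', mul_assoc, hx2, mul_one]
      have h2 : (x * y) ^ (j + 1) * y * ((x * y) ^ (j + 1))⁻¹ =
          (x * y)⁻¹ * ((x * y) ^ (j + 1) * x * ((x * y) ^ (j + 1))⁻¹) := by
        have key : ∀ (r : G) (n : ℕ), r ^ n * (r⁻¹ * x) * (r ^ n)⁻¹ = r⁻¹ * (r ^ n * x * (r ^ n)⁻¹) := by
          intro r n
          have h3 : r ^ n * r⁻¹ = r⁻¹ * r ^ n := ((Commute.refl r).inv_right.pow_left n).eq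
          rw [← mul_assoc, h3]
          simp only [mul_assoc]
        exact (congrArg (fun t => (x * y) ^ (j + 1) * t * ((x * y) ^ (j + 1))⁻¹) h1).trans (key _ _)
      rw [h2, semi hx2 hy2, ← mul_assoc]
      congr 1
      have h4 : 2 * (j + 1) = m + 1 := by omega
      rw [h4, pow_succ', inv_mul_cancel_left]
  have hwxc : IsConj z (w * x) := by
    rcases hpar with ⟨c, hc⟩ | ⟨c, hc⟩
    · exact hx.trans (isConj_iff.2 ⟨c, hc⟩)
    · exact hy.trans (isConj_iff.2 ⟨c, hc⟩)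
  have hpar2 : (∃ c, c * x * c⁻¹ = w * y) ∨ (∃ c, c * y * c⁻¹ = w * y) := by
    have hyx : (y * x) ^ m = w := by
      have h1 : y * x = (x * y)⁻¹ := by rw [mul_inv_rev, hx', hy']
      rw [h1, inv_pow, ← hw, hw']
    rcases Nat.even_or_odd' m with ⟨j, hj | hj⟩
    · right
      refine ⟨(y * x) ^ j, ?_⟩
      rw [semi hy2 hx2, ← hj, hyx]
    · left
      refine ⟨(x * y) ^ j, ?_⟩
      rw [semi hx2 hy2]
      have h1 : w = (x * y) ^ (2 * j) * (x * y) := by rw [hw, hj, pow_succ]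
      rw [h1, mul_assoc, mul_assoc x y y, hy2, mul_one]
  have hwyc : IsConj z (w * y) := by
    rcases hpar2 with ⟨c, hc⟩ | ⟨c, hc⟩
    · exact hx.trans (isConj_iff.2 ⟨c, hc⟩)
    · exact hy.trans (isConj_iff.2 ⟨c, hc⟩)
  have hwD : w ∈ D := by
    have h1 := hD _ hwxc (M.mul_mem hwM hxM)
    have h2 := D.mul_mem h1 hxD
    rwa [mul_assoc, hx2, mul_one] at h2
  have hwgD : g⁻¹ * w * g ∈ D := by
    have h0 : g⁻¹ * (w * y) * g = g⁻¹ * w * g * (g⁻¹ * y * g) := by group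
    have h1 := hD (g⁻¹ * (w * y) * g) (hwyc.trans (isConj_iff.2 ⟨g⁻¹, by group⟩))
      (by rw [h0]; exact M.mul_mem hwg hyM)
    have h2 := D.mul_mem h1 hyD
    have h3 : g⁻¹ * (w * y) * g * (g⁻¹ * y * g) = g⁻¹ * w * g := by
      have : g⁻¹ * (w * y) * g * (g⁻¹ * y * g) = g⁻¹ * w * (y * y) * g := by group
      rw [this, hy2, mul_one]
    rwa [h3] at h2
  have := hTI w hwD hw1 g⁻¹ (by rw [inv_inv]; exact hwgD)
  exact hg (by simpa using M.inv_mem this)

end

end CNT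

/-- [CNT] -/
theorem b4_count {G : Type*} [Group G] [Finite G] (M D : Subgroup G) (hDM : D ≤ M)
    (hDn : ∀ m ∈ M, ∀ d ∈ D, m * d * m⁻¹ ∈ D) (z : G) (hz2 : orderOf z = 2) (hzD : z ∈ D)
    (hzM : ∀ g : G, g * z * g⁻¹ ∈ M → g * z * g⁻¹ ∈ D)
    (hTI : ∀ x ∈ D, x ≠ 1 → ∀ g : G, g * x * g⁻¹ ∈ D → g ∈ M)
    (g : G) (hg : g ∉ M) :
    Nat.card {y : G // IsConj z y ∧ y⁻¹ * g ∈ M} = Nat.card {y : G // IsConj z y ∧ y ∈ M} := by
  classical
  haveI : Fintype G := Fintype.ofFinite G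
  haveI : Fintype (G ⧸ M) := Fintype.ofFinite _
  have hz1 : z ≠ 1 := by
    intro h
    rw [h, orderOf_one] at hz2
    omega
  have hzz : z * z = 1 := by rw [← pow_two, ← hz2]; exact pow_orderOf_eq_one z
  set k := Nat.card {y : G // IsConj z y ∧ y ∈ M} with hk
  -- the lower bound
  have low : ∀ h : G, k ≤ Nat.card {y : G // IsConj z y ∧ y⁻¹ * h ∈ M} := by
    intro h
    by_cases hh : h ∈ M
    · rw [hk]
      refine (Nat.card_congr (Equiv.subtypeEquivRight fun y => ?_)).le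
      refine and_congr_right fun _ => ?_
      rw [M.mul_mem_cancel_right hh, M.inv_mem_iff]
    · have ht : ∀ y0 : {y : G // IsConj z y ∧ y ∈ M}, ∃ t, IsConj z t ∧ t * z * t⁻¹ = h * y0 * h⁻¹ := by
        intro y0
        have hc : IsConj z (h * y0 * h⁻¹) := y0.2.1.trans (isConj_iff.2 ⟨h, rfl⟩)
        have ho := CNT.odd_of M D hDM z hz2 hzM hTI h hh z (h * y0 * h⁻¹) (IsConj.refl z) hc (hDM hzD)
          (by
            have : h⁻¹ * (h * y0 * h⁻¹) * h = y0 := by group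
            rw [this]; exact y0.2.2)
        obtain ⟨c, hc'⟩ := isConj_iff.1 hc
        have hyy : h * y0 * h⁻¹ * (h * (y0 : G) * h⁻¹) = 1 := by
          rw [← hc']
          have : c * z * c⁻¹ * (c * z * c⁻¹) = c * (z * z) * c⁻¹ := by group
          rw [this, hzz]; group
        exact CNT.exists_t hzz hyy ho
      choose t ht1 ht2 using ht
      have htM : ∀ y0, (t y0)⁻¹ * h ∈ M := by
        intro y0
        have h1 : h⁻¹ * t y0 * z * (h⁻¹ * t y0)⁻¹ = y0 := by
          have : h⁻¹ * t y0 * z * (h⁻¹ * t y0)⁻¹ = h⁻¹ * (t y0 * z * (t y0)⁻¹) * h := by group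
          rw [this, ht2]; group
        have h2 : h⁻¹ * t y0 * z * (h⁻¹ * t y0)⁻¹ ∈ D := hzM _ (by rw [h1]; exact y0.2.2)
        have h3 := M.inv_mem (hTI z hzD hz1 _ h2)
        rwa [mul_inv_rev, inv_inv] at h3
      apply Nat.card_le_card_of_injective
        (fun y0 : {y : G // IsConj z y ∧ y ∈ M} =>
          (⟨t y0, ht1 y0, htM y0⟩ : {y : G // IsConj z y ∧ y⁻¹ * h ∈ M}))
      intro a b hab
      have h1 : t a = t b := congrArg (fun w : {y : G // IsConj z y ∧ y⁻¹ * h ∈ M} => (w : G)) hab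
      have h2 := ht2 a
      rw [h1, ht2 b] at h2
      exact Subtype.ext (mul_left_cancel (mul_right_cancel h2)).symm
  -- the total number
  let Zs : Finset G := Finset.univ.filter (fun y => IsConj z y)
  have hsum := Finset.card_eq_sum_card_fiberwise (f := fun y : G => (QuotientGroup.mk y : G ⧸ M))
    (s := Zs) (t := Finset.univ) (fun _ _ => Finset.mem_coe.2 (Finset.mem_univ _))
  have hfib : ∀ h : G, (Zs.filter (fun y => (QuotientGroup.mk y : G ⧸ M) = QuotientGroup.mk h)).card =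
      Nat.card {y : G // IsConj z y ∧ y⁻¹ * h ∈ M} := by
    intro h
    rw [Nat.card_eq_fintype_card, Fintype.card_subtype]
    congr 1
    ext y
    simp only [Zs, Finset.mem_filter, Finset.mem_univ, true_and, QuotientGroup.eq]
  have htot : Zs.card ≤ ∑ _q : G ⧸ M, k := by
    rw [Finset.sum_const, Finset.card_univ, smul_eq_mul, ← Nat.card_eq_fintype_card, hk, ← Nat.card_prod]
    have h1 : Zs.card = Nat.card {y : G // IsConj z y} := by
      rw [Nat.card_eq_fintype_card, Fintype.card_subtype]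
    rw [h1]
    have hq : ∀ y : {y : G // IsConj z y}, ∃ q : G ⧸ M, q.out⁻¹ * y * q.out ∈ M := by
      intro y
      obtain ⟨c, hc⟩ := isConj_iff.1 y.2
      refine ⟨QuotientGroup.mk c, ?_⟩
      obtain ⟨m, hm⟩ := QuotientGroup.mk_out_eq_mul M c
      rw [hm, ← hc]
      have : (c * (m : G))⁻¹ * (c * z * c⁻¹) * (c * m) = (m : G)⁻¹ * z * m := by group
      rw [this]
      exact M.mul_mem (M.mul_mem (M.inv_mem m.2) (hDM hzD)) m.2
    choose q hq' using hq
    apply Nat.card_le_card_of_injective (fun y : {y : G // IsConj z y} =>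
      ((q y, (⟨(q y).out⁻¹ * y * (q y).out,
        y.2.trans (isConj_iff.2 ⟨(q y).out⁻¹, by group⟩), hq' y⟩ : {y : G // IsConj z y ∧ y ∈ M})) :
        (G ⧸ M) × {y : G // IsConj z y ∧ y ∈ M}))
    intro a b hab
    have e1 : q a = q b := congrArg Prod.fst hab
    have e2 : (q a).out⁻¹ * (a : G) * (q a).out = (q b).out⁻¹ * b * (q b).out :=
      congrArg (fun w : (G ⧸ M) × {y : G // IsConj z y ∧ y ∈ M} => (w.2 : G)) hab
    rw [e1] at e2
    exact Subtype.ext (mul_left_cancel (mul_right_cancel e2))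
  have hle : ∀ q ∈ (Finset.univ : Finset (G ⧸ M)),
      k ≤ (Zs.filter (fun y => (QuotientGroup.mk y : G ⧸ M) = q)).card := by
    intro q _
    obtain ⟨h, rfl⟩ := QuotientGroup.mk_surjective q
    rw [hfib]
    exact low h
  have heq : ∑ _q : G ⧸ M, k =
      ∑ q : G ⧸ M, (Zs.filter (fun y => (QuotientGroup.mk y : G ⧸ M) = q)).card :=
    le_antisymm (Finset.sum_le_sum hle) (by rw [← hsum]; exact htot)
  have := (Finset.sum_eq_sum_iff_of_le hle).1 heq (QuotientGroup.mk g) (Finset.mem_univ _)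
  rw [hfib] at this
  exact this.symm

end Cfsg.Agent.H96.Fx
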