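import Mathlib

/-! # S3365, piece ODD (helper37) -/

set_option autoImplicit false

namespace Cfsg.Agent.H96.Fx

namespace ODD

variable {G : Type*} [Group G]

theorem semi_pow {x r : G} (h : x * r = r⁻¹ * x) (j : ℕ) : x * r ^ j = (r ^ j)⁻¹ * x := by
  have h1 : SemiconjBy x r r⁻¹ := h
  have h2 := h1.pow_right j
  rw [← inv_pow]
  exact h2

theorem conj_pow2 {x r : G} (h : x * r = r⁻¹ * x) (j : ℕ) : IsConj x (x * r ^ (2 * j)) := by
  rw [isConj_iff]
  refine ⟨(r ^ j)⁻¹, ?_⟩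
  rw [inv_inv, ← semi_pow h j, mul_assoc, ← pow_add, two_mul]

theorem rel {x y : G} (hx : x * x = 1) (hy : y * y = 1) :
    x * (x * y) = (x * y)⁻¹ * x ∧ y * (x * y) = (x * y)⁻¹ * y := by
  have hx' : x⁻¹ = x := inv_eq_of_mul_eq_one_right hx
  have hy' : y⁻¹ = y := inv_eq_of_mul_eq_one_right hy
  constructor
  · rw [mul_inv_rev, hx', hy', ← mul_assoc, hx, one_mul, mul_assoc, hx, mul_one]
  · rw [mul_inv_rev, hx', hy', mul_assoc]

/-- the central involution of the dihedral group -/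
theorem key {x y : G} (hx : x * x = 1) (hy : y * y = 1) {k : ℕ} (hw : (x * y) ^ k * (x * y) ^ k = 1) :
    (x * (x * y) ^ k = (x * y) ^ k * x) ∧ (y * (x * y) ^ k = (x * y) ^ k * y) ∧
    ((IsConj x (x * (x * y) ^ k) ∧ IsConj y (y * (x * y) ^ k)) ∨
      (IsConj y (x * (x * y) ^ k) ∧ IsConj x (y * (x * y) ^ k))) := by
  obtain ⟨h1, h2⟩ := rel hx hy
  have hwi : ((x * y) ^ k)⁻¹ = (x * y) ^ k := inv_eq_of_mul_eq_one_right hw
  refine ⟨by rw [semi_pow h1, hwi], by rw [semi_pow h2, hwi], ?_⟩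
  rcases Nat.even_or_odd' k with ⟨j, hj | hj⟩
  · left
    rw [hj]
    exact ⟨conj_pow2 h1 j, conj_pow2 h2 j⟩
  · right
    constructor
    · have h3 : x * (x * y) ^ k = y * (x * y) ^ (2 * j) := by
        rw [hj, pow_succ', ← mul_assoc, ← mul_assoc, hx, one_mul]
      rw [h3]
      exact conj_pow2 h2 j
    · -- `y w = y w⁻¹ = x r^(-2j)`
      have h4 : y * (x * y) ^ k = (x * y) ^ k * y := by rw [semi_pow h2, hwi]
      have hyi : y⁻¹ = y := inv_eq_of_mul_eq_one_right hy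
      have h5 : (x * y) ^ k * y = (x * y) ^ (2 * j) * x := by
        rw [hj, pow_succ, mul_assoc, mul_assoc, hy, mul_one]
      rw [h4, h5, isConj_iff]
      refine ⟨(x * y) ^ j, ?_⟩
      have h6 := semi_pow h1 j
      have h7 : x * ((x * y) ^ j)⁻¹ = (x * y) ^ j * x := by
        rw [mul_inv_eq_iff_eq_mul, mul_assoc, h6, mul_inv_cancel_left]
      rw [mul_assoc, h7, ← mul_assoc, ← pow_add, two_mul]

end ODD

/-- [ODD] -/
theorem b4_odd {G : Type*} [Group G] [Finite G] (M D : Subgroup G) (hDM : D ≤ M)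
    (hDn : ∀ m ∈ M, ∀ d ∈ D, m * d * m⁻¹ ∈ D) (z : G) (hz2 : orderOf z = 2)
    (hzM : ∀ g : G, g * z * g⁻¹ ∈ M → g * z * g⁻¹ ∈ D)
    (hTI : ∀ x ∈ D, x ≠ 1 → ∀ g : G, g * x * g⁻¹ ∈ D → g ∈ M)
    (g : G) (hg : g ∉ M) (x y : G) (hx : IsConj z x) (hy : IsConj z y) (hxM : x ∈ M) (hyM : g⁻¹ * y * g ∈ M) :
    Odd (orderOf (x * y)) := by
  by_contra hcon
  rw [Nat.not_odd_iff_even] at hcon
  obtain ⟨k, hk⟩ := hcon
  have hzz : z * z = 1 := by rw [← pow_two, ← hz2]; exact pow_orderOf_eq_one z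
  have hz1 : z ≠ 1 := by
    rintro rfl
    rw [orderOf_one] at hz2
    omega
  have hconjD : ∀ v, IsConj z v → v ∈ M → v ∈ D := by
    intro v hv hvM
    obtain ⟨c, hc⟩ := isConj_iff.1 hv
    rw [← hc] at hvM ⊢
    exact hzM c hvM
  have hinv : ∀ v, IsConj z v → v * v = 1 := by
    intro v hv
    obtain ⟨c, hc⟩ := isConj_iff.1 hv
    rw [← hc]
    calc c * z * c⁻¹ * (c * z * c⁻¹) = c * (z * z) * c⁻¹ := by group
      _ = 1 := by rw [hzz]; group
  have hne : ∀ v, IsConj z v → v ≠ 1 := by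
    intro v hv h1
    rw [h1] at hv
    exact hz1 (isConj_one_left.1 hv)
  have hpos : 0 < orderOf (x * y) := orderOf_pos _
  have hw2 : (x * y) ^ k * (x * y) ^ k = 1 := by
    rw [← pow_add, ← hk]; exact pow_orderOf_eq_one _
  have hw1 : (x * y) ^ k ≠ 1 := by
    intro h
    have := orderOf_dvd_of_pow_eq_one h
    have := Nat.le_of_dvd (by omega) this
    omega
  obtain ⟨hxw, hyw, hcase⟩ := ODD.key (hinv x hx) (hinv y hy) hw2
  generalize (x * y) ^ k = w at *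
  -- conjugates by `g`
  have hy' : IsConj z (g⁻¹ * y * g) := hy.trans (isConj_iff.2 ⟨g⁻¹, by rw [inv_inv]⟩)
  have hxD := hconjD x hx hxM
  have hyD := hconjD _ hy' hyM
  have hwM : w ∈ M := by
    apply hTI x hxD (hne x hx) w
    rw [← hxw, mul_inv_cancel_right]
    exact hxD
  have hw'M : g⁻¹ * w * g ∈ M := by
    apply hTI _ hyD (hne _ hy') (g⁻¹ * w * g)
    have : g⁻¹ * w * g * (g⁻¹ * y * g) * (g⁻¹ * w * g)⁻¹ = g⁻¹ * y * g := by
      calc g⁻¹ * w * g * (g⁻¹ * y * g) * (g⁻¹ * w * g)⁻¹ = g⁻¹ * (w * y) * w⁻¹ * g := by group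
        _ = g⁻¹ * y * g := by rw [← hyw]; group
    rw [this]
    exact hyD
  have hxwc : IsConj z (x * w) := by
    rcases hcase with ⟨h, -⟩ | ⟨h, -⟩
    · exact hx.trans h
    · exact hy.trans h
  have hywc : IsConj z (y * w) := by
    rcases hcase with ⟨-, h⟩ | ⟨-, h⟩
    · exact hy.trans h
    · exact hx.trans h
  have hywc' : IsConj z (g⁻¹ * (y * w) * g) := hywc.trans (isConj_iff.2 ⟨g⁻¹, by rw [inv_inv]⟩)
  have h1 : x * w ∈ D := hconjD _ hxwc (mul_mem hxM hwM)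
  have hwD : w ∈ D := by
    have := mul_mem (inv_mem hxD) h1
    rwa [inv_mul_cancel_left] at this
  have e1 : g⁻¹ * (y * w) * g = (g⁻¹ * y * g) * (g⁻¹ * w * g) := by group
  have h2 : g⁻¹ * (y * w) * g ∈ D := by
    apply hconjD _ hywc'
    rw [e1]
    exact mul_mem hyM hw'M
  have hw'D : g⁻¹ * w * g ∈ D := by
    rw [e1] at h2
    have := mul_mem (inv_mem hyD) h2
    rwa [inv_mul_cancel_left] at this
  have h3 := hTI w hwD hw1 g⁻¹ (by rw [inv_inv]; exact hw'D)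
  exact hg (inv_mem_iff.1 h3)

end Cfsg.Agent.H96.Fx
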