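import Mathlib
import Cfsg.Prelude
import Cfsg.Agent.S0215
import Cfsg.Agent.S0216
import Cfsg.Agent.H96.Fx.ODD
import Cfsg.Agent.H96.Fx.CNT

set_option autoImplicit false
set_option linter.all false

namespace Cfsg.Agent.H96.Fx

namespace B4M

open Subgroup

variable {G : Type*} [Group G] [Finite G]

/-- 2-elements of `M` are `M`-conjugate into `S` -/
theorem into_S (M : Subgroup G) (S : Sylow 2 G) (hSM : (S : Subgroup G) ≤ M) {u : G} (huM : u ∈ M) (hu : u * u = 1) :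
    ∃ m ∈ M, m * u * m⁻¹ ∈ (S : Subgroup G) := by
  haveI : Fact (Nat.Prime 2) := ⟨Nat.prime_two⟩
  set S' : Sylow 2 M := S.subtype hSM with hS'
  have hp : IsPGroup 2 (Subgroup.zpowers (⟨u, huM⟩ : M)) := by
    rw [IsPGroup.iff_card]
    have h1 : orderOf (⟨u, huM⟩ : M) ∣ 2 := by
      apply orderOf_dvd_of_pow_eq_one
      apply Subtype.ext
      simpa [pow_two] using hu
    rw [Nat.card_zpowers]
    rcases (Nat.dvd_prime Nat.prime_two).1 h1 with h2 | h2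
    · exact ⟨0, by rw [h2]; rfl⟩
    · exact ⟨1, by rw [h2]; rfl⟩
  obtain ⟨P, hP⟩ := hp.exists_le_sylow
  obtain ⟨m, hm⟩ := MulAction.exists_smul_eq M P S'
  refine ⟨m, m.2, ?_⟩
  have h1 : (⟨u, huM⟩ : M) ∈ P := hP (Subgroup.mem_zpowers _)
  have h2 : m * ⟨u, huM⟩ * m⁻¹ ∈ ((m • P : Sylow 2 M) : Subgroup M) := ⟨⟨u, huM⟩, h1, rfl⟩
  rw [hm] at h2
  exact h2

variable (M D : Subgroup G) (hDM : D ≤ M)
    (hDn : ∀ m ∈ M, ∀ d ∈ D, m * d * m⁻¹ ∈ D) (S : Sylow 2 G) (hSM : (S : Subgroup G) ≤ M)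
    (hTI : ∀ x ∈ D, x ≠ 1 → ∀ g : G, g * x * g⁻¹ ∈ D → g ∈ M)
    (hsc : ∀ x ∈ (S : Subgroup G), x ∈ D → ∀ g : G, g * x * g⁻¹ ∈ (S : Subgroup G) → g * x * g⁻¹ ∈ D)

include hDM hDn hSM hsc

theorem lemB {u k : G} (huM : u ∈ M) (hu : u * u = 1) (hk : k * u * k⁻¹ ∈ D) : u ∈ D := by
  have hk2 : (k * u * k⁻¹) * (k * u * k⁻¹) = 1 := by
    have : (k * u * k⁻¹) * (k * u * k⁻¹) = k * (u * u) * k⁻¹ := by group
    rw [this, hu]; group
  obtain ⟨m1, hm1, h1⟩ := into_S M S hSM (hDM hk) hk2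
  obtain ⟨m2, hm2, h2⟩ := into_S M S hSM huM hu
  have h3 := hsc _ h1 (hDn m1 hm1 _ hk) (m2 * k⁻¹ * m1⁻¹) (by
    have : m2 * k⁻¹ * m1⁻¹ * (m1 * (k * u * k⁻¹) * m1⁻¹) * (m2 * k⁻¹ * m1⁻¹)⁻¹ = m2 * u * m2⁻¹ := by group
    rw [this]; exact h2)
  have h4 : m2 * k⁻¹ * m1⁻¹ * (m1 * (k * u * k⁻¹) * m1⁻¹) * (m2 * k⁻¹ * m1⁻¹)⁻¹ = m2 * u * m2⁻¹ := by group
  rw [h4] at h3
  have h5 := hDn m2⁻¹ (inv_mem hm2) _ h3
  have h6 : m2⁻¹ * (m2 * u * m2⁻¹) * m2⁻¹⁻¹ = u := by group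
  rw [h6] at h5; exact h5

include hTI

theorem lemC {u c : G} (hc : c ∉ M) (huM : u ∈ M) (hu : u * u = 1) (hcu : c⁻¹ * u * c ∈ D) : u = 1 := by
  by_contra hne
  have h1 : u ∈ D := lemB M D hDM hDn S hSM hsc huM hu (k := c⁻¹) (by rw [inv_inv]; exact hcu)
  exact hc (by
    have := hTI u h1 hne c⁻¹ (by rw [inv_inv]; exact hcu)
    simpa using inv_mem this)

theorem lemD (hODD : ∀ (z : G), orderOf z = 2 → (∀ g : G, g * z * g⁻¹ ∈ M → g * z * g⁻¹ ∈ D) →
      ∀ g ∉ M, ∀ x y : G, IsConj z x → IsConj z y → x ∈ M → g⁻¹ * y * g ∈ M → Odd (orderOf (x * y)))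
    {z : G} (hz2 : orderOf z = 2) (hzD : z ∈ D) (hzM : ∀ g : G, g * z * g⁻¹ ∈ M → g * z * g⁻¹ ∈ D)
    {x x' : G} (hx : IsConj z x) (hx' : IsConj z x') (hxM : x ∉ M) (hxx : x * x' ∈ M) : Odd (orderOf (x * x')) := by
  obtain ⟨c, hc⟩ := isConj_iff.1 hx
  obtain ⟨c', hc'⟩ := isConj_iff.1 hx'
  have hcM : c ∉ M := by
    intro h
    apply hxM
    rw [← hc]
    exact hDM (hDn c h z hzD)
  by_cases hcc : c⁻¹ * c' ∈ M
  · -- both in c D c⁻¹
    have h1 : c⁻¹ * x * c ∈ D := by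
      have : c⁻¹ * x * c = z := by rw [← hc]; group
      rw [this]; exact hzD
    have h2 : c⁻¹ * x' * c ∈ D := by
      have : c⁻¹ * x' * c = (c⁻¹ * c') * z * (c⁻¹ * c')⁻¹ := by rw [← hc']; group
      rw [this]; exact hDn _ hcc z hzD
    have h3 : c⁻¹ * (x * x') * c ∈ D := by
      have : c⁻¹ * (x * x') * c = (c⁻¹ * x * c) * (c⁻¹ * x' * c) := by group
      rw [this]; exact mul_mem h1 h2
    by_contra hodd
    rw [Nat.not_odd_iff_even] at hodd
    obtain ⟨k, hk⟩ := hodd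
    have hpos := orderOf_pos (x * x')
    set u := (x * x') ^ k with hu
    have hu2 : u * u = 1 := by rw [hu, ← pow_add, ← hk, pow_orderOf_eq_one]
    have hu1 : u ≠ 1 := by
      intro h
      have := Nat.le_of_dvd (by omega) (orderOf_dvd_of_pow_eq_one h)
      omega
    apply hu1
    refine lemC M D hDM hDn S hSM hTI hsc hcM (pow_mem hxx k) hu2 ?_
    have : c⁻¹ * u * c = (c⁻¹ * (x * x') * c) ^ k := by
      rw [hu]
      have := conj_pow (i := k) (a := c⁻¹) (b := x * x')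
      rw [inv_inv] at this
      exact this.symm
    rw [this]; exact pow_mem h3 k
  · have h1 := hODD z hz2 hzM (c⁻¹ * c') hcc (c⁻¹ * x * c) (c⁻¹ * x' * c)
      (by have : c⁻¹ * x * c = z := by rw [← hc]; group
          rw [this])
      (isConj_iff.2 ⟨c⁻¹ * c', by rw [← hc']; group⟩)
      (by have : c⁻¹ * x * c = z := by rw [← hc]; group
          rw [this]; exact hDM hzD)
      (by have : (c⁻¹ * c')⁻¹ * (c⁻¹ * x' * c) * (c⁻¹ * c') = z := by rw [← hc']; group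
          rw [this]; exact hDM hzD)
    have h2 : c⁻¹ * x * c * (c⁻¹ * x' * c) = c⁻¹ * (x * x') * c⁻¹⁻¹ := by group
    rw [h2] at h1
    have h3 : orderOf (c⁻¹ * (x * x') * c⁻¹⁻¹) = orderOf (x * x') := by
      have := MulEquiv.orderOf_eq (MulAut.conj c⁻¹) (x * x')
      rwa [MulAut.conj_apply] at this
    rwa [h3] at h1

end B4M

theorem b4_main_aux {G : Type*} [Group G] [Finite G] [IsSimpleGroup G] (hna : ¬ IsMulCommutative G) (M D : Subgroup G) (hDM : D ≤ M)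
    (hODD : ∀ (z : G), orderOf z = 2 → (∀ g : G, g * z * g⁻¹ ∈ M → g * z * g⁻¹ ∈ D) →
      ∀ g ∉ M, ∀ x y : G, IsConj z x → IsConj z y → x ∈ M → g⁻¹ * y * g ∈ M → Odd (orderOf (x * y)))
    (hCNT : ∀ (z : G), orderOf z = 2 → z ∈ D → (∀ g : G, g * z * g⁻¹ ∈ M → g * z * g⁻¹ ∈ D) → ∀ g ∉ M,
      Nat.card {y : G // IsConj z y ∧ y⁻¹ * g ∈ M} = Nat.card {y : G // IsConj z y ∧ y ∈ M})
    (hDn : ∀ m ∈ M, ∀ d ∈ D, m * d * m⁻¹ ∈ D) (S : Sylow 2 G) (hSM : (S : Subgroup G) ≤ M)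
    (hpD : 2 ∣ Nat.card D) (hTI : ∀ x ∈ D, x ≠ 1 → ∀ g : G, g * x * g⁻¹ ∈ D → g ∈ M)
    (hsc : ∀ x ∈ (S : Subgroup G), x ∈ D → ∀ g : G, g * x * g⁻¹ ∈ (S : Subgroup G) → g * x * g⁻¹ ∈ D)
    (hO : ∀ W ≤ M, (∃ v ∈ W, orderOf v = 2 ∧ v ∉ D) → ∀ N ≤ W, (∀ w ∈ W, ∀ n ∈ N, w * n * w⁻¹ ∈ N) → Odd (Nat.card N) → N ≤ D) :
    ∀ g ∉ M, ¬ 2 ∣ Nat.card ↥(M ⊓ M.map (MulAut.conj g).toMonoidHom) := by
  classical
  haveI : Fact (Nat.Prime 2) := ⟨Nat.prime_two⟩
  intro g hg hW2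
  -- the involution z
  obtain ⟨⟨d, hdD⟩, hd⟩ := exists_prime_orderOf_dvd_card' 2 hpD
  have hd' : orderOf d = 2 := by rw [← hd]; exact (Subgroup.orderOf_mk d hdD).symm
  have hdd : d * d = 1 := by rw [← pow_two, ← hd', pow_orderOf_eq_one]
  obtain ⟨m0, hm0, hm0S⟩ := B4M.into_S M S hSM (hDM hdD) hdd
  set z := m0 * d * m0⁻¹ with hz
  have hz2 : orderOf z = 2 := by
    have := MulEquiv.orderOf_eq (MulAut.conj m0) d
    rw [MulAut.conj_apply] at this
    rw [hz, this, hd']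
  have hzz : z * z = 1 := by rw [← pow_two, ← hz2, pow_orderOf_eq_one]
  have hzD : z ∈ D := hDn m0 hm0 d hdD
  have hconj2 : ∀ y, IsConj z y → y * y = 1 := by
    intro y hy
    obtain ⟨c, hc⟩ := isConj_iff.1 hy
    rw [← hc]
    have : c * z * c⁻¹ * (c * z * c⁻¹) = c * (z * z) * c⁻¹ := by group
    rw [this, hzz]; group
  have hzM : ∀ k : G, k * z * k⁻¹ ∈ M → k * z * k⁻¹ ∈ D := by
    intro k hk
    refine B4M.lemB M D hDM hDn S hSM hsc hk (hconj2 _ (isConj_iff.2 ⟨k, rfl⟩)) (k := k⁻¹) ?_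
    have : k⁻¹ * (k * z * k⁻¹) * k⁻¹⁻¹ = z := by group
    rw [this]; exact hzD
  have hcnt := hCNT z hz2 hzD hzM g hg
  haveI : Nonempty {y : G // IsConj z y ∧ y ∈ M} := ⟨⟨z, IsConj.refl z, hDM hzD⟩⟩
  have hpos : 0 < Nat.card {y : G // IsConj z y ∧ y⁻¹ * g ∈ M} := by rw [hcnt]; exact Nat.card_pos
  obtain ⟨⟨x, hx, hxg⟩⟩ := (Nat.card_pos_iff.1 hpos).1
  have hxx : x * x = 1 := hconj2 x hx
  have hxi : x⁻¹ = x := inv_eq_of_mul_eq_one_left hxx
  have hxM : x ∉ M := by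
    intro h
    apply hg
    have := mul_mem h hxg
    rwa [mul_inv_cancel_left] at this
  set W : Subgroup G := M ⊓ M.map (MulAut.conj g).toMonoidHom with hW
  have hWm : ∀ w, w ∈ W ↔ w ∈ M ∧ x * w * x ∈ M := by
    intro w
    have hxg' : x * g ∈ M := by rw [← hxi]; exact hxg
    rw [hW, Subgroup.mem_inf, Subgroup.mem_map]
    refine and_congr_right (fun _ => ?_)
    constructor
    · rintro ⟨a, ha, hab⟩
      have hab' : g * a * g⁻¹ = w := hab
      have : x * w * x = (x * g) * a * (x * g)⁻¹ := by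
        rw [← hab', mul_inv_rev, hxi]; group
      rw [this]
      exact mul_mem (mul_mem hxg' ha) (inv_mem hxg')
    · intro h
      refine ⟨(x * g)⁻¹ * (x * w * x) * (x * g), mul_mem (mul_mem (inv_mem hxg') h) hxg', ?_⟩
      change g * ((x * g)⁻¹ * (x * w * x) * (x * g)) * g⁻¹ = w
      have h1 : g * ((x * g)⁻¹ * (x * w * x) * (x * g)) * g⁻¹ = w * (x * x) := by group
      rw [h1, hxx, mul_one]
  have hWx : ∀ w ∈ W, x * w * x ∈ W := by
    intro w hw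
    rw [hWm] at hw ⊢
    refine ⟨hw.2, ?_⟩
    have : x * (x * w * x) * x = (x * x) * w * (x * x) := by group
    rw [this, hxx, one_mul, mul_one]; exact hw.1
  let K : Subgroup G :=
    { carrier := {h | h ∈ W ∨ h * x ∈ W}
      one_mem' := Or.inl (one_mem _)
      mul_mem' := by
        rintro a b (ha | ha) (hb | hb)
        · exact Or.inl (mul_mem ha hb)
        · refine Or.inr ?_
          rw [mul_assoc]; exact mul_mem ha hb
        · refine Or.inr ?_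
          have h1 := mul_mem ha (hWx b hb)
          have h2 : a * x * (x * b * x) = a * (x * x) * b * x := by group
          rw [h2, hxx, mul_one] at h1; exact h1
        · refine Or.inl ?_
          have h1 := mul_mem ha (hWx _ hb)
          have h2 : a * x * (x * (b * x) * x) = a * (x * x) * b * (x * x) := by group
          rw [h2, hxx, mul_one, mul_one] at h1; exact h1
      inv_mem' := by
        rintro a (ha | ha)
        · exact Or.inl (inv_mem ha)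
        · refine Or.inr ?_
          have h1 := hWx _ (inv_mem ha)
          rw [mul_inv_rev, hxi] at h1
          have h2 : x * (x * a⁻¹) * x = (x * x) * a⁻¹ * x := by group
          rw [h2, hxx, one_mul] at h1; exact h1 }
  have hKm : ∀ h, h ∈ K ↔ h ∈ W ∨ h * x ∈ W := fun h => Iff.rfl
  have hxK : x ∈ K := (hKm x).2 (Or.inr (by rw [hxx]; exact one_mem _))
  have hDlem : ∀ x' : G, IsConj z x' → x * x' ∈ M → Odd (orderOf (x * x')) := fun x' hx' hxx' =>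
    B4M.lemD M D hDM hDn S hSM hTI hsc hODD hz2 hzD hzM hx hx' hxM hxx'
  have hoddW : ∀ w ∈ W, Odd (orderOf (x * (w * x * w⁻¹))) := by
    intro w hw
    apply hDlem
    · obtain ⟨c, hc⟩ := isConj_iff.1 hx
      exact isConj_iff.2 ⟨w * c, by rw [← hc]; group⟩
    · have : x * (w * x * w⁻¹) = (x * w * x) * w⁻¹ := by group
      rw [this]
      exact mul_mem ((hWm _).1 (hWx w hw)).1 (inv_mem ((hWm w).1 hw).1)
  set xK : K := ⟨x, hxK⟩ with hxKdef
  have hoK : orderOf xK = 2 := by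
    rw [hxKdef, Subgroup.orderOf_mk]
    obtain ⟨c, hc⟩ := isConj_iff.1 hx
    have := MulEquiv.orderOf_eq (MulAut.conj c) z
    rw [MulAut.conj_apply, hc] at this
    rw [this, hz2]
  have hpx : IsPGroup 2 (Subgroup.zpowers xK) := by
    rw [IsPGroup.iff_card]
    exact ⟨1, by rw [Nat.card_zpowers, hoK]; rfl⟩
  obtain ⟨P, hP⟩ := hpx.exists_le_sylow
  have hxP : xK ∈ P := hP (Subgroup.mem_zpowers _)
  have hoddK : ∀ k : K, Odd (orderOf (xK * k * xK⁻¹ * k⁻¹)) := by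
    intro k
    have h0 : orderOf (xK * k * xK⁻¹ * k⁻¹) = orderOf (x * (k : G) * x⁻¹ * (k : G)⁻¹) := by
      rw [← Subgroup.orderOf_coe]; rfl
    rw [h0, hxi]
    rcases (hKm k).1 k.2 with hk | hk
    · have := hoddW _ hk
      have h2 : x * (k : G) * x * (k : G)⁻¹ = x * ((k : G) * x * (k : G)⁻¹) := by group
      rw [h2]; exact this
    · have := hoddW _ hk
      have h2 : x * ((k : G) * x * x * ((k : G) * x)⁻¹) = x * (k : G) * x * (k : G)⁻¹ := by
        rw [mul_inv_rev, hxi]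
        have : x * ((k : G) * x * x * (x * (k : G)⁻¹)) = x * (k : G) * (x * x) * x * (k : G)⁻¹ := by group
        rw [this, hxx, mul_one]
      rw [h2] at this; exact this
  obtain ⟨N, hNn, hNodd, hNc⟩ := Cfsg.Agent.S0215.result P xK hoK hxP
    ((Cfsg.Agent.S0216.result P xK hoK hxP).2 hoddK)
  -- N is trivial
  set N' := N.map K.subtype with hN'
  have hN'odd : Odd (Nat.card N') := by
    rw [hN', Subgroup.card_subtype]; exact hNodd
  have hN'K : ∀ k ∈ K, ∀ n ∈ N', k * n * k⁻¹ ∈ N' := by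
    rintro k hk n ⟨n0, hn0, rfl⟩
    exact ⟨⟨k, hk⟩ * n0 * ⟨k, hk⟩⁻¹, hNn.conj_mem n0 hn0 _, rfl⟩
  have hN'W : N' ≤ W := by
    intro n hn
    have hnK : n ∈ K := by
      obtain ⟨n0, -, rfl⟩ := hn
      exact n0.2
    have hsq : n * n ∈ W := by
      rcases (hKm n).1 hnK with h | h
      · exact mul_mem h h
      · have h1 := mul_mem h (hWx _ h)
        have h2 : n * x * (x * (n * x) * x) = n * (x * x) * n * (x * x) := by group
        rw [h2, hxx, mul_one, mul_one] at h1; exact h1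
    have hno : Odd (orderOf n) := Odd.of_dvd_nat hN'odd (Subgroup.orderOf_dvd_natCard _ hn)
    obtain ⟨j, hj⟩ := hno
    have h3 : n = (n * n) ^ (j + 1) := by
      rw [← pow_two, ← pow_mul]
      have : 2 * (j + 1) = orderOf n + 1 := by omega
      rw [this, pow_succ, pow_orderOf_eq_one, one_mul]
    rw [h3]; exact pow_mem hsq _
  have hWv : ∃ v ∈ W, orderOf v = 2 ∧ v ∉ D := by
    obtain ⟨⟨v, hvW⟩, hv⟩ := exists_prime_orderOf_dvd_card' 2 hW2
    have hv2 : orderOf v = 2 := by rw [← hv]; exact (Subgroup.orderOf_mk v hvW).symm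
    refine ⟨v, hvW, hv2, fun hvD => ?_⟩
    have hvv : v * v = 1 := by rw [← pow_two, ← hv2, pow_orderOf_eq_one]
    have hv1 : v ≠ 1 := by
      intro h
      rw [h, orderOf_one] at hv2
      exact absurd hv2 (by norm_num)
    obtain ⟨a, ha, hab⟩ := Subgroup.mem_map.1 (Subgroup.mem_inf.1 hvW).2
    have hab' : g * a * g⁻¹ = v := hab
    have haa : a * a = 1 := by
      have h1 : g * (a * a) * g⁻¹ = v * v := by rw [← hab']; group
      rw [hvv, mul_inv_eq_one] at h1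
      exact mul_left_cancel (h1.trans (mul_one g).symm)
    have haD : a ∈ D := B4M.lemB M D hDM hDn S hSM hsc ha haa (k := g) (by rw [hab']; exact hvD)
    have h2 := hTI v hvD hv1 g⁻¹ (by
      have : g⁻¹ * v * g⁻¹⁻¹ = a := by rw [← hab']; group
      rw [this]; exact haD)
    exact hg (by simpa using inv_mem h2)
  have hN'D : N' ≤ D := hO W inf_le_left hWv N' hN'W (fun w hw n hn => hN'K w ((hKm w).2 (Or.inl hw)) n hn) hN'odd
  have hN'1 : ∀ n ∈ N', n = 1 := by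
    intro n hn
    by_contra hne
    exact hxM (hTI n (hN'D hn) hne x (hN'D (hN'K x hxK n hn)))
  have hcomm : ∀ w ∈ W, x * w = w * x := by
    intro w hw
    have hwK : w ∈ K := (hKm w).2 (Or.inl hw)
    have h1 := hN'1 _ ⟨_, hNc ⟨w, hwK⟩, rfl⟩
    have h2 : x * w * x⁻¹ * w⁻¹ = 1 := h1
    rw [mul_inv_eq_one] at h2
    exact mul_inv_eq_iff_eq_mul.1 h2
  -- uniqueness
  have huniq : ∀ y : G, IsConj z y → y⁻¹ * g ∈ M → y = x := by
    intro y hy hyg
    have hyy : y * y = 1 := hconj2 y hy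
    have hwM : x * y ∈ M := by
      have h1 := mul_mem hxg (inv_mem hyg)
      have h2 : x⁻¹ * g * (y⁻¹ * g)⁻¹ = x⁻¹ * y := by group
      rw [h2, hxi] at h1; exact h1
    have hxyW : x * y ∈ W := by
      rw [hWm]
      refine ⟨hwM, ?_⟩
      have h1 : x * (x * y) * x = (x * x) * y * x := by group
      rw [h1, hxx, one_mul]
      have h2 := inv_mem hwM
      rw [mul_inv_rev, hxi, inv_eq_of_mul_eq_one_left hyy] at h2
      exact h2
    have h3 := hcomm _ hxyW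
    have h4 : (x * y) * (x * y) = 1 := by
      have h5 : x * (x * y) = y := by rw [← mul_assoc, hxx, one_mul]
      have h6 : (x * y) * x = y := by rw [← h3]; exact h5
      rw [← mul_assoc, h6, hyy]
    have h5 := hDlem y hy hwM
    obtain ⟨j, hj⟩ := h5
    have h6 : (x * y) ^ (2 * j + 1) = 1 := by rw [← hj, pow_orderOf_eq_one]
    rw [pow_succ, pow_mul, pow_two, h4, one_pow, one_mul] at h6
    have h7 : x⁻¹ = y := inv_eq_of_mul_eq_one_right h6
    rw [← h7, hxi]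
  have hone : Nat.card {y : G // IsConj z y ∧ y⁻¹ * g ∈ M} = 1 := by
    rw [Nat.card_eq_one_iff_unique]
    exact ⟨⟨fun a b => Subtype.ext ((huniq a a.2.1 a.2.2).trans (huniq b b.2.1 b.2.2).symm)⟩, ⟨⟨x, hx, hxg⟩⟩⟩
  rw [hone] at hcnt
  have hsub : Subsingleton {y : G // IsConj z y ∧ y ∈ M} := (Nat.card_eq_one_iff_unique.1 hcnt.symm).1
  have hiso : ∀ k : G, k * z * k⁻¹ ∈ S → k * z * k⁻¹ = z := by
    intro k hk
    have := hsub.elim ⟨k * z * k⁻¹, isConj_iff.2 ⟨k, rfl⟩, hSM hk⟩ ⟨z, IsConj.refl z, hDM hzD⟩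
    exact congrArg Subtype.val this
  obtain ⟨R, hRn, hRodd, hRc⟩ := Cfsg.Agent.S0215.result S z hz2 hm0S hiso
  rcases hRn.eq_bot_or_eq_top with h | h
  · have hzc : z ∈ Subgroup.center G := by
      rw [Subgroup.mem_center_iff]
      intro k
      have h1 := hRc k
      rw [h, Subgroup.mem_bot, mul_inv_eq_one] at h1
      exact (mul_inv_eq_iff_eq_mul.1 h1).symm
    have hcn : (Subgroup.center G).Normal := inferInstance
    rcases hcn.eq_bot_or_eq_top with h1 | h1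
    · rw [h1, Subgroup.mem_bot] at hzc
      rw [hzc, orderOf_one] at hz2
      exact absurd hz2 (by norm_num)
    · apply hna
      refine ⟨⟨fun a b => ?_⟩⟩
      have : a ∈ Subgroup.center G := by rw [h1]; trivial
      exact (Subgroup.mem_center_iff.1 this b).symm
  · rw [h, Subgroup.card_top] at hRodd
    have h2 : 2 ∣ Nat.card G := by rw [← hz2]; exact orderOf_dvd_natCard z
    rw [← Nat.not_even_iff_odd, even_iff_two_dvd] at hRodd
    exact hRodd h2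

/-- [B4M] -/
theorem b4_main {G : Type*} [Group G] [Finite G] [IsSimpleGroup G] (hna : ¬ IsMulCommutative G) (M D : Subgroup G) (hDM : D ≤ M)
    (hDn : ∀ m ∈ M, ∀ d ∈ D, m * d * m⁻¹ ∈ D) (S : Sylow 2 G) (hSM : (S : Subgroup G) ≤ M)
    (hpD : 2 ∣ Nat.card D) (hTI : ∀ x ∈ D, x ≠ 1 → ∀ g : G, g * x * g⁻¹ ∈ D → g ∈ M)
    (hsc : ∀ x ∈ (S : Subgroup G), x ∈ D → ∀ g : G, g * x * g⁻¹ ∈ (S : Subgroup G) → g * x * g⁻¹ ∈ D)
    (hO : ∀ W ≤ M, (∃ v ∈ W, orderOf v = 2 ∧ v ∉ D) → ∀ N ≤ W, (∀ w ∈ W, ∀ n ∈ N, w * n * w⁻¹ ∈ N) → Odd (Nat.card N) → N ≤ D) :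
    ∀ g ∉ M, ¬ 2 ∣ Nat.card ↥(M ⊓ M.map (MulAut.conj g).toMonoidHom) :=
  b4_main_aux hna M D hDM
    (fun z hz2 hzM g hg x y hx hy hxM hyM => b4_odd M D hDM hDn z hz2 hzM hTI g hg x y hx hy hxM hyM)
    (fun z hz2 hzD hzM g hg => b4_count M D hDM hDn z hz2 hzD hzM hTI g hg)
    hDn S hSM hpD hTI hsc hO

end Cfsg.Agent.H96.Fx
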