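import Mathlib
import Cfsg.Prelude

/-! # S3365, base lemmas: sets of fixed points. -/

set_option autoImplicit false
open MulAction
open scoped Pointwise

namespace Cfsg.Agent.H96.Fx

section
variable {G Ω : Type*} [Group G] [MulAction G Ω]

/-- fixed points of a conjugate -/
theorem fixedBy_conj (g w : G) : fixedBy Ω (g * w * g⁻¹) = g • fixedBy Ω w := by
  ext x
  rw [Set.mem_smul_set_iff_inv_smul_mem]
  simp only [mem_fixedBy, mul_smul]
  constructor
  · intro h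
    have := congrArg (fun y => g⁻¹ • y) h
    simpa using this
  · intro h
    rw [h]; simp

theorem mem_fixing {Λ : Set Ω} {w : G} : w ∈ fixingSubgroup G Λ ↔ Λ ⊆ fixedBy Ω w := by
  rw [mem_fixingSubgroup_iff]
  rfl

theorem mem_stab {Λ : Set Ω} {g : G} : g ∈ stabilizer G Λ ↔ g • Λ = Λ := mem_stabilizer_iff

theorem fixing_le_stab (Λ : Set Ω) : fixingSubgroup G Λ ≤ stabilizer G Λ := by
  intro w hw
  rw [mem_stab]
  rw [mem_fixingSubgroup_iff] at hw
  ext x
  constructor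
  · rintro ⟨y, hy, rfl⟩
    show w • y ∈ Λ
    rw [hw y hy]; exact hy
  · intro hx
    exact ⟨x, hx, hw x hx⟩

theorem conj_mem_fixing {Λ : Set Ω} {m d : G} (hm : m ∈ stabilizer G Λ) (hd : d ∈ fixingSubgroup G Λ) :
    m * d * m⁻¹ ∈ fixingSubgroup G Λ := by
  rw [mem_fixing] at hd ⊢
  rw [fixedBy_conj, ← mem_stab.1 hm]
  exact Set.smul_set_mono hd

/-- (D1) in fixity 4 -/
theorem fixedBy_eq [Finite Ω] (hfix : ∀ g : G, g ≠ 1 → Nat.card (fixedBy Ω g) ≤ 4) {Λ : Set Ω} (hΛ : Nat.card Λ = 4)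
    {w : G} (hw : w ∈ fixingSubgroup G Λ) (h1 : w ≠ 1) : fixedBy Ω w = Λ := by
  have h := mem_fixing.1 hw
  symm
  apply Set.eq_of_subset_of_ncard_le h
  · rw [← Nat.card_coe_set_eq, ← Nat.card_coe_set_eq, hΛ]
    exact hfix w h1

/-- if `w` and `g w g⁻¹` both have fixed point set `Λ`, then `g` stabilizes `Λ` -/
theorem mem_stab_of_conj {Λ : Set Ω} {w g : G} (h1 : fixedBy Ω w = Λ) (h2 : fixedBy Ω (g * w * g⁻¹) = Λ) :
    g ∈ stabilizer G Λ := by
  rw [fixedBy_conj, h1] at h2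
  exact mem_stab.2 h2

end

end Cfsg.Agent.H96.Fx
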