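import Mathlib
import Cfsg.Agent.H96.Fx.Base

set_option autoImplicit false
open MulAction
open scoped Pointwise commutatorElement

namespace Cfsg.Agent.H96.Fx

namespace B4O

variable {G Ω : Type*} [Group G] [MulAction G Ω]

/-- the action of the stabilizer of `Λ` on `Λ` -/
@[reducible] def act (Λ : Set Ω) : MulAction (stabilizer G Λ) Λ where
  smul m x := ⟨(m : G) • (x : Ω), by
    have h : (m : G) • (x : Ω) ∈ (m : G) • Λ := Set.smul_mem_smul_set x.2
    rwa [mem_stab.1 m.2] at h⟩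
  one_smul x := Subtype.ext (one_smul G (x : Ω))
  mul_smul m n x := Subtype.ext (mul_smul (m : G) (n : G) (x : Ω))

/-- the homomorphism to permutations of four points -/
theorem exists_hom (Λ : Set Ω) (hΛ : Nat.card Λ = 4) :
    ∃ ρ : stabilizer G Λ →* Equiv.Perm (Fin 4),
      ∀ m : stabilizer G Λ, ρ m = 1 ↔ (m : G) ∈ fixingSubgroup G Λ := by
  classical
  haveI : Finite Λ := Nat.finite_of_card_ne_zero (by rw [hΛ]; decide)
  letI := act (G := G) Λ
  let e : Λ ≃ Fin 4 := Finite.equivFinOfCardEq hΛ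
  refine ⟨(Equiv.permCongrHom e).toMonoidHom.comp (MulAction.toPermHom (stabilizer G Λ) Λ), ?_⟩
  intro m
  rw [MonoidHom.comp_apply, mem_fixingSubgroup_iff]
  constructor
  · intro h x hx
    have h1 : (MulAction.toPermHom (stabilizer G Λ) Λ) m = 1 := by
      apply (Equiv.permCongrHom e).injective
      rw [map_one]
      exact h
    have h2 := congrArg (fun σ : Equiv.Perm Λ => (σ ⟨x, hx⟩ : Ω)) h1
    exact h2
  · intro h
    have h1 : (MulAction.toPermHom (stabilizer G Λ) Λ) m = 1 := by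
      ext x
      exact h x x.2
    rw [h1, map_one]

theorem perm_fact : ∀ n v : Equiv.Perm (Fin 4), n ^ 3 = 1 → (n * (v * n⁻¹ * v⁻¹)) ^ 3 = 1 → v ^ 2 = 1 → v ≠ 1 →
    Equiv.Perm.sign v = 1 → n = 1 := by
  decide +kernel

theorem pow_three {n : Equiv.Perm (Fin 4)} {k : ℕ} (hk : Odd k) (h : n ^ k = 1) : n ^ 3 = 1 := by
  have h24 : orderOf n ∣ 24 := by
    have h := orderOf_dvd_natCard n
    rwa [Nat.card_eq_fintype_card, Fintype.card_perm, Fintype.card_fin] at h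
  have ho : Odd (orderOf n) := Odd.of_dvd_nat hk (orderOf_dvd_of_pow_eq_one h)
  have hc : Nat.Coprime (orderOf n) 8 := by
    have : Nat.Coprime (orderOf n) 2 := Nat.Coprime.symm (Nat.coprime_two_left.2 ho)
    exact Nat.Coprime.pow_right 3 this
  exact orderOf_dvd_iff_pow_eq_one.1 (hc.dvd_of_dvd_mul_left (by simpa using h24 : orderOf n ∣ 8 * 3))

end B4O

open B4O

variable {G Ω : Type*} [Group G] [Finite G] [MulAction G Ω] [Finite Ω]

/-- [B4O], with the conclusion of `ctrl` as a hypothesis -/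
theorem b4_O_core (Λ : Set Ω) (hΛ : Nat.card Λ = 4)
    (S : Sylow 2 G) (hSM : (S : Subgroup G) ≤ stabilizer G Λ)
    (hctrl : ∀ χ : stabilizer G Λ →* ℤˣ, (∀ d : stabilizer G Λ, (d : G) ∈ fixingSubgroup G Λ → χ d = 1) →
      ∀ s : stabilizer G Λ, (s : G) ∈ (S : Subgroup G) → χ s = 1) :
    ∀ W ≤ stabilizer G Λ, (∃ v ∈ W, orderOf v = 2 ∧ v ∉ fixingSubgroup G Λ) →
      ∀ N ≤ W, (∀ w ∈ W, ∀ n ∈ N, w * n * w⁻¹ ∈ N) → Odd (Nat.card N) →
      N ≤ fixingSubgroup G Λ := by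
  classical
  haveI : Fact (Nat.Prime 2) := ⟨Nat.prime_two⟩
  obtain ⟨ρ, hρ⟩ := exists_hom (G := G) Λ hΛ
  have hc := hctrl ((Equiv.Perm.sign : Equiv.Perm (Fin 4) →* ℤˣ).comp ρ)
    (fun d hd => by
      rw [MonoidHom.comp_apply, (hρ d).2 hd, map_one])
  obtain ⟨χ, hχdef⟩ : ∃ χ : stabilizer G Λ →* ℤˣ, χ = (Equiv.Perm.sign : Equiv.Perm (Fin 4) →* ℤˣ).comp ρ := ⟨_, rfl⟩
  rw [← hχdef] at hc
  have hker : χ.ker = ⊤ := by
    have h1 : (S : Subgroup G).subgroupOf (stabilizer G Λ) ≤ χ.ker := by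
      intro s hs
      rw [MonoidHom.mem_ker]
      exact hc s (Subgroup.mem_subgroupOf.1 hs)
    have h2 : χ.ker.index ∣ ((S : Subgroup G).subgroupOf (stabilizer G Λ)).index := Subgroup.index_dvd_of_le h1
    have h3 : ((S : Subgroup G).subgroupOf (stabilizer G Λ)).index ∣ (S : Subgroup G).index :=
      Subgroup.relIndex_dvd_index_of_le hSM
    have h4 : ¬ 2 ∣ (S : Subgroup G).index := S.not_dvd_index
    have h5 : χ.ker.index ∣ 2 := by
      rw [Subgroup.index_ker]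
      have := Subgroup.card_subgroup_dvd_card χ.range
      have h6 : Nat.card ℤˣ = 2 := by simp
      rwa [h6] at this
    rcases (Nat.dvd_prime Nat.prime_two).1 h5 with h | h
    · exact Subgroup.index_eq_one.1 h
    · exact absurd ((dvd_of_eq h.symm).trans (h2.trans h3)) h4
  intro W hW hv N hNW hNn hNo n hn
  obtain ⟨v, hvW, hv2, hvD⟩ := hv
  have hnM : n ∈ stabilizer G Λ := hW (hNW hn)
  have hvM : v ∈ stabilizer G Λ := hW hvW
  have hn1 : n * (v * n⁻¹ * v⁻¹) ∈ N := N.mul_mem hn (hNn v hvW _ (N.inv_mem hn))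
  have hpow : ∀ x ∈ N, x ^ Nat.card N = 1 := by
    intro x hx
    exact orderOf_dvd_iff_pow_eq_one.1 (Subgroup.orderOf_dvd_natCard N hx)
  have e1 : (ρ ⟨n, hnM⟩) ^ Nat.card N = 1 := by
    rw [← map_pow]
    have : (⟨n, hnM⟩ : stabilizer G Λ) ^ Nat.card N = 1 := by
      apply Subtype.ext
      exact hpow n hn
    rw [this, map_one]
  have e2 : (ρ ⟨n, hnM⟩ * (ρ ⟨v, hvM⟩ * (ρ ⟨n, hnM⟩)⁻¹ * (ρ ⟨v, hvM⟩)⁻¹)) ^ Nat.card N = 1 := by
    rw [← map_inv, ← map_inv, ← map_mul, ← map_mul, ← map_mul, ← map_pow]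
    have : ((⟨n, hnM⟩ : stabilizer G Λ) * (⟨v, hvM⟩ * (⟨n, hnM⟩ : stabilizer G Λ)⁻¹ * (⟨v, hvM⟩ : stabilizer G Λ)⁻¹)) ^
        Nat.card N = 1 := by
      apply Subtype.ext
      exact hpow _ hn1
    rw [this, map_one]
  have e3 : (ρ ⟨v, hvM⟩) ^ 2 = 1 := by
    rw [← map_pow]
    have : (⟨v, hvM⟩ : stabilizer G Λ) ^ 2 = 1 := by
      apply Subtype.ext
      show v ^ 2 = 1
      rw [← hv2]
      exact pow_orderOf_eq_one v
    rw [this, map_one]
  have e4 : ρ ⟨v, hvM⟩ ≠ 1 := fun h => hvD ((hρ ⟨v, hvM⟩).1 h)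
  have e5 : Equiv.Perm.sign (ρ ⟨v, hvM⟩) = 1 := by
    have : (⟨v, hvM⟩ : stabilizer G Λ) ∈ χ.ker := by rw [hker]; trivial
    rw [MonoidHom.mem_ker, hχdef] at this
    exact this
  exact (hρ ⟨n, hnM⟩).1 (perm_fact _ _ (pow_three hNo e1) (pow_three hNo e2) e3 e4 e5)

end Cfsg.Agent.H96.Fx
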