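import Mathlib
import Cfsg.Prelude

/-! # S3365 [CF], part 1: transfer with a section; helper9 -/

set_option autoImplicit false
open MulAction
open scoped Pointwise

namespace Cfsg.Agent.H96.Fx
namespace CF

section trans
variable {G : Type*} [Group G]

theorem mem_c {M : Subgroup G} {τ : G ⧸ M → G} (hτ : ∀ x, ((τ x : G) : G ⧸ M) = x) (g : G) (x : G ⧸ M) :
    (τ (g • x))⁻¹ * (g * τ x) ∈ M := by
  rw [← QuotientGroup.eq, hτ]
  conv_lhs => rw [← hτ x]
  rfl

theorem V_one [Finite G] (hperf : commutator G = ⊤) {A : Type*} [CommGroup A] (M : Subgroup G) [Fintype (G ⧸ M)]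
    (χ : M →* A) (τ : G ⧸ M → G) (hτ : ∀ x, ((τ x : G) : G ⧸ M) = x) (g : G) :
    ∏ x : G ⧸ M, χ ⟨(τ (g • x))⁻¹ * (g * τ x), mem_c hτ g x⟩ = 1 := by
  let V : G →* A :=
    { toFun := fun g => ∏ x : G ⧸ M, χ ⟨(τ (g • x))⁻¹ * (g * τ x), mem_c hτ g x⟩
      map_one' := by
        apply Finset.prod_eq_one
        intro x _
        have : (⟨(τ ((1 : G) • x))⁻¹ * (1 * τ x), mem_c hτ 1 x⟩ : M) = 1 := by
          apply Subtype.ext
          simp
        rw [this, map_one]
      map_mul' := by
        intro g h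
        have h1 : ∀ x : G ⧸ M, χ ⟨(τ ((g * h) • x))⁻¹ * ((g * h) * τ x), mem_c hτ (g * h) x⟩ =
            χ ⟨(τ (g • (h • x)))⁻¹ * (g * τ (h • x)), mem_c hτ g (h • x)⟩ *
              χ ⟨(τ (h • x))⁻¹ * (h * τ x), mem_c hτ h x⟩ := by
          intro x
          rw [← map_mul]
          congr 1
          apply Subtype.ext
          simp only [Subgroup.coe_mul, mul_smul]
          group
        simp only [h1]
        rw [Finset.prod_mul_distrib]
        congr 1
        exact (Equiv.prod_comp (MulAction.toPerm h : Equiv.Perm (G ⧸ M))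
          (fun y => χ ⟨(τ (g • y))⁻¹ * (g * τ y), mem_c hτ g y⟩)) }
  have hV : V g = 1 := by
    have : commutator G ≤ V.ker := Abelianization.commutator_subset_ker V
    rw [hperf] at this
    exact this (Subgroup.mem_top g)
  exact hV

/-- a section compatible with a freely acting element -/
theorem exists_section (M : Subgroup G) (z : G) (x₀ : G ⧸ M)
    (hfree : ∀ w ∈ Subgroup.zpowers z, w ≠ 1 → ∀ x : G ⧸ M, x ≠ x₀ → w • x ≠ x) (hz0 : z • x₀ = x₀) :
    ∃ τ : G ⧸ M → G, (∀ x, ((τ x : G) : G ⧸ M) = x) ∧ ∀ x, x ≠ x₀ → τ (z • x) = z * τ x := by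
  classical
  let r : G ⧸ M → G ⧸ M := fun x => (Quotient.mk (orbitRel (Subgroup.zpowers z) (G ⧸ M)) x).out
  have hr : ∀ x, ∃ h : Subgroup.zpowers z, h • r x = x := by
    intro x
    have h1 : (orbitRel (Subgroup.zpowers z) (G ⧸ M)) (r x) x := Quotient.mk_out x
    rw [orbitRel_apply] at h1
    obtain ⟨h, hh⟩ := h1
    refine ⟨h⁻¹, ?_⟩
    rw [inv_smul_eq_iff]
    exact hh.symm
  choose h hh using hr
  refine ⟨fun x => (h x : G) * (r x).out, ?_, ?_⟩
  · intro x
    have : (((h x : G) * (r x).out : G) : G ⧸ M) = (h x : G) • (((r x).out : G) : G ⧸ M) := rfl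
    rw [this, QuotientGroup.out_eq']
    exact hh x
  · intro x hx
    have h1 : r (z • x) = r x := by
      show (Quotient.mk (orbitRel (Subgroup.zpowers z) (G ⧸ M)) (z • x)).out = (Quotient.mk (orbitRel (Subgroup.zpowers z) (G ⧸ M)) x).out
      congr 1
      apply Quotient.sound
      show (orbitRel (Subgroup.zpowers z) (G ⧸ M)) (z • x) x
      rw [orbitRel_apply]
      exact ⟨⟨z, Subgroup.mem_zpowers z⟩, rfl⟩
    have hzx : z • x ≠ x₀ := by
      intro h2
      apply hx
      have h3 : z • x = z • x₀ := by rw [h2, hz0]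
      exact smul_left_cancel z h3
    have h2 : (h (z • x) : G) = z * h x := by
      have e1 : (h (z • x) : G) • r x = z • x := by
        have := hh (z • x)
        rw [h1] at this
        exact this
      have e2 : (z * h x : G) • r x = z • x := by
        rw [mul_smul]
        congr 1
        exact hh x
      by_contra hne
      have hw : ((h (z • x) : G) * (z * h x : G)⁻¹) ∈ Subgroup.zpowers z :=
        mul_mem (h (z • x)).2 (inv_mem (mul_mem (Subgroup.mem_zpowers z) (h x).2))
      refine hfree _ hw ?_ (z • x) hzx ?_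
      · intro h5
        exact hne (mul_inv_eq_one.1 h5)
      · rw [mul_smul, inv_smul_eq_iff.2 e2.symm]
        exact e1
    show (h (z • x) : G) * (r (z • x)).out = z * ((h x : G) * (r x).out)
    rw [h1, h2, mul_assoc]

/-- product of an invariant function of exponent `p` over a free permutation of order `p` -/
theorem prod_free {α : Type*} [Fintype α] (p : ℕ) [Fact p.Prime] {A : Type*} [CommGroup A] (f : α → A) (σ : α → α)
    (hσ : ∀ x, σ^[p] x = x) (hfix : ∀ x, σ x ≠ x) (hf : ∀ x, f (σ x) = f x) (hp : ∀ x, f x ^ p = 1) :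
    ∏ x, f x = 1 := by
  classical
  have h1 : ∏ x, f x = ∏ b ∈ Finset.univ.image f, b ^ (Finset.univ.filter (fun a => f a = b)).card :=
    Finset.prod_comp (s := Finset.univ) (fun b => b) f
  rw [h1]
  apply Finset.prod_eq_one
  intro b hb
  obtain ⟨x, _, rfl⟩ := Finset.mem_image.1 hb
  have hd : p ∣ (Finset.univ.filter (fun a => f a = f x)).card := by
    let β := {a : α // f a = f x}
    let s : Function.End β := fun a => ⟨σ a.1, by rw [hf, a.2]⟩
    have hs : s ^ p ^ 1 = 1 := by
      funext a
      have h2 : ∀ n : ℕ, ∀ a : β, (((s ^ n : Function.End β) a : β) : α) = σ^[n] a.1 := by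
        intro n
        induction n with
        | zero => intro a; rfl
        | succ n ih =>
          intro a
          rw [pow_succ, Function.iterate_succ_apply]
          show (((s ^ n : Function.End β) (s a) : β) : α) = _
          rw [ih]
      apply Subtype.ext
      rw [pow_one, h2, hσ]
      rfl
    have h3 := Equiv.Perm.card_fixedPoints_modEq (p := p) (n := 1) hs
    have h4 : Fintype.card (Function.fixedPoints s) = 0 := by
      rw [Fintype.card_eq_zero_iff]
      refine ⟨fun a => ?_⟩
      exact hfix a.1.1 (congrArg Subtype.val a.2)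
    rw [h4] at h3
    have h5 : Fintype.card β = (Finset.univ.filter (fun a => f a = f x)).card := Fintype.card_subtype _
    rw [← h5]
    exact (Nat.modEq_zero_iff_dvd).1 h3
  obtain ⟨k, hk⟩ := hd
  rw [hk, pow_mul, hp, one_pow]

end trans

end CF
end Cfsg.Agent.H96.Fx
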