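import Mathlib
import Cfsg.Prelude
import Cfsg.Agent.H96.Fx.CF1

/-! # S3365 [CF]: control of fusion / transfer; helper9 -/

set_option autoImplicit false
open MulAction
open scoped Pointwise

namespace Cfsg.Agent.H96.Fx
namespace CF

theorem key (p : ℕ) [Fact p.Prime] {G : Type*} [Group G] [Finite G] (hperf : commutator G = ⊤)
    (M : Subgroup G) (z s : G) (hz : orderOf z = p) (hzM : z ∈ M) (hs : s ∈ M) (hc : z * s = s * z)
    (hfree : ∀ w ∈ Subgroup.zpowers z, w ≠ 1 → ∀ g : G, g⁻¹ * w * g ∈ M → g ∈ M)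
    {A : Type*} [CommGroup A] (χ : M →* A) (hA : ∀ m : M, χ m ^ p = 1) : χ ⟨s, hs⟩ = 1 := by
  classical
  let _ : Fintype (G ⧸ M) := Fintype.ofFinite _
  let x₀ : G ⧸ M := ((1 : G) : G ⧸ M)
  have hfix0 : ∀ m ∈ M, m • x₀ = x₀ := by
    intro m hm
    show ((m * 1 : G) : G ⧸ M) = ((1 : G) : G ⧸ M)
    rw [QuotientGroup.eq]
    simpa using hm
  have hfree' : ∀ w ∈ Subgroup.zpowers z, w ≠ 1 → ∀ x : G ⧸ M, x ≠ x₀ → w • x ≠ x := by
    intro w hw hw1 x hx h
    induction x using QuotientGroup.induction_on with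
    | H g =>
      apply hx
      have h1 : ((w * g : G) : G ⧸ M) = (g : G ⧸ M) := h
      rw [eq_comm, QuotientGroup.eq] at h1
      have h2 : g ∈ M := hfree w hw hw1 g (by rw [mul_assoc]; exact h1)
      show (g : G ⧸ M) = ((1 : G) : G ⧸ M)
      rw [QuotientGroup.eq]
      simpa using h2
  obtain ⟨τ, hτ, hτz⟩ := exists_section M z x₀ hfree' (hfix0 z hzM)
  have hV := V_one hperf M χ τ hτ s
  rw [Fintype.prod_eq_mul_prod_subtype_ne _ x₀] at hV
  have hz1 : z ≠ 1 := by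
    intro h
    rw [h, orderOf_one] at hz
    exact (Fact.out : p.Prime).one_lt.ne hz
  have hne : ∀ g ∈ M, ∀ x : G ⧸ M, x ≠ x₀ → g • x ≠ x₀ := by
    intro g hg x hx h
    apply hx
    have : g • x = g • x₀ := by rw [h, hfix0 g hg]
    exact smul_left_cancel g this
  have h2 : ∏ i : {x : G ⧸ M // x ≠ x₀}, χ ⟨(τ (s • i.1))⁻¹ * (s * τ i.1), mem_c hτ s i.1⟩ = 1 := by
    refine prod_free p (fun i : {x : G ⧸ M // x ≠ x₀} => χ ⟨(τ (s • i.1))⁻¹ * (s * τ i.1), mem_c hτ s i.1⟩)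
      (fun i => ⟨z • i.1, hne z hzM i.1 i.2⟩) ?_ ?_ ?_ ?_
    · intro x
      have h3 : ∀ n : ℕ, ((((fun i : {x : G ⧸ M // x ≠ x₀} => (⟨z • i.1, hne z hzM i.1 i.2⟩ : {x : G ⧸ M // x ≠ x₀}))^[n] x)) : G ⧸ M) = z ^ n • x.1 := by
        intro n
        induction n with
        | zero => simp
        | succ n ih =>
          rw [Function.iterate_succ_apply', pow_succ', mul_smul, ← ih]
      apply Subtype.ext
      rw [h3, ← hz, pow_orderOf_eq_one, one_smul]
    · intro x h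
      exact hfree' z (Subgroup.mem_zpowers z) hz1 x.1 x.2 (congrArg Subtype.val h)
    · intro x
      show χ ⟨(τ (s • (z • x.1)))⁻¹ * (s * τ (z • x.1)), _⟩ = χ ⟨(τ (s • x.1))⁻¹ * (s * τ x.1), _⟩
      congr 1
      apply Subtype.ext
      show (τ (s • (z • x.1)))⁻¹ * (s * τ (z • x.1)) = (τ (s • x.1))⁻¹ * (s * τ x.1)
      have e1 : s • (z • x.1) = z • (s • x.1) := by
        rw [← mul_smul, ← mul_smul, hc]
      rw [e1, hτz (s • x.1) (hne s hs x.1 x.2), hτz x.1 x.2, mul_inv_rev]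
      calc (τ (s • x.1))⁻¹ * z⁻¹ * (s * (z * τ x.1)) = (τ (s • x.1))⁻¹ * z⁻¹ * ((s * z) * τ x.1) := by group
        _ = (τ (s • x.1))⁻¹ * z⁻¹ * ((z * s) * τ x.1) := by rw [hc]
        _ = (τ (s • x.1))⁻¹ * (s * τ x.1) := by group
    · intro x
      exact hA _
  rw [h2, mul_one] at hV
  rw [← hV]
  have hm : τ x₀ ∈ M := by
    have := hτ x₀
    have h3 : ((τ x₀ : G) : G ⧸ M) = ((1 : G) : G ⧸ M) := this
    rw [eq_comm, QuotientGroup.eq] at h3
    simpa using h3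
  have h4 : (⟨(τ (s • x₀))⁻¹ * (s * τ x₀), mem_c hτ s x₀⟩ : M) = (⟨τ x₀, hm⟩ : M)⁻¹ * ⟨s, hs⟩ * ⟨τ x₀, hm⟩ := by
    apply Subtype.ext
    show (τ (s • x₀))⁻¹ * (s * τ x₀) = (τ x₀)⁻¹ * s * τ x₀
    rw [hfix0 s hs]
    group
  rw [h4, map_mul, map_mul, map_inv, mul_comm (χ ⟨τ x₀, hm⟩)⁻¹, inv_mul_cancel_right]

/-- conjugating `p`-elements of `M` into a Sylow subgroup contained in `M` -/
theorem conjS (p : ℕ) [Fact p.Prime] {G : Type*} [Group G] [Finite G] (M : Subgroup G) (S : Sylow p G)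
    (hSM : (S : Subgroup G) ≤ M) (m : G) (hm : m ∈ M) (hk : ∃ k : ℕ, m ^ p ^ k = 1) :
    ∃ u ∈ M, u⁻¹ * m * u ∈ (S : Subgroup G) := by
  obtain ⟨k, hk⟩ := hk
  let m' : M := ⟨m, hm⟩
  have hP : IsPGroup p (Subgroup.zpowers m') := by
    have : IsPGroup p (Subgroup.zpowers m) := by
      rintro ⟨x, n, rfl⟩
      refine ⟨k, ?_⟩
      apply Subtype.ext
      show (m ^ n) ^ p ^ k = 1
      rw [← zpow_natCast, ← zpow_mul, mul_comm, zpow_mul, zpow_natCast, hk, one_zpow]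
    rintro ⟨x, n, rfl⟩
    refine ⟨k, ?_⟩
    apply Subtype.ext
    apply Subtype.ext
    show (m ^ n) ^ p ^ k = 1
    rw [← zpow_natCast, ← zpow_mul, mul_comm, zpow_mul, zpow_natCast, hk, one_zpow]
  obtain ⟨Q, hQ⟩ := hP.exists_le_sylow
  obtain ⟨g, hg⟩ := MulAction.exists_smul_eq M Q (S.subtype hSM)
  refine ⟨(g : G)⁻¹, inv_mem g.2, ?_⟩
  have h1 : m' ∈ (Q : Subgroup M) := hQ (Subgroup.mem_zpowers m')
  have h2 : g * m' * g⁻¹ ∈ ((g • Q : Sylow p M) : Subgroup M) := by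
    rw [Sylow.coe_subgroup_smul]
    exact Subgroup.smul_mem_pointwise_smul _ (MulAut.conj g) _ h1
  rw [hg] at h2
  have h3 : ((g * m' * g⁻¹ : M) : G) ∈ (S : Subgroup G) := by
    have := h2
    rw [Sylow.coe_subtype, Subgroup.mem_subgroupOf] at this
    exact this
  simpa using h3

end CF

/-- [CF] -/
theorem ctrl (p : ℕ) [Fact p.Prime] {G : Type*} [Group G] [Finite G] (hperf : commutator G = ⊤)
    (M D : Subgroup G) (hDM : D ≤ M) (hDn : ∀ m ∈ M, ∀ d ∈ D, m * d * m⁻¹ ∈ D) (S : Sylow p G)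
    (hSM : (S : Subgroup G) ≤ M) (hpD : p ∣ Nat.card D)
    (hTI : ∀ x ∈ D, x ≠ 1 → (∃ k : ℕ, x ^ p ^ k = 1) → ∀ g : G, g * x * g⁻¹ ∈ D → g ∈ M)
    (hsc : ∀ x ∈ (S : Subgroup G), x ∈ D → ∀ g : G, g * x * g⁻¹ ∈ (S : Subgroup G) → g * x * g⁻¹ ∈ D)
    {A : Type*} [CommGroup A] (χ : M →* A) (hχ : ∀ d : M, (d : G) ∈ D → χ d = 1) :
    ∀ s : M, (s : G) ∈ (S : Subgroup G) → χ s = 1 := by
  classical
  have hp : p.Prime := Fact.out
  -- an element of order p in S ∩ D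
  obtain ⟨x, hxS, hxD, hx1⟩ : ∃ x : G, x ∈ (S : Subgroup G) ∧ x ∈ D ∧ x ≠ 1 := by
    obtain ⟨d, hd⟩ := exists_prime_orderOf_dvd_card' (G := D) p hpD
    have hd' : (d : G) ^ p ^ 1 = 1 := by
      rw [pow_one, ← hd, ← Subgroup.coe_pow, pow_orderOf_eq_one]; rfl
    obtain ⟨u, hu, hus⟩ := CF.conjS p M S hSM d (hDM d.2) ⟨1, hd'⟩
    refine ⟨u⁻¹ * d * u, hus, ?_, ?_⟩
    · have := hDn u⁻¹ (inv_mem hu) d d.2
      rwa [inv_inv] at this
    · intro h
      have : (d : G) = 1 := by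
        have h2 : (d : G) = u * (u⁻¹ * d * u) * u⁻¹ := by group
        rw [h2, h]; group
      have h3 : d = 1 := Subtype.ext this
      rw [h3, orderOf_one] at hd
      exact hp.one_lt.ne hd
  -- a central element of S in D of order p
  obtain ⟨z, hzS, hzD, hzp, hzc⟩ : ∃ z : G, z ∈ (S : Subgroup G) ∧ z ∈ D ∧ orderOf z = p ∧
      ∀ s ∈ (S : Subgroup G), z * s = s * z := by
    have hN : (D.subgroupOf (S : Subgroup G)).Normal := by
      constructor
      intro n hn g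
      rw [Subgroup.mem_subgroupOf] at hn ⊢
      exact hDn g (hSM g.2) n hn
    letI : MulAction (S : Subgroup G) (D.subgroupOf (S : Subgroup G)) :=
      MulAction.compHom _ (MulAut.conjNormal : (S : Subgroup G) →* MulAut (D.subgroupOf (S : Subgroup G)))
    have hxx : (⟨x, hxS⟩ : (S : Subgroup G)) ∈ D.subgroupOf (S : Subgroup G) := by
      rw [Subgroup.mem_subgroupOf]; exact hxD
    have hpc : p ∣ Nat.card (D.subgroupOf (S : Subgroup G)) := by
      have h1 : IsPGroup p (D.subgroupOf (S : Subgroup G)) := S.isPGroup'.to_subgroup _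
      obtain ⟨n, hn⟩ := h1.exists_card_eq
      rcases Nat.eq_zero_or_pos n with h0 | h0
      · exfalso
        rw [h0, pow_zero] at hn
        have h2 : D.subgroupOf (S : Subgroup G) = ⊥ := Subgroup.card_eq_one.1 hn
        rw [h2, Subgroup.mem_bot] at hxx
        exact hx1 (congrArg Subtype.val hxx)
      · rw [hn]
        exact dvd_pow_self p h0.ne'
    obtain ⟨b, hb, hb1⟩ := S.isPGroup'.exists_fixed_point_of_prime_dvd_card_of_fixed_point
      (D.subgroupOf (S : Subgroup G)) hpc (a := 1) (by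
        intro g
        exact map_one ((MulAut.conjNormal : (S : Subgroup G) →* MulAut (D.subgroupOf (S : Subgroup G))) g))
    have hbc : ∀ s ∈ (S : Subgroup G), ((b : (S : Subgroup G)) : G) * s = s * ((b : (S : Subgroup G)) : G) := by
      intro s hs
      have h1 := hb ⟨s, hs⟩
      have h2 : ((MulAut.conjNormal : (S : Subgroup G) →* MulAut (D.subgroupOf (S : Subgroup G))) ⟨s, hs⟩ b : (S : Subgroup G)) = b :=
        congrArg Subtype.val h1
      rw [MulAut.conjNormal_apply] at h2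
      have h3 : s * ((b : (S : Subgroup G)) : G) * s⁻¹ = ((b : (S : Subgroup G)) : G) := congrArg Subtype.val h2
      rw [mul_inv_eq_iff_eq_mul] at h3
      exact h3.symm
    have hbD : ((b : (S : Subgroup G)) : G) ∈ D := b.2
    have hbn : ((b : (S : Subgroup G)) : G) ≠ 1 := by
      intro h
      apply hb1
      symm
      apply Subtype.ext
      apply Subtype.ext
      exact h
    have hbP : IsPGroup p (Subgroup.zpowers ((b : (S : Subgroup G)) : G)) := by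
      apply S.isPGroup'.to_le
      rw [Subgroup.zpowers_le]
      exact b.1.2
    obtain ⟨n, hn⟩ := hbP.exists_card_eq
    have hn0 : n ≠ 0 := by
      intro h0
      rw [h0, pow_zero] at hn
      have h2 := Subgroup.card_eq_one.1 hn
      rw [Subgroup.zpowers_eq_bot] at h2
      exact hbn h2
    obtain ⟨w, hw⟩ := exists_prime_orderOf_dvd_card' (G := Subgroup.zpowers ((b : (S : Subgroup G)) : G)) p
      (by rw [hn]; exact dvd_pow_self p hn0)
    obtain ⟨j, hj⟩ := Subgroup.mem_zpowers_iff.1 w.2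
    refine ⟨w, ?_, ?_, ?_, ?_⟩
    · rw [← hj]; exact zpow_mem b.1.2 j
    · rw [← hj]; exact zpow_mem hbD j
    · exact (Subgroup.orderOf_coe w).trans hw
    · intro s hs
      rw [← hj]
      have : Commute ((b : (S : Subgroup G)) : G) s := hbc s hs
      exact this.zpow_left j
  have hpow : ∀ s ∈ (S : Subgroup G), ∃ k : ℕ, s ^ p ^ k = 1 := by
    intro s hs
    obtain ⟨k, hk⟩ := S.isPGroup' ⟨s, hs⟩
    exact ⟨k, congrArg Subtype.val hk⟩
  have hfree : ∀ w ∈ Subgroup.zpowers z, w ≠ 1 → ∀ g : G, g⁻¹ * w * g ∈ M → g ∈ M := by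
    intro w hw hw1 g hg
    have hwS : w ∈ (S : Subgroup G) := (Subgroup.zpowers_le.2 hzS) hw
    have hwD : w ∈ D := (Subgroup.zpowers_le.2 hzD) hw
    obtain ⟨k, hk⟩ := hpow w hwS
    have hk' : (g⁻¹ * w * g) ^ p ^ k = 1 := by
      have : g⁻¹ * w * g = g⁻¹ * w * (g⁻¹)⁻¹ := by group
      rw [this, conj_pow, hk]; group
    obtain ⟨u, hu, hus⟩ := CF.conjS p M S hSM _ hg ⟨k, hk'⟩
    have e : u⁻¹ * (g⁻¹ * w * g) * u = (g * u)⁻¹ * w * ((g * u)⁻¹)⁻¹ := by group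
    rw [e] at hus
    have h1 := hsc w hwS hwD (g * u)⁻¹ hus
    have h2 := hTI w hwD hw1 ⟨k, hk⟩ (g * u)⁻¹ h1
    have h3 : g * u ∈ M := by simpa using inv_mem h2
    have h4 : g = (g * u) * u⁻¹ := by group
    rw [h4]; exact mul_mem h3 (inv_mem hu)
  -- every value on S is a p-th power of a value on M
  have step1 : ∀ s : M, (s : G) ∈ (S : Subgroup G) → ∃ m : M, χ m ^ p = χ s := by
    intro s hs
    let N : Subgroup A := (χ.range).map (powMonoidHom p)
    have h1 := CF.key p hperf M z s hzp (hDM hzD) s.2 (hzc s hs) hfree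
      ((QuotientGroup.mk' N).comp χ) (by
        intro m
        show (QuotientGroup.mk' N (χ m)) ^ p = 1
        rw [← map_pow, QuotientGroup.mk'_apply, QuotientGroup.eq_one_iff]
        exact ⟨χ m, ⟨m, rfl⟩, rfl⟩)
    have h2 : QuotientGroup.mk' N (χ s) = 1 := h1
    rw [QuotientGroup.mk'_apply, QuotientGroup.eq_one_iff] at h2
    obtain ⟨a, ⟨m, rfl⟩, ha⟩ := h2
    exact ⟨m, ha⟩
  -- ... and of a value on S
  have step2 : ∀ s : M, (s : G) ∈ (S : Subgroup G) → ∃ s' : M, (s' : G) ∈ (S : Subgroup G) ∧ χ s' ^ p = χ s := by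
    intro s hs
    obtain ⟨m, hm⟩ := step1 s hs
    obtain ⟨k, hk⟩ := hpow s hs
    -- decompose the order of m
    obtain ⟨a, r, hr, har⟩ := Nat.exists_eq_pow_mul_and_not_dvd (orderOf_pos m).ne' p hp.one_lt.ne'
    have hcop : Nat.Coprime (p ^ (a + k)) r := Nat.Coprime.pow_left _ ((Nat.Prime.coprime_iff_not_dvd hp).2 hr)
    obtain ⟨u, hu1, hu2⟩ := Nat.chineseRemainder hcop 1 0
    have hu0 : r ∣ u := (Nat.modEq_zero_iff_dvd).1 hu2
    have hsu : χ s ^ u = χ s := by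
      have h1 : χ s ^ p ^ k = 1 := by
        rw [← map_pow]
        have : s ^ p ^ k = 1 := Subtype.ext hk
        rw [this, map_one]
      have h2 : u ≡ 1 [MOD p ^ k] := hu1.of_dvd (pow_dvd_pow p (Nat.le_add_left k a))
      have h3 : orderOf (χ s) ∣ p ^ k := orderOf_dvd_of_pow_eq_one h1
      have h4 : χ s ^ u = χ s ^ 1 := pow_eq_pow_iff_modEq.2 (h2.of_dvd h3)
      rw [h4, pow_one]
    have hmu : ∃ j : ℕ, ((m ^ u : M) : G) ^ p ^ j = 1 := by
      refine ⟨a, ?_⟩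
      obtain ⟨v, hv⟩ := hu0
      have : (m ^ u) ^ p ^ a = 1 := by
        rw [← pow_mul, hv]
        have e : r * v * p ^ a = orderOf m * v := by rw [har]; ring
        rw [e, pow_mul, pow_orderOf_eq_one, one_pow]
      exact congrArg Subtype.val this
    obtain ⟨w, hw, hws⟩ := CF.conjS p M S hSM _ (m ^ u).2 hmu
    refine ⟨(⟨w, hw⟩ : M)⁻¹ * m ^ u * ⟨w, hw⟩, hws, ?_⟩
    have h5 : χ ((⟨w, hw⟩ : M)⁻¹ * m ^ u * ⟨w, hw⟩) = χ (m ^ u) := by
      rw [map_mul, map_mul, map_inv, mul_comm (χ ⟨w, hw⟩)⁻¹, inv_mul_cancel_right]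
    rw [h5, map_pow, ← pow_mul, mul_comm u p, pow_mul, hm, hsu]
  have step3 : ∀ n : ℕ, ∀ s : M, (s : G) ∈ (S : Subgroup G) →
      ∃ s' : M, (s' : G) ∈ (S : Subgroup G) ∧ χ s' ^ p ^ n = χ s := by
    intro n
    induction n with
    | zero => intro s hs; exact ⟨s, hs, by simp⟩
    | succ n ih =>
      intro s hs
      obtain ⟨s1, hs1, h1⟩ := step2 s hs
      obtain ⟨s2, hs2, h2⟩ := ih s1 hs1
      refine ⟨s2, hs2, ?_⟩
      rw [pow_succ, pow_mul, h2, h1]
  intro s hs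
  obtain ⟨n, hn⟩ := S.isPGroup'.exists_card_eq
  obtain ⟨s', hs', h'⟩ := step3 n s hs
  rw [← h', ← map_pow]
  have : s' ^ p ^ n = 1 := by
    apply Subtype.ext
    have h1 : (⟨(s' : G), hs'⟩ : (S : Subgroup G)) ^ Nat.card (S : Subgroup G) = 1 := pow_card_eq_one'
    have hn' : Nat.card (S : Subgroup G) = p ^ n := hn
    rw [hn'] at h1
    have h2 : (s' : G) ^ p ^ n = 1 := congrArg Subtype.val h1
    exact h2
  rw [this, map_one]

end Cfsg.Agent.H96.Fx
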