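import Mathlib
import Cfsg.Agent.H96.Fx.Base
import Cfsg.Agent.H96.Fx.CF
import Cfsg.Agent.H96.Fx.B4Oa

set_option autoImplicit false
open MulAction
open scoped Pointwise commutatorElement

namespace Cfsg.Agent.H96.Fx

variable {G Ω : Type*} [Group G] [Finite G] [MulAction G Ω] [Finite Ω]

/-- [B4O] -/
theorem b4_O [IsSimpleGroup G] (hna : ¬ IsMulCommutative G) (hfix : ∀ g : G, g ≠ 1 → Nat.card (fixedBy Ω g) ≤ 4)
    (Λ : Set Ω) (hΛ : Nat.card Λ = 4)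
    (hD2 : 2 ∣ Nat.card (fixingSubgroup G Λ)) (S : Sylow 2 G) (hSM : (S : Subgroup G) ≤ stabilizer G Λ)
    (hsc : ∀ x ∈ (S : Subgroup G), x ∈ fixingSubgroup G Λ → ∀ g : G, g * x * g⁻¹ ∈ (S : Subgroup G) →
      g * x * g⁻¹ ∈ fixingSubgroup G Λ) :
    ∀ W ≤ stabilizer G Λ, (∃ v ∈ W, orderOf v = 2 ∧ v ∉ fixingSubgroup G Λ) →
      ∀ N ≤ W, (∀ w ∈ W, ∀ n ∈ N, w * n * w⁻¹ ∈ N) → Odd (Nat.card N) →
      N ≤ fixingSubgroup G Λ := by
  haveI : Fact (Nat.Prime 2) := ⟨Nat.prime_two⟩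
  have hperf : commutator G = ⊤ := by
    rcases (inferInstance : (commutator G).Normal).eq_bot_or_eq_top with h | h
    · exfalso
      apply hna
      refine ⟨⟨fun a b => ?_⟩⟩
      have hab : ⁅a, b⁆ ∈ commutator G := Subgroup.commutator_mem_commutator (Subgroup.mem_top a) (Subgroup.mem_top b)
      rw [h, Subgroup.mem_bot] at hab
      exact commutatorElement_eq_one_iff_mul_comm.1 hab
    · exact h
  have hTI : ∀ x ∈ fixingSubgroup G Λ, x ≠ 1 → (∃ k : ℕ, x ^ 2 ^ k = 1) → ∀ g : G,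
      g * x * g⁻¹ ∈ fixingSubgroup G Λ → g ∈ stabilizer G Λ := by
    intro x hx h1 _ g hg
    refine mem_stab_of_conj (fixedBy_eq hfix hΛ hx h1) (fixedBy_eq hfix hΛ hg ?_)
    intro h
    apply h1
    have := congrArg (fun y => g⁻¹ * y * g) h
    simpa [mul_assoc] using this
  exact b4_O_core Λ hΛ S hSM (fun χ hχ => ctrl 2 hperf (stabilizer G Λ) (fixingSubgroup G Λ) (fixing_le_stab Λ)
    (fun m hm d hd => conj_mem_fixing hm hd) S hSM hD2 hTI hsc χ hχ)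

end Cfsg.Agent.H96.Fx
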