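import Mathlib
import Cfsg.Prelude
import Cfsg.Agent.H96.Fx.Base
import Cfsg.Agent.H96.Fx.CF
import Cfsg.Agent.Solv.MinNormal

/-! S3365, piece C2 (second version). -/

set_option autoImplicit false
open MulAction
open scoped Pointwise

namespace Cfsg.Agent.H96.Fx.C2h

variable {G Ω : Type*} [Group G] [Finite G] [MulAction G Ω] [Finite Ω]

structure Dat (Λ : Set Ω) (M₀ : Subgroup G) : Prop where
  fx : ∀ w ∈ fixingSubgroup G Λ, w ≠ 1 → (∃ k : ℕ, w ^ 3 ^ k = 1) → fixedBy Ω w = Λ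
  DM₀ : fixingSubgroup G Λ ≤ M₀
  M₀M : M₀ ≤ stabilizer G Λ
  idx : M₀.relIndex (stabilizer G Λ) = 3
  nrm : ∀ m ∈ stabilizer G Λ, ∀ x ∈ M₀, m * x * m⁻¹ ∈ M₀
  M₀D : ¬ 3 ∣ (fixingSubgroup G Λ).relIndex M₀
  small : ∀ u ∈ stabilizer G Λ, u ∉ M₀ → Nat.card ↥(fixedBy Ω u \ Λ : Set Ω) ≤ 3

omit [Finite Ω] in
theorem Dat.mem_fix {Λ : Set Ω} {M₀ : Subgroup G} (h : Dat Λ M₀) {x : G} (hx : x ∈ M₀)
    (h3 : ∃ k : ℕ, x ^ 3 ^ k = 1) : x ∈ fixingSubgroup G Λ := by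
  haveI : ((fixingSubgroup G Λ).subgroupOf M₀).Normal := ⟨by
    intro n hn g
    exact conj_mem_fixing (h.M₀M g.2) hn⟩
  have h1 : (⟨x, hx⟩ : M₀) ^ ((fixingSubgroup G Λ).subgroupOf M₀).index ∈ (fixingSubgroup G Λ).subgroupOf M₀ :=
    Subgroup.pow_index_mem _ _
  have h2 : x ^ (fixingSubgroup G Λ).relIndex M₀ ∈ fixingSubgroup G Λ := h1
  obtain ⟨k, hk⟩ := h3
  have h4 : (3 : ℕ).Coprime ((fixingSubgroup G Λ).relIndex M₀) := (Nat.Prime.coprime_iff_not_dvd Nat.prime_three).2 h.M₀D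
  have h5 : ((fixingSubgroup G Λ).relIndex M₀).Coprime (orderOf x) :=
    Nat.Coprime.coprime_dvd_right (orderOf_dvd_of_pow_eq_one hk) (h4.symm.pow_right k)
  obtain ⟨m, hm⟩ := exists_pow_eq_self_of_coprime h5
  rw [← hm]
  exact pow_mem h2 m

omit [Finite Ω] in
theorem Dat.normal {Λ : Set Ω} {M₀ : Subgroup G} (h : Dat Λ M₀) : (M₀.subgroupOf (stabilizer G Λ)).Normal :=
  ⟨fun n hn g => h.nrm g g.2 n hn⟩

omit [Finite Ω] in
theorem Dat.card {Λ : Set Ω} {M₀ : Subgroup G} (h : Dat Λ M₀) :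
    Nat.card (stabilizer G Λ ⧸ M₀.subgroupOf (stabilizer G Λ)) = 3 := h.idx

omit [Finite Ω] in
theorem Dat.comm {Λ : Set Ω} {M₀ : Subgroup G} (h : Dat Λ M₀) {x y : G} (hx : x ∈ stabilizer G Λ)
    (hy : y ∈ stabilizer G Λ) : x * y * x⁻¹ * y⁻¹ ∈ M₀ := by
  haveI := h.normal
  haveI : Fact (Nat.Prime 3) := ⟨Nat.prime_three⟩
  haveI : IsCyclic (stabilizer G Λ ⧸ M₀.subgroupOf (stabilizer G Λ)) := isCyclic_of_prime_card h.card
  have h2 := (IsCyclic.isMulCommutative (α := stabilizer G Λ ⧸ M₀.subgroupOf (stabilizer G Λ))).is_comm.comm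
      (QuotientGroup.mk' (M₀.subgroupOf (stabilizer G Λ)) ⟨x, hx⟩) (QuotientGroup.mk' (M₀.subgroupOf (stabilizer G Λ)) ⟨y, hy⟩)
  have h1 : QuotientGroup.mk' (M₀.subgroupOf (stabilizer G Λ)) (⟨x, hx⟩ * ⟨y, hy⟩ * ⟨x, hx⟩⁻¹ * ⟨y, hy⟩⁻¹ : stabilizer G Λ) = 1 := by
    rw [map_mul, map_mul, map_mul, map_inv, map_inv, h2]
    group
  have h3 : (⟨x, hx⟩ * ⟨y, hy⟩ * ⟨x, hx⟩⁻¹ * ⟨y, hy⟩⁻¹ : stabilizer G Λ) ∈ M₀.subgroupOf (stabilizer G Λ) :=
    (QuotientGroup.eq_one_iff _).1 h1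
  exact h3

omit [Finite Ω] in
theorem Dat.cube {Λ : Set Ω} {M₀ : Subgroup G} (h : Dat Λ M₀) {x : G} (hx : x ∈ stabilizer G Λ) : x ^ 3 ∈ M₀ := by
  haveI := h.normal
  have h1 := Subgroup.pow_index_mem (M₀.subgroupOf (stabilizer G Λ)) ⟨x, hx⟩
  have h2 : (M₀.subgroupOf (stabilizer G Λ)).index = 3 := h.idx
  rw [h2] at h1
  exact h1

omit [Finite Ω] in
theorem Dat.gen {Λ : Set Ω} {M₀ : Subgroup G} (h : Dat Λ M₀) {x u : G} (hx : x ∈ stabilizer G Λ)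
    (hu : u ∈ stabilizer G Λ) (hu0 : u ∉ M₀) : ∃ i : ℤ, (u ^ i)⁻¹ * x ∈ M₀ := by
  haveI := h.normal
  haveI : Fact (Nat.Prime 3) := ⟨Nat.prime_three⟩
  have h1 : ((⟨u, hu⟩ : stabilizer G Λ) : stabilizer G Λ ⧸ M₀.subgroupOf (stabilizer G Λ)) ≠ 1 := by
    intro h2
    have h3 : (⟨u, hu⟩ : stabilizer G Λ) ∈ M₀.subgroupOf (stabilizer G Λ) := (QuotientGroup.eq_one_iff _).1 h2
    exact hu0 h3
  obtain ⟨i, hi⟩ := Subgroup.mem_zpowers_iff.1 (mem_zpowers_of_prime_card (g' := ((⟨x, hx⟩ : stabilizer G Λ) : stabilizer G Λ ⧸ M₀.subgroupOf (stabilizer G Λ))) h.card h1)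
  refine ⟨i, ?_⟩
  have h2 : (((⟨u, hu⟩ : stabilizer G Λ) ^ i : stabilizer G Λ) : stabilizer G Λ ⧸ M₀.subgroupOf (stabilizer G Λ)) =
      ((⟨x, hx⟩ : stabilizer G Λ) : stabilizer G Λ ⧸ M₀.subgroupOf (stabilizer G Λ)) := by
    rw [← hi]
    rfl
  have h3 := QuotientGroup.eq.1 h2
  exact h3

theorem exists_sylow_between {p : ℕ} [Fact p.Prime] (P : Sylow p G) (M A : Subgroup G) (hP : (P : Subgroup G) ≤ M)
    (hA : A ≤ M) (hAp : IsPGroup p A) : ∃ Q : Sylow p G, A ≤ Q ∧ (Q : Subgroup G) ≤ M := by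
  have h1 : IsPGroup p (A.subgroupOf M) := hAp.comap_of_injective M.subtype (Subtype.val_injective)
  obtain ⟨Q₁, hQ₁⟩ := h1.exists_le_sylow
  obtain ⟨m, hm⟩ := MulAction.exists_smul_eq M (P.subtype hP) Q₁
  rw [Sylow.smul_subtype] at hm
  refine ⟨m • P, ?_, Sylow.smul_le hP m⟩
  intro x hx
  have h2 : (⟨x, hA hx⟩ : M) ∈ Q₁ := hQ₁ hx
  rw [← hm] at h2
  exact h2

theorem Dat.step {Λ : Set Ω} {M₀ : Subgroup G} (h : Dat Λ M₀) (Q : Sylow 3 G)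
    (hQM : (Q : Subgroup G) ≤ stabilizer G Λ) {u g e : G} (hu : u ∈ (Q : Subgroup G))
    (huD : u ∉ fixingSubgroup G Λ) (he : e ∈ fixingSubgroup G Λ) (hg : u = g * e * g⁻¹)
    (hE : ∃ x ∈ (Q : Subgroup G), x ∈ fixingSubgroup G Λ ∧ x ≠ 1) :
    u ^ 3 = 1 ∧ u ∉ M₀ ∧ ∃ z ∈ (Q : Subgroup G), z ∈ fixingSubgroup G Λ ∧ z ≠ 1 ∧ z ^ 3 = 1 ∧ z * u = u * z ∧
      (∀ x ∈ (Q : Subgroup G), x ∈ fixingSubgroup G Λ → x * u = u * x → x ∈ Subgroup.zpowers z) ∧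
      ((Nat.card Q = 9 ∧ ∀ x ∈ (Q : Subgroup G), x ^ 3 = 1) ∨ ∃ n : G, n * z * n⁻¹ = z ∧ n * u * n⁻¹ = u * z) := by
  classical
  haveI : Fact (Nat.Prime 3) := ⟨Nat.prime_three⟩
  have h3 : ∀ x ∈ (Q : Subgroup G), ∃ k : ℕ, x ^ 3 ^ k = 1 := by
    intro x hx
    obtain ⟨k, hk⟩ := Q.2 ⟨x, hx⟩
    exact ⟨k, congrArg Subtype.val hk⟩
  have hu1 : u ≠ 1 := by
    intro h1
    exact huD (by rw [h1]; exact one_mem _)
  have he1 : e ≠ 1 := by
    intro h1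
    apply hu1
    rw [hg, h1]
    group
  have he3 : ∃ k : ℕ, e ^ 3 ^ k = 1 := by
    obtain ⟨k, hk⟩ := h3 u hu
    refine ⟨k, ?_⟩
    rw [hg, conj_pow] at hk
    have h4 : e ^ 3 ^ k = g⁻¹ * (g * e ^ 3 ^ k * g⁻¹) * g := by group
    rw [h4, hk]
    group
  have hgM : g ∉ stabilizer G Λ := by
    intro h1
    apply huD
    rw [hg]
    exact conj_mem_fixing h1 he
  have hfe : fixedBy Ω e = Λ := h.fx e he he1 he3
  have hfu : fixedBy Ω u = g • Λ := by rw [hg, fixedBy_conj, hfe]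
  have huM := hQM hu
  have huM₀ : u ∉ M₀ := fun h1 => huD (h.mem_fix h1 (h3 u hu))
  -- u^3 = 1
  have hu3 : u ^ 3 = 1 := by
    by_contra hne
    have h1 : u ^ 3 ∈ fixingSubgroup G Λ := h.mem_fix (h.cube huM) (h3 _ (pow_mem hu 3))
    have h2 : fixedBy Ω (u ^ 3) = Λ := h.fx _ h1 hne (h3 _ (pow_mem hu 3))
    have h4 : u ^ 3 = g * e ^ 3 * g⁻¹ := by rw [hg, conj_pow]
    have h5 : e ^ 3 ≠ 1 := by
      intro h6
      apply hne
      rw [h4, h6]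
      group
    have h6 : fixedBy Ω (e ^ 3) = Λ := h.fx _ (pow_mem he 3) h5 (by
      obtain ⟨k, hk⟩ := he3
      exact ⟨k, by rw [← pow_mul, mul_comm, pow_mul, hk, one_pow]⟩)
    rw [h4] at h2
    exact hgM (mem_stab_of_conj h6 h2)
  -- a central element in E
  obtain ⟨z₀, hz₀Q, hz₀D, hz₀1, hz₀c⟩ : ∃ z ∈ (Q : Subgroup G), z ∈ fixingSubgroup G Λ ∧ z ≠ 1 ∧
      ∀ x ∈ (Q : Subgroup G), x * z = z * x := by
    haveI : Group.IsNilpotent (Q : Subgroup G) := Q.2.isNilpotent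
    haveI : ((fixingSubgroup G Λ).subgroupOf (Q : Subgroup G)).Normal := ⟨fun n hn g => conj_mem_fixing (hQM g.2) hn⟩
    have h1 := Cfsg.Agent.Solv.inf_center_ne_bot_of_nilpotent ((fixingSubgroup G Λ).subgroupOf (Q : Subgroup G)) (by
      obtain ⟨x, hx, hxD, hx1⟩ := hE
      intro h2
      have h4 : (⟨x, hx⟩ : (Q : Subgroup G)) ∈ (fixingSubgroup G Λ).subgroupOf (Q : Subgroup G) := hxD
      rw [h2, Subgroup.mem_bot] at h4
      exact hx1 (congrArg Subtype.val h4))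
    obtain ⟨z, hz1⟩ := Subgroup.ne_bot_iff_exists_ne_one.1 h1
    refine ⟨(z : (Q : Subgroup G)), (z : (Q : Subgroup G)).2, z.2.1, fun h => hz1 (Subtype.ext (Subtype.ext h)), ?_⟩
    intro x hx
    exact congrArg Subtype.val (Subgroup.mem_center_iff.1 z.2.2 ⟨x, hx⟩)
  -- C = C_E(u)
  have hinj : ∀ x ∈ (Q : Subgroup G), x ∈ fixingSubgroup G Λ → ∀ a ∉ Λ, x • a = a → x = 1 := by
    intro x hx hxD a ha hxa
    by_contra hne
    have h1 := h.fx x hxD hne (h3 x hx)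
    apply ha
    rw [← h1]
    exact hxa
  set C : Subgroup G := ((Q : Subgroup G) ⊓ fixingSubgroup G Λ) ⊓ Subgroup.centralizer ({u} : Set G) with hC
  have hmC : ∀ x, x ∈ C ↔ (x ∈ (Q : Subgroup G) ∧ x ∈ fixingSubgroup G Λ) ∧ x * u = u * x := by
    intro x
    rw [hC, Subgroup.mem_inf, Subgroup.mem_inf, Subgroup.mem_centralizer_iff]
    constructor
    · rintro ⟨h1, h2⟩
      exact ⟨h1, (h2 u rfl).symm⟩
    · rintro ⟨h1, h2⟩
      refine ⟨h1, ?_⟩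
      intro y hy
      rw [Set.mem_singleton_iff.1 hy]
      exact h2.symm
  obtain ⟨a, ha, haΛ⟩ : ∃ a ∈ fixedBy Ω u, a ∉ Λ := by
    by_contra hcon
    push Not at hcon
    have h1 : fixedBy Ω u ⊆ Λ := hcon
    have h2 : fixedBy Ω u = Λ := by
      apply Set.eq_of_subset_of_ncard_le h1
      rw [hfu, Set.ncard_smul_set]
    rw [hfu] at h2
    exact hgM (mem_stab.2 h2)
  have hC3 : Nat.card C ≤ 3 := by
    refine le_trans ?_ (h.small u huM huM₀)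
    refine Nat.card_le_card_of_injective (fun x : C => (⟨(x : G) • a, ?_⟩ : ↥(fixedBy Ω u \ Λ : Set Ω))) ?_
    · obtain ⟨⟨h1, h2⟩, h4⟩ := (hmC x).1 x.2
      constructor
      · change u • (x : G) • a = (x : G) • a
        rw [← mul_smul, ← h4, mul_smul]
        congr 1
      · intro h5
        have h6 : (x : G) • ((x : G) • a) = (x : G) • a := (mem_fixingSubgroup_iff G).1 h2 _ h5
        have h7 : (x : G) • a = a := smul_left_cancel _ h6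
        rw [h7] at h5
        exact haΛ h5
    · intro x y hxy
      have h1 : (x : G) • a = (y : G) • a := congrArg Subtype.val hxy
      have h2 : ((y⁻¹ * x : C) : G) • a = a := by
        rw [Subgroup.coe_mul, mul_smul, h1, ← mul_smul, Subgroup.coe_inv, inv_mul_cancel, one_smul]
      obtain ⟨⟨h4, h5⟩, h6⟩ := (hmC _).1 (y⁻¹ * x).2
      have h7 : ((y⁻¹ * x : C) : G) = 1 := hinj _ h4 h5 a haΛ h2
      have h8 : y⁻¹ * x = 1 := Subtype.ext h7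
      exact (inv_mul_eq_one.1 h8).symm
  have hz₀C : z₀ ∈ C := (hmC z₀).2 ⟨⟨hz₀Q, hz₀D⟩, (hz₀c u hu).symm⟩
  have hCz : ∀ z ∈ C, z ≠ 1 → Subgroup.zpowers z = C ∧ z ^ 3 = 1 := by
    intro z hz hz1
    obtain ⟨⟨h1, h2⟩, h4⟩ := (hmC z).1 hz
    have hle : Subgroup.zpowers z ≤ C := by
      rw [Subgroup.zpowers_le]; exact hz
    obtain ⟨k, hk⟩ := h3 z h1
    obtain ⟨j, hj, hj'⟩ := (Nat.dvd_prime_pow Nat.prime_three).1 (orderOf_dvd_of_pow_eq_one hk)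
    have hj0 : j ≠ 0 := by
      rintro rfl
      rw [pow_zero] at hj'
      exact hz1 (orderOf_eq_one_iff.1 hj')
    have h5 : 3 ≤ orderOf z := by
      rw [hj']
      calc 3 = 3 ^ 1 := by norm_num
        _ ≤ 3 ^ j := Nat.pow_le_pow_right (by norm_num) (by omega)
    have h6 : Nat.card (Subgroup.zpowers z) ≤ Nat.card C := Nat.card_le_card_of_injective _ (Subgroup.inclusion_injective hle)
    rw [Nat.card_zpowers] at h6
    have h7 : orderOf z = 3 := by omega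
    refine ⟨?_, by rw [← h7]; exact pow_orderOf_eq_one z⟩
    apply Subgroup.eq_of_le_of_card_ge hle
    rw [Nat.card_zpowers]
    omega
  -- elements of Q commuting with u
  have hcu : ∀ x ∈ (Q : Subgroup G), x * u = u * x → x ^ 3 = 1 := by
    intro x hx hxu
    obtain ⟨i, hi⟩ := h.gen (hQM hx) huM huM₀
    have h1 : (u ^ i)⁻¹ * x ∈ (Q : Subgroup G) := mul_mem (inv_mem (zpow_mem hu i)) hx
    have h2 : (u ^ i)⁻¹ * x ∈ C := by
      refine (hmC _).2 ⟨⟨h1, h.mem_fix hi (h3 _ h1)⟩, ?_⟩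
      have h4 : Commute x u := hxu
      have h5 : Commute (u ^ i)⁻¹ u := ((Commute.refl u).zpow_left i).inv_left
      exact (h5.mul_left h4)
    have h4 : ((u ^ i)⁻¹ * x) ^ 3 = 1 := by
      by_cases h5 : (u ^ i)⁻¹ * x = 1
      · rw [h5, one_pow]
      · exact (hCz _ h2 h5).2
    have h5 : Commute (u ^ i)⁻¹ x := by
      have h6 : Commute x u := hxu
      exact ((h6.symm.zpow_left i).inv_left)
    rw [h5.mul_pow, inv_pow] at h4
    have h6 : (u ^ i) ^ 3 = 1 := by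
      rw [← zpow_natCast, ← zpow_mul, mul_comm, zpow_mul, zpow_natCast, hu3, one_zpow]
    rw [h6] at h4
    simpa using h4
  by_cases hall : ∀ x ∈ (Q : Subgroup G), x * u = u * x
  · refine ⟨hu3, huM₀, z₀, hz₀Q, hz₀D, hz₀1, (hCz z₀ hz₀C hz₀1).2, ((hmC _).1 hz₀C).2, ?_, Or.inl ⟨?_, ?_⟩⟩
    · intro x hx hxD hxu
      rw [(hCz z₀ hz₀C hz₀1).1]
      exact (hmC x).2 ⟨⟨hx, hxD⟩, hxu⟩
    · -- the order
      haveI := h.normal
      let φ : (Q : Subgroup G) →* stabilizer G Λ ⧸ M₀.subgroupOf (stabilizer G Λ) :=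
        (QuotientGroup.mk' (M₀.subgroupOf (stabilizer G Λ))).comp (Subgroup.inclusion hQM)
      have hφ : ∀ x : (Q : Subgroup G), φ x = 1 ↔ (x : G) ∈ M₀ := by
        intro x
        change ((Subgroup.inclusion hQM x : stabilizer G Λ) : stabilizer G Λ ⧸ M₀.subgroupOf (stabilizer G Λ)) = 1 ↔ _
        rw [QuotientGroup.eq_one_iff]
        rfl
      have h1 : φ.range = ⊤ := by
        rw [eq_top_iff]
        have h2 : φ ⟨u, hu⟩ ≠ 1 := fun h4 => huM₀ ((hφ _).1 h4)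
        rw [← zpowers_eq_top_of_prime_card h.card h2, Subgroup.zpowers_le]
        exact ⟨_, rfl⟩
      have h2 : Nat.card φ.ker = 3 := by
        have h4 : Nat.card φ.ker = Nat.card C := by
          refine Nat.card_congr ⟨fun x => ⟨(x : (Q : Subgroup G)), ?_⟩, fun x => ⟨⟨x, ((hmC _).1 x.2).1.1⟩, ?_⟩, fun x => rfl, fun x => rfl⟩
          · have h5 := (hφ _).1 x.2
            exact (hmC _).2 ⟨⟨(x : (Q : Subgroup G)).2, h.mem_fix h5 (h3 _ (x : (Q : Subgroup G)).2)⟩, hall _ (x : (Q : Subgroup G)).2⟩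
          · exact (hφ _).2 (h.DM₀ ((hmC _).1 x.2).1.2)
        rw [h4, ← (hCz z₀ hz₀C hz₀1).1, Nat.card_zpowers]
        exact orderOf_eq_prime (hCz z₀ hz₀C hz₀1).2 hz₀1
      have h4 := Subgroup.card_mul_index φ.ker
      rw [Subgroup.index_ker, h1, h2, Nat.card_congr (Subgroup.topEquiv).toEquiv, h.card] at h4
      exact h4.symm
    · intro x hx
      exact hcu x hx (hall x hx)
  · -- normalizer condition
    haveI : Group.IsNilpotent (Q : Subgroup G) := Q.2.isNilpotent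
    push Not at hall
    obtain ⟨y, hy, hyu⟩ := hall
    set A : Subgroup (Q : Subgroup G) := Subgroup.centralizer ({(⟨u, hu⟩ : (Q : Subgroup G))} : Set (Q : Subgroup G)) with hA
    have hmA : ∀ x : (Q : Subgroup G), x ∈ A ↔ (x : G) * u = u * x := by
      intro x
      rw [hA, Subgroup.mem_centralizer_iff]
      constructor
      · intro h1
        exact (congrArg Subtype.val (h1 _ rfl)).symm
      · intro h1 w hw
        rw [Set.mem_singleton_iff.1 hw]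
        exact Subtype.ext h1.symm
    have hAlt : A < ⊤ := by
      rw [lt_top_iff_ne_top]
      intro h1
      have h2 : (⟨y, hy⟩ : (Q : Subgroup G)) ∈ A := by rw [h1]; trivial
      exact hyu ((hmA _).1 h2)
    have h1 := Group.normalizerCondition_of_isNilpotent A hAlt
    obtain ⟨n, hn, hnA⟩ := SetLike.exists_of_lt h1
    have h2 : n * ⟨u, hu⟩ * n⁻¹ ∈ A := (Subgroup.mem_normalizer_iff.1 hn _).1 ((hmA _).2 rfl)
    have h2' : (n : G) * u * (n : G)⁻¹ * u = u * ((n : G) * u * (n : G)⁻¹) := (hmA _).1 h2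
    set z : G := u⁻¹ * ((n : G) * u * (n : G)⁻¹) with hz
    have hzQ : z ∈ (Q : Subgroup G) := mul_mem (inv_mem hu) (mul_mem (mul_mem n.2 hu) (inv_mem n.2))
    have hzM₀ : z ∈ M₀ := by
      have h4 := h.comm (inv_mem huM) (hQM n.2)
      have h5 := h.comm (inv_mem (mul_mem huM (hQM n.2))) huM
      have h6 : z = u⁻¹ * ((n : G) * u * (n : G)⁻¹ * u⁻¹) * u⁻¹⁻¹ := by rw [hz]; group
      rw [h6]
      exact h.nrm _ (inv_mem huM) _ (h.comm (hQM n.2) huM)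
    have hzu : z * u = u * z := by
      rw [hz, mul_assoc, h2', ← mul_assoc]
      group
    have hzC : z ∈ C := (hmC z).2 ⟨⟨hzQ, h.mem_fix hzM₀ (h3 z hzQ)⟩, hzu⟩
    have hz1 : z ≠ 1 := by
      intro h4
      apply hnA
      rw [hmA]
      rw [hz, inv_mul_eq_one] at h4
      have h5 : (n : G) * u = ((n : G) * u * (n : G)⁻¹) * n := by group
      rw [h5, ← h4]
    have hcz : ∀ x ∈ (Q : Subgroup G), x * z = z * x := by
      intro x hx
      have h4 : z ∈ Subgroup.zpowers z₀ := by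
        rw [(hCz z₀ hz₀C hz₀1).1]; exact hzC
      obtain ⟨j, hj⟩ := Subgroup.mem_zpowers_iff.1 h4
      rw [← hj]
      exact (show Commute x z₀ from hz₀c x hx).zpow_right j
    refine ⟨hu3, huM₀, z, hzQ, h.mem_fix hzM₀ (h3 z hzQ), hz1, (hCz z hzC hz1).2, hzu, ?_, Or.inr ⟨n, ?_, ?_⟩⟩
    · intro x hx hxD hxu
      rw [(hCz z hzC hz1).1]
      exact (hmC x).2 ⟨⟨hx, hxD⟩, hxu⟩
    · rw [hcz n n.2]
      group
    · rw [hz]
      group

/-- main computation, for a `3`-element `e` of `P ∩ D` conjugate to an element `u` of `P \ D` -/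
theorem Dat.final {Λ : Set Ω} {M₀ : Subgroup G} (h : Dat Λ M₀) (P : Sylow 3 G)
    (hPM : (P : Subgroup G) ≤ stabilizer G Λ) {u g e : G} (hu : u ∈ (P : Subgroup G))
    (huD : u ∉ fixingSubgroup G Λ) (heP : e ∈ (P : Subgroup G)) (he : e ∈ fixingSubgroup G Λ) (hg : u = g * e * g⁻¹) :
    Nat.card P = 9 ∧ ∀ x ∈ (P : Subgroup G), x ^ 3 = 1 := by
  classical
  haveI : Fact (Nat.Prime 3) := ⟨Nat.prime_three⟩
  have he1 : e ≠ 1 := by
    rintro rfl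
    apply huD
    rw [hg, mul_one, mul_inv_cancel]
    exact one_mem _
  obtain ⟨hu3, huM₀, z, hzP, hzD, hz1, hz3, hzu, -, hP | ⟨n₁, hn₁, hn₁'⟩⟩ := h.step P hPM hu huD he hg ⟨e, heP, he, he1⟩
  · exact hP
  have hgM : g ∉ stabilizer G Λ := by
    intro h1
    apply huD
    rw [hg]
    exact conj_mem_fixing h1 he
  have hfz : fixedBy Ω z = Λ := h.fx z hzD hz1 ⟨1, by rw [pow_one]; exact hz3⟩
  have heu : e = g⁻¹ * u * g⁻¹⁻¹ := by rw [hg]; group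
  have he3 : e ^ 3 = 1 := by
    rw [heu, conj_pow, hu3]
    group
  have hfe : fixedBy Ω e = Λ := h.fx e he he1 ⟨1, by rw [pow_one]; exact he3⟩
  -- z' = g⁻¹ z g
  set z' : G := g⁻¹ * z * g⁻¹⁻¹ with hz'
  have hz'M : z' ∈ stabilizer G Λ := by
    refine mem_stab_of_conj (w := e) hfe ?_
    have h1 : z' * e * z'⁻¹ = e := by
      rw [hz', heu]
      have : g⁻¹ * z * g⁻¹⁻¹ * (g⁻¹ * u * g⁻¹⁻¹) * (g⁻¹ * z * g⁻¹⁻¹)⁻¹ = g⁻¹ * (z * u) * z⁻¹ * g⁻¹⁻¹ := by group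
      rw [this, hzu]
      group
    rw [h1]
    exact hfe
  have hz'D : z' ∉ fixingSubgroup G Λ := by
    intro h1
    have h2 : z' ≠ 1 := by
      intro h4
      apply hz1
      have h5 : z = g * z' * g⁻¹ := by rw [hz']; group
      rw [h5, h4]
      group
    have h4 : fixedBy Ω z' = Λ := h.fx z' h1 h2 ⟨1, by rw [pow_one, hz', conj_pow, hz3]; group⟩
    have h5 := mem_stab_of_conj hfz h4
    exact hgM (by simpa using inv_mem h5)
  -- a Sylow subgroup containing z' and e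
  obtain ⟨Q, hQ, hQM⟩ := exists_sylow_between P (stabilizer G Λ)
    ((P : Subgroup G).map (MulAut.conj g⁻¹).toMonoidHom ⊓ stabilizer G Λ) hPM inf_le_right
    ((P.2.map _).to_le inf_le_left)
  have hz'Q : z' ∈ (Q : Subgroup G) := hQ ⟨⟨z, hzP, rfl⟩, hz'M⟩
  have heQ : e ∈ (Q : Subgroup G) := hQ ⟨⟨u, hu, heu.symm⟩, hPM heP⟩
  obtain ⟨-, -, z₂, hz₂Q, hz₂D, hz₂1, hz₂3, hz₂z', hz₂g, hQ9 | ⟨n₂, hn₂, hn₂'⟩⟩ :=
    h.step Q hQM hz'Q hz'D hzD hz' ⟨e, heQ, he, he1⟩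
  · -- the case |Q| = 9
    obtain ⟨y, hy⟩ := MulAction.exists_smul_eq G Q P
    refine ⟨?_, ?_⟩
    · rw [← hQ9.1, ← hy]
      exact (Nat.card_congr (Sylow.equivSMul Q y).toEquiv).symm
    · intro x hx
      rw [← hy] at hx
      have h1 : x ∈ MulAut.conj y • (Q : Subgroup G) := hx
      rw [Subgroup.mem_pointwise_smul_iff_inv_smul_mem, ← map_inv, MulAut.smul_def, MulAut.conj_apply] at h1
      have h2 := hQ9.2 _ h1
      rw [conj_pow] at h2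
      have h4 : x ^ 3 = y * (y⁻¹ * x ^ 3 * y⁻¹⁻¹) * y⁻¹ := by group
      rw [h4, h2]
      group
  -- z₂ ∈ {e, e⁻¹}
  have hez₂ : e ∈ Subgroup.zpowers z₂ := hz₂g e heQ he (by
    rw [hz', heu]
    have h1 : g⁻¹ * u * g⁻¹⁻¹ * (g⁻¹ * z * g⁻¹⁻¹) = g⁻¹ * (u * z) * g⁻¹⁻¹ := by group
    have h2 : g⁻¹ * z * g⁻¹⁻¹ * (g⁻¹ * u * g⁻¹⁻¹) = g⁻¹ * (z * u) * g⁻¹⁻¹ := by group
    rw [h1, h2, hzu])
  have hz₂e : z₂ = e ∨ z₂ = e⁻¹ := by
    have ho : orderOf z₂ = 3 := orderOf_eq_prime hz₂3 hz₂1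
    obtain ⟨j, hj⟩ := Subgroup.mem_zpowers_iff.1 hez₂
    have h1 : z₂ ^ (j % 3) = e := by
      rw [← hj, ← zpow_mod_orderOf z₂ j, ho]
      rfl
    have h2 : j % 3 = 0 ∨ j % 3 = 1 ∨ j % 3 = 2 := by omega
    rcases h2 with h2 | h2 | h2
    · rw [h2, zpow_zero] at h1
      exact absurd h1.symm he1
    · rw [h2, zpow_one] at h1
      exact Or.inl h1
    · right
      rw [h2] at h1
      have h4 : z₂ ^ (2 : ℤ) = z₂⁻¹ := by
        rw [eq_inv_iff_mul_eq_one]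
        have : z₂ ^ (2 : ℤ) * z₂ = z₂ ^ 3 := by
          rw [← zpow_natCast]
          group
        rw [this, hz₂3]
      rw [h4] at h1
      rw [← h1, inv_inv]
  -- the second transvection
  have hz2' : z = g * z' * g⁻¹ := by rw [hz']; group
  have hT : ∃ N : G, N * u * N⁻¹ = u ∧ N * z * N⁻¹ = z * u⁻¹ := by
    have h1 : (g * n₂ * g⁻¹) * (g * z₂ * g⁻¹) * (g * n₂ * g⁻¹)⁻¹ = g * z₂ * g⁻¹ := by
      have : (g * n₂ * g⁻¹) * (g * z₂ * g⁻¹) * (g * n₂ * g⁻¹)⁻¹ = g * (n₂ * z₂ * n₂⁻¹) * g⁻¹ := by group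
      rw [this, hn₂]
    have h2 : (g * n₂ * g⁻¹) * z * (g * n₂ * g⁻¹)⁻¹ = z * (g * z₂ * g⁻¹) := by
      have : (g * n₂ * g⁻¹) * z * (g * n₂ * g⁻¹)⁻¹ = g * (n₂ * z' * n₂⁻¹) * g⁻¹ := by rw [hz']; group
      rw [this, hn₂', hz2']
      group
    rcases hz₂e with h4 | h4
    · have h5 : g * z₂ * g⁻¹ = u := by rw [h4, hg]
      rw [h5] at h1 h2
      refine ⟨(g * n₂ * g⁻¹)⁻¹, ?_, ?_⟩
      · nth_rewrite 1 [← h1]
        group
      · have h6 : z = ((g * n₂ * g⁻¹)⁻¹ * z * (g * n₂ * g⁻¹)) * ((g * n₂ * g⁻¹)⁻¹ * u * (g * n₂ * g⁻¹)) := by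
          have : ((g * n₂ * g⁻¹)⁻¹ * z * (g * n₂ * g⁻¹)) * ((g * n₂ * g⁻¹)⁻¹ * u * (g * n₂ * g⁻¹)) =
            (g * n₂ * g⁻¹)⁻¹ * (z * u) * (g * n₂ * g⁻¹) := by group
          rw [this, ← h2]
          group
        have h7 : (g * n₂ * g⁻¹)⁻¹ * u * (g * n₂ * g⁻¹) = u := by
          nth_rewrite 1 [← h1]
          group
        rw [h7] at h6
        rw [inv_inv]
        exact eq_mul_inv_of_mul_eq h6.symm
    · have h5 : g * z₂ * g⁻¹ = u⁻¹ := by rw [h4, hg]; group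
      rw [h5] at h1 h2
      refine ⟨g * n₂ * g⁻¹, ?_, h2⟩
      have h6 : (g * n₂ * g⁻¹) * u * (g * n₂ * g⁻¹)⁻¹ = ((g * n₂ * g⁻¹) * u⁻¹ * (g * n₂ * g⁻¹)⁻¹)⁻¹ := by group
      rw [h6, h1, inv_inv]
  obtain ⟨N, hN, hN'⟩ := hT
  -- the inversion
  have a1 : MulAut.conj n₁ z = z := hn₁
  have a2 : MulAut.conj n₁ u = u * z := hn₁'
  have a3 : MulAut.conj N u = u := hN
  have a4 : MulAut.conj N z = z * u⁻¹ := hN'
  set W : G := n₁ * N * n₁ with hW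
  have b1 : MulAut.conj W z = u⁻¹ := by
    rw [hW, map_mul, map_mul, MulAut.mul_apply, MulAut.mul_apply, a1, a4, map_mul, map_inv, a1, a2, mul_inv_rev]
    group
  have b2 : MulAut.conj W u = z := by
    rw [hW, map_mul, map_mul, MulAut.mul_apply, MulAut.mul_apply, a2, map_mul, a3, a4, ← mul_assoc, ← hzu,
      mul_assoc, mul_inv_cancel, mul_one, a1]
  have c1 : (W * W) * z * (W * W)⁻¹ = z⁻¹ := by
    change MulAut.conj (W * W) z = _
    rw [map_mul, MulAut.mul_apply, b1, map_inv, b2]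
  have c2 : (W * W) * u * (W * W)⁻¹ = u⁻¹ := by
    change MulAut.conj (W * W) u = _
    rw [map_mul, MulAut.mul_apply, b2, b1]
  have hWM : W * W ∈ stabilizer G Λ := by
    refine mem_stab_of_conj (w := z) hfz ?_
    rw [c1]
    exact h.fx z⁻¹ (inv_mem hzD) (inv_ne_one.2 hz1) ⟨1, by rw [pow_one, inv_pow, hz3, inv_one]⟩
  have d1 := h.comm hWM (hPM hu)
  rw [c2] at d1
  exfalso
  apply huM₀
  have d2 : u = u⁻¹ * u⁻¹ * u ^ 3 := by group
  rw [hu3, mul_one] at d2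
  rw [d2]
  exact d1

end Cfsg.Agent.H96.Fx.C2h

namespace Cfsg.Agent.H96.Fx

variable {G Ω : Type*} [Group G] [Finite G] [MulAction G Ω] [Finite Ω]

/-- [C2] case F = P (P ≤ M, 3 ∣ |M : D|): then |P| = 9 and exponent 3 -/
theorem c2 (hperf : commutator G = ⊤) (Λ : Set Ω) (M₀ : Subgroup G)
    (hfx : ∀ w ∈ fixingSubgroup G Λ, w ≠ 1 → (∃ k : ℕ, w ^ 3 ^ k = 1) → fixedBy Ω w = Λ)
    (hD3 : 3 ∣ Nat.card (fixingSubgroup G Λ)) (P : Sylow 3 G) (hPM : (P : Subgroup G) ≤ stabilizer G Λ)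
    (hDM₀ : fixingSubgroup G Λ ≤ M₀) (hM₀ : M₀ ≤ stabilizer G Λ) (hM₀i : M₀.relIndex (stabilizer G Λ) = 3)
    (hM₀n : ∀ m ∈ stabilizer G Λ, ∀ x ∈ M₀, m * x * m⁻¹ ∈ M₀) (hM₀D : ¬ 3 ∣ (fixingSubgroup G Λ).relIndex M₀)
    (hsmall : ∀ u ∈ stabilizer G Λ, u ∉ M₀ → Nat.card ↥(fixedBy Ω u \ Λ : Set Ω) ≤ 3) :
    Nat.card P = 9 ∧ ∀ x ∈ (P : Subgroup G), x ^ 3 = 1 := by
  classical
  haveI : Fact (Nat.Prime 3) := ⟨Nat.prime_three⟩
  have h : C2h.Dat Λ M₀ := ⟨hfx, hDM₀, hM₀, hM₀i, hM₀n, hM₀D, hsmall⟩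
  by_cases hsc : ∀ x ∈ (P : Subgroup G), x ∈ fixingSubgroup G Λ → ∀ g : G, g * x * g⁻¹ ∈ (P : Subgroup G) →
      g * x * g⁻¹ ∈ fixingSubgroup G Λ
  · exfalso
    haveI := h.normal
    haveI : IsCyclic (stabilizer G Λ ⧸ M₀.subgroupOf (stabilizer G Λ)) := isCyclic_of_prime_card h.card
    letI : CommGroup (stabilizer G Λ ⧸ M₀.subgroupOf (stabilizer G Λ)) := IsCyclic.commGroup
    have h1 := ctrl 3 hperf (stabilizer G Λ) (fixingSubgroup G Λ) (fixing_le_stab Λ)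
      (fun m hm d hd => conj_mem_fixing hm hd) P hPM hD3
      (fun x hx hx1 hk g hg => mem_stab_of_conj (hfx x hx hx1 hk) (hfx _ hg (by
        intro h2
        apply hx1
        have h3 : x = g⁻¹ * (g * x * g⁻¹) * g := by group
        rw [h3, h2]
        group) (by
        obtain ⟨k, hk⟩ := hk
        exact ⟨k, by rw [conj_pow, hk]; group⟩)))
      hsc (QuotientGroup.mk' (M₀.subgroupOf (stabilizer G Λ))) (fun d hd => (QuotientGroup.eq_one_iff _).2 (hDM₀ hd))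
    have h2 : (P : Subgroup G) ≤ M₀ := by
      intro x hx
      have h3 := h1 ⟨x, hPM hx⟩ hx
      have h4 : (⟨x, hPM hx⟩ : stabilizer G Λ) ∈ M₀.subgroupOf (stabilizer G Λ) := (QuotientGroup.eq_one_iff _).1 h3
      exact h4
    have h3 : 3 ∣ (P : Subgroup G).relIndex (stabilizer G Λ) :=
      hM₀i.symm.dvd.trans (Subgroup.relIndex_dvd_of_le_left _ h2)
    have h4 : 3 ∣ (P : Subgroup G).index := by
      rw [← Subgroup.relIndex_mul_index hPM]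
      exact Dvd.dvd.mul_right h3 _
    exact P.not_dvd_index h4
  · push Not at hsc
    obtain ⟨e, heP, he, g, hgP, hgD⟩ := hsc
    exact h.final P hPM hgP hgD heP he rfl

end Cfsg.Agent.H96.Fx
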