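import Cfsg.Agent.H96.Fx.T3a

set_option autoImplicit false
set_option linter.style.haveILetI false
open scoped Pointwise

namespace Cfsg.Agent.H96.Fx

namespace T3a

theorem mem_cent {G : Type*} [Group G] (e x : G) :
    x ∈ Subgroup.centralizer ({e} : Set G) ↔ e * x = x * e := by
  rw [Subgroup.mem_centralizer_iff]
  constructor
  · intro h; exact h e rfl
  · intro h y hy
    rw [Set.mem_singleton_iff.mp hy]; exact h

theorem cardC {G : Type*} [Group G] (P : Subgroup G) {e : G} (he : e ∈ P) :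
    Nat.card (Subgroup.centralizer ({(⟨e, he⟩ : P)} : Set P)) =
      Nat.card ↥(P ⊓ Subgroup.centralizer ({e} : Set G)) := by
  refine Nat.card_congr
    { toFun := fun x => ⟨(x.1 : G), x.1.2, (mem_cent _ _).mpr
        (congrArg Subtype.val ((mem_cent _ _).mp x.2))⟩
      invFun := fun y => ⟨⟨y.1, y.2.1⟩, (mem_cent _ _).mpr
        (Subtype.ext ((mem_cent _ _).mp y.2.2))⟩
      left_inv := fun x => rfl
      right_inv := fun y => rfl }

theorem card_cent_conj {G : Type*} [Group G] (g e : G) :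
    Nat.card (Subgroup.centralizer ({g * e * g⁻¹} : Set G)) =
      Nat.card (Subgroup.centralizer ({e} : Set G)) := by
  refine Nat.card_congr
    { toFun := fun x => ⟨g⁻¹ * x.1 * g, (mem_cent _ _).mpr (by
        have h := (mem_cent _ _).mp x.2
        calc e * (g⁻¹ * x.1 * g) = g⁻¹ * ((g * e * g⁻¹) * x.1) * g := by group
          _ = g⁻¹ * (x.1 * (g * e * g⁻¹)) * g := by rw [h]
          _ = g⁻¹ * x.1 * g * e := by group)⟩
      invFun := fun y => ⟨g * y.1 * g⁻¹, (mem_cent _ _).mpr (by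
        have h := (mem_cent _ _).mp y.2
        calc g * e * g⁻¹ * (g * y.1 * g⁻¹) = g * (e * y.1) * g⁻¹ := by group
          _ = g * (y.1 * e) * g⁻¹ := by rw [h]
          _ = g * y.1 * g⁻¹ * (g * e * g⁻¹) := by group)⟩
      left_inv := fun x => by
        apply Subtype.ext
        show g * (g⁻¹ * x.1 * g) * g⁻¹ = x.1
        group
      right_inv := fun y => by
        apply Subtype.ext
        show g⁻¹ * (g * y.1 * g⁻¹) * g = y.1
        group }

/-- two subgroups of order 9 of `C`, where `27 ∤ |C|`, are conjugate in `C` -/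
theorem conj9 {G : Type*} [Group G] [Finite G] (C F₁ F₂ : Subgroup G) (h1 : F₁ ≤ C) (h2 : F₂ ≤ C)
    (c1 : Nat.card F₁ = 9) (c2 : Nat.card F₂ = 9) (h27 : ¬ 27 ∣ Nat.card C) :
    ∃ c ∈ C, ∀ x ∈ F₁, c * x * c⁻¹ ∈ F₂ := by
  classical
  haveI : Fact (Nat.Prime 3) := ⟨Nat.prime_three⟩
  have key : ∀ F : Subgroup G, F ≤ C → Nat.card F = 9 →
      ∃ S : Sylow 3 C, (S : Subgroup C) = F.subgroupOf C := by
    intro F hF cF
    have hc : Nat.card (F.subgroupOf C) = 3 ^ 2 := by
      rw [Nat.card_congr (Subgroup.subgroupOfEquivOfLe hF).toEquiv, cF]; norm_num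
    have hp : IsPGroup 3 (F.subgroupOf C) := IsPGroup.of_card hc
    refine ⟨hp.toSylow ?_, rfl⟩
    rintro ⟨k, hk⟩
    apply h27
    have h3 := (F.subgroupOf C).card_mul_index
    rw [hc, hk] at h3
    exact ⟨k, by rw [← h3]; ring⟩
  obtain ⟨S₁, hS₁⟩ := key F₁ h1 c1
  obtain ⟨S₂, hS₂⟩ := key F₂ h2 c2
  obtain ⟨c, hc⟩ := MulAction.exists_smul_eq C S₁ S₂
  refine ⟨c.1, c.2, fun x hx => ?_⟩
  have h3 : (⟨x, h1 hx⟩ : C) ∈ (S₁ : Subgroup C) := by
    rw [hS₁, Subgroup.mem_subgroupOf]; exact hx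
  have h4 : MulAut.conj c • (⟨x, h1 hx⟩ : C) ∈ MulAut.conj c • (S₁ : Subgroup C) :=
    Subgroup.smul_mem_pointwise_smul _ _ _ h3
  have h5 : MulAut.conj c • (S₁ : Subgroup C) = (S₂ : Subgroup C) := by
    rw [← Sylow.coe_subgroup_smul, hc]
  rw [h5, hS₂, Subgroup.mem_subgroupOf] at h4
  exact h4

/-- counting in a quotient by a subgroup of order 3 -/
theorem quot {H : Type*} [Group H] [Finite H] (Z : Subgroup H) [Z.Normal] (hZ3 : Nat.card Z = 3)
    (K : Subgroup H) (hZK : Z ≤ K) (e : H) :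
    ∃ D : Subgroup H, (∀ d, d ∈ D ↔ d ∈ K ∧ d * e * d⁻¹ * e⁻¹ ∈ Z) ∧
      Nat.card D = 3 * Nat.card ↥(K.map (QuotientGroup.mk' Z) ⊓
        Subgroup.centralizer ({QuotientGroup.mk' Z e} : Set (H ⧸ Z))) ∧
      K ⊓ Subgroup.centralizer ({e} : Set H) ≤ D ∧
      Nat.card D ≤ 3 * Nat.card ↥(K ⊓ Subgroup.centralizer ({e} : Set H)) := by
  classical
  set f : H →* H ⧸ Z := QuotientGroup.mk' Z with hf
  have hfs : Function.Surjective f := QuotientGroup.mk'_surjective Z
  have hf1 : ∀ x, f x = 1 ↔ x ∈ Z := fun x => QuotientGroup.eq_one_iff x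
  set D : Subgroup H := K ⊓ (Subgroup.centralizer ({f e} : Set (H ⧸ Z))).comap f with hD
  have hDmem : ∀ d, d ∈ D ↔ d ∈ K ∧ d * e * d⁻¹ * e⁻¹ ∈ Z := by
    intro d
    have h1 : d ∈ D ↔ d ∈ K ∧ f e * f d = f d * f e := by
      rw [hD, Subgroup.mem_inf, Subgroup.mem_comap, mem_cent]
    rw [h1, ← hf1]
    constructor
    · rintro ⟨h2, h3⟩
      refine ⟨h2, ?_⟩
      rw [map_mul, map_mul, map_mul, map_inv, map_inv, ← h3]; group
    · rintro ⟨h2, h3⟩
      refine ⟨h2, ?_⟩
      rw [map_mul, map_mul, map_mul, map_inv, map_inv] at h3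
      have h4 := mul_inv_eq_one.mp h3
      have h5 := mul_inv_eq_iff_eq_mul.mp h4
      exact h5.symm
  refine ⟨D, hDmem, ?_, ?_, ?_⟩
  · have hZD : Z ≤ D := by
      intro z hz
      rw [hDmem]
      refine ⟨hZK hz, ?_⟩
      have h1 : z * e * z⁻¹ * e⁻¹ = z * (e * z⁻¹ * e⁻¹) := by group
      rw [h1]
      exact Z.mul_mem hz ((inferInstance : Z.Normal).conj_mem _ (Z.inv_mem hz) e)
    have h1 : D.map f = K.map f ⊓ Subgroup.centralizer ({f e} : Set (H ⧸ Z)) := by
      ext x
      constructor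
      · rintro ⟨d, hd, rfl⟩
        exact ⟨⟨d, hd.1, rfl⟩, hd.2⟩
      · rintro ⟨⟨d, hd, rfl⟩, h2⟩
        exact ⟨d, ⟨hd, h2⟩, rfl⟩
    have h2 : Nat.card D = Nat.card Z * Z.relIndex D := by
      rw [← Subgroup.relIndex_bot_left D, ← Subgroup.relIndex_bot_left Z,
        Subgroup.relIndex_mul_relIndex _ _ _ bot_le hZD]
    have h3 : Z.relIndex D = Nat.card (D.map f) := by
      have h4 := Subgroup.relIndex_ker D f
      have h5 : f.ker = Z := QuotientGroup.ker_mk' Z
      have h6 : f.ker.relIndex D = Z.relIndex D := by rw [h5]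
      rw [← h6, h4]
    rw [h2, hZ3, h3, h1]
  · intro x hx
    rw [hDmem]
    refine ⟨hx.1, ?_⟩
    have h1 := (mem_cent _ _).mp hx.2
    have h2 : x * e * x⁻¹ * e⁻¹ = 1 := by rw [← h1]; group
    rw [h2]; exact Z.one_mem
  · -- counting
    let φ : D → Z := fun d => ⟨d.1 * e * d.1⁻¹ * e⁻¹, ((hDmem d.1).mp d.2).2⟩
    let r : Z → D := fun z => if h : ∃ d, φ d = z then Classical.choose h else 1
    have hr : ∀ d : D, φ (r (φ d)) = φ d := by
      intro d
      have h : ∃ d', φ d' = φ d := ⟨d, rfl⟩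
      show φ (if h : ∃ d', φ d' = φ d then Classical.choose h else 1) = φ d
      rw [dif_pos h]
      exact Classical.choose_spec h
    have hconj : ∀ d d' : D, φ d = φ d' →
        (d.1 : H)⁻¹ * d'.1 ∈ K ⊓ Subgroup.centralizer ({e} : Set H) := by
      intro d d' h
      have h1 : d.1 * e * d.1⁻¹ * e⁻¹ = d'.1 * e * d'.1⁻¹ * e⁻¹ := congrArg Subtype.val h
      have h2 : d.1 * e * d.1⁻¹ = d'.1 * e * d'.1⁻¹ := mul_right_cancel h1
      refine ⟨K.mul_mem (K.inv_mem ((hDmem d.1).mp d.2).1) ((hDmem d'.1).mp d'.2).1, ?_⟩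
      refine (mem_cent _ _).mpr ?_
      calc e * (d.1⁻¹ * d'.1) = d.1⁻¹ * (d.1 * e * d.1⁻¹) * d'.1 := by group
        _ = d.1⁻¹ * (d'.1 * e * d'.1⁻¹) * d'.1 := by rw [h2]
        _ = d.1⁻¹ * d'.1 * e := by group
    let ψ : D → Z × ↥(K ⊓ Subgroup.centralizer ({e} : Set H)) := fun d =>
      (φ d, ⟨(r (φ d)).1⁻¹ * d.1, hconj _ _ (hr d)⟩)
    have hψ : Function.Injective ψ := by
      intro d d' h
      have h1 : φ d = φ d' := congrArg Prod.fst h
      have h2 : (r (φ d)).1⁻¹ * d.1 = (r (φ d')).1⁻¹ * d'.1 :=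
        congrArg (fun x => (x.2 : H)) h
      rw [h1] at h2
      exact Subtype.ext (mul_left_cancel h2)
    have h1 := Nat.card_le_card_of_injective ψ hψ
    rw [Nat.card_prod, hZ3] at h1
    exact h1

theorem cardSub {G : Type*} [Group G] (P H : Subgroup G) (hPH : P ≤ H) {e : G} (he : e ∈ H) :
    Nat.card ↥(P.subgroupOf H ⊓ Subgroup.centralizer ({(⟨e, he⟩ : H)} : Set H)) =
      Nat.card ↥(P ⊓ Subgroup.centralizer ({e} : Set G)) := by
  refine Nat.card_congr
    { toFun := fun x => ⟨(x.1 : G), Subgroup.mem_subgroupOf.mp x.2.1, (mem_cent _ _).mpr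
        (congrArg Subtype.val ((mem_cent _ _).mp x.2.2))⟩
      invFun := fun y => ⟨⟨y.1, hPH y.2.1⟩, Subgroup.mem_subgroupOf.mpr y.2.1, (mem_cent _ _).mpr
        (Subtype.ext ((mem_cent _ _).mp y.2.2))⟩
      left_inv := fun x => rfl
      right_inv := fun y => rfl }


/-- the element conjugating `e` to `s e s⁻¹` can be chosen in the normalizer of `Z(P)` -/
theorem step {G : Type*} [Group G] [Finite G] (P : Sylow 3 G) (e : G) (he : e ∈ (P : Subgroup G))
    (he3 : e ^ 3 = 1)
    (h9 : Nat.card ↥((P : Subgroup G) ⊓ Subgroup.centralizer ({e} : Set G)) = 9)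
    (h9' : ¬ 27 ∣ Nat.card (Subgroup.centralizer ({e} : Set G)))
    (h27 : 27 ∣ Nat.card (P : Subgroup G)) (s : G) (hs : s * e * s⁻¹ ∈ (P : Subgroup G)) :
    ∃ h : G, h * e * h⁻¹ = s * e * s⁻¹ ∧
      ∀ z ∈ (Subgroup.center (P : Subgroup G)).map (P : Subgroup G).subtype,
        h * z * h⁻¹ ∈ (Subgroup.center (P : Subgroup G)).map (P : Subgroup G).subtype := by
  classical
  haveI : Fact (Nat.Prime 3) := ⟨Nat.prime_three⟩
  have hPg : IsPGroup 3 (P : Subgroup G) := P.isPGroup'
  have h27' : 27 ≤ Nat.card (P : Subgroup G) := Nat.le_of_dvd Nat.card_pos h27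
  have c9 : Nat.card (Subgroup.centralizer ({(⟨e, he⟩ : (P : Subgroup G))} : Set (P : Subgroup G))) = 9 := by
    rw [cardC (P : Subgroup G) he, h9]
  obtain ⟨hZ3, heZ, -⟩ := pa hPg ⟨e, he⟩ c9 h27'
  set e' := s * e * s⁻¹ with he'
  have hce' : Nat.card (Subgroup.centralizer ({e'} : Set G)) =
      Nat.card (Subgroup.centralizer ({e} : Set G)) := card_cent_conj s e
  have hZc : ∀ z ∈ (Subgroup.center (P : Subgroup G)).map (P : Subgroup G).subtype,
      z ∈ (P : Subgroup G) ∧ ∀ x ∈ (P : Subgroup G), z * x = x * z := by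
    rintro _ ⟨z, hz, rfl⟩
    refine ⟨z.2, fun x hx => ?_⟩
    exact congrArg Subtype.val ((Subgroup.mem_center_iff.mp hz) ⟨x, hx⟩).symm
  have hcZ : ∀ z ∈ (Subgroup.center (P : Subgroup G)).map (P : Subgroup G).subtype,
      27 ∣ Nat.card (Subgroup.centralizer ({z} : Set G)) := by
    intro z hz
    have h1 : (P : Subgroup G) ≤ Subgroup.centralizer ({z} : Set G) := by
      intro x hx
      rw [mem_cent]
      exact (hZc z hz).2 x hx
    exact h27.trans (Subgroup.card_dvd_of_le h1)
  have he'Z : (⟨e', hs⟩ : (P : Subgroup G)) ∉ Subgroup.center (P : Subgroup G) := by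
    intro h
    apply h9'
    rw [← hce']
    exact hcZ e' ⟨_, h, rfl⟩
  -- |C_P(e')| = 9
  have c9' : Nat.card (Subgroup.centralizer ({(⟨e', hs⟩ : (P : Subgroup G))} : Set (P : Subgroup G))) = 9 := by
    set C := Subgroup.centralizer ({(⟨e', hs⟩ : (P : Subgroup G))} : Set (P : Subgroup G)) with hC
    have h1 : Nat.card C ∣ Nat.card (Subgroup.centralizer ({e'} : Set G)) := by
      rw [hC, cardC (P : Subgroup G) hs]
      exact Subgroup.card_dvd_of_le inf_le_right
    obtain ⟨k, hk⟩ := IsPGroup.iff_card.mp (hPg.to_subgroup C)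
    have hk3 : k < 3 := by
      by_contra hge
      push Not at hge
      apply h9'
      rw [← hce']
      refine dvd_trans ?_ h1
      rw [hk]
      exact (show (27 : ℕ) = 3 ^ 3 by norm_num) ▸ pow_dvd_pow 3 hge
    have hZC : Subgroup.center (P : Subgroup G) ≤ C := by
      intro x hx
      rw [hC, mem_cent]
      exact (Subgroup.mem_center_iff.mp hx) _
    have heC : (⟨e', hs⟩ : (P : Subgroup G)) ∈ C := by rw [hC, mem_cent]
    have hne : Subgroup.center (P : Subgroup G) ≠ C := fun h => he'Z (h ▸ heC)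
    have h3 : Nat.card C ≠ 3 := by
      intro h
      exact hne (Subgroup.eq_of_le_of_card_ge hZC (by rw [h, hZ3]))
    have h4 : 3 ≤ Nat.card C :=
      hZ3.symm.le.trans (Nat.le_of_dvd Nat.card_pos (Subgroup.card_dvd_of_le hZC))
    rw [hk] at h3 h4 ⊢
    interval_cases k
    · norm_num at h4
    · norm_num at h3
    · norm_num
  have c9'' : Nat.card ↥((P : Subgroup G) ⊓ Subgroup.centralizer ({e'} : Set G)) = 9 := by
    rw [← cardC (P : Subgroup G) hs, c9']
  -- conjugation inside C(e')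
  obtain ⟨c, hc, hcF⟩ := conj9 (Subgroup.centralizer ({e'} : Set G))
    (((P : Subgroup G) ⊓ Subgroup.centralizer ({e} : Set G)).map (MulAut.conj s).toMonoidHom)
    ((P : Subgroup G) ⊓ Subgroup.centralizer ({e'} : Set G)) (by
      rintro _ ⟨x, hx, rfl⟩
      rw [mem_cent]
      have h1 := (mem_cent _ _).mp hx.2
      show s * e * s⁻¹ * (s * x * s⁻¹) = s * x * s⁻¹ * (s * e * s⁻¹)
      calc s * e * s⁻¹ * (s * x * s⁻¹) = s * (e * x) * s⁻¹ := by group
        _ = s * (x * e) * s⁻¹ := by rw [h1]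
        _ = s * x * s⁻¹ * (s * e * s⁻¹) := by group) inf_le_right (by
      rw [Subgroup.card_map_of_injective (MulAut.conj s).injective, h9]) c9'' (by
      rw [hce']; exact h9')
  have hce : c * e' * c⁻¹ = e' := by
    have h1 := (mem_cent _ _).mp hc
    rw [← h1]; group
  refine ⟨c * s, ?_, ?_⟩
  · calc c * s * e * (c * s)⁻¹ = c * (s * e * s⁻¹) * c⁻¹ := by group
      _ = e' := hce
  · intro z hz
    have hzF : z ∈ (P : Subgroup G) ⊓ Subgroup.centralizer ({e} : Set G) := by
      refine ⟨(hZc z hz).1, (mem_cent _ _).mpr ?_⟩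
      exact ((hZc z hz).2 e he).symm
    have hy : c * s * z * (c * s)⁻¹ ∈ (P : Subgroup G) ⊓ Subgroup.centralizer ({e'} : Set G) := by
      have h1 := hcF (s * z * s⁻¹) ⟨z, hzF, rfl⟩
      have h2 : c * (s * z * s⁻¹) * c⁻¹ = c * s * z * (c * s)⁻¹ := by group
      rwa [h2] at h1
    set y := c * s * z * (c * s)⁻¹ with hydef
    have hcy : 27 ∣ Nat.card (Subgroup.centralizer ({y} : Set G)) := by
      rw [hydef, card_cent_conj (c * s) z]
      exact hcZ z hz
    have he'3 : (⟨e', hs⟩ : (P : Subgroup G)) ^ 3 = 1 := by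
      apply Subtype.ext
      show e' ^ 3 = 1
      rw [he', conj_pow, he3]; group
    rcases pb hPg ⟨e', hs⟩ he'3 c9' h27' ⟨y, hy.1⟩ (by
      rw [mem_cent]
      exact Subtype.ext ((mem_cent _ _).mp hy.2)) with h | ⟨g, hg⟩ | ⟨g, hg⟩
    · exact ⟨_, h, rfl⟩
    · exfalso
      have h1 : (g : G) * e' * (g : G)⁻¹ = y := congrArg Subtype.val hg
      rw [← h1, card_cent_conj (g : G) e', hce'] at hcy
      exact h9' hcy
    · exfalso
      have h1 : (g : G) * e' * (g : G)⁻¹ = y⁻¹ := congrArg Subtype.val hg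
      have h2 : Subgroup.centralizer ({y⁻¹} : Set G) = Subgroup.centralizer ({y} : Set G) := by
        ext x
        rw [mem_cent, mem_cent]
        constructor
        · intro h
          calc y * x = y * (x * y⁻¹) * y := by group
            _ = y * (y⁻¹ * x) * y := by rw [h]
            _ = x * y := by group
        · intro h
          calc y⁻¹ * x = y⁻¹ * (x * y) * y⁻¹ := by group
            _ = y⁻¹ * (y * x) * y⁻¹ := by rw [h]
            _ = x * y⁻¹ := by group
      rw [← h2, ← h1, card_cent_conj (g : G) e', hce'] at hcy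
      exact h9' hcy

universe u

theorem t3_aux (n : ℕ) : ∀ (G : Type u) [Group G] [Finite G], Nat.card G ≤ n →
    ∀ (P : Sylow 3 G) (e : G) (_ : e ∈ (P : Subgroup G)) (_ : e ^ 3 = 1)
    (_ : Nat.card ↥((P : Subgroup G) ⊓ Subgroup.centralizer ({e} : Set G)) = 9)
    (_ : ¬ 27 ∣ Nat.card (Subgroup.centralizer ({e} : Set G))) (s : G)
    (_ : s * e * s⁻¹ ∈ (P : Subgroup G)),
    ∃ n ∈ Subgroup.normalizer ((P : Subgroup G) : Set G), ∃ c ∈ ⁅(P : Subgroup G), (P : Subgroup G)⁆,
      s * e * s⁻¹ = n * e * n⁻¹ * c := by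
  classical
  haveI : Fact (Nat.Prime 3) := ⟨Nat.prime_three⟩
  induction n with
  | zero =>
    intro G _ _ hG
    have : 0 < Nat.card G := Nat.card_pos
    omega
  | succ n ih =>
    intro G _ _ hG P e he he3 h9 h9' s hs
    have hPg : IsPGroup 3 (P : Subgroup G) := P.isPGroup'
    obtain ⟨k, hk⟩ := IsPGroup.iff_card.mp hPg
    have h9P : 9 ∣ Nat.card (P : Subgroup G) := by
      rw [← h9]; exact Subgroup.card_dvd_of_le inf_le_left
    have hk2 : 2 ≤ k := by
      rw [hk] at h9P
      have h1 : (3 : ℕ) ^ 2 ∣ 3 ^ k := by norm_num; exact h9P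
      exact (Nat.pow_dvd_pow_iff_le_right (by norm_num)).mp h1
    rcases Nat.eq_or_lt_of_le hk2 with hk2 | hk3
    · -- |P| = 9
      have hP9 : Nat.card (P : Subgroup G) = 3 ^ 2 := by rw [hk, ← hk2]
      have hcomm : IsMulCommutative (P : Subgroup G) :=
        IsPGroup.isMulCommutative_of_card_eq_prime_sq hP9
      obtain ⟨m, hm, hme⟩ := P.conj_eq_normalizer_conj_of_mem e s⁻¹ he (by rw [inv_inv]; exact hs)
      rw [inv_inv] at hme
      refine ⟨m⁻¹, Subgroup.inv_mem _ hm, 1, Subgroup.one_mem _, ?_⟩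
      rw [hme, inv_inv, mul_one]
    · have h27 : 27 ∣ Nat.card (P : Subgroup G) := by
        rw [hk]
        exact (show (27 : ℕ) = 3 ^ 3 by norm_num) ▸ pow_dvd_pow 3 hk3
      have h27' : 27 ≤ Nat.card (P : Subgroup G) := Nat.le_of_dvd Nat.card_pos h27
      have c9 : Nat.card (Subgroup.centralizer
          ({(⟨e, he⟩ : (P : Subgroup G))} : Set (P : Subgroup G))) = 9 := by
        rw [cardC (P : Subgroup G) he, h9]
      obtain ⟨hZ3, heZ, p₀, hp₀, hp₁⟩ := pa hPg ⟨e, he⟩ c9 h27'
      obtain ⟨h, hhe, hhZ⟩ := step P e he he3 h9 h9' h27 s hs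
      set Zg : Subgroup G := (Subgroup.center (P : Subgroup G)).map (P : Subgroup G).subtype with hZg
      have hZgc : Nat.card Zg = 3 := by
        rw [hZg, Subgroup.card_map_of_injective (P : Subgroup G).subtype_injective, hZ3]
      have hZP : Zg ≤ (P : Subgroup G) := by
        rintro _ ⟨z, hz, rfl⟩
        exact z.2
      -- Z ≤ P'
      have hZP' : Zg ≤ ⁅(P : Subgroup G), (P : Subgroup G)⁆ := by
        rintro _ ⟨z, hz, rfl⟩
        have h1 : (⟨z, hz⟩ : Subgroup.center (P : Subgroup G)) ∈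
            Submonoid.powers (⟨_, hp₀⟩ : Subgroup.center (P : Subgroup G)) :=
          mem_powers_of_prime_card hZ3 (fun h => hp₁ (congrArg Subtype.val h))
        obtain ⟨j, hj⟩ := h1
        have h2 : ((p₀ * ⟨e, he⟩ * p₀⁻¹ * (⟨e, he⟩ : (P : Subgroup G))⁻¹ : (P : Subgroup G)) : G) ^ j
            = ((z : (P : Subgroup G)) : G) := by
          have := congrArg (fun x : Subgroup.center (P : Subgroup G) => ((x : (P : Subgroup G)) : G)) hj
          simpa using this
        show ((z : (P : Subgroup G)) : G) ∈ _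
        rw [← h2]
        apply Subgroup.pow_mem
        show (p₀ : G) * e * (p₀ : G)⁻¹ * e⁻¹ ∈ _
        exact Subgroup.commutator_mem_commutator p₀.2 he
      set H : Subgroup G := Subgroup.normalizer (Zg : Set G) with hH
      have hPH : (P : Subgroup G) ≤ H := by
        intro x hx
        apply Subgroup.mem_normalizer_fintype
        rintro _ ⟨z, hz, rfl⟩
        have h1 : x * (z : G) = (z : G) * x :=
          congrArg Subtype.val ((Subgroup.mem_center_iff.mp hz) ⟨x, hx⟩)
        show x * (z : G) * x⁻¹ ∈ Zg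
        rw [h1]
        have h2 : (z : G) * x * x⁻¹ = (z : G) := by group
        rw [h2]
        exact ⟨z, hz, rfl⟩
      have hhH : h ∈ H := by
        apply Subgroup.mem_normalizer_fintype
        intro z hz
        exact hhZ z hz
      let Zh : Subgroup H := Zg.subgroupOf H
      haveI hZhn : Zh.Normal := Subgroup.normal_in_normalizer
      have hZgH : Zg ≤ H := hZP.trans hPH
      have hZh3 : Nat.card Zh = 3 := by
        rw [Nat.card_congr (Subgroup.subgroupOfEquivOfLe hZgH).toEquiv, hZgc]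
      let f : H →* H ⧸ Zh := QuotientGroup.mk' Zh
      have hfs : Function.Surjective f := QuotientGroup.mk'_surjective Zh
      have hf1 : ∀ x, f x = 1 ↔ x ∈ Zh := fun x => QuotientGroup.eq_one_iff x
      let PH : Sylow 3 H := P.subtype hPH
      have hPHc : (PH : Subgroup H) = (P : Subgroup G).subgroupOf H := rfl
      let PX : Sylow 3 (H ⧸ Zh) := PH.mapSurjective hfs
      have hPXc : (PX : Subgroup (H ⧸ Zh)) = (PH : Subgroup H).map f := rfl
      have hZhP : Zh ≤ (PH : Subgroup H) := by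
        intro x hx
        rw [hPHc, Subgroup.mem_subgroupOf]
        exact hZP (Subgroup.mem_subgroupOf.mp hx)
      let eH : H := ⟨e, hPH he⟩
      let hH' : H := ⟨h, hhH⟩
      have hcard : Nat.card (H ⧸ Zh) ≤ n := by
        have h1 : Nat.card (H ⧸ Zh) * 3 = Nat.card H := by
          rw [← hZh3]; exact (Subgroup.card_eq_card_quotient_mul_card_subgroup Zh).symm
        have h2 : Nat.card H ≤ Nat.card G := Subgroup.card_le_card_group H
        have h3 : 0 < Nat.card (H ⧸ Zh) := Nat.card_pos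
        omega
      -- counting for P
      obtain ⟨D, hDm, hDc, hCD, hDle⟩ := quot Zh hZh3 (PH : Subgroup H) hZhP eH
      have hC9 : Nat.card ↥((PH : Subgroup H) ⊓ Subgroup.centralizer ({eH} : Set H)) = 9 := by
        rw [hPHc, cardSub (P : Subgroup G) H hPH (hPH he), h9]
      have hX9 : Nat.card ↥((PX : Subgroup (H ⧸ Zh)) ⊓
          Subgroup.centralizer ({f eH} : Set (H ⧸ Zh))) = 9 := by
        rw [hPXc]
        have hDP : D ≤ (PH : Subgroup H) := fun x hx => ((hDm x).mp hx).1
        have hD3 : IsPGroup 3 D := PH.isPGroup'.to_le hDP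
        obtain ⟨j, hj⟩ := IsPGroup.iff_card.mp hD3
        rw [hC9] at hDle
        have hne : (PH : Subgroup H) ⊓ Subgroup.centralizer ({eH} : Set H) ≠ D := by
          intro heq
          have h1 : (⟨(p₀ : G), hPH p₀.2⟩ : H) ∈ D := by
            rw [hDm]
            refine ⟨?_, ?_⟩
            · rw [hPHc, Subgroup.mem_subgroupOf]; exact p₀.2
            · rw [Subgroup.mem_subgroupOf]
              exact ⟨_, hp₀, rfl⟩
          rw [← heq] at h1
          have h2 := (mem_cent _ _).mp h1.2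
          have h3 : e * (p₀ : G) = (p₀ : G) * e := congrArg Subtype.val h2
          apply hp₁
          apply Subtype.ext
          show (p₀ : G) * e * (p₀ : G)⁻¹ * e⁻¹ = 1
          rw [← h3]; group
        have h9D : 9 ∣ Nat.card D := by rw [← hC9]; exact Subgroup.card_dvd_of_le hCD
        have hD9 : Nat.card D ≠ 9 := by
          intro h1
          exact hne (Subgroup.eq_of_le_of_card_ge hCD (by rw [h1, hC9]))
        have hj3 : j = 3 := by
          rw [hj] at hDle h9D hD9
          have h1 : j < 4 := by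
            by_contra hge
            push Not at hge
            have : (3 : ℕ) ^ 4 ≤ 3 ^ j := Nat.pow_le_pow_right (by norm_num) hge
            omega
          have h2 : 9 ≤ 3 ^ j := Nat.le_of_dvd (by positivity) h9D
          interval_cases j
          · norm_num at h2
          · norm_num at h2
          · norm_num at hD9
          · rfl
        rw [hj, hj3] at hDc
        have h4 : (3 : ℕ) ^ 3 = 3 * 9 := by norm_num
        rw [h4] at hDc
        exact (Nat.eq_of_mul_eq_mul_left (by norm_num) hDc).symm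
      -- counting for H
      have hX27 : ¬ 27 ∣ Nat.card (Subgroup.centralizer ({f eH} : Set (H ⧸ Zh))) := by
        obtain ⟨D', hDm', hDc', hCD', hDle'⟩ := quot Zh hZh3 ⊤ le_top eH
        have h1 : Nat.card ↥((⊤ : Subgroup H).map f ⊓
            Subgroup.centralizer ({f eH} : Set (H ⧸ Zh))) =
            Nat.card (Subgroup.centralizer ({f eH} : Set (H ⧸ Zh))) := by
          rw [Subgroup.map_top_of_surjective f hfs, top_inf_eq]
        have hDc'' : Nat.card D' = 3 * Nat.card (Subgroup.centralizer ({f eH} : Set (H ⧸ Zh))) := by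
          rw [← h1]; exact hDc'
        rintro ⟨w, hw⟩
        rw [hw] at hDc''
        rw [top_inf_eq] at hCD' hDle'
        obtain ⟨i, hi⟩ := Subgroup.card_dvd_of_le hCD'
        have hcG : Nat.card (Subgroup.centralizer ({eH} : Set H)) ∣
            Nat.card (Subgroup.centralizer ({e} : Set G)) := by
          have h2 := cardSub H H le_rfl (hPH he)
          rw [Subgroup.subgroupOf_self, top_inf_eq] at h2
          rw [h2]
          exact Subgroup.card_dvd_of_le inf_le_right
        have hc0 : 0 < Nat.card (Subgroup.centralizer ({eH} : Set H)) := Nat.card_pos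
        have hD0 : 0 < Nat.card D' := Nat.card_pos
        rw [hi] at hDle' hDc'' hD0
        have hi3 : i ≤ 3 := by
          have h3 : Nat.card (Subgroup.centralizer ({eH} : Set H)) * i ≤
            Nat.card (Subgroup.centralizer ({eH} : Set H)) * 3 := by
            rw [mul_comm _ 3]; exact hDle'
          exact Nat.le_of_mul_le_mul_left h3 hc0
        have hi0 : 0 < i := Nat.pos_of_mul_pos_left hD0
        apply h9'
        refine dvd_trans ?_ hcG
        generalize Nat.card (Subgroup.centralizer ({eH} : Set H)) = c at hDc'' ⊢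
        interval_cases i
        · exact ⟨3 * w, by omega⟩
        · omega
        · exact ⟨w, by omega⟩
      -- induction
      have heX : f eH ∈ (PX : Subgroup (H ⧸ Zh)) := ⟨eH, by
        rw [SetLike.mem_coe, hPHc, Subgroup.mem_subgroupOf]; exact he, rfl⟩
      have heX3 : (f eH) ^ 3 = 1 := by
        rw [← map_pow]
        have : eH ^ 3 = 1 := Subtype.ext he3
        rw [this, map_one]
      have hsX : f hH' * f eH * (f hH')⁻¹ ∈ (PX : Subgroup (H ⧸ Zh)) := by
        refine ⟨hH' * eH * hH'⁻¹, ?_, by simp⟩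
        rw [SetLike.mem_coe, hPHc, Subgroup.mem_subgroupOf]
        show h * e * h⁻¹ ∈ (P : Subgroup G)
        rw [hhe]; exact hs
      obtain ⟨nX, hnX, cX, hcX, hnc⟩ := ih (H ⧸ Zh) hcard PX (f eH) heX heX3 hX9 hX27 (f hH') hsX
      obtain ⟨m, rfl⟩ := hfs nX
      have hcX' : cX ∈ (⁅(PH : Subgroup H), (PH : Subgroup H)⁆).map f := by
        rw [Subgroup.map_commutator]; exact hcX
      obtain ⟨c, hc, rfl⟩ := hcX'
      have hcG : (c : G) ∈ ⁅(P : Subgroup G), (P : Subgroup G)⁆ := by
        have h1 : (c : G) ∈ (⁅(PH : Subgroup H), (PH : Subgroup H)⁆).map H.subtype := ⟨c, hc, rfl⟩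
        rw [Subgroup.map_commutator] at h1
        have h2 : (PH : Subgroup H).map H.subtype = (P : Subgroup G) := by
          rw [hPHc, Subgroup.subgroupOf_map_subtype, inf_eq_left.mpr hPH]
        rw [h2] at h1
        exact h1
      have hmN : (m : G) ∈ Subgroup.normalizer ((P : Subgroup G) : Set G) := by
        apply Subgroup.mem_normalizer_fintype
        intro x hx
        have h1 : f (⟨x, hPH hx⟩ : H) ∈ (PX : Subgroup (H ⧸ Zh)) :=
          ⟨_, by rw [SetLike.mem_coe, hPHc, Subgroup.mem_subgroupOf]; exact hx, rfl⟩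
        have h2 : f m * f (⟨x, hPH hx⟩ : H) * (f m)⁻¹ ∈ (PX : Subgroup (H ⧸ Zh)) :=
          ((Subgroup.mem_normalizer_iff.mp hnX) _).mp h1
        obtain ⟨y, hy, hyx⟩ := h2
        have h3 : f (y⁻¹ * (m * ⟨x, hPH hx⟩ * m⁻¹)) = 1 := by
          rw [map_mul, map_inv, hyx]
          simp only [map_mul, map_inv]
          group
        have h4 := hZhP ((hf1 _).mp h3)
        have h5 : m * ⟨x, hPH hx⟩ * m⁻¹ ∈ (PH : Subgroup H) := by
          have h6 := (PH : Subgroup H).mul_mem hy h4
          rwa [mul_inv_cancel_left] at h6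
        rw [hPHc, Subgroup.mem_subgroupOf] at h5
        exact h5
      -- lift
      have h1 : f ((m * eH * m⁻¹ * c)⁻¹ * (hH' * eH * hH'⁻¹)) = 1 := by
        rw [map_mul, map_inv]
        simp only [map_mul, map_inv]
        rw [hnc]; group
      have h2 := (hf1 _).mp h1
      rw [Subgroup.mem_subgroupOf] at h2
      refine ⟨m, hmN, c * (((m : G) * e * (m : G)⁻¹ * (c : G))⁻¹ * (h * e * h⁻¹)),
        Subgroup.mul_mem _ hcG (hZP' h2), ?_⟩
      rw [← hhe]; group

end T3a

/-- [T3] -/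
theorem t3 {G : Type*} [Group G] [Finite G] (P : Sylow 3 G) (e : G) (he : e ∈ (P : Subgroup G)) (he3 : e ^ 3 = 1)
    (h9 : Nat.card ↥((P : Subgroup G) ⊓ Subgroup.centralizer ({e} : Set G)) = 9)
    (h9' : ¬ 27 ∣ Nat.card (Subgroup.centralizer ({e} : Set G))) (s : G) (hs : s * e * s⁻¹ ∈ (P : Subgroup G)) :
    ∃ n ∈ Subgroup.normalizer ((P : Subgroup G) : Set G), ∃ c ∈ ⁅(P : Subgroup G), (P : Subgroup G)⁆,
      s * e * s⁻¹ = n * e * n⁻¹ * c :=
  T3a.t3_aux (Nat.card G) G le_rfl P e he he3 h9 h9' s hs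

end Cfsg.Agent.H96.Fx
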