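import Cfsg.Agent.H96.Fx.CABS2
import Cfsg.Agent.H96.Fx.T3

set_option autoImplicit false

namespace Cfsg.Agent.H96.Fx

/-- [CABS] the abstract case (γ) -/
theorem c_abs {G : Type*} [Group G] [Finite G] (hperf : commutator G = ⊤) (P : Sylow 3 G) (e : G)
    (he : e ∈ (P : Subgroup G)) (he3 : orderOf e = 3)
    (h9 : Nat.card ↥((P : Subgroup G) ⊓ Subgroup.centralizer ({e} : Set G)) = 9)
    (h9' : ¬ 27 ∣ Nat.card (Subgroup.centralizer ({e} : Set G))) (h27 : 27 ≤ Nat.card P)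
    (hB : ∀ q ∈ Subgroup.normalizer ((P : Subgroup G) : Set G), (∃ k : ℕ, q ^ 2 ^ k = 1) →
      ∀ x ∈ (P : Subgroup G), IsConj e x → q * x * q⁻¹ ∈ Subgroup.zpowers x → q = 1) :
    Nat.card P = 27 ∧ ∀ x ∈ (P : Subgroup G), x ^ 3 = 1 :=
  c_abs_of_t3 hperf P e he he3 h9 h27 hB
    (fun s hs => t3 P e he (orderOf_dvd_iff_pow_eq_one.1 (dvd_of_eq he3)) h9 h9' s hs)

end Cfsg.Agent.H96.Fx
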