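import Mathlib

set_option autoImplicit false

namespace Cfsg.Agent.H96.Fx.CABS

theorem s1 {V : Type*} [CommGroup V] (W : Subgroup V) (hW : Nat.card W = 3)
    (a : MulAut V) (ha : ∀ w ∈ W, a w ∈ W) : (∀ w ∈ W, a w = w) ∨ (∀ w ∈ W, a w = w⁻¹) := by
  haveI : Finite W := Nat.finite_of_card_ne_zero (by omega)
  haveI : Fact (Nat.Prime 3) := ⟨Nat.prime_three⟩
  have hcube : ∀ w ∈ W, w ^ 3 = 1 := by
    intro w hw
    have := pow_card_eq_one' (x := (⟨w, hw⟩ : W))
    rw [hW] at this
    exact congrArg Subtype.val this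
  -- a generator
  obtain ⟨w0, hw0⟩ : ∃ w0 : W, w0 ≠ 1 := by
    haveI : Nontrivial W := Finite.one_lt_card_iff_nontrivial.1 (by omega)
    exact exists_ne 1
  have hgen : ∀ w : W, w ∈ Subgroup.zpowers w0 := fun w => mem_zpowers_of_prime_card hW hw0
  have key : a (w0 : V) = w0 ∨ a (w0 : V) = (w0 : V)⁻¹ := by
    obtain ⟨k, hk⟩ := hgen ⟨a w0, ha _ w0.2⟩
    have hk' : (w0 : V) ^ k = a w0 := by
      have := congrArg Subtype.val hk
      simpa using this
    have h3 : (w0 : V) ^ (3 : ℤ) = 1 := by exact_mod_cast hcube _ w0.2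
    have hkm : (w0 : V) ^ k = (w0 : V) ^ (k % 3) := by
      conv_lhs => rw [← Int.emod_add_mul_ediv k 3, zpow_add, zpow_mul, h3, one_zpow, mul_one]
    have h1 : 0 ≤ k % 3 := Int.emod_nonneg _ (by norm_num)
    have h2 : k % 3 < 3 := Int.emod_lt_of_pos _ (by norm_num)
    have h0 : k % 3 = 0 ∨ k % 3 = 1 ∨ k % 3 = 2 := by omega
    rcases h0 with h | h | h
    · exfalso
      rw [hkm, h, zpow_zero] at hk'
      have h4 : a (w0 : V) = a 1 := by rw [map_one]; exact hk'.symm
      have h5 := a.injective h4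
      exact hw0 (Subtype.ext h5)
    · left; rw [← hk', hkm, h, zpow_one]
    · right
      rw [← hk', hkm, h, eq_inv_iff_mul_eq_one]
      have : (w0 : V) ^ (2 : ℤ) * w0 = (w0 : V) ^ (3 : ℤ) := by
        rw [show (3 : ℤ) = 2 + 1 from rfl, zpow_add_one]
      rw [this, h3]
  rcases key with h | h
  · left
    intro w hw
    obtain ⟨k, hk⟩ := hgen ⟨w, hw⟩
    have hk' : (w0 : V) ^ k = w := by
      have := congrArg Subtype.val hk
      simpa using this
    rw [← hk', map_zpow, h]
  · right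
    intro w hw
    obtain ⟨k, hk⟩ := hgen ⟨w, hw⟩
    have hk' : (w0 : V) ^ k = w := by
      have := congrArg Subtype.val hk
      simpa using this
    rw [← hk', map_zpow, h, inv_zpow]

theorem s2 {V : Type*} [CommGroup V] (W : Subgroup V) (hW : W.index = 3)
    (a : MulAut V) (ha : ∀ w ∈ W, a w ∈ W) (ha' : ∀ w, a w ∈ W → w ∈ W) :
    (∀ x, a x * x⁻¹ ∈ W) ∨ (∀ x, a x * x ∈ W) := by
  have hmap : W.map (a : V ≃* V).toMonoidHom = W := by
    ext y
    constructor
    · rintro ⟨w, hw, rfl⟩; exact ha w hw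
    · intro hy
      refine ⟨a.symm y, ha' _ (by simpa using hy), by simp⟩
  let b : MulAut (V ⧸ W) := QuotientGroup.congr W W a hmap
  have hb : ∀ x : V, b (QuotientGroup.mk x) = QuotientGroup.mk (a x) := fun x => rfl
  have hcard : Nat.card (⊤ : Subgroup (V ⧸ W)) = 3 := by
    rw [Subgroup.card_top]; exact hW
  rcases s1 (⊤ : Subgroup (V ⧸ W)) hcard b (fun _ _ => Subgroup.mem_top _) with h | h
  · left
    intro x
    have := h (QuotientGroup.mk x) (Subgroup.mem_top _)
    rw [hb] at this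
    rw [← QuotientGroup.eq_one_iff, QuotientGroup.mk_mul, QuotientGroup.mk_inv, this, mul_inv_cancel]
  · right
    intro x
    have := h (QuotientGroup.mk x) (Subgroup.mem_top _)
    rw [hb] at this
    rw [← QuotientGroup.eq_one_iff, QuotientGroup.mk_mul, this, inv_mul_cancel]

theorem lin {V : Type*} [CommGroup V] [Finite V] (W : Subgroup V) (hW : Nat.card W = 3) (hVW : W.index = 3)
    (A : Subgroup (MulAut V)) (m : ℕ) (hm : Nat.Coprime m 3) (hA : ∀ a ∈ A, a ^ m = 1)
    (hAW : ∀ a ∈ A, ∀ w ∈ W, a w ∈ W) (v : V) (hv : v ≠ 1) (hF : ∀ a ∈ A, a v ≠ v⁻¹) :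
    ∃ W' : Subgroup V, v ∉ W' ∧ ∀ a ∈ A, a v * v⁻¹ ∈ W' := by
  have hcube : ∀ w ∈ W, w ^ 3 = 1 := by
    intro w hw
    haveI : Finite W := Nat.finite_of_card_ne_zero (by omega)
    have := pow_card_eq_one' (x := (⟨w, hw⟩ : W))
    rw [hW] at this
    exact congrArg Subtype.val this
  have t1 : ∀ a ∈ A, (∀ w ∈ W, a w = w) ∨ (∀ w ∈ W, a w = w⁻¹) := fun a ha => s1 W hW a (hAW a ha)
  have t2 : ∀ a ∈ A, (∀ x, a x * x⁻¹ ∈ W) ∨ (∀ x, a x * x ∈ W) := fun a ha =>
    s2 W hVW a (hAW a ha) (fun w hw => by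
      have := hAW a⁻¹ (A.inv_mem ha) _ hw
      simpa using this)
  have s3 : ∀ a ∈ A, (∀ w ∈ W, a w = w) → (∀ x, a x * x⁻¹ ∈ W) → a = 1 := by
    intro a ha h1 h2
    have h3 : a ^ 3 = 1 := by
      ext x
      obtain ⟨l, hl, hax⟩ : ∃ l ∈ W, a x = l * x := ⟨a x * x⁻¹, h2 x, by rw [inv_mul_cancel_right]⟩
      have h5 : (a ^ 3) x = a (a (a x)) := by
        rw [pow_succ, pow_two]; rfl
      rw [h5, hax, map_mul, h1 l hl, hax, map_mul, map_mul, h1 l hl, hax]
      show l * (l * (l * x)) = x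
      have h33 := hcube l hl
      calc l * (l * (l * x)) = l ^ 3 * x := by rw [pow_succ, pow_two]; simp only [mul_assoc]
        _ = x := by rw [h33, one_mul]
    have hd1 : orderOf a ∣ 3 := orderOf_dvd_of_pow_eq_one h3
    have hd2 : orderOf a ∣ m := orderOf_dvd_of_pow_eq_one (hA a ha)
    have hd3 : orderOf a ∣ 1 := by
      have := Nat.dvd_gcd hd2 hd1
      rwa [hm] at this
    exact orderOf_eq_one_iff.1 (Nat.dvd_one.1 hd3)
  have sq : ∀ a ∈ A, a * a = 1 := by
    intro a ha
    apply s3 _ (A.mul_mem ha ha)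
    · intro w hw
      show a (a w) = w
      rcases t1 a ha with h | h
      · rw [h w hw, h w hw]
      · rw [h w hw, map_inv, h w hw, inv_inv]
    · intro x
      show a (a x) * x⁻¹ ∈ W
      rcases t2 a ha with h | h
      · have h1 := h (a x); have h2 := h x
        have : a (a x) * x⁻¹ = (a (a x) * (a x)⁻¹) * (a x * x⁻¹) := by group
        rw [this]; exact W.mul_mem h1 h2
      · have h1 := h (a x); have h2 := h x
        have : a (a x) * x⁻¹ = (a (a x) * a x) * (a x * x)⁻¹ := by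
          rw [mul_inv]; 
          calc a (a x) * x⁻¹ = a (a x) * (a x * (a x)⁻¹) * x⁻¹ := by group
            _ = a (a x) * a x * ((a x)⁻¹ * x⁻¹) := by group
        rw [this]; exact W.mul_mem h1 (W.inv_mem h2)
  have s4 : ∀ a ∈ A, (∀ w ∈ W, a w = w⁻¹) → (∀ x, a x * x ∈ W) → False := by
    intro a ha h1 h2
    have hu := h2 v
    have e1 := h1 _ hu
    have e2 : a (a v * v) = a v * v := by
      rw [map_mul]
      have : a (a v) = v := by
        have := sq a ha
        have := congrArg (fun f : MulAut V => f v) this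
        exact this
      rw [this, mul_comm]
    rw [e2] at e1
    have e3 : (a v * v) ^ 2 = 1 := by
      rw [pow_two]
      nth_rewrite 1 [e1]
      rw [inv_mul_cancel]
    have e4 := hcube _ hu
    have e5 : a v * v = 1 := by
      have : (a v * v) ^ 3 = (a v * v) ^ 2 * (a v * v) := pow_succ _ 2
      rw [e4, e3, one_mul] at this
      exact this.symm
    exact hF a ha (eq_inv_of_mul_eq_one_left e5)
  by_cases hall : ∀ a ∈ A, ∀ x, a x * x⁻¹ ∈ W
  · by_cases hvW : v ∈ W
    · refine ⟨⊥, by simpa using hv, ?_⟩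
      intro a ha
      rcases t1 a ha with h | h
      · rw [h v hvW, mul_inv_cancel]; exact Subgroup.one_mem _
      · exact absurd (h v hvW) (hF a ha)
    · exact ⟨W, hvW, fun a ha => hall a ha v⟩
  · push Not at hall
    obtain ⟨n0, hn0, x0, hx0⟩ := hall
    have n2 : ∀ x, n0 x * x ∈ W := (t2 n0 hn0).resolve_left (fun h => hx0 (h x0))
    have n1 : ∀ w ∈ W, n0 w = w := (t1 n0 hn0).resolve_right (fun h => s4 n0 hn0 h n2)
    have all1 : ∀ a ∈ A, ∀ w ∈ W, a w = w := by
      intro a ha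
      refine (t1 a ha).resolve_right (fun h => ?_)
      have h2 : ∀ x, a x * x⁻¹ ∈ W := (t2 a ha).resolve_right (fun h' => s4 a ha h h')
      apply s4 (a * n0) (A.mul_mem ha hn0)
      · intro w hw
        show a (n0 w) = w⁻¹
        rw [n1 w hw, h w hw]
      · intro x
        show a (n0 x) * x ∈ W
        have : a (n0 x) * x = (a (n0 x) * (n0 x)⁻¹) * (n0 x * x) := by group
        rw [this]
        exact W.mul_mem (h2 _) (n2 _)
    refine ⟨Subgroup.zpowers (n0 v * v⁻¹), ?_, ?_⟩
    · rintro ⟨k, hk⟩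
      have hk : (n0 v * v⁻¹) ^ k = v := hk
      have hnn : n0 (n0 v) = v := congrArg (fun f : MulAut V => f v) (sq n0 hn0)
      have hd : n0 (n0 v * v⁻¹) = (n0 v * v⁻¹)⁻¹ := by
        rw [map_mul, map_inv, hnn, mul_inv, inv_inv, mul_comm]
      apply hF n0 hn0
      have : n0 ((n0 v * v⁻¹) ^ k) = ((n0 v * v⁻¹) ^ k)⁻¹ := by
        rw [map_zpow, hd, inv_zpow]
      rwa [hk] at this
    · intro a ha
      rcases t2 a ha with h | h
      · have := s3 a ha (all1 a ha) h
        rw [this]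
        show v * v⁻¹ ∈ _
        rw [mul_inv_cancel]; exact Subgroup.one_mem _
      · have : a * n0 = 1 := by
          apply s3 _ (A.mul_mem ha hn0)
          · intro w hw
            show a (n0 w) = w
            rw [n1 w hw, all1 a ha w hw]
          · intro x
            show a (n0 x) * x⁻¹ ∈ W
            have : a (n0 x) * x⁻¹ = (a (n0 x) * (n0 x)) * (n0 x * x)⁻¹ := by
              rw [mul_inv]
              calc a (n0 x) * x⁻¹ = a (n0 x) * (n0 x * (n0 x)⁻¹) * x⁻¹ := by group
                _ = _ := by group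
            rw [this]
            exact W.mul_mem (h _) (W.inv_mem (n2 _))
        have h2 : a = n0 := by
          have e1 := sq n0 hn0
          calc a = a * (n0 * n0) := by rw [e1, mul_one]
            _ = (a * n0) * n0 := by group
            _ = n0 := by rw [this, one_mul]
        rw [h2]
        exact Subgroup.mem_zpowers _

end Cfsg.Agent.H96.Fx.CABS
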