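import Cfsg.Agent.H96.Fx.CABS0

set_option autoImplicit false

namespace Cfsg.Agent.H96.Fx.CABS

/-- the action of automorphisms on the abelianization -/
def abAut (P : Type*) [Group P] : MulAut P →* MulAut (Abelianization P) where
  toFun α := MulEquiv.abelianizationCongr α
  map_one' := by
    ext x
    obtain ⟨y, rfl⟩ := QuotientGroup.mk_surjective x
    rfl
  map_mul' := by
    intro a b
    ext x
    obtain ⟨y, rfl⟩ := QuotientGroup.mk_surjective x
    rfl

theorem abAut_of {P : Type*} [Group P] (α : MulAut P) (x : P) :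
    abAut P α (Abelianization.of x) = Abelianization.of (α x) := rfl

theorem of_eq_one_iff {P : Type*} [Group P] (x : P) : Abelianization.of x = 1 ↔ x ∈ commutator P := by
  rw [← MonoidHom.mem_ker, Abelianization.ker_of]

theorem of_surj {P : Type*} [Group P] : Function.Surjective (Abelianization.of : P →* Abelianization P) :=
  QuotientGroup.mk_surjective

theorem c_abs_of {G : Type*} [Group G] [Finite G] (Q : Subgroup G) (h3Q : ¬ 3 ∣ Q.index) (e : G)
    (he : e ∈ Q) (he3 : orderOf e = 3)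
    (hidx : (commutator Q).index = 9)
    (hconj : ∀ c ∈ commutator Q, IsConj (⟨e, he⟩ : Q) (⟨e, he⟩ * c))
    (L : Subgroup Q) (hLc : L.Characteristic) (hLi : L.index = 3)
    (hLP : commutator Q ≤ L)
    (HT : ∀ s : G, s * e * s⁻¹ ∈ Q →
      ∃ n ∈ Subgroup.normalizer (Q : Set G), ∃ c ∈ ⁅Q, Q⁆,
        s * e * s⁻¹ = n * e * n⁻¹ * c)
    (HR : ∀ K : Subgroup G, K ≤ Q → (∀ x ∈ Q, ∀ k ∈ K, x * k * x⁻¹ ∈ K) →
      (∀ x ∈ Q, ∀ y ∈ Q, x * y * x⁻¹ * y⁻¹ ∈ K) → e ∉ K →
      (∀ s : G, s * e * s⁻¹ ∈ Q → (s * e * s⁻¹) * e⁻¹ ∈ K) → False)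
    (hB : ∀ q ∈ Subgroup.normalizer (Q : Set G), (∃ k : ℕ, q ^ 2 ^ k = 1) →
      ∀ x ∈ Q, IsConj e x → q * x * q⁻¹ ∈ Subgroup.zpowers x → q = 1) : False := by
  classical
  let E : Q := ⟨e, he⟩
  have hE1 : E ≠ 1 := by
    intro h
    have h1 : e = 1 := congrArg Subtype.val h
    rw [h1, orderOf_one] at he3
    omega
  -- v ≠ 1
  have hv : (Abelianization.of E : Abelianization Q) ≠ 1 := by
    intro h
    rw [of_eq_one_iff] at h
    have h1 := hconj _ (Subgroup.inv_mem _ h)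
    rw [mul_inv_cancel] at h1
    exact hE1 (isConj_one_left.1 h1)
  let φ : (Subgroup.normalizer (Q : Set G) : Subgroup G) →* MulAut Q := Q.normalizerMonoidHom
  have hφ : ∀ (n : (Subgroup.normalizer (Q : Set G) : Subgroup G)) (x : Q), ((φ n x : Q) : G) = n * x * (n : G)⁻¹ :=
    fun n x => rfl
  let A : Subgroup (MulAut (Abelianization Q)) := ((abAut Q).comp φ).range
  let W : Subgroup (Abelianization Q) := L.map Abelianization.of
  have hker : (Abelianization.of : Q →* Abelianization Q).ker = commutator Q := Abelianization.ker_of Q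
  have hWi : W.index = 3 := by
    rw [← hLi]
    exact Subgroup.index_map_eq L of_surj (by rw [hker]; exact hLP)
  have hVc : Nat.card (Abelianization Q) = 9 := hidx
  have hWc : Nat.card W = 3 := by
    have := W.card_mul_index
    rw [hWi, hVc] at this
    omega
  let m := (Q.subgroupOf (Subgroup.normalizer (Q : Set G))).index
  have hm : Nat.Coprime m 3 := by
    have h1 : ¬ 3 ∣ m := by
      intro h
      have h2 : m ∣ Q.index := Subgroup.relIndex_dvd_index_of_le Subgroup.le_normalizer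
      haveI : Fact (Nat.Prime 3) := ⟨Nat.prime_three⟩
      exact h3Q (h.trans h2)
    exact (Nat.Coprime.symm ((Nat.Prime.coprime_iff_not_dvd Nat.prime_three).2 h1))
  obtain ⟨W', hvW', hW'⟩ := lin W hWc hWi A m hm
    (by
      rintro _ ⟨n, rfl⟩
      rw [← map_pow]
      haveI : (Q.subgroupOf (Subgroup.normalizer (Q : Set G))).Normal := Subgroup.normal_in_normalizer
      have h1 : n ^ m ∈ Q.subgroupOf (Subgroup.normalizer (Q : Set G)) := Subgroup.pow_index_mem _ n
      rw [Subgroup.mem_subgroupOf] at h1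
      ext x
      obtain ⟨y, rfl⟩ := of_surj x
      show Abelianization.of (φ (n ^ m) y) = Abelianization.of y
      have h2 : φ (n ^ m) y = (⟨_, h1⟩ : Q) * y * (⟨_, h1⟩ : Q)⁻¹ := by
        apply Subtype.ext
        rw [hφ]
        rfl
      rw [h2, map_mul, map_mul, map_inv, mul_comm, inv_mul_cancel_left])
    (by
      rintro _ ⟨n, rfl⟩ _ ⟨l, hl, rfl⟩
      refine ⟨φ n l, ?_, rfl⟩
      have := hLc.fixed (φ n)
      have h2 : l ∈ L.comap (φ n).toMonoidHom := by rw [this]; exact hl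
      exact h2)
    (Abelianization.of E) hv
    (by
      rintro _ ⟨n, rfl⟩ h
      have h0 : Abelianization.of (φ n E) = (Abelianization.of E)⁻¹ := h
      have hc : E⁻¹ * (φ n E)⁻¹ ∈ commutator Q := by
        rw [← of_eq_one_iff, map_mul, map_inv, map_inv, h0, inv_inv, inv_mul_cancel]
      have h1 := hconj _ hc
      rw [show (⟨e, he⟩ : Q) * (E⁻¹ * (φ n E)⁻¹) = (φ n E)⁻¹ from mul_inv_cancel_left E _] at h1
      obtain ⟨g, hg⟩ := isConj_iff.1 h1
      have hg' : (g : G) * e * (g : G)⁻¹ = (n * e * (n : G)⁻¹)⁻¹ := congrArg Subtype.val hg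
      set y : G := (g : G)⁻¹ * n with hy
      have hyN : y ∈ Subgroup.normalizer (Q : Set G) :=
        Subgroup.mul_mem _ (Subgroup.inv_mem _ (Subgroup.le_normalizer g.2)) n.2
      have hye : y * e * y⁻¹ = e⁻¹ := by
        have h3 : (n : G) * e * (n : G)⁻¹ = (g * e * (g : G)⁻¹)⁻¹ := by rw [hg', inv_inv]
        calc y * e * y⁻¹ = (g : G)⁻¹ * (n * e * (n : G)⁻¹) * g := by rw [hy]; group
          _ = (g : G)⁻¹ * (g * e * (g : G)⁻¹)⁻¹ * g := by rw [h3]
          _ = e⁻¹ := by group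
      have hy2 : Commute (y ^ 2) e := by
        have : y ^ 2 * e * (y ^ 2)⁻¹ = e := by
          calc y ^ 2 * e * (y ^ 2)⁻¹ = y * (y * e * y⁻¹) * y⁻¹ := by simp only [pow_two, mul_inv_rev, mul_assoc]
            _ = y * e⁻¹ * y⁻¹ := by rw [hye]
            _ = (y * e * y⁻¹)⁻¹ := by simp only [mul_inv_rev, inv_inv, mul_assoc]
            _ = e := by rw [hye, inv_inv]
        exact mul_inv_eq_iff_eq_mul.1 this
      obtain ⟨k, b, hb, hkb⟩ := Nat.exists_eq_two_pow_mul_odd (n := orderOf y) (orderOf_pos y).ne'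
      obtain ⟨j, rfl⟩ := hb
      have hq : y ^ (2 * j + 1) * e * (y ^ (2 * j + 1))⁻¹ = e⁻¹ := by
        have h4 : Commute ((y ^ 2) ^ j) e := hy2.pow_left j
        calc y ^ (2 * j + 1) * e * (y ^ (2 * j + 1))⁻¹
            = y * ((y ^ 2) ^ j * e * ((y ^ 2) ^ j)⁻¹) * y⁻¹ := by
              rw [← pow_mul, pow_succ']; group
          _ = y * e * y⁻¹ := by rw [h4.eq, mul_inv_cancel_right]
          _ = e⁻¹ := hye
      have hq1 := hB (y ^ (2 * j + 1)) (Subgroup.pow_mem _ hyN _)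
        ⟨k, by rw [← pow_mul, mul_comm, ← hkb, pow_orderOf_eq_one]⟩ e he (IsConj.refl e)
        (by rw [hq]; exact Subgroup.inv_mem _ (Subgroup.mem_zpowers e))
      rw [hq1] at hq
      have h5 : e ^ 2 = 1 := by
        have : e = e⁻¹ := by simpa using hq
        rw [pow_two]
        nth_rewrite 1 [this]
        rw [inv_mul_cancel]
      have h6 := orderOf_dvd_of_pow_eq_one h5
      rw [he3] at h6
      omega)
  -- the subgroup K
  refine HR ((W'.comap Abelianization.of).map Q.subtype) (Subgroup.map_subtype_le _) ?_ ?_ ?_ ?_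
  · rintro x hx _ ⟨κ, hκ, rfl⟩
    refine ⟨⟨x, hx⟩ * κ * (⟨x, hx⟩ : Q)⁻¹, ?_, rfl⟩
    show Abelianization.of _ ∈ W'
    rw [map_mul, map_mul, map_inv, mul_comm, inv_mul_cancel_left]
    exact hκ
  · intro x hx y hy
    refine ⟨⟨x, hx⟩ * ⟨y, hy⟩ * (⟨x, hx⟩ : Q)⁻¹ * (⟨y, hy⟩ : Q)⁻¹, ?_, rfl⟩
    show Abelianization.of _ ∈ W'
    rw [map_mul, map_mul, map_mul, map_inv, map_inv,
      mul_comm (Abelianization.of (⟨x, hx⟩ : Q)) (Abelianization.of (⟨y, hy⟩ : Q)), mul_inv_cancel_right,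
      mul_inv_cancel]
    exact Subgroup.one_mem _
  · rintro ⟨κ, hκ, hκe⟩
    have : κ = E := Subtype.ext hκe
    rw [this] at hκ
    exact hvW' hκ
  · intro s hs
    obtain ⟨n, hn, c, hc, hsc⟩ := HT s hs
    rw [← Subgroup.map_subtype_commutator] at hc
    obtain ⟨γ, hγ, rfl⟩ := hc
    rw [hsc]
    refine ⟨φ ⟨n, hn⟩ E * γ * E⁻¹, ?_, rfl⟩
    show Abelianization.of _ ∈ W'
    rw [map_mul, map_mul, (of_eq_one_iff γ).2 hγ, mul_one, map_inv]
    exact hW' _ ⟨⟨n, hn⟩, rfl⟩

end Cfsg.Agent.H96.Fx.CABS
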