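import Cfsg.Agent.H72.MC1

set_option autoImplicit false

/-!
S3365, piece M3 (helper42): 3-groups with an element of order 3 whose centralizer has order 9.
-/

universe u

namespace Cfsg.Agent.H96.Fx

open Cfsg.Agent.H72.MC Subgroup
open scoped commutatorElement

namespace M3

theorem sq_le {X : Type*} [Group X] [Finite X] {p : ℕ} [hp : Fact p.Prime] {n : ℕ} (hn : Nat.card X = p ^ n) (h2 : 2 ≤ n)
    (s : X) : p ^ 2 ≤ Nat.card (Subgroup.centralizer ({s} : Set X)) := by
  have hpp := hp.out
  have hX : IsPGroup p X := IsPGroup.of_card hn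
  by_cases hs : s ∈ center X
  · have h1 : Subgroup.centralizer ({s} : Set X) = ⊤ := by
      rw [Subgroup.eq_top_iff']
      intro x
      rw [Subgroup.mem_centralizer_singleton_iff]
      exact Subgroup.mem_center_iff.1 hs x
    rw [h1, Subgroup.card_top, hn]
    exact Nat.pow_le_pow_right hpp.pos h2
  · have hle : center X ≤ Subgroup.centralizer ({s} : Set X) := by
      intro x hx
      rw [Subgroup.mem_centralizer_singleton_iff]
      exact (Subgroup.mem_center_iff.1 hx s).symm
    have hlt : center X < Subgroup.centralizer ({s} : Set X) := lt_of_le_of_ne hle fun h => hs (by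
      rw [h, Subgroup.mem_centralizer_singleton_iff])
    have hnt : Nontrivial X := by
      rw [← Finite.one_lt_card_iff_nontrivial, hn]
      exact Nat.one_lt_pow (by omega) hpp.one_lt
    have hcn := hX.center_nontrivial
    obtain ⟨j, hj⟩ := (hX.to_subgroup (center X)).exists_card_eq
    obtain ⟨k, hk⟩ := (hX.to_subgroup (Subgroup.centralizer ({s} : Set X))).exists_card_eq
    have h1 : Nat.card (center X) < Nat.card (Subgroup.centralizer ({s} : Set X)) := by
      refine lt_of_le_of_ne (Subgroup.card_le_of_le hle) fun h => ?_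
      exact hlt.ne (Subgroup.eq_of_le_of_card_ge hle h.ge)
    have h2 : 1 < Nat.card (center X) := Finite.one_lt_card_iff_nontrivial.2 hcn
    rw [hj] at h1 h2
    rw [hk] at h1 ⊢
    have h4 := (Nat.pow_lt_pow_iff_right hpp.one_lt).1 h1
    have h5 : j ≠ 0 := by rintro rfl; simp at h2
    exact Nat.pow_le_pow_right hpp.pos (by omega)

/-- the center of a group of order `p ^ n`, `n ≥ 3`, with an element with centralizer of order `p ^ 2` -/
theorem card_center {P : Type*} [Group P] [Finite P] {p : ℕ} [hp : Fact p.Prime] {n : ℕ} (hn : Nat.card P = p ^ n)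
    (h3 : 3 ≤ n) (e : P) (he : Nat.card (Subgroup.centralizer ({e} : Set P)) = p ^ 2) :
    e ∉ center P ∧ Nat.card (center P) = p := by
  have hpp := hp.out
  have hP : IsPGroup p P := IsPGroup.of_card hn
  have hez : e ∉ center P := by
    intro hz
    have h1 : Subgroup.centralizer ({e} : Set P) = ⊤ := by
      rw [Subgroup.eq_top_iff']
      intro x
      rw [Subgroup.mem_centralizer_singleton_iff]
      exact Subgroup.mem_center_iff.1 hz x
    rw [h1, Subgroup.card_top, hn] at he
    have := Nat.pow_right_injective hpp.two_le he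
    omega
  refine ⟨hez, ?_⟩
  have hle : center P ≤ Subgroup.centralizer ({e} : Set P) := by
    intro x hx
    rw [Subgroup.mem_centralizer_singleton_iff]
    exact (Subgroup.mem_center_iff.1 hx e).symm
  have hlt : center P < Subgroup.centralizer ({e} : Set P) := lt_of_le_of_ne hle fun h => hez (by
    rw [h, Subgroup.mem_centralizer_singleton_iff])
  have hnt : Nontrivial P := by
    rw [← Finite.one_lt_card_iff_nontrivial, hn]
    exact Nat.one_lt_pow (by omega) hpp.one_lt
  have hcn := hP.center_nontrivial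
  obtain ⟨j, hj⟩ := (hP.to_subgroup (center P)).exists_card_eq
  have h1 : Nat.card (center P) < Nat.card (Subgroup.centralizer ({e} : Set P)) := by
    refine lt_of_le_of_ne (Subgroup.card_le_of_le hle) fun h => ?_
    exact hlt.ne (Subgroup.eq_of_le_of_card_ge hle h.ge)
  have h2 : 1 < Nat.card (center P) := Finite.one_lt_card_iff_nontrivial.2 hcn
  rw [hj, he] at h1
  rw [hj] at h2
  have h4 := (Nat.pow_lt_pow_iff_right hpp.one_lt).1 h1
  have h5 : j ≠ 0 := by rintro rfl; simp at h2
  have h6 : j = 1 := by omega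
  rw [hj, h6, pow_one]

/-- the centralizer in the quotient by the center -/
theorem card_cent_quot {P : Type*} [Group P] [Finite P] {p : ℕ} [hp : Fact p.Prime] (e : P)
    (he : Nat.card (Subgroup.centralizer ({e} : Set P)) = p ^ 2) (hz : Nat.card (center P) = p) :
    Nat.card (Subgroup.centralizer ({(e : P ⧸ center P)} : Set (P ⧸ center P))) ≤ p ^ 2 := by
  have hpp := hp.out
  set T : Subgroup P := (Subgroup.centralizer ({(e : P ⧸ center P)} : Set (P ⧸ center P))).comap (QuotientGroup.mk' (center P)) with hT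
  have hTm : ∀ x, x ∈ T ↔ ⁅x, e⁆ ∈ center P := by
    intro x
    rw [hT, mem_comap, Subgroup.mem_centralizer_singleton_iff, ← QuotientGroup.eq_one_iff]
    rw [QuotientGroup.mk'_apply]
    simp only [commutatorElement_def, QuotientGroup.mk_mul, QuotientGroup.mk_inv]
    constructor
    · intro h
      rw [h]
      group
    · intro h
      have h1 := mul_inv_eq_one.1 h
      have h2 := mul_inv_eq_iff_eq_mul.1 h1
      exact h2
  have hTc : Nat.card T = Nat.card (Subgroup.centralizer ({(e : P ⧸ center P)} : Set (P ⧸ center P))) * p := by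
    have h1 := Subgroup.card_mul_index T
    have h2 := Subgroup.index_comap_of_surjective (Subgroup.centralizer ({(e : P ⧸ center P)} : Set (P ⧸ center P)))
      (QuotientGroup.mk'_surjective (center P))
    have h3 := Subgroup.card_mul_index (Subgroup.centralizer ({(e : P ⧸ center P)} : Set (P ⧸ center P)))
    have h4 := Subgroup.card_eq_card_quotient_mul_card_subgroup (center P)
    rw [hz] at h4
    rw [← hT] at h2
    have h5 : T.index ≠ 0 := Subgroup.index_ne_zero_of_finite
    apply Nat.eq_of_mul_eq_mul_right (Nat.pos_of_ne_zero h5)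
    rw [h1, h4, ← h3, ← h2]
    ring
  let f : T →* center P := MonoidHom.mk' (fun x => ⟨⁅(x : P), e⁆, (hTm x).1 x.2⟩) (by
    intro x y
    apply Subtype.ext
    show ⁅(x : P) * y, e⁆ = ⁅(x : P), e⁆ * ⁅(y : P), e⁆
    have h1 : ⁅(x : P) * y, e⁆ = x * ⁅(y : P), e⁆ * (x : P)⁻¹ * ⁅(x : P), e⁆ := by
      simp only [commutatorElement_def]; group
    have h2 := Subgroup.mem_center_iff.1 ((hTm y).1 y.2)
    rw [h1, h2 x, mul_inv_cancel_right, h2])
  have hker : Nat.card f.ker ≤ p ^ 2 := by
    rw [← he]
    have hinj : Function.Injective (fun x : f.ker => (⟨((x : T) : P), by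
        rw [Subgroup.mem_centralizer_singleton_iff]
        have h1 : ⁅((x : T) : P), e⁆ = 1 := congrArg Subtype.val (MonoidHom.mem_ker.1 x.2)
        exact commutatorElement_eq_one_iff_mul_comm.1 h1⟩ : Subgroup.centralizer ({e} : Set P))) := by
      intro x y h
      apply Subtype.ext
      apply Subtype.ext
      exact congrArg (fun z : Subgroup.centralizer ({e} : Set P) => (z : P)) h
    exact Nat.card_le_card_of_injective _ hinj
  have h1 : Nat.card T ≤ p ^ 2 * p := by
    rw [← Subgroup.card_mul_index f.ker, Subgroup.index_ker]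
    apply Nat.mul_le_mul hker
    rw [← hz]
    exact Subgroup.card_le_card_group _
  rw [hTc] at h1
  exact Nat.le_of_mul_le_mul_right h1 hpp.pos

theorem max_of_cent {p : ℕ} [hp : Fact p.Prime] (n : ℕ) (hn : 2 ≤ n) : ∀ (P : Type u) [Group P] [Finite P],
    Nat.card P = p ^ n → ∀ e : P, Nat.card (Subgroup.centralizer ({e} : Set P)) = p ^ 2 → Max P p n := by
  have hpp := hp.out
  induction n, hn using Nat.le_induction with
  | base =>
    intro P _ _ hc e he
    refine ⟨hc, ?_⟩
    show K P 1 ≠ ⊥
    rw [K_one]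
    intro h
    have h1 : Nat.card (⊤ : Subgroup P) = 1 := by rw [h, Subgroup.card_bot]
    rw [Subgroup.card_top, hc] at h1
    have := Nat.one_lt_pow (n := 2) (by norm_num) hpp.one_lt
    omega
  | succ n hn ih =>
    intro P _ _ hc e he
    obtain ⟨hez, hz⟩ := card_center hc (by omega) e he
    have hcq : Nat.card (P ⧸ center P) = p ^ n := by
      have h4 := Subgroup.card_eq_card_quotient_mul_card_subgroup (center P)
      rw [hz, hc, pow_succ] at h4
      exact (Nat.eq_of_mul_eq_mul_right hpp.pos h4).symm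
    have hce : Nat.card (Subgroup.centralizer ({(e : P ⧸ center P)} : Set (P ⧸ center P))) = p ^ 2 :=
      le_antisymm (card_cent_quot e he hz) (sq_le hcq hn _)
    have hM := ih (P ⧸ center P) hcq (e : P ⧸ center P) hce
    refine ⟨hc, ?_⟩
    intro hbot
    apply hM.ne
    rw [show n + 1 - 1 = (n - 1) + 1 by omega, K_succ (by omega), commutator_eq_bot_iff_le_centralizer] at hbot
    rw [← K_map (QuotientGroup.mk' (center P)) (QuotientGroup.mk'_surjective _) (n - 1), eq_bot_iff]
    rintro _ ⟨x, hx, rfl⟩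
    rw [mem_bot, QuotientGroup.mk'_apply, QuotientGroup.eq_one_iff]
    have h1 := hbot hx
    rw [Subgroup.mem_center_iff]
    intro g
    exact (Subgroup.mem_centralizer_iff.1 h1) g (Subgroup.mem_top g)

theorem K_mem_equiv {P : Type*} [Group P] (φ : P ≃* P) (i : ℕ) {x : P} (hx : x ∈ K P i) : φ x ∈ K P i := by
  have h := K_map φ.toMonoidHom φ.surjective i
  rw [← h]
  exact mem_map_of_mem _ hx

theorem M_char {P : Type*} [Group P] (i : ℕ) : (M P i).Characteristic := by
  rw [Subgroup.characteristic_iff_comap_le]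
  intro φ g hg
  rw [mem_comap] at hg
  intro x hx
  have h1 := hg (φ x) (K_mem_equiv φ i hx)
  have h2 := K_mem_equiv φ.symm (i + 2) h1
  have h3 : φ.symm ⁅φ.toMonoidHom g, φ x⁆ = ⁅g, x⁆ := by
    simp [commutatorElement_def]
  rwa [h3] at h2

theorem conj_of_index {P : Type*} [Group P] [Finite P] (e : P) (h9 : Nat.card (Subgroup.centralizer ({e} : Set P)) = (commutator P).index)
    (c : P) (hc : c ∈ commutator P) : IsConj e (e * c) := by
  have hmem : ∀ x : P, e⁻¹ * (x * e * x⁻¹) ∈ commutator P := by
    intro x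
    have h1 : e⁻¹ * (x * e * x⁻¹) = ⁅e⁻¹, x⁆ := by simp only [commutatorElement_def]; group
    rw [h1]
    exact Subgroup.commutator_mem_commutator (Subgroup.mem_top _) (Subgroup.mem_top _)
  let f : (P ⧸ Subgroup.centralizer ({e} : Set P)) → commutator P := fun q => ⟨e⁻¹ * (q.out * e * q.out⁻¹), hmem q.out⟩
  have hinj : Function.Injective f := by
    intro q r h
    have h1 : e⁻¹ * (q.out * e * q.out⁻¹) = e⁻¹ * (r.out * e * r.out⁻¹) := congrArg Subtype.val h
    have h2 := mul_left_cancel h1
    rw [← QuotientGroup.out_eq' q, ← QuotientGroup.out_eq' r, QuotientGroup.eq, Subgroup.mem_centralizer_singleton_iff]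
    have h3 : q.out⁻¹ * (q.out * e * q.out⁻¹) * r.out = q.out⁻¹ * (r.out * e * r.out⁻¹) * r.out := by rw [h2]
    have h4 : e * (q.out⁻¹ * r.out) = q.out⁻¹ * r.out * e := by
      calc e * (q.out⁻¹ * r.out) = q.out⁻¹ * (q.out * e * q.out⁻¹) * r.out := by group
        _ = q.out⁻¹ * (r.out * e * r.out⁻¹) * r.out := h3
        _ = q.out⁻¹ * r.out * e := by group
    exact h4.symm
  have hcard : Nat.card (P ⧸ Subgroup.centralizer ({e} : Set P)) = Nat.card (commutator P) := by
    have h1 := Subgroup.card_eq_card_quotient_mul_card_subgroup (Subgroup.centralizer ({e} : Set P))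
    have h2 := Subgroup.card_mul_index (commutator P)
    rw [h9, ← h2] at h1
    have h3 : (commutator P).index ≠ 0 := Subgroup.index_ne_zero_of_finite
    exact (Nat.eq_of_mul_eq_mul_right (Nat.pos_of_ne_zero h3) h1).symm
  have hbij := (Nat.bijective_iff_injective_and_card f).2 ⟨hinj, hcard⟩
  obtain ⟨q, hq⟩ := hbij.2 ⟨c, hc⟩
  have h1 : e⁻¹ * (q.out * e * q.out⁻¹) = c := congrArg Subtype.val hq
  rw [isConj_iff]
  exact ⟨q.out, by rw [← h1, mul_inv_cancel_left]⟩

/-- the case of order 27 -/
theorem case27 {P : Type*} [Group P] [Finite P] (hc : Nat.card P = 27) (e : P)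
    (he : Nat.card (Subgroup.centralizer ({e} : Set P)) = 9) (hn : ¬ ∀ x : P, x ^ 3 = 1) :
    ∃ L : Subgroup P, L.Characteristic ∧ L.index = 3 ∧ commutator P ≤ L := by
  haveI : Fact (Nat.Prime 3) := ⟨Nat.prime_three⟩
  obtain ⟨hez, hz⟩ := card_center (p := 3) (n := 3) (by rw [hc]; norm_num) le_rfl e (by rw [he]; norm_num)
  have hcq : Nat.card (P ⧸ center P) = 3 ^ 2 := by
    have h4 := Subgroup.card_eq_card_quotient_mul_card_subgroup (center P)
    rw [hz, hc] at h4
    omega
  have hcomm : ∀ a b : P ⧸ center P, a * b = b * a :=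
    fun a b => (IsPGroup.isMulCommutative_of_card_eq_prime_sq hcq).is_comm.comm a b
  have hcz : ∀ a b : P, ⁅a, b⁆ ∈ center P := by
    intro a b
    rw [← QuotientGroup.eq_one_iff, commutatorElement_def, QuotientGroup.mk_mul, QuotientGroup.mk_mul, QuotientGroup.mk_mul,
      QuotientGroup.mk_inv, QuotientGroup.mk_inv, hcomm (a : P ⧸ center P) b]
    group
  have hz3 : ∀ z ∈ center P, z ^ 3 = 1 := by
    intro z hzz
    have h1 : (⟨z, hzz⟩ : center P) ^ Nat.card (center P) = 1 := pow_card_eq_one'
    rw [hz] at h1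
    exact congrArg Subtype.val h1
  have hq3 : ∀ x : P, x ^ 3 ∈ center P := by
    intro x
    rw [← QuotientGroup.eq_one_iff, QuotientGroup.mk_pow]
    have h1 : orderOf (x : P ⧸ center P) ∣ 3 ^ 2 := by
      rw [← hcq]
      exact orderOf_dvd_natCard _
    obtain ⟨j, hj, hj2⟩ := (Nat.dvd_prime_pow Nat.prime_three).1 h1
    by_cases hj3 : j = 2
    · exfalso
      have hcyc : IsCyclic (P ⧸ center P) := isCyclic_of_orderOf_eq_card (x : P ⧸ center P) (by rw [hj2, hj3, hcq])
      have hab := commutative_of_cyclic_center_quotient (QuotientGroup.mk' (center P)) (by rw [QuotientGroup.ker_mk'])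
      apply hez
      rw [Subgroup.mem_center_iff]
      intro g
      exact hab g e
    · rw [← orderOf_dvd_iff_pow_eq_one, hj2]
      exact pow_dvd_pow 3 (show j ≤ 1 by omega)
  have hcube : ∀ x y : P, (x * y) ^ 3 = x ^ 3 * y ^ 3 := by
    intro x y
    obtain ⟨c, hcc⟩ : ∃ c, c = ⁅y, x⁆ := ⟨_, rfl⟩
    have hcc2 : c ∈ center P := by rw [hcc]; exact hcz y x
    have hcm := Subgroup.mem_center_iff.1 hcc2
    have hyx : y * x = c * (x * y) := by
      rw [hcc, commutatorElement_def]; group
    have h3 := hz3 c hcc2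
    calc (x * y) ^ 3 = x * (y * x) * (y * x) * y := by simp only [pow_succ, pow_zero, one_mul, mul_assoc]
      _ = x * (c * (x * y)) * (c * (x * y)) * y := by rw [hyx]
      _ = (x * c) * x * (y * c) * x * y * y := by group
      _ = (c * x) * x * (c * y) * x * y * y := by rw [hcm x, hcm y]
      _ = c * x * (x * c) * (y * x) * y * y := by group
      _ = c * x * (c * x) * (c * (x * y)) * y * y := by rw [hcm x, hyx]
      _ = c * (x * c) * (x * c) * x * y * y * y := by group
      _ = c * (c * x) * (c * x) * x * y * y * y := by rw [hcm x]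
      _ = c * c * (x * c) * x * x * y * y * y := by group
      _ = c * c * (c * x) * x * x * y * y * y := by rw [hcm x]
      _ = c ^ 3 * (x ^ 3 * y ^ 3) := by simp only [pow_succ, pow_zero, one_mul, mul_assoc]
      _ = x ^ 3 * y ^ 3 := by rw [h3, one_mul]
  let φ : P →* P := MonoidHom.mk' (fun x => x ^ 3) hcube
  refine ⟨φ.ker, ?_, ?_, ?_⟩
  · rw [Subgroup.characteristic_iff_comap_le]
    intro ψ x hx
    rw [mem_comap, MonoidHom.mem_ker] at hx
    rw [MonoidHom.mem_ker]
    have h1 : (ψ x) ^ 3 = 1 := hx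
    rw [← map_pow] at h1
    exact (MulEquiv.map_eq_one_iff ψ).1 h1
  · rw [Subgroup.index_ker]
    have hle : φ.range ≤ center P := by
      rintro _ ⟨x, rfl⟩
      exact hq3 x
    have hne : φ.range ≠ ⊥ := by
      intro hb
      apply hn
      intro x
      have h1 : φ x ∈ φ.range := ⟨x, rfl⟩
      rw [hb, mem_bot] at h1
      exact h1
    have h1 := Subgroup.card_dvd_of_le hle
    rw [hz] at h1
    rcases (Nat.dvd_prime Nat.prime_three).1 h1 with h2 | h2
    · exact absurd (Subgroup.card_eq_one.1 h2) hne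
    · exact h2
  · have h1 : commutator P ≤ center P := by
      rw [_root_.commutator_def, Subgroup.commutator_le]
      intro a _ b _
      exact hcz a b
    intro x hx
    rw [MonoidHom.mem_ker]
    exact hz3 x (h1 hx)

end M3

/-- [M3] 3-groups with an element of order 3 with centralizer of order 9 -/
theorem m3 {P : Type*} [Group P] [Finite P] (hP : IsPGroup 3 P) (e : P) (he3 : orderOf e = 3)
    (h9 : Nat.card (Subgroup.centralizer ({e} : Set P)) = 9) (h27 : 27 ≤ Nat.card P)
    (hn : ¬ (Nat.card P = 27 ∧ ∀ x : P, x ^ 3 = 1)) :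
    (commutator P).index = 9 ∧ (∀ c ∈ commutator P, IsConj e (e * c)) ∧
      ∃ L : Subgroup P, L.Characteristic ∧ L.index = 3 ∧ commutator P ≤ L := by
  haveI : Fact (Nat.Prime 3) := ⟨Nat.prime_three⟩
  obtain ⟨n, hcn⟩ := hP.exists_card_eq
  have hn3 : 3 ≤ n := by
    by_contra hcon
    have h1 : n ≤ 2 := by omega
    have h2 : 3 ^ n ≤ 3 ^ 2 := Nat.pow_le_pow_right (by norm_num) h1
    rw [← hcn] at h2
    omega
  have hM : Max P 3 n := M3.max_of_cent n (by omega) P hcn e (by rw [h9]; norm_num)
  have hK : commutator P = K P 2 := by rw [K_two, _root_.commutator_def]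
  have hidx : (commutator P).index = 9 := by
    rw [hK, hM.index_K (by omega) le_rfl (by omega)]
    norm_num
  refine ⟨hidx, fun c hc => M3.conj_of_index e (by rw [h9, hidx]) c hc, ?_⟩
  by_cases hn4 : 4 ≤ n
  · refine ⟨M P 2, M3.M_char 2, hM.index_M (by omega) le_rfl (by omega), ?_⟩
    rw [hK]
    exact K_two_le_M 2
  · have hn' : n = 3 := by omega
    have hc27 : Nat.card P = 27 := by rw [hcn, hn']; norm_num
    exact M3.case27 hc27 e h9 (fun h => hn ⟨hc27, h⟩)

end Cfsg.Agent.H96.Fx
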