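import Mathlib

/-! # S3365, piece TTR: transfer to `P / K` (owner: helper75). -/

set_option autoImplicit false

namespace Cfsg.Agent.H96.Fx

open Subgroup MulAction Function

/-- [TTR] -/
theorem ttr (p : ℕ) [Fact p.Prime] {G : Type*} [Group G] [Finite G] (hperf : commutator G = ⊤) (P : Sylow p G)
    (K : Subgroup G) (hKP : K ≤ (P : Subgroup G))
    (hKn : ∀ x ∈ (P : Subgroup G), ∀ k ∈ K, x * k * x⁻¹ ∈ K)
    (hab : ∀ x ∈ (P : Subgroup G), ∀ y ∈ (P : Subgroup G), x * y * x⁻¹ * y⁻¹ ∈ K)
    (e : G) (he : e ∈ (P : Subgroup G)) (hep : e ^ p = 1) (heK : e ∉ K)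
    (h : ∀ s : G, s * e * s⁻¹ ∈ (P : Subgroup G) → (s * e * s⁻¹) * e⁻¹ ∈ K) : False := by
  classical
  have hp : p.Prime := Fact.out
  let H : Subgroup G := (P : Subgroup G)
  let N : Subgroup H := K.subgroupOf H
  haveI hN : N.Normal := by
    constructor
    intro n hn g
    rw [Subgroup.mem_subgroupOf] at hn ⊢
    exact hKn g g.2 _ hn
  letI : CommGroup (H ⧸ N) :=
    { (inferInstance : Group (H ⧸ N)) with
      mul_comm := by
        intro a b
        obtain ⟨a, rfl⟩ := QuotientGroup.mk_surjective a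
        obtain ⟨b, rfl⟩ := QuotientGroup.mk_surjective b
        change (QuotientGroup.mk (a * b) : H ⧸ N) = QuotientGroup.mk (b * a)
        rw [QuotientGroup.eq, Subgroup.mem_subgroupOf]
        have h1 := hab _ (inv_mem b.2) _ (inv_mem a.2)
        have h2 : (((a * b)⁻¹ * (b * a) : H) : G) =
            (b : G)⁻¹ * (a : G)⁻¹ * ((b : G)⁻¹)⁻¹ * ((a : G)⁻¹)⁻¹ := by
          push_cast; group
        rw [h2]
        exact h1 }
  let φ : H →* H ⧸ N := QuotientGroup.mk' N
  have hφ : ∀ a : H, φ a = 1 ↔ (a : G) ∈ K := by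
    intro a
    show (QuotientGroup.mk a : H ⧸ N) = 1 ↔ _
    rw [QuotientGroup.eq_one_iff, Subgroup.mem_subgroupOf]
  let e' : H := ⟨e, he⟩
  have he'p : (φ e') ^ p = 1 := by
    rw [← map_pow]
    have : e' ^ p = 1 := Subtype.ext hep
    rw [this, map_one]
  have he'1 : φ e' ≠ 1 := fun h1 => heK ((hφ e').1 h1)
  -- the transfer is trivial
  have htr : MonoidHom.transfer φ e = 1 := by
    have h1 : e ∈ (MonoidHom.transfer φ).ker := by
      apply Abelianization.commutator_subset_ker
      rw [hperf]; trivial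
    exact h1
  haveI : Fintype (Quotient (orbitRel (zpowers e) (G ⧸ H))) := Fintype.ofFinite _
  rw [MonoidHom.transfer_eq_prod_quotient_orbitRel_zpowers_quot] at htr
  let f : Quotient (orbitRel (zpowers e) (G ⧸ H)) → ℕ := fun q => minimalPeriod (e • ·) q.out
  have hf : ∀ q, f q = 1 ∨ f q = p := by
    intro q
    have h1 : f q ∣ p := by
      apply IsPeriodicPt.minimalPeriod_dvd
      show (e • ·)^[p] q.out = q.out
      rw [smul_iterate, hep]
      exact one_smul _ _
    exact (Nat.dvd_prime hp).1 h1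
  have hterm : ∀ q : Quotient (orbitRel (zpowers e) (G ⧸ H)),
      φ ⟨q.out.out⁻¹ * e ^ minimalPeriod (e • ·) q.out * q.out.out,
        QuotientGroup.out_conj_pow_minimalPeriod_mem H e q.out⟩ = if f q = 1 then φ e' else 1 := by
    intro q
    have hmem := QuotientGroup.out_conj_pow_minimalPeriod_mem H e q.out
    by_cases h1 : f q = 1
    · rw [if_pos h1]
      have h1' : minimalPeriod (e • ·) q.out = 1 := h1
      rw [h1', pow_one] at hmem
      have h2 : q.out.out⁻¹ * e * (q.out.out⁻¹)⁻¹ ∈ (P : Subgroup G) := by rw [inv_inv]; exact hmem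
      have h3 := h _ h2
      rw [inv_inv] at h3
      rw [← mul_inv_eq_one, ← map_inv, ← map_mul, hφ]
      show q.out.out⁻¹ * e ^ minimalPeriod (e • ·) q.out * q.out.out * e⁻¹ ∈ K
      rw [h1', pow_one]
      exact h3
    · rw [if_neg h1]
      have h2 : f q = p := (hf q).resolve_left h1
      have h2' : minimalPeriod (e • ·) q.out = p := h2
      rw [hφ]
      show q.out.out⁻¹ * e ^ minimalPeriod (e • ·) q.out * q.out.out ∈ K
      rw [h2', hep, mul_one, inv_mul_cancel]
      exact one_mem _
  rw [Finset.prod_congr rfl (fun q _ => hterm q), ← Finset.prod_filter, Finset.prod_const] at htr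
  -- the number of orbits of length one
  have hidx : (P : Subgroup G).index = ∑ q, f q := by
    have h1 := Nat.card_congr (Subgroup.quotientEquivSigmaZMod H e)
    rw [Nat.card_sigma] at h1
    show Nat.card (G ⧸ H) = _
    rw [h1]
    refine Finset.sum_congr rfl (fun q _ => ?_)
    rw [Nat.card_zmod]
  have hsum : ∑ q, f q = (Finset.univ.filter (fun q => f q = 1)).card +
      p * (Finset.univ.filter (fun q => ¬ f q = 1)).card := by
    rw [← Finset.sum_filter_add_sum_filter_not Finset.univ (fun q => f q = 1)]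
    congr 1
    · rw [Finset.card_eq_sum_ones]
      refine Finset.sum_congr rfl (fun q hq => (Finset.mem_filter.1 hq).2)
    · rw [Finset.sum_congr rfl (fun q hq => (hf q).resolve_left (Finset.mem_filter.1 hq).2),
        Finset.sum_const, smul_eq_mul, mul_comm]
  have hdvd : p ∣ (Finset.univ.filter (fun q => f q = 1)).card := by
    have h1 : orderOf (φ e') = p := orderOf_eq_prime he'p he'1
    rw [← h1]
    exact orderOf_dvd_of_pow_eq_one htr
  have hnd : ¬ p ∣ (P : Subgroup G).index := P.not_dvd_index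
  apply hnd
  rw [hidx, hsum]
  exact dvd_add hdvd (Dvd.intro _ rfl)

end Cfsg.Agent.H96.Fx
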