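import Cfsg.Agent.H96.Fx.CABS1
import Cfsg.Agent.H96.Fx.M3
import Cfsg.Agent.H96.Fx.TTR

set_option autoImplicit false

namespace Cfsg.Agent.H96.Fx

/-- [CABS] the abstract case (γ), with [T3] as explicit hypothesis -/
theorem c_abs_of_t3 {G : Type*} [Group G] [Finite G] (hperf : commutator G = ⊤) (P : Sylow 3 G) (e : G)
    (he : e ∈ (P : Subgroup G)) (he3 : orderOf e = 3)
    (h9 : Nat.card ↥((P : Subgroup G) ⊓ Subgroup.centralizer ({e} : Set G)) = 9)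
    (h27 : 27 ≤ Nat.card P)
    (hB : ∀ q ∈ Subgroup.normalizer ((P : Subgroup G) : Set G), (∃ k : ℕ, q ^ 2 ^ k = 1) →
      ∀ x ∈ (P : Subgroup G), IsConj e x → q * x * q⁻¹ ∈ Subgroup.zpowers x → q = 1)
    (HT : ∀ s : G, s * e * s⁻¹ ∈ (P : Subgroup G) →
      ∃ n ∈ Subgroup.normalizer ((P : Subgroup G) : Set G), ∃ c ∈ ⁅(P : Subgroup G), (P : Subgroup G)⁆,
        s * e * s⁻¹ = n * e * n⁻¹ * c) :
    Nat.card P = 27 ∧ ∀ x ∈ (P : Subgroup G), x ^ 3 = 1 := by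
  haveI : Fact (Nat.Prime 3) := ⟨Nat.prime_three⟩
  by_contra hcon
  have hn : ¬ (Nat.card (P : Subgroup G) = 27 ∧ ∀ x : (P : Subgroup G), x ^ 3 = 1) := by
    rintro ⟨h1, h2⟩
    refine hcon ⟨h1, fun x hx => ?_⟩
    have := congrArg Subtype.val (h2 ⟨x, hx⟩)
    simpa using this
  have ho : orderOf (⟨e, he⟩ : (P : Subgroup G)) = 3 := by
    exact (Subgroup.orderOf_coe (⟨e, he⟩ : (P : Subgroup G))).symm.trans he3
  have hc9 : Nat.card (Subgroup.centralizer ({(⟨e, he⟩ : (P : Subgroup G))} : Set (P : Subgroup G))) = 9 := by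
    rw [← h9]
    refine Nat.card_congr ⟨fun x => ⟨(x : (P : Subgroup G)), ?_, ?_⟩, fun x => ⟨⟨x, x.2.1⟩, ?_⟩, fun x => rfl, fun x => rfl⟩
    · exact (x : (P : Subgroup G)).2
    · have h5 := Subgroup.mem_centralizer_singleton_iff.1 x.2
      exact Subgroup.mem_centralizer_singleton_iff.2 (congrArg Subtype.val h5)
    · have h5 := Subgroup.mem_centralizer_singleton_iff.1 x.2.2
      exact Subgroup.mem_centralizer_singleton_iff.2 (Subtype.ext h5)
  obtain ⟨hidx, hconj, L, hLc, hLi, hLP⟩ := m3 P.2 (⟨e, he⟩ : (P : Subgroup G)) ho hc9 h27 hn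
  refine CABS.c_abs_of (P : Subgroup G) ?_ e he he3 hidx hconj L hLc hLi hLP HT ?_ hB
  · exact P.not_dvd_index
  · intro K hKP hKn hab heK h
    exact ttr 3 hperf P K hKP hKn hab e he (orderOf_dvd_iff_pow_eq_one.1 (dvd_of_eq he3)) heK h

end Cfsg.Agent.H96.Fx
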