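import Cfsg.Agent.Fus.SmallP

set_option autoImplicit false

/-!
Groups of order 27.
-/

namespace Cfsg.Agent.H96.Fx

/-- [EXT] -/
theorem ext27 {P : Type*} [Group P] [Finite P] (h : Nat.card P = 27) (hex : ∀ x : P, x ^ 3 = 1)
    (e : P) (h9 : Nat.card (Subgroup.centralizer ({e} : Set P)) = 9) : Cfsg.IsExtraspecial 3 P := by
  have h3 : Fact (Nat.Prime 3) := ⟨Nat.prime_three⟩
  have hP : Nat.card P = 3 ^ 3 := by rw [h]; norm_num
  refine Cfsg.Agent.Fus.isExtraspecial_of_card hP ?_
  have hle : Subgroup.center P ≤ Subgroup.centralizer ({e} : Set P) := Subgroup.center_le_centralizer _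
  have hdvd : Nat.card (Subgroup.center P) ∣ 3 ^ 2 := by
    have := Subgroup.card_dvd_of_le hle
    rw [h9] at this
    exact this.trans (by norm_num)
  obtain ⟨k, hk, hk'⟩ := (Nat.dvd_prime_pow Nat.prime_three).1 hdvd
  have hne1 : Nat.card (Subgroup.center P) ≠ 1 := by
    intro h1
    have hPp : IsPGroup 3 P := IsPGroup.of_card hP
    have hnt : Nontrivial P := Finite.one_lt_card_iff_nontrivial.1 (by rw [h]; norm_num)
    have := hPp.center_nontrivial
    rw [Subgroup.card_eq_one] at h1
    exact (Subgroup.nontrivial_iff_ne_bot _).1 this h1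
  have hne9 : Nat.card (Subgroup.center P) ≠ 9 := by
    intro h1
    have h2 : Subgroup.center P = Subgroup.centralizer ({e} : Set P) :=
      Subgroup.eq_of_le_of_card_ge hle (by rw [h1, h9])
    have h4 : e ∈ Subgroup.center P := by
      rw [h2]
      exact Subgroup.mem_centralizer_singleton_iff.2 rfl
    have h5 : Subgroup.centralizer ({e} : Set P) = ⊤ := by
      rw [eq_top_iff]
      intro x _
      exact Subgroup.mem_centralizer_singleton_iff.2 (Subgroup.mem_center_iff.1 h4 x)
    rw [h5, Subgroup.card_top, h] at h9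
    omega
  interval_cases k
  · exact absurd hk' hne1
  · rw [hk', pow_one]
  · exact absurd hk' (by simpa using hne9)

end Cfsg.Agent.H96.Fx
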