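import Mathlib
import Cfsg.Prelude
import Cfsg.Agent.H73.Sec2

/-! # S3365, piece SG: the sectional 2-rank is determined by a Sylow 2-subgroup (after helper85's `Fus.HD.rank_of_sylow`) -/

set_option autoImplicit false
set_option linter.all false

namespace Cfsg.Agent.H96.Fx

open Subgroup

namespace SG

variable {G : Type*} [Group G] [Finite G]

theorem on_sub {S : Subgroup G} (h : Cfsg.SectionalPRankLE 2 4 S) {L N : Subgroup G} (hLS : L ≤ S) (hNL : N ≤ L)
    (hc : ∀ x ∈ L, ∀ y ∈ L, x * y * x⁻¹ * y⁻¹ ∈ N) (hs : ∀ x ∈ L, x * x ∈ N) : Nat.card L ≤ 16 * Nat.card N := by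
  have h1 := Cfsg.Agent.H73.Sec.relIndex_le h (L.subgroupOf S) (N.subgroupOf S) (fun x hx => hNL hx)
    (fun x hx y hy => hc _ hx _ hy) (fun x hx => by
      have := hs _ hx
      change ((x ^ 2 : S) : G) ∈ N
      rw [pow_two]; exact this)
  have h2 := Cfsg.Agent.H63.card_mul_relIndex (H := N.subgroupOf S) (K := L.subgroupOf S) (fun x hx => hNL hx)
  rw [Nat.card_congr (subgroupOfEquivOfLe hLS).toEquiv, Nat.card_congr (subgroupOfEquivOfLe (hNL.trans hLS)).toEquiv] at h2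
  rw [← h2, mul_comm]
  exact Nat.mul_le_mul_right _ (by simpa using h1)

theorem on_sylow [Fact (Nat.Prime 2)] {S : Sylow 2 G} (h : Cfsg.SectionalPRankLE 2 4 (S : Subgroup G))
    {L N : Subgroup G} (hL : IsPGroup 2 L) (hNL : N ≤ L)
    (hc : ∀ x ∈ L, ∀ y ∈ L, x * y * x⁻¹ * y⁻¹ ∈ N) (hs : ∀ x ∈ L, x * x ∈ N) : Nat.card L ≤ 16 * Nat.card N := by
  obtain ⟨Q, hQ⟩ := hL.exists_le_sylow
  obtain ⟨g, hg⟩ := MulAction.exists_smul_eq G Q S
  have hinj : Function.Injective (MulAut.conj g).toMonoidHom := (MulAut.conj g).injective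
  have h1 : L.map (MulAut.conj g).toMonoidHom ≤ (S : Subgroup G) := by
    rw [← hg]
    rintro _ ⟨t, ht, rfl⟩
    exact ⟨t, hQ ht, rfl⟩
  have h2 := on_sub (L := L.map (MulAut.conj g).toMonoidHom) (N := N.map (MulAut.conj g).toMonoidHom) h h1
    (Subgroup.map_mono hNL) ?_ ?_
  · rwa [card_map_of_injective hinj, card_map_of_injective hinj] at h2
  · rintro _ ⟨a, ha, rfl⟩ _ ⟨b, hb, rfl⟩
    exact ⟨_, hc a ha b hb, by simp only [map_mul, map_inv]⟩
  · rintro _ ⟨a, ha, rfl⟩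
    exact ⟨_, hs a ha, by simp only [map_mul]⟩

end SG

theorem sect_of_sylow {G : Type*} [Group G] [Finite G] (S : Sylow 2 G)
    (h : Cfsg.SectionalPRankLE 2 4 (S : Subgroup G)) : Cfsg.SectionalPRankLE 2 4 G := by
  haveI : Fact (Nat.Prime 2) := ⟨Nat.prime_two⟩
  refine Cfsg.Agent.H73.Sec.intro fun L N hNL hc hs => ?_
  have hnor : (N.subgroupOf L).Normal := by
    refine ⟨fun n hn g => ?_⟩
    have h1 := hc g g.2 n n.2
    have h2 : (g : G) * n * (g : G)⁻¹ * (n : G)⁻¹ * n ∈ N := N.mul_mem h1 hn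
    have e1 : (g : G) * n * (g : G)⁻¹ * (n : G)⁻¹ * n = g * n * (g : G)⁻¹ := by group
    rw [e1] at h2
    exact h2
  have hquo : IsPGroup 2 (L ⧸ N.subgroupOf L) := by
    intro x
    obtain ⟨l, rfl⟩ := QuotientGroup.mk_surjective x
    refine ⟨1, ?_⟩
    rw [← QuotientGroup.mk_pow, QuotientGroup.eq_one_iff, pow_one]
    exact hs l l.2
  obtain ⟨k, hk⟩ := IsPGroup.iff_card.1 hquo
  obtain ⟨P⟩ : Nonempty (Sylow 2 L) := inferInstance
  have htop : (P : Subgroup L) ⊔ N.subgroupOf L = ⊤ := by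
    rw [← Subgroup.index_eq_one]
    have h1 : ((P : Subgroup L) ⊔ N.subgroupOf L).index ∣ (P : Subgroup L).index := Subgroup.index_dvd_of_le le_sup_left
    have h2 : ((P : Subgroup L) ⊔ N.subgroupOf L).index ∣ 2 ^ k := by
      rw [← hk]
      exact Subgroup.index_dvd_of_le le_sup_right
    have h3 : ¬ 2 ∣ (P : Subgroup L).index := P.not_dvd_index
    obtain ⟨j, -, hj⟩ := (Nat.dvd_prime_pow Nat.prime_two).1 h2
    rw [hj] at h1 ⊢
    rcases Nat.eq_zero_or_pos j with rfl | hj0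
    · rfl
    · exact absurd ((dvd_pow_self 2 hj0.ne').trans h1) h3
  have h1 : N.relIndex L = (N.subgroupOf L).relIndex (P : Subgroup L) := by
    have e := Subgroup.relIndex_sup_right (P : Subgroup L) (N.subgroupOf L)
    rw [← e, htop, Subgroup.relIndex_top_right]
    rfl
  rw [h1]
  set P₁ : Subgroup G := (P : Subgroup L).map L.subtype with hP₁
  have hP₁L : P₁ ≤ L := by
    rintro _ ⟨x, hx, rfl⟩
    exact x.2
  have hP₁2 : IsPGroup 2 P₁ := P.isPGroup'.map _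
  have h2 := SG.on_sylow h (L := P₁) (N := N ⊓ P₁) hP₁2 inf_le_right
    (fun x hx y hy => ⟨hc x (hP₁L hx) y (hP₁L hy), P₁.mul_mem (P₁.mul_mem (P₁.mul_mem hx hy) (P₁.inv_mem hx)) (P₁.inv_mem hy)⟩)
    (fun x hx => ⟨by rw [← pow_two]; exact hs x (hP₁L hx), P₁.mul_mem hx hx⟩)
  have h3 : Nat.card P₁ = Nat.card P := card_map_of_injective L.subtype_injective
  have h4 : Nat.card ↥(N ⊓ P₁) = Nat.card ↥((N.subgroupOf L) ⊓ (P : Subgroup L)) := by
    have e1 : N ⊓ P₁ = ((N.subgroupOf L) ⊓ (P : Subgroup L)).map L.subtype := by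
      ext x
      constructor
      · rintro ⟨hxN, y, hy, rfl⟩
        exact ⟨y, ⟨hxN, hy⟩, rfl⟩
      · rintro ⟨y, ⟨hyN, hy⟩, rfl⟩
        exact ⟨hyN, y, hy, rfl⟩
    rw [e1]
    exact card_map_of_injective L.subtype_injective
  have h5 := Cfsg.Agent.H63.card_mul_relIndex (H := (N.subgroupOf L) ⊓ (P : Subgroup L)) (K := (P : Subgroup L)) inf_le_right
  rw [Subgroup.inf_relIndex_right] at h5
  rw [h3, h4] at h2
  have h6 : Nat.card ↥((N.subgroupOf L) ⊓ (P : Subgroup L)) * (N.subgroupOf L).relIndex (P : Subgroup L) ≤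
      Nat.card ↥((N.subgroupOf L) ⊓ (P : Subgroup L)) * 16 := by
    rw [h5, mul_comm _ 16]; exact h2
  have h7 := Nat.le_of_mul_le_mul_left h6 Nat.card_pos
  norm_num
  exact h7

end Cfsg.Agent.H96.Fx
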