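import Cfsg.Agent.H96.Fx.Base
import Cfsg.Agent.H96.Fx.B1
import Cfsg.Agent.H96.Fx.B2
import Cfsg.Agent.H96.Fx.B3
import Cfsg.Agent.H96.Fx.B4M
import Cfsg.Agent.H96.Fx.B4O
import Cfsg.Agent.H96.Fx.SG
import Cfsg.Prelude

/-! # S3365, part B (owner: helper32). -/

set_option autoImplicit false
open MulAction
open scoped Pointwise

namespace Cfsg.Agent.H96.Fx

/-- [PB] assembly of part B -/
theorem partB_G {G Ω : Type*} [Group G] [Finite G] [MulAction G Ω] [Finite Ω] [IsSimpleGroup G]
    (hna : ¬ IsMulCommutative G) [FaithfulSMul G Ω] (htrans : IsPretransitive G Ω)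
    (hfix : ∀ g : G, g ≠ 1 → Nat.card (fixedBy Ω g) ≤ 4) (t : G) (ht : orderOf t = 2)
    (h4 : Nat.card (fixedBy Ω t) = 4) :
    (∃ H : Subgroup G, Cfsg.IsStronglyEmbedded H) ∨ Cfsg.SectionalPRankLE 2 4 G := by
  haveI : Fact (Nat.Prime 2) := ⟨Nat.prime_two⟩
  haveI := htrans
  set Λ : Set Ω := fixedBy Ω t with hΛdef
  have hΛ : Nat.card Λ = 4 := h4
  have ht1 : t ≠ 1 := by
    intro h; rw [h, orderOf_one] at ht; omega
  have htD : t ∈ fixingSubgroup G Λ := mem_fixing.2 (le_refl _)
  have hD2 : 2 ∣ Nat.card (fixingSubgroup G Λ) := by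
    have h2 : orderOf (⟨t, htD⟩ : fixingSubgroup G Λ) = 2 := by
      rw [← ht, ← Subgroup.orderOf_coe]
    rw [← h2]
    exact orderOf_dvd_natCard _
  have hfx : ∀ w ∈ fixingSubgroup G Λ, w ≠ 1 → fixedBy Ω w = Λ := fun w hw h1 => fixedBy_eq hfix hΛ hw h1
  -- a strongly embedded subgroup from odd intersections
  have hSE : (∀ g ∉ stabilizer G Λ, ¬ 2 ∣ Nat.card ↥(stabilizer G Λ ⊓ (stabilizer G Λ).map (MulAut.conj g).toMonoidHom)) →
      ∃ H : Subgroup G, Cfsg.IsStronglyEmbedded H := by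
    intro h
    refine ⟨stabilizer G Λ, ?_, ?_, ?_⟩
    · intro htop
      have hne : Λ.Nonempty := by
        have h1 : 0 < Nat.card Λ := by omega
        exact Set.nonempty_coe_sort.1 (Nat.card_pos_iff.1 h1).1
      obtain ⟨b, hb⟩ := hne
      apply ht1
      apply FaithfulSMul.eq_of_smul_eq_smul (α := Ω)
      intro x
      obtain ⟨g, rfl⟩ := exists_smul_eq G b x
      have hg : g ∈ stabilizer G Λ := by rw [htop]; exact Subgroup.mem_top _
      have h2 : g • b ∈ g • Λ := Set.smul_mem_smul_set hb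
      rw [mem_stab.1 hg] at h2
      rw [one_smul]
      exact h2
    · exact even_iff_two_dvd.2 (hD2.trans (Subgroup.card_dvd_of_le (fixing_le_stab Λ)))
    · intro g hg
      rw [← Nat.not_even_iff_odd, even_iff_two_dvd]
      exact h g hg
  by_cases hMD : 2 ∣ (fixingSubgroup G Λ).relIndex (stabilizer G Λ)
  swap
  · exact Or.inl (hSE (b1 2 Λ (fun w hw h1 _ => hfx w hw h1) hMD))
  -- Sylow subgroups
  let F0 : Sylow 2 (stabilizer G Λ) := default
  have hF0p : IsPGroup 2 ((F0 : Subgroup (stabilizer G Λ)).map (stabilizer G Λ).subtype) := F0.isPGroup'.map _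
  obtain ⟨T, hT⟩ := hF0p.exists_le_sylow
  have hF : ¬ 2 ∣ ((T : Subgroup G) ⊓ stabilizer G Λ).relIndex (stabilizer G Λ) := by
    have h1 : (F0 : Subgroup (stabilizer G Λ)) ≤ ((T : Subgroup G) ⊓ stabilizer G Λ).subgroupOf (stabilizer G Λ) := by
      intro x hx
      rw [Subgroup.mem_subgroupOf]
      exact ⟨hT ⟨x, hx, rfl⟩, x.2⟩
    have h2 := Subgroup.index_dvd_of_le h1
    intro h3
    exact F0.not_dvd_index (h3.trans h2)
  have hFE : ¬ (T : Subgroup G) ⊓ stabilizer G Λ ≤ fixingSubgroup G Λ := by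
    intro h
    apply hF
    exact hMD.trans (Subgroup.relIndex_dvd_of_le_left _ h)
  have key : (∃ H : Subgroup G, Cfsg.IsStronglyEmbedded H) ∨ Cfsg.SectionalPRankLE 2 4 (T : Subgroup G) := by
    by_cases hTM : (T : Subgroup G) ≤ stabilizer G Λ
    swap
    · exact Or.inr (b2 hfix Λ hΛ hD2 T hF hFE hTM)
    by_cases hsc : ∀ x ∈ (T : Subgroup G), x ∈ fixingSubgroup G Λ → ∀ g : G, g * x * g⁻¹ ∈ (T : Subgroup G) →
      g * x * g⁻¹ ∈ fixingSubgroup G Λ
    · left
      apply hSE
      exact b4_main hna (stabilizer G Λ) (fixingSubgroup G Λ) (fixing_le_stab Λ)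
        (fun m hm d hd => conj_mem_fixing hm hd) T hTM hD2
        (fun x hx hx1 g hg => by
          have h1 := hfx x hx hx1
          have hg1 : g * x * g⁻¹ ≠ 1 := by
            intro h
            apply hx1
            have := mul_inv_eq_one.1 h
            exact mul_left_cancel (a := g) (by rw [this, mul_one])
          exact mem_stab_of_conj h1 (hfx _ hg hg1))
        hsc (b4_O hna hfix Λ hΛ hD2 T hTM hsc)
    · right
      push Not at hsc
      obtain ⟨x, hxT, hxD, g, hgT, hgD⟩ := hsc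
      have hx1 : x ≠ 1 := by
        rintro rfl
        apply hgD
        rw [mul_one, mul_inv_cancel]
        exact Subgroup.one_mem _
      -- order of x is a power of two
      obtain ⟨k, hk⟩ := T.isPGroup' ⟨x, hxT⟩
      have hk' : x ^ 2 ^ k = 1 := congrArg Subtype.val hk
      obtain ⟨j, hj, hj'⟩ := (Nat.dvd_prime_pow Nat.prime_two).1 (orderOf_dvd_of_pow_eq_one hk')
      rcases j with _ | j
      · exact absurd (orderOf_eq_one_iff.1 (by simpa using hj')) hx1
      have h7 : orderOf (x ^ 2 ^ j) = 2 := by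
        rw [orderOf_pow_of_dvd (by positivity) (by rw [hj', pow_succ]; exact Dvd.intro _ rfl), hj', pow_succ]
        exact Nat.mul_div_cancel_left 2 (by positivity)
      have h8 : x ^ 2 ^ j ≠ 1 := by
        intro h; rw [h, orderOf_one] at h7; omega
      have h9 : x ^ 2 ^ j ∈ fixingSubgroup G Λ := Subgroup.pow_mem _ hxD _
      have h10 : (g * x * g⁻¹) ^ 2 ^ j = g * x ^ 2 ^ j * g⁻¹ := conj_pow
      have h11 : g * x ^ 2 ^ j * g⁻¹ ∈ (T : Subgroup G) := by
        rw [← h10]
        exact Subgroup.pow_mem _ hgT _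
      refine b3 hfix Λ hΛ hD2 T hTM (g * x ^ 2 ^ j * g⁻¹) h11 ?_ ?_ g ?_
      · have := orderOf_injective (MulAut.conj g).toMonoidHom (MulAut.conj g).injective (x ^ 2 ^ j)
        exact this.trans h7
      · intro h
        have h12 : g * x ^ 2 ^ j * g⁻¹ ≠ 1 := by
          intro h'
          apply h8
          have := mul_inv_eq_one.1 h'
          exact mul_left_cancel (a := g) (by rw [this, mul_one])
        have h13 := mem_stab_of_conj (hfx _ h9 h8) (hfx _ h h12)
        exact hgD (conj_mem_fixing h13 hxD)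
      · have : g⁻¹ * (g * x ^ 2 ^ j * g⁻¹) * g = x ^ 2 ^ j := by group
        rw [this]
        exact h9
  rcases key with h | h
  · exact Or.inl h
  · right
    exact sect_of_sylow T h

end Cfsg.Agent.H96.Fx
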