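import Cfsg.Agent.H96.Fx.PCa
import Cfsg.Agent.H96.Fx.EXT

/-! # S3365, piece PC, the case 3 ∣ |M : D|. -/

set_option autoImplicit false
open MulAction
open scoped Pointwise

namespace Cfsg.Agent.H96.Fx
namespace PC

/-- transport of the conclusion -/
def Concl (P : Type*) [Group P] : Prop :=
  (Nat.card P = 9 ∧ ∀ x : P, x ^ 3 = 1) ∨ (Nat.card P = 27 ∧ (∀ x : P, x ^ 3 = 1) ∧
    ∃ e : P, Nat.card (Subgroup.centralizer ({e} : Set P)) = 9)

theorem Concl.of_equiv {P Q : Type*} [Group P] [Group Q] (φ : P ≃* Q) (h : Concl P) : Concl Q := by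
  have hc : Nat.card Q = Nat.card P := Nat.card_congr φ.symm.toEquiv
  have hx : (∀ x : P, x ^ 3 = 1) → ∀ x : Q, x ^ 3 = 1 := by
    intro h x
    have h1 := h (φ.symm x)
    rw [← map_pow] at h1
    exact (MulEquiv.map_eq_one_iff φ.symm).1 h1
  rcases h with ⟨h1, h2⟩ | ⟨h1, h2, e, he⟩
  · left; exact ⟨by rw [hc, h1], hx h2⟩
  · right
    refine ⟨by rw [hc, h1], hx h2, φ e, ?_⟩
    rw [← he]
    apply Nat.card_congr
    refine (Equiv.subtypeEquiv φ.toEquiv ?_).symm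
    intro a
    rw [Subgroup.mem_centralizer_singleton_iff, Subgroup.mem_centralizer_singleton_iff]
    constructor
    · intro h
      show φ a * φ e = φ e * φ a
      rw [← map_mul, ← map_mul, h]
    · intro h
      have h' : φ a * φ e = φ e * φ a := h
      rw [← map_mul, ← map_mul] at h'
      exact φ.injective h'

theorem Concl.final {P : Type*} [Group P] [Finite P] (h : Concl P) :
    (Nat.card P = 9 ∧ ∀ x : P, x ^ 3 = 1) ∨ (Nat.card P = 27 ∧ Cfsg.IsExtraspecial 3 P ∧ ∀ x : P, x ^ 3 = 1) := by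
  rcases h with h | ⟨h1, h2, e, he⟩
  · exact Or.inl h
  · exact Or.inr ⟨h1, ext27 h1 h2 e he, h2⟩

section abs
variable {G : Type*} [Group G] [Finite G]

/-- a `3`-element of `M₀` lies in `D` if `3 ∤ |M₀ : D|` -/
theorem mem_D {M₀ D : Subgroup G} (hDn : ∀ m ∈ M₀, ∀ d ∈ D, m * d * m⁻¹ ∈ D)
    (h : ¬ 3 ∣ D.relIndex M₀) (x : G) (hx : x ∈ M₀) (hx3 : ∃ k : ℕ, x ^ 3 ^ k = 1) : x ∈ D := by
  have hn : (D.subgroupOf M₀).Normal := by
    constructor
    intro d hd m
    rw [Subgroup.mem_subgroupOf] at hd ⊢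
    exact hDn _ m.2 _ hd
  obtain ⟨k, hk⟩ := hx3
  have h1 : orderOf (QuotientGroup.mk' (D.subgroupOf M₀) (⟨x, hx⟩ : M₀)) ∣ 3 ^ k := by
    apply orderOf_dvd_of_pow_eq_one
    rw [← map_pow]
    have : (⟨x, hx⟩ : M₀) ^ 3 ^ k = 1 := Subtype.ext hk
    rw [this, map_one]
  have h2 : orderOf (QuotientGroup.mk' (D.subgroupOf M₀) (⟨x, hx⟩ : M₀)) ∣ D.relIndex M₀ := by
    have h4 := orderOf_dvd_natCard (QuotientGroup.mk' (D.subgroupOf M₀) (⟨x, hx⟩ : M₀))
    exact h4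
  obtain ⟨j, _, hj⟩ := (Nat.dvd_prime_pow Nat.prime_three).1 h1
  have h5 : orderOf (QuotientGroup.mk' (D.subgroupOf M₀) (⟨x, hx⟩ : M₀)) = 1 := by
    rcases Nat.eq_zero_or_pos j with h0 | h0
    · rw [hj, h0, pow_zero]
    · exfalso
      apply h
      refine dvd_trans ?_ h2
      rw [hj]
      exact dvd_pow_self 3 h0.ne'
  rw [orderOf_eq_one_iff, QuotientGroup.mk'_apply, QuotientGroup.eq_one_iff] at h5
  exact Subgroup.mem_subgroupOf.1 h5

/-- the local structure in the case F < P -/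
theorem loc (M D M₀ : Subgroup G) (hDM₀ : D ≤ M₀) (hM₀ : M₀ ≤ M) (hDn : ∀ m ∈ M, ∀ d ∈ D, m * d * m⁻¹ ∈ D)
    (hi : M₀.relIndex M = 3) (hn : ∀ m ∈ M, ∀ x ∈ M₀, m * x * m⁻¹ ∈ M₀) (hMD : ¬ 3 ∣ D.relIndex M₀)
    (hD3 : 3 ∣ Nat.card D) (P : Sylow 3 G) (hF : ¬ 3 ∣ ((P : Subgroup G) ⊓ M).relIndex M)
    (hTI : ∀ x ∈ D, x ≠ 1 → (∃ k : ℕ, x ^ 3 ^ k = 1) → ∀ g : G, g * x * g⁻¹ ∈ D → g ∈ M)
    (hPM : ¬ (P : Subgroup G) ≤ M) :
    ∃ e ∈ (P : Subgroup G), e ∈ D ∧ orderOf e = 3 ∧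
      Nat.card ↥((P : Subgroup G) ⊓ Subgroup.centralizer ({e} : Set G)) = 9 ∧
      ¬ 27 ∣ Nat.card (Subgroup.centralizer ({e} : Set G)) ∧ 27 ≤ Nat.card P := by
  have h3 : Fact (Nat.Prime 3) := ⟨Nat.prime_three⟩
  set F : Subgroup G := (P : Subgroup G) ⊓ M with hFdef
  set E : Subgroup G := (P : Subgroup G) ⊓ D with hEdef
  have hDM : D ≤ M := hDM₀.trans hM₀
  have hEF : E ≤ F := inf_le_inf_left _ hDM
  have hP3 : IsPGroup 3 (P : Subgroup G) := P.2
  have hPel : ∀ x ∈ (P : Subgroup G), ∃ k : ℕ, x ^ 3 ^ k = 1 := by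
    intro x hx
    obtain ⟨k, hk⟩ := hP3 ⟨x, hx⟩
    exact ⟨k, congrArg Subtype.val hk⟩
  -- |F| ≤ 3 |E|
  have hFE : Nat.card F ≤ 3 * Nat.card E := by
    have hnn : (M₀.subgroupOf M).Normal := by
      constructor
      intro d hd m
      rw [Subgroup.mem_subgroupOf] at hd ⊢
      exact hn _ m.2 _ hd
    have h1 : M₀.relIndex F ∣ M₀.relIndex M := by
      have h2 : F ≤ M := inf_le_right
      have h5 : (M₀.subgroupOf M).relIndex (F.subgroupOf M) ∣ (M₀.subgroupOf M).index :=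
        Subgroup.relIndex_dvd_index_of_normal _ _
      have h6 : (M₀.subgroupOf M).relIndex (F.subgroupOf M) = M₀.relIndex F := by
        rw [Subgroup.relIndex_subgroupOf h2]
      rw [h6] at h5
      exact h5
    rw [hi] at h1
    have h7 : M₀ ⊓ F ≤ E := by
      intro x hx
      have hxF := (Subgroup.mem_inf.1 hx).2
      have hxP := (Subgroup.mem_inf.1 hxF).1
      refine Subgroup.mem_inf.2 ⟨hxP, ?_⟩
      exact mem_D (fun m hm d hd => hDn m (hM₀ hm) d hd) hMD x (Subgroup.mem_inf.1 hx).1 (hPel x hxP)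
    have h8 : Nat.card ↥(M₀ ⊓ F) * M₀.relIndex F = Nat.card F := by
      have := Subgroup.card_mul_index (M₀.subgroupOf F)
      rw [← this]
      congr 1
      rw [← Subgroup.inf_subgroupOf_right]
      exact (Nat.card_congr (Subgroup.subgroupOfEquivOfLe (inf_le_right : M₀ ⊓ F ≤ F)).toEquiv).symm
    have h9 : Nat.card ↥(M₀ ⊓ F) ≤ Nat.card E := Subgroup.card_le_of_le h7
    have h10 : M₀.relIndex F ≤ 3 := Nat.le_of_dvd (by norm_num) h1
    calc Nat.card F = Nat.card ↥(M₀ ⊓ F) * M₀.relIndex F := h8.symm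
      _ ≤ Nat.card E * 3 := Nat.mul_le_mul h9 h10
      _ = 3 * Nat.card E := mul_comm _ _
  -- E ≠ 1
  have hE1 : ∃ x ∈ E, x ≠ 1 := by
    obtain ⟨d, hd⟩ := exists_prime_orderOf_dvd_card' 3 hD3
    have hd3 : orderOf (d : G) = 3 := by rw [Subgroup.orderOf_coe]; exact hd
    have hdM : (d : G) ∈ M := hDM d.2
    -- Sylow of M
    have hFs : IsPGroup 3 (F.subgroupOf M) := by
      have : IsPGroup 3 F := hP3.to_le inf_le_left
      exact this.comap_of_injective M.subtype M.subtype_injective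
    have hidx : ¬ 3 ∣ (F.subgroupOf M).index := hF
    let Q : Sylow 3 M := hFs.toSylow hidx
    have hz : IsPGroup 3 (Subgroup.zpowers (⟨d, hdM⟩ : M)) := by
      apply IsPGroup.of_card (n := 1)
      rw [Nat.card_zpowers, Subgroup.orderOf_mk, hd3, pow_one]
    obtain ⟨R, hR⟩ := hz.exists_le_sylow
    obtain ⟨m, hm⟩ := MulAction.exists_smul_eq M R Q
    have hmem : (⟨d, hdM⟩ : M) ∈ R := hR (Subgroup.mem_zpowers _)
    have h5 : m * (⟨d, hdM⟩ : M) * m⁻¹ ∈ (Q : Subgroup M) := by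
      rw [← hm]
      rw [Sylow.coe_subgroup_smul]
      exact Subgroup.smul_mem_pointwise_smul (⟨d, hdM⟩ : M) (MulAut.conj m) (R : Subgroup M) hmem
    have h6 : (m : G) * d * (m : G)⁻¹ ∈ F := by
      have h7 : m * (⟨d, hdM⟩ : M) * m⁻¹ ∈ F.subgroupOf M := h5
      exact Subgroup.mem_subgroupOf.1 h7
    refine ⟨(m : G) * d * (m : G)⁻¹, Subgroup.mem_inf.2 ⟨(Subgroup.mem_inf.1 h6).1, hDn _ m.2 _ d.2⟩, ?_⟩
    intro h8
    rw [mul_inv_eq_one] at h8
    have h9 : (d : G) = 1 := by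
      have := h8
      rwa [mul_eq_left] at this
    rw [h9, orderOf_one] at hd3
    omega
  -- n
  have hFP : F < (P : Subgroup G) := by
    refine lt_of_le_of_ne inf_le_left ?_
    intro h
    apply hPM
    rw [← h]
    exact inf_le_right
  obtain ⟨n, hnP, hnF, hnn⟩ : ∃ n ∈ (P : Subgroup G), n ∉ F ∧ ∀ x ∈ F, n * x * n⁻¹ ∈ F := by
    have hnil : Group.IsNilpotent (P : Subgroup G) := hP3.isNilpotent
    have hlt : F.subgroupOf (P : Subgroup G) < ⊤ := by
      rw [lt_top_iff_ne_top]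
      intro h
      rw [Subgroup.subgroupOf_eq_top] at h
      exact absurd h (not_le_of_gt hFP)
    have h1 := Group.normalizerCondition_of_isNilpotent (G := (P : Subgroup G)) (F.subgroupOf P) hlt
    obtain ⟨n, hn1, hn2⟩ := SetLike.exists_of_lt h1
    refine ⟨n, n.2, ?_, ?_⟩
    · intro h; exact hn2 (Subgroup.mem_subgroupOf.2 h)
    · intro x hx
      have hxP : x ∈ (P : Subgroup G) := (Subgroup.mem_inf.1 hx).1
      have h2 := (Subgroup.mem_normalizer_iff.1 hn1 ⟨x, hxP⟩).1 (Subgroup.mem_subgroupOf.2 hx)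
      exact Subgroup.mem_subgroupOf.1 h2
  have hnM : n ∉ M := fun h => hnF (Subgroup.mem_inf.2 ⟨hnP, h⟩)
  -- E ∩ nEn⁻¹ = 1
  have hE2 : Nat.card E * Nat.card E ≤ Nat.card F := by
    have hinj : Function.Injective (fun p : E × E => (⟨(p.1 : G) * (n * (p.2 : G) * n⁻¹),
        mul_mem (hEF p.1.2) (hnn _ (hEF p.2.2))⟩ : F)) := by
      rintro ⟨a, b⟩ ⟨c, d⟩ h
      have h1 : (a : G) * (n * b * n⁻¹) = c * (n * d * n⁻¹) := congrArg Subtype.val h
      have h2 : n * ((b : G) * (d : G)⁻¹) * n⁻¹ = (a : G)⁻¹ * c := by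
        have : (a : G)⁻¹ * (a * (n * b * n⁻¹)) * (n * d * n⁻¹)⁻¹ = (a : G)⁻¹ * (c * (n * d * n⁻¹)) * (n * d * n⁻¹)⁻¹ := by
          rw [h1]
        calc n * ((b : G) * (d : G)⁻¹) * n⁻¹ = (a : G)⁻¹ * (a * (n * b * n⁻¹)) * (n * d * n⁻¹)⁻¹ := by group
          _ = (a : G)⁻¹ * (c * (n * d * n⁻¹)) * (n * d * n⁻¹)⁻¹ := this
          _ = (a : G)⁻¹ * c := by group
      have hbd : (b : G) * (d : G)⁻¹ ∈ E := mul_mem b.2 (inv_mem d.2)
      have h3' : (b : G) * (d : G)⁻¹ = 1 := by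
        by_contra hne
        apply hnM
        refine hTI _ (Subgroup.mem_inf.1 hbd).2 hne (hPel _ (Subgroup.mem_inf.1 hbd).1) n ?_
        rw [h2]
        exact (Subgroup.mem_inf.1 (mul_mem (inv_mem a.2) c.2 : (a : G)⁻¹ * c ∈ E)).2
      have h4 : (a : G)⁻¹ * c = 1 := by rw [← h2, h3']; group
      have h5 : a = c := Subtype.ext (inv_mul_eq_one.1 h4)
      have h6 : b = d := Subtype.ext (mul_inv_eq_one.1 h3')
      rw [h5, h6]
    have := Nat.card_le_card_of_injective _ hinj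
    rwa [Nat.card_prod] at this
  -- |E| = 3, |F| = 9
  have hE3 : Nat.card E = 3 := by
    have h1 : Nat.card E ≤ 3 := by
      have h2 : Nat.card E * Nat.card E ≤ 3 * Nat.card E := hE2.trans hFE
      exact Nat.le_of_mul_le_mul_right h2 Nat.card_pos
    have hEp : IsPGroup 3 E := hP3.to_le inf_le_left
    obtain ⟨j, hj⟩ := hEp.exists_card_eq
    have hj0 : j ≠ 0 := by
      rintro rfl
      rw [pow_zero, Subgroup.card_eq_one] at hj
      obtain ⟨x, hx, hx1⟩ := hE1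
      rw [hj] at hx
      exact hx1 (Subgroup.mem_bot.1 hx)
    have hj1 : 3 ^ 1 ≤ 3 ^ j := Nat.pow_le_pow_right (by norm_num) (Nat.one_le_iff_ne_zero.2 hj0)
    rw [← hj, pow_one] at hj1
    omega
  have hF9 : Nat.card F = 9 := by
    rw [hE3] at hE2 hFE
    omega
  obtain ⟨e, heE, he1⟩ := hE1
  have heP := (Subgroup.mem_inf.1 heE).1
  have heD := (Subgroup.mem_inf.1 heE).2
  have he3 : orderOf e = 3 := by
    have h1 : orderOf (⟨e, heE⟩ : E) ∣ Nat.card E := orderOf_dvd_natCard _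
    rw [Subgroup.orderOf_mk, hE3] at h1
    rcases (Nat.dvd_prime Nat.prime_three).1 h1 with h | h
    · exact absurd (orderOf_eq_one_iff.1 h) he1
    · exact h
  have hCM : Subgroup.centralizer ({e} : Set G) ≤ M := by
    intro c hc
    rw [Subgroup.mem_centralizer_singleton_iff] at hc
    apply hTI e heD he1 (hPel e heP) c
    rw [hc, mul_inv_cancel_right]
    exact heD
  refine ⟨e, heP, heD, he3, ?_, ?_, ?_⟩
  · have h1 : (P : Subgroup G) ⊓ Subgroup.centralizer ({e} : Set G) = F := by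
      apply le_antisymm
      · exact le_inf inf_le_left (inf_le_right.trans hCM)
      · refine le_inf inf_le_left ?_
        intro x hx
        rw [Subgroup.mem_centralizer_singleton_iff]
        have h9 : Nat.card F = 3 ^ 2 := by rw [hF9]; norm_num
        have hcomm := (IsPGroup.isMulCommutative_of_card_eq_prime_sq (p := 3) (G := F) h9).is_comm.comm
        exact congrArg Subtype.val (hcomm ⟨x, hx⟩ ⟨e, hEF heE⟩)
    rw [h1, hF9]
  · intro h27
    have h1 : 27 ∣ Nat.card M := h27.trans (Subgroup.card_dvd_of_le hCM)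
    have h2 : Nat.card F * F.relIndex M = Nat.card M := by
      have := Subgroup.relIndex_mul_relIndex ⊥ F M bot_le inf_le_right
      rwa [Subgroup.relIndex_bot_left, Subgroup.relIndex_bot_left] at this
    rw [← h2, hF9] at h1
    apply hF
    have h4 : 9 * 3 ∣ 9 * F.relIndex M := h1
    exact Nat.dvd_of_mul_dvd_mul_left (by norm_num) h4
  · obtain ⟨j, hj⟩ := hP3.exists_card_eq
    have h1 : Nat.card F < Nat.card (P : Subgroup G) := by
      refine lt_of_le_of_ne (Subgroup.card_le_of_le inf_le_left) ?_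
      intro h
      exact hFP.ne (Subgroup.eq_of_le_of_card_ge inf_le_left h.ge)
    rw [hF9, hj] at h1
    have h2 : 3 ≤ j := by
      by_contra hlt
      have : 3 ^ j ≤ 3 ^ 2 := Nat.pow_le_pow_right (by norm_num) (by omega)
      omega
    have h3' : 3 ^ 3 ≤ 3 ^ j := Nat.pow_le_pow_right (by norm_num) h2
    show 27 ≤ Nat.card (P : Subgroup G)
    rw [hj]
    omega

end abs

end PC
end Cfsg.Agent.H96.Fx
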