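import Cfsg.Agent.H96.Fx.PCa

set_option autoImplicit false
open MulAction
open scoped Pointwise

namespace Cfsg.Agent.H96.Fx.PC

section
variable {G Ω : Type*} [Group G] [MulAction G Ω]

/-- the action of the set stabilizer on the points of `Λ` -/
theorem exists_rho (Λ : Set Ω) {n : ℕ} (hn : n ≠ 0) (hΛ : Nat.card Λ = n) :
    ∃ (ρ : stabilizer G Λ →* Equiv.Perm (Fin n)) (pt : Fin n → Ω), Function.Injective pt ∧ Set.range pt = Λ ∧
      (∀ (m : stabilizer G Λ) (i : Fin n), (m : G) • pt i = pt (ρ m i)) := by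
  classical
  have : Finite Λ := Nat.finite_of_card_ne_zero (by omega)
  let e : Λ ≃ Fin n := (Finite.equivFin Λ).trans (finCongr hΛ)
  have hst : ∀ (m : stabilizer G Λ) (x : Λ), (m : G) • (x : Ω) ∈ Λ := by
    intro m x
    have h := mem_stab.1 m.2
    have h2 : (m : G) • (x : Ω) ∈ (m : G) • Λ := Set.smul_mem_smul_set x.2
    exact h.subset h2
  letI act : MulAction (stabilizer G Λ) Λ :=
    { smul := fun m x => ⟨(m : G) • (x : Ω), hst m x⟩
      one_smul := fun x => Subtype.ext (one_smul G (x : Ω))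
      mul_smul := fun m m' x => Subtype.ext (mul_smul (m : G) (m' : G) (x : Ω)) }
  refine ⟨(e.permCongrHom).toMonoidHom.comp (MulAction.toPermHom (stabilizer G Λ) Λ), fun i => (e.symm i : Ω), ?_, ?_, ?_⟩
  · intro i j h
    exact e.symm.injective (Subtype.ext h)
  · ext x
    constructor
    · rintro ⟨i, rfl⟩
      exact (e.symm i).2
    · intro hx
      exact ⟨e ⟨x, hx⟩, by simp⟩
  · intro m i
    have h1 : ((e.permCongrHom).toMonoidHom.comp (MulAction.toPermHom (stabilizer G Λ) Λ)) m i = e (m • e.symm i) := rfl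
    change (m : G) • ((e.symm i : Λ) : Ω) = (e.symm _ : Λ)
    rw [h1, e.symm_apply_apply]
    rfl

end

section
variable {G Ω : Type*} [Group G] [Finite G] [MulAction G Ω] [Finite Ω]

theorem fixedPoints_zpowers (w : G) : (fixedPoints (Subgroup.zpowers w) Ω) = fixedBy Ω w := by
  ext x
  constructor
  · intro h
    exact h ⟨w, Subgroup.mem_zpowers w⟩
  · rintro h ⟨g, k, rfl⟩
    change (w ^ k) • x = x
    have h2 : w ∈ stabilizer G x := h
    exact mem_stabilizer_iff.1 ((stabilizer G x).zpow_mem h2 k)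

/-- fixed points of 3-elements modulo 3 -/
theorem modEq3 {w : G} (hw : ∃ k : ℕ, w ^ 3 ^ k = 1) : Nat.card Ω ≡ Nat.card (fixedBy Ω w) [MOD 3] := by
  have hP : IsPGroup 3 (Subgroup.zpowers w) := by
    obtain ⟨k, hk⟩ := hw
    obtain ⟨j, hj, hj'⟩ := (Nat.dvd_prime_pow Nat.prime_three).1 (orderOf_dvd_of_pow_eq_one hk)
    rw [IsPGroup.iff_card]
    exact ⟨j, by rw [Nat.card_zpowers, hj']⟩
  haveI : Fact (Nat.Prime 3) := ⟨Nat.prime_three⟩
  have := hP.card_modEq_card_fixedPoints Ω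
  rwa [fixedPoints_zpowers] at this

/-- the 3-part of an element acting nontrivially of order 3 -/
theorem three_part (hfix : ∀ g : G, g ≠ 1 → Nat.card (fixedBy Ω g) ≤ 4) (h3 : 3 ∣ Nat.card Ω) {n : ℕ}
    (M : Subgroup G) (ρ : M →* Equiv.Perm (Fin n)) (m : M) (hm : ρ m * ρ m * ρ m = 1) (hm1 : ρ m ≠ 1) :
    Nat.card (fixedBy Ω (m : G)) ≤ 3 := by
  obtain ⟨a, b, hb, hab⟩ := Nat.exists_eq_pow_mul_and_not_dvd (orderOf_pos m).ne' 3 (by norm_num)
  have h1 : m ^ b ≠ 1 := by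
    intro h
    have h4 : ρ m ^ b = 1 := by rw [← map_pow, h, map_one]
    have h5 : orderOf (ρ m) ∣ 3 := orderOf_dvd_of_pow_eq_one (by rw [pow_succ, pow_two]; exact hm)
    rcases (Nat.dvd_prime Nat.prime_three).1 h5 with h6 | h6
    · exact hm1 (orderOf_eq_one_iff.1 h6)
    · have h7 := orderOf_dvd_of_pow_eq_one h4
      rw [h6] at h7
      exact hb h7
  have h2 : (((m ^ b : M) : G)) ≠ 1 := fun h => h1 (Subtype.ext h)
  have h3' : ∃ k : ℕ, (((m ^ b : M) : G)) ^ 3 ^ k = 1 := by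
    refine ⟨a, ?_⟩
    rw [← Subgroup.coe_pow, ← pow_mul, mul_comm b, ← hab, pow_orderOf_eq_one]; rfl
  have h5 := modEq3 (Ω := Ω) h3'
  have h6 := hfix _ h2
  have h7 : Nat.card (fixedBy Ω (m : G)) ≤ Nat.card (fixedBy Ω (((m ^ b : M) : G))) := by
    apply Nat.card_mono (Set.toFinite _)
    intro x hx
    rw [mem_fixedBy] at hx ⊢
    rw [Subgroup.coe_pow]
    exact pow_fix hx b
  have h8 : Nat.card Ω % 3 = 0 := Nat.mod_eq_zero_of_dvd h3
  unfold Nat.ModEq at h5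
  omega

theorem exists_M0_aux {n : ℕ} (Λ : Set Ω) (ρ : stabilizer G Λ →* Equiv.Perm (Fin n)) (hker : ∀ m, ρ m = 1 ↔ (m : G) ∈ fixingSubgroup G Λ)
    (V : Subgroup (Equiv.Perm (Fin n))) [V.Normal] (hV3 : ¬ 3 ∣ Nat.card V) (hidx : V.relIndex ρ.range = 3)
    (hs : ∀ m, ρ m ∉ V → Nat.card ↥(fixedBy Ω (m : G) \ Λ : Set Ω) ≤ 3) :
    ∃ M₀ : Subgroup G, fixingSubgroup G Λ ≤ M₀ ∧ M₀ ≤ stabilizer G Λ ∧ M₀.relIndex (stabilizer G Λ) = 3 ∧
      (∀ m ∈ stabilizer G Λ, ∀ x ∈ M₀, m * x * m⁻¹ ∈ M₀) ∧ ¬ 3 ∣ (fixingSubgroup G Λ).relIndex M₀ ∧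
      (∀ u ∈ stabilizer G Λ, u ∉ M₀ → Nat.card ↥(fixedBy Ω u \ Λ : Set Ω) ≤ 3) := by
  have hmem : ∀ (u : G) (hu : u ∈ stabilizer G Λ), u ∈ (V.comap ρ).map (stabilizer G Λ).subtype ↔ ρ ⟨u, hu⟩ ∈ V := by
    intro u hu
    constructor
    · rintro ⟨v, hv, rfl⟩
      exact hv
    · intro h
      exact ⟨⟨u, hu⟩, h, rfl⟩
  have hle : (V.comap ρ).map (stabilizer G Λ).subtype ≤ stabilizer G Λ := Subgroup.map_subtype_le _
  have hsub : ((V.comap ρ).map (stabilizer G Λ).subtype).subgroupOf (stabilizer G Λ) = V.comap ρ :=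
    Subgroup.comap_map_eq_self_of_injective (stabilizer G Λ).subtype_injective _
  refine ⟨(V.comap ρ).map (stabilizer G Λ).subtype, ?_, hle, ?_, ?_, ?_, ?_⟩
  · intro w hw
    rw [hmem w (fixing_le_stab Λ hw), (hker _).2 hw]
    exact V.one_mem
  · change (((V.comap ρ).map (stabilizer G Λ).subtype).subgroupOf (stabilizer G Λ)).index = 3
    rw [hsub, Subgroup.index_comap, hidx]
  · intro m hm x hx
    have hx' := hle hx
    rw [hmem x hx'] at hx
    rw [hmem _ ((stabilizer G Λ).mul_mem ((stabilizer G Λ).mul_mem hm hx') ((stabilizer G Λ).inv_mem hm))]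
    have h1 : ρ ⟨m * x * m⁻¹, (stabilizer G Λ).mul_mem ((stabilizer G Λ).mul_mem hm hx') ((stabilizer G Λ).inv_mem hm)⟩
        = ρ ⟨m, hm⟩ * ρ ⟨x, hx'⟩ * (ρ ⟨m, hm⟩)⁻¹ := by
      rw [← map_inv, ← map_mul, ← map_mul]; rfl
    rw [h1]
    exact (inferInstance : V.Normal).conj_mem _ hx _
  · intro h
    rw [← Subgroup.relIndex_subgroupOf hle, hsub] at h
    have hk : (fixingSubgroup G Λ).subgroupOf (stabilizer G Λ) = ρ.ker := by
      ext m
      rw [Subgroup.mem_subgroupOf, MonoidHom.mem_ker, hker]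
    rw [hk, Subgroup.relIndex_ker] at h
    exact hV3 (h.trans (Subgroup.card_dvd_of_le (Subgroup.map_comap_le ρ V)))
  · intro u hu hu'
    rw [hmem u hu] at hu'
    exact hs ⟨u, hu⟩ hu'

/-- the normal subgroup of index 3 -/
theorem exists_M0 (hfix : ∀ g : G, g ≠ 1 → Nat.card (fixedBy Ω g) ≤ 4)
    (hinv : ∀ g : G, orderOf g = 2 → fixedBy Ω g = ∅) (Λ : Set Ω)
    (hΛ : (Nat.card Λ = 3 ∧ 3 ∣ Nat.card Ω) ∨ Nat.card Λ = 4)
    (h3 : 3 ∣ (fixingSubgroup G Λ).relIndex (stabilizer G Λ)) :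
    ∃ M₀ : Subgroup G, fixingSubgroup G Λ ≤ M₀ ∧ M₀ ≤ stabilizer G Λ ∧ M₀.relIndex (stabilizer G Λ) = 3 ∧
      (∀ m ∈ stabilizer G Λ, ∀ x ∈ M₀, m * x * m⁻¹ ∈ M₀) ∧ ¬ 3 ∣ (fixingSubgroup G Λ).relIndex M₀ ∧
      (∀ u ∈ stabilizer G Λ, u ∉ M₀ → Nat.card ↥(fixedBy Ω u \ Λ : Set Ω) ≤ 3) := by
  have hkerof : ∀ {n : ℕ} (ρ : stabilizer G Λ →* Equiv.Perm (Fin n)) (pt : Fin n → Ω), Function.Injective pt →
      Set.range pt = Λ → (∀ (m : stabilizer G Λ) (i : Fin n), (m : G) • pt i = pt (ρ m i)) →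
      ∀ m, ρ m = 1 ↔ (m : G) ∈ fixingSubgroup G Λ := by
    intro n ρ pt hinj hr hρ m
    rw [mem_fixingSubgroup_iff]
    constructor
    · intro h y hy
      rw [← hr] at hy
      obtain ⟨i, rfl⟩ := hy
      rw [hρ, h]; rfl
    · intro h
      ext1 i
      apply hinj
      rw [← hρ, h (pt i) (by rw [← hr]; exact ⟨i, rfl⟩)]; rfl
  have h3' : ∀ {n : ℕ} (ρ : stabilizer G Λ →* Equiv.Perm (Fin n)), (∀ m, ρ m = 1 ↔ (m : G) ∈ fixingSubgroup G Λ) →
      3 ∣ Nat.card ρ.range := by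
    intro n ρ hker
    have hk : (fixingSubgroup G Λ).subgroupOf (stabilizer G Λ) = ρ.ker := by
      ext m
      rw [Subgroup.mem_subgroupOf, MonoidHom.mem_ker, hker]
    have h4 : (fixingSubgroup G Λ).relIndex (stabilizer G Λ) = Nat.card ρ.range := by
      change ((fixingSubgroup G Λ).subgroupOf (stabilizer G Λ)).index = _
      rw [hk, Subgroup.index_ker]
    rwa [h4] at h3
  have hR : ∀ {n : ℕ} (ρ : stabilizer G Λ →* Equiv.Perm (Fin n)) (pt : Fin n → Ω),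
      (∀ (m : stabilizer G Λ) (i : Fin n), (m : G) • pt i = pt (ρ m i)) →
      ∀ σ ∈ ρ.range, σ * σ = 1 → (∃ i, σ i = i) → σ = 1 := by
    rintro n ρ pt hρ _ ⟨m, rfl⟩ h2 ⟨i, hi⟩
    exact odd_part hinv _ ρ pt hρ m i h2 hi
  rcases hΛ with ⟨hc, hΩ⟩ | hc
  · obtain ⟨ρ, pt, hinj, hr, hρ⟩ := exists_rho (G := G) Λ (by norm_num) hc
    have hker := hkerof ρ pt hinj hr hρ
    have hA := even3 ρ.range (hR ρ pt hρ)
    refine exists_M0_aux Λ ρ hker ⊥ (by rw [Subgroup.card_bot]; norm_num)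
      (relIndex_three ⊥ bot_rel bot_le (by rw [Subgroup.card_bot]; norm_num) _ hA (h3' ρ hker)) ?_
    intro m hm
    have hm1 : ρ m ≠ 1 := fun h => hm (by rw [h]; exact Subgroup.one_mem _)
    have hm3 : ρ m * ρ m * ρ m = 1 := by
      have : ∀ σ : Equiv.Perm (Fin 3), Equiv.Perm.sign σ = 1 → σ * σ * σ = 1 := by decide +kernel
      exact this _ (Equiv.Perm.mem_alternatingGroup.1 (hA ⟨m, rfl⟩))
    refine le_trans (Nat.card_mono (Set.toFinite _) Set.sdiff_subset) ?_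
    exact three_part hfix hΩ _ ρ m hm3 hm1
  · obtain ⟨ρ, pt, hinj, hr, hρ⟩ := exists_rho (G := G) Λ (by norm_num) hc
    have hker := hkerof ρ pt hinj hr hρ
    have hA := even4 ρ.range (h3' ρ hker) (hR ρ pt hρ)
    refine exists_M0_aux Λ ρ hker V4 (by rw [card_V4]; norm_num)
      (relIndex_three V4 V4_rel (fun σ h => Equiv.Perm.mem_alternatingGroup.2 h.2) (by rw [card_V4]; norm_num) _ hA
        (h3' ρ hker)) ?_
    intro m hm
    have hsg := Equiv.Perm.mem_alternatingGroup.1 (hA ⟨m, rfl⟩)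
    have hm2 : ρ m * ρ m ≠ 1 := fun h => hm ⟨h, hsg⟩
    obtain ⟨i, hi⟩ := three4 (ρ m) hsg hm2
    have hm1 : (m : G) ≠ 1 := by
      intro h
      apply hm2
      have : m = 1 := Subtype.ext h
      rw [this, map_one, one_mul]
    have h4 := hfix _ hm1
    have h5 : pt i ∈ fixedBy Ω (m : G) := by rw [mem_fixedBy, hρ, hi]
    have h6 : pt i ∈ Λ := by rw [← hr]; exact ⟨i, rfl⟩
    have h7 : (fixedBy Ω (m : G) \ Λ).ncard < (fixedBy Ω (m : G)).ncard :=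
      Set.ncard_lt_ncard ⟨Set.sdiff_subset, fun h => (h h5).2 h6⟩ (Set.toFinite _)
    rw [Nat.card_coe_set_eq] at h4 ⊢
    omega

end

end Cfsg.Agent.H96.Fx.PC
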