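import Cfsg.Agent.H96.Fx.Base
import Cfsg.Agent.H96.Fx.B1
import Cfsg.Agent.H96.Fx.PCm
import Cfsg.Agent.H96.Fx.PCb
import Cfsg.Agent.H96.Fx.C2
import Cfsg.Agent.H96.Fx.CABS
import Cfsg.Prelude

/-! # S3365, part C (owner: helper32). -/

set_option autoImplicit false
open MulAction
open scoped Pointwise commutatorElement

namespace Cfsg.Agent.H96.Fx


theorem pc_core {G Ω : Type*} [Group G] [Finite G] [MulAction G Ω] [Finite Ω] (hperf : commutator G = ⊤)
    (Λ : Set Ω) (M₀ : Subgroup G)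
    (hfx : ∀ w ∈ fixingSubgroup G Λ, w ≠ 1 → (∃ k : ℕ, w ^ 3 ^ k = 1) → fixedBy Ω w = Λ)
    (hD3 : 3 ∣ Nat.card (fixingSubgroup G Λ))
    (hDM₀ : fixingSubgroup G Λ ≤ M₀) (hM₀ : M₀ ≤ stabilizer G Λ) (hM₀i : M₀.relIndex (stabilizer G Λ) = 3)
    (hM₀n : ∀ m ∈ stabilizer G Λ, ∀ x ∈ M₀, m * x * m⁻¹ ∈ M₀) (hM₀D : ¬ 3 ∣ (fixingSubgroup G Λ).relIndex M₀)
    (hsmall : ∀ u ∈ stabilizer G Λ, u ∉ M₀ → Nat.card ↥(fixedBy Ω u \ Λ : Set Ω) ≤ 3)
    (hB : ∀ P : Sylow 3 G, ¬ (P : Subgroup G) ≤ stabilizer G Λ → ∀ e ∈ (P : Subgroup G), e ∈ fixingSubgroup G Λ →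
      orderOf e = 3 → ∀ q ∈ Subgroup.normalizer ((P : Subgroup G) : Set G), (∃ k : ℕ, q ^ 2 ^ k = 1) →
      ∀ x ∈ (P : Subgroup G), IsConj e x → q * x * q⁻¹ ∈ Subgroup.zpowers x → q = 1) :
    ∃ P : Sylow 3 G, PC.Concl (P : Subgroup G) := by
  haveI : Fact (Nat.Prime 3) := ⟨Nat.prime_three⟩
  set M := stabilizer G Λ with hM
  set D := fixingSubgroup G Λ with hD
  -- a Sylow subgroup of M inside a Sylow subgroup of G
  let F0 : Sylow 3 M := default
  have hF0p : IsPGroup 3 ((F0 : Subgroup M).map M.subtype) := F0.isPGroup'.map _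
  obtain ⟨P, hP⟩ := hF0p.exists_le_sylow
  refine ⟨P, ?_⟩
  by_cases hPM : (P : Subgroup G) ≤ M
  · left
    obtain ⟨h1, h2⟩ := c2 hperf Λ M₀ hfx hD3 P hPM hDM₀ hM₀ hM₀i hM₀n hM₀D hsmall
    refine ⟨h1, fun x => Subtype.ext ?_⟩
    rw [SubgroupClass.coe_pow]
    exact h2 x x.2
  right
  set F : Subgroup G := (P : Subgroup G) ⊓ M with hF
  have hFM : F ≤ M := inf_le_right
  have hFP : F ≤ P := inf_le_left
  -- F is Sylow in M
  have hFsyl : ¬ 3 ∣ F.relIndex M := by
    have h1 : (F0 : Subgroup M) ≤ F.subgroupOf M := by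
      intro x hx
      rw [Subgroup.mem_subgroupOf]
      exact ⟨hP ⟨x, hx, rfl⟩, x.2⟩
    have h2 : (F.subgroupOf M).index ∣ (F0 : Subgroup M).index := Subgroup.index_dvd_of_le h1
    intro h3
    exact F0.not_dvd_index (h3.trans h2)
  -- F ∩ M₀ ≤ D
  have hpow : ∀ x ∈ (P : Subgroup G), ∃ k : ℕ, x ^ 3 ^ k = 1 := by
    intro x hx
    obtain ⟨k, hk⟩ := P.isPGroup' ⟨x, hx⟩
    exact ⟨k, congrArg Subtype.val hk⟩
  have hDn : (D.subgroupOf M₀).Normal := by
    constructor
    intro d hd m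
    rw [Subgroup.mem_subgroupOf] at hd ⊢
    exact conj_mem_fixing (hM₀ m.2) hd
  have hFD : ∀ x ∈ F, x ∈ M₀ → x ∈ D := by
    intro x hx hx0
    obtain ⟨k, hk⟩ := hpow x (hFP hx)
    have h1 : orderOf (QuotientGroup.mk' (D.subgroupOf M₀) (⟨x, hx0⟩ : M₀)) ∣ 3 ^ k := by
      have h2 := orderOf_map_dvd (QuotientGroup.mk' (D.subgroupOf M₀)) (⟨x, hx0⟩ : M₀)
      rw [Subgroup.orderOf_mk] at h2
      exact h2.trans (orderOf_dvd_of_pow_eq_one hk)
    have h3 : orderOf (QuotientGroup.mk' (D.subgroupOf M₀) (⟨x, hx0⟩ : M₀)) ∣ D.relIndex M₀ := orderOf_dvd_natCard _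
    have h5 : orderOf (QuotientGroup.mk' (D.subgroupOf M₀) (⟨x, hx0⟩ : M₀)) = 1 := by
      obtain ⟨j, hj, hj'⟩ := (Nat.dvd_prime_pow Nat.prime_three).1 h1
      rcases j with _ | j
      · simpa using hj'
      · exfalso
        rw [hj', pow_succ] at h3
        exact hM₀D ((dvd_mul_left _ _).trans h3)
    rw [orderOf_eq_one_iff, QuotientGroup.mk'_apply, QuotientGroup.eq_one_iff] at h5
    exact Subgroup.mem_subgroupOf.1 h5
  -- relative index of D in F
  have hDF3 : D.relIndex F ≤ 3 := by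
    have h1 : D.relIndex F = M₀.relIndex F := by
      have h2 : D ⊓ F = M₀ ⊓ F := by
        apply le_antisymm (inf_le_inf_right _ hDM₀)
        intro x hx
        exact ⟨hFD x hx.2 hx.1, hx.2⟩
      rw [← Subgroup.inf_relIndex_right D F, h2, Subgroup.inf_relIndex_right]
    rw [h1, ← hM₀i]
    exact Subgroup.relIndex_le_of_le_right hFM (by rw [hM₀i]; norm_num)
  set E : Subgroup G := F ⊓ D with hE
  have hEF : E ≤ F := inf_le_left
  -- 3 divides |E|
  have hE3 : 3 ∣ Nat.card E := by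
    -- Sylow subgroup of D is conjugate in M into F
    have h1 : ¬ 3 ∣ E.relIndex D := by
      have h2 : E.relIndex D = F.relIndex D := by rw [hE, Subgroup.inf_relIndex_right]
      rw [h2]
      haveI hDMn : (D.subgroupOf M).Normal := by
        constructor
        intro d hd m
        rw [Subgroup.mem_subgroupOf] at hd ⊢
        exact conj_mem_fixing m.2 hd
      have h3 : F.relIndex D ∣ F.relIndex M := by
        have hDM : D ≤ M := hDM₀.trans hM₀
        have h4 : (F.subgroupOf M).relIndex (D.subgroupOf M) = F.relIndex D := Subgroup.relIndex_subgroupOf hDM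
        obtain ⟨q, hq⟩ := Subgroup.relIndex_dvd_index_of_normal (D.subgroupOf M) (F.subgroupOf M)
        have h5 := Subgroup.relIndex_mul_index (H := F.subgroupOf M ⊓ D.subgroupOf M) (K := F.subgroupOf M) inf_le_left
        have h6 := Subgroup.relIndex_mul_index (H := F.subgroupOf M ⊓ D.subgroupOf M) (K := D.subgroupOf M) inf_le_right
        rw [Subgroup.inf_relIndex_left] at h5
        rw [Subgroup.inf_relIndex_right, ← h5, hq] at h6
        have h7 : (D.subgroupOf M).relIndex (F.subgroupOf M) ≠ 0 := Subgroup.index_ne_zero_of_finite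
        have h8 : (F.subgroupOf M).index = (F.subgroupOf M).relIndex (D.subgroupOf M) * q := by
          apply Nat.eq_of_mul_eq_mul_left (Nat.pos_of_ne_zero h7)
          rw [← h6]
          ring
        rw [← h4]
        exact ⟨q, h8⟩
      exact fun h6 => hFsyl (h6.trans h3)
    have h2 : Nat.card E * E.relIndex D = Nat.card D := by
      rw [mul_comm, ← Subgroup.relIndex_bot_left, mul_comm, ← Subgroup.relIndex_bot_left]
      exact Subgroup.relIndex_mul_relIndex _ _ _ bot_le inf_le_right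
    have h3 : 3 ∣ Nat.card E * E.relIndex D := by rw [h2]; exact hD3
    exact (Nat.prime_three.dvd_mul.1 h3).resolve_right h1
  obtain ⟨e, he⟩ := exists_prime_orderOf_dvd_card' (G := E) 3 hE3
  have he3 : orderOf (e : G) = 3 := by rw [Subgroup.orderOf_coe]; exact he
  have heF : (e : G) ∈ F := hEF e.2
  have heD : (e : G) ∈ D := e.2.2
  have he1 : (e : G) ≠ 1 := by
    intro h; rw [h, orderOf_one] at he3; omega
  -- F < P, so there is n
  have hFlt : F < P := by
    refine lt_of_le_of_ne hFP ?_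
    intro h
    apply hPM
    rw [← h]
    exact hFM
  obtain ⟨n, hnP, hnF, hnN⟩ : ∃ n ∈ (P : Subgroup G), n ∉ F ∧ ∀ x ∈ F, n * x * n⁻¹ ∈ F := by
    haveI : Group.IsNilpotent (P : Subgroup G) := P.isPGroup'.isNilpotent
    have h1 : F.subgroupOf (P : Subgroup G) < ⊤ := by
      rw [lt_top_iff_ne_top, Ne, Subgroup.subgroupOf_eq_top]
      exact fun h => hFlt.not_ge h
    have h2 := Group.normalizerCondition_of_isNilpotent (G := (P : Subgroup G)) _ h1
    obtain ⟨n, hn, hn'⟩ := SetLike.exists_of_lt h2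
    refine ⟨n, n.2, fun h => hn' (Subgroup.mem_subgroupOf.2 h), fun x hx => ?_⟩
    have h3 := (Subgroup.mem_normalizer_iff.1 hn ⟨x, hFP hx⟩).1 (Subgroup.mem_subgroupOf.2 hx)
    exact Subgroup.mem_subgroupOf.1 h3
  have hnM : n ∉ M := fun h => hnF ⟨hnP, h⟩
  -- the conjugate of E
  set E' : Subgroup G := E.map (MulAut.conj n).toMonoidHom with hE'
  have hE'F : E' ≤ F := by
    rintro _ ⟨x, hx, rfl⟩
    exact hnN x (hEF hx)
  have hcE' : Nat.card E' = Nat.card E :=
    (Nat.card_congr (E.equivMapOfInjective _ (MulAut.conj n).injective).toEquiv).symm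
  have hint : E ⊓ E' = ⊥ := by
    rw [eq_bot_iff]
    rintro x ⟨hx, y, hy, hyx⟩
    rw [Subgroup.mem_bot]
    by_contra hx1
    have h1 : n * y * n⁻¹ = x := hyx
    have hy1 : y ≠ 1 := by
      rintro rfl
      apply hx1
      rw [← h1]; group
    have e1 := hfx x hx.2 hx1 (hpow x (hFP (hEF hx)))
    have e2 := hfx y hy.2 hy1 (hpow y (hFP (hEF hy)))
    rw [← h1] at e1
    exact hnM (mem_stab_of_conj e2 e1)
  have hle3 : Nat.card E' ≤ 3 := by
    have h1 : E.relIndex E' = Nat.card E' := by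
      rw [← Subgroup.inf_relIndex_right, hint, Subgroup.relIndex_bot_left]
    rw [← h1]
    have h2 : E.relIndex F = D.relIndex F := by
      rw [hE, inf_comm, Subgroup.inf_relIndex_right]
    refine (Subgroup.relIndex_le_of_le_right hE'F ?_).trans (h2.le.trans hDF3)
    exact Subgroup.index_ne_zero_of_finite
  have hcE : Nat.card E = 3 := by
    have h1 : 0 < Nat.card E := Nat.card_pos
    have h2 := Nat.le_of_dvd h1 hE3
    omega
  have hrel3 : E.relIndex F = 3 := by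
    have h1 : E.relIndex E' = Nat.card E' := by
      rw [← Subgroup.inf_relIndex_right, hint, Subgroup.relIndex_bot_left]
    have h2 : E.relIndex E' ≤ E.relIndex F := Subgroup.relIndex_le_of_le_right hE'F Subgroup.index_ne_zero_of_finite
    have h3 : E.relIndex F = D.relIndex F := by
      rw [hE, inf_comm, Subgroup.inf_relIndex_right]
    omega
  have hcF : Nat.card F = 9 := by
    have h1 : Nat.card E * E.relIndex F = Nat.card F := by
      rw [← Subgroup.relIndex_bot_left, ← Subgroup.relIndex_bot_left]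
      exact Subgroup.relIndex_mul_relIndex _ _ _ bot_le hEF
    rw [hcE, hrel3] at h1
    omega
  -- centralizer of e
  have hCM : Subgroup.centralizer ({(e : G)} : Set G) ≤ M := by
    intro c hc
    have hc' := Subgroup.mem_centralizer_singleton_iff.1 hc
    have e1 := hfx e heD he1 (hpow e (hFP heF))
    refine mem_stab_of_conj (w := (e : G)) e1 ?_
    rw [show c * (e : G) * c⁻¹ = (e : G) by
      first
      | rw [hc', mul_assoc, mul_inv_cancel, mul_one]
      | rw [← hc', mul_assoc, mul_inv_cancel, mul_one]]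
    exact e1
  have hPC : (P : Subgroup G) ⊓ Subgroup.centralizer ({(e : G)} : Set G) = F := by
    apply le_antisymm
    · rintro x ⟨hx, hx'⟩
      exact ⟨hx, hCM hx'⟩
    · intro x hx
      refine ⟨hFP hx, Subgroup.mem_centralizer_singleton_iff.2 ?_⟩
      have h1 : IsMulCommutative F := IsPGroup.isMulCommutative_of_card_eq_prime_sq (p := 3) (by rw [hcF]; norm_num)
      have h2 := h1.is_comm.comm (⟨x, hx⟩ : F) ⟨e, heF⟩
      have h3 := congrArg Subtype.val h2
      first | exact h3 | exact h3.symm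
  have h9 : Nat.card ↥((P : Subgroup G) ⊓ Subgroup.centralizer ({(e : G)} : Set G)) = 9 := by rw [hPC, hcF]
  have h9' : ¬ 27 ∣ Nat.card (Subgroup.centralizer ({(e : G)} : Set G)) := by
    intro h27
    have h1 : 27 ∣ Nat.card M := h27.trans (Subgroup.card_dvd_of_le hCM)
    have h2 : Nat.card F * F.relIndex M = Nat.card M := by
      rw [← Subgroup.relIndex_bot_left, ← Subgroup.relIndex_bot_left]
      exact Subgroup.relIndex_mul_relIndex _ _ _ bot_le hFM
    rw [← h2, hcF, show 27 = 9 * 3 by norm_num] at h1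
    exact hFsyl (Nat.dvd_of_mul_dvd_mul_left (by norm_num) h1)
  have h27 : 27 ≤ Nat.card P := by
    obtain ⟨k, hk⟩ := IsPGroup.iff_card.1 P.isPGroup'
    have h1 : Nat.card F < Nat.card P := by
      apply lt_of_le_of_ne (Nat.le_of_dvd Nat.card_pos (Subgroup.card_dvd_of_le hFP))
      intro h
      exact hFlt.ne (Subgroup.eq_of_le_of_card_ge hFP h.ge)
    rw [hcF] at h1
    have hk' : Nat.card P = 3 ^ k := hk
    rw [hk'] at h1 ⊢
    rcases k with _ | _ | _ | k
    · norm_num at h1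
    · norm_num at h1
    · norm_num at h1
    · have := Nat.one_le_pow k 3 (by norm_num)
      rw [pow_succ, pow_succ, pow_succ]
      omega
  obtain ⟨hc27, hexp⟩ := c_abs hperf P e (hFP heF) he3 h9 h9' h27 (hB P hPM e (hFP heF) heD he3)
  have hexp' : ∀ x : P, x ^ 3 = 1 := by
    intro x
    apply Subtype.ext
    rw [SubgroupClass.coe_pow]
    exact hexp x x.2
  refine ⟨hc27, hexp', ⟨e, hFP heF⟩, ?_⟩
  rw [← h9]
  have h1 : (Subgroup.centralizer ({(⟨e, hFP heF⟩ : (P : Subgroup G))} : Set (P : Subgroup G))).map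
      (P : Subgroup G).subtype = (P : Subgroup G) ⊓ Subgroup.centralizer ({(e : G)} : Set G) := by
    ext x
    constructor
    · rintro ⟨y, hy, rfl⟩
      refine ⟨y.2, Subgroup.mem_centralizer_singleton_iff.2 ?_⟩
      exact congrArg Subtype.val (Subgroup.mem_centralizer_singleton_iff.1 hy)
    · rintro ⟨hx, hx'⟩
      refine ⟨⟨x, hx⟩, Subgroup.mem_centralizer_singleton_iff.2 ?_, rfl⟩
      exact Subtype.ext (Subgroup.mem_centralizer_singleton_iff.1 hx')
  rw [← h1]
  exact Nat.card_congr (Subgroup.equivMapOfInjective _ _ (Subgroup.subtype_injective _)).toEquiv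

section fin
variable {G Ω : Type*} [Group G] [Finite G] [MulAction G Ω] [Finite Ω]

theorem pc_rel (Λ : Set Ω) {n : ℕ} (hn : n ≠ 0) (hΛ : Nat.card Λ = n) :
    (fixingSubgroup G Λ).relIndex (stabilizer G Λ) ∣ n.factorial := by
  obtain ⟨ρ, pt, hinj, hr, hρ⟩ := PC.exists_rho (G := G) Λ hn hΛ
  have hker : ∀ m, ρ m = 1 ↔ (m : G) ∈ fixingSubgroup G Λ := by
    intro m
    rw [mem_fixingSubgroup_iff]
    constructor
    · intro h y hy
      rw [← hr] at hy
      obtain ⟨i, rfl⟩ := hy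
      rw [hρ, h]; rfl
    · intro h
      ext1 i
      apply hinj
      rw [← hρ, h (pt i) (by rw [← hr]; exact ⟨i, rfl⟩)]; rfl
  have hk : (fixingSubgroup G Λ).subgroupOf (stabilizer G Λ) = ρ.ker := by
    ext m
    rw [Subgroup.mem_subgroupOf, MonoidHom.mem_ker, hker]
  have h4 : (fixingSubgroup G Λ).relIndex (stabilizer G Λ) = Nat.card ρ.range := by
    change ((fixingSubgroup G Λ).subgroupOf (stabilizer G Λ)).index = _
    rw [hk, Subgroup.index_ker]
  rw [h4]
  have h5 := Subgroup.card_subgroup_dvd_card ρ.range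
  rwa [Nat.card_perm, Nat.card_fin] at h5

theorem pc_emb [FaithfulSMul G Ω] (htrans : IsPretransitive G Ω) (Λ : Set Ω) (hne : Λ.Nonempty)
    (hfx : ∀ w ∈ fixingSubgroup G Λ, w ≠ 1 → (∃ k : ℕ, w ^ 3 ^ k = 1) → fixedBy Ω w = Λ)
    (hD3 : 3 ∣ Nat.card (fixingSubgroup G Λ))
    (hMD : ¬ 3 ∣ (fixingSubgroup G Λ).relIndex (stabilizer G Λ)) :
    ∃ H : Subgroup G, H ≠ ⊤ ∧ 3 ∣ Nat.card H ∧
      ∀ g : G, g ∉ H → ¬ 3 ∣ Nat.card ↥(H ⊓ H.map (MulAut.conj g).toMonoidHom) := by
  haveI : Fact (Nat.Prime 3) := ⟨Nat.prime_three⟩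
  haveI := htrans
  refine ⟨stabilizer G Λ, ?_, hD3.trans (Subgroup.card_dvd_of_le (fixing_le_stab Λ)), b1 3 Λ hfx hMD⟩
  intro htop
  obtain ⟨b, hb⟩ := hne
  have huniv : ∀ x : Ω, x ∈ Λ := by
    intro x
    obtain ⟨g, rfl⟩ := exists_smul_eq G b x
    have hg : g ∈ stabilizer G Λ := by rw [htop]; exact Subgroup.mem_top _
    have h2 : g • b ∈ g • Λ := Set.smul_mem_smul_set hb
    rw [mem_stab.1 hg] at h2
    exact h2
  have h1 : fixingSubgroup G Λ = ⊥ := by
    rw [eq_bot_iff]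
    intro w hw
    rw [Subgroup.mem_bot]
    apply FaithfulSMul.eq_of_smul_eq_smul (α := Ω)
    intro x
    rw [one_smul]
    exact (mem_fixingSubgroup_iff G).1 hw x (huniv x)
  rw [h1, Subgroup.card_bot] at hD3
  omega

theorem pc_set [FaithfulSMul G Ω] (htrans : IsPretransitive G Ω) (hperf : commutator G = ⊤)
    (hfix : ∀ g : G, g ≠ 1 → Nat.card (fixedBy Ω g) ≤ 4) (hinv : ∀ g : G, orderOf g = 2 → fixedBy Ω g = ∅)
    (Λ : Set Ω)
    (hΛ : (Nat.card Λ = 3 ∧ 3 ∣ Nat.card Ω) ∨ (Nat.card Λ = 4 ∧ Nat.card Ω % 3 = 1))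
    (hfx : ∀ w ∈ fixingSubgroup G Λ, w ≠ 1 → (∃ k : ℕ, w ^ 3 ^ k = 1) → fixedBy Ω w = Λ)
    (hD3 : 3 ∣ Nat.card (fixingSubgroup G Λ)) :
    (∃ H : Subgroup G, H ≠ ⊤ ∧ 3 ∣ Nat.card H ∧
      ∀ g : G, g ∉ H → ¬ 3 ∣ Nat.card ↥(H ⊓ H.map (MulAut.conj g).toMonoidHom)) ∨
    ∃ P : Sylow 3 G, PC.Concl (P : Subgroup G) := by
  haveI : Fact (Nat.Prime 3) := ⟨Nat.prime_three⟩
  have hne : Λ.Nonempty := by
    have h1 : 0 < Nat.card Λ := by rcases hΛ with ⟨h, _⟩ | ⟨h, _⟩ <;> omega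
    exact Set.nonempty_coe_sort.1 (Nat.card_pos_iff.1 h1).1
  by_cases hMD : 3 ∣ (fixingSubgroup G Λ).relIndex (stabilizer G Λ)
  swap
  · exact Or.inl (pc_emb htrans Λ hne hfx hD3 hMD)
  right
  obtain ⟨M₀, h1, h2, h3, h4, h5, h6⟩ := PC.exists_M0 hfix hinv Λ
    (by rcases hΛ with h | h; exacts [Or.inl h, Or.inr h.1]) hMD
  refine pc_core hperf Λ M₀ hfx hD3 h1 h2 h3 h4 h5 h6 ?_
  intro P hPM e heP heD he3 q hq hq2 x hxP hex hqx
  have he1 : e ≠ 1 := by
    intro h; rw [h, orderOf_one] at he3; omega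
  have heΛ : fixedBy Ω e = Λ := hfx e heD he1 ⟨1, by rw [pow_one, ← he3]; exact pow_orderOf_eq_one e⟩
  rcases hΛ with ⟨hc, _⟩ | ⟨hc, hΩ⟩
  · -- three points
    obtain ⟨g, hg⟩ := isConj_iff.1 hex
    have hcx : Nat.card (fixedBy Ω x) = 3 := by
      rw [← hg, fixedBy_conj, heΛ, Nat.card_coe_set_eq, Set.ncard_smul_set, ← Nat.card_coe_set_eq, hc]
    have hqs : q ∈ stabilizer G (fixedBy Ω x) := by
      rw [mem_stab, ← fixedBy_conj]
      symm
      refine Set.eq_of_subset_of_ncard_le ?_ ?_ (Set.toFinite _)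
      · intro y hy
        obtain ⟨k, hk⟩ := Subgroup.mem_zpowers_iff.1 hqx
        have h7 : x ∈ stabilizer G y := hy
        have h8 : q * x * q⁻¹ ∈ stabilizer G y := by
          rw [← hk]
          exact (stabilizer G y).zpow_mem h7 k
        exact h8
      · rw [fixedBy_conj, Set.ncard_smul_set]
    obtain ⟨ρ, pt, hinj, hr, hρ⟩ := PC.exists_rho (G := G) (fixedBy Ω x) (by norm_num) hcx
    obtain ⟨k, hk⟩ := hq2
    have h9 : (ρ ⟨q, hqs⟩) ^ 2 ^ k = 1 := by
      rw [← map_pow]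
      have : (⟨q, hqs⟩ : stabilizer G (fixedBy Ω x)) ^ 2 ^ k = 1 := Subtype.ext (by
        rw [SubgroupClass.coe_pow]; exact hk)
      rw [this, map_one]
    have h10 : orderOf (ρ ⟨q, hqs⟩) ∣ 6 := by
      have h11 := orderOf_dvd_natCard (ρ ⟨q, hqs⟩)
      rwa [Nat.card_perm, Nat.card_fin] at h11
    have h11 : orderOf (ρ ⟨q, hqs⟩) ∣ 2 := by
      obtain ⟨j, hj, hj'⟩ := (Nat.dvd_prime_pow Nat.prime_two).1 (orderOf_dvd_of_pow_eq_one h9)
      rw [hj'] at h10 ⊢
      rcases j with _ | _ | j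
      · norm_num
      · norm_num
      · exfalso
        have h12 : 4 ∣ 6 := by
          refine Dvd.dvd.trans ?_ h10
          exact ⟨2 ^ j, by rw [pow_succ, pow_succ]; ring⟩
        omega
    have h12 : ∀ σ : Equiv.Perm (Fin 3), σ ^ 2 = 1 → ∃ i, σ i = i := by decide +kernel
    obtain ⟨i, hi⟩ := h12 _ (orderOf_dvd_iff_pow_eq_one.1 h11)
    have h13 : q • pt i = pt i := by
      have := hρ ⟨q, hqs⟩ i
      rw [hi] at this
      exact this
    exact PC.two_elt hinv ⟨k, hk⟩ h13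
  · -- four points
    have hPp := P.isPGroup'
    have h7 := hPp.card_modEq_card_fixedPoints Ω
    have hsub : fixedPoints (P : Subgroup G) Ω ⊆ Λ := by
      intro y hy
      rw [← heΛ]
      exact hy ⟨e, heP⟩
    have h8 : Nat.card (fixedPoints (P : Subgroup G) Ω) ≤ 4 := by
      rw [← hc]
      exact Nat.card_mono (Set.toFinite _) hsub
    have h9 : Nat.card (fixedPoints (P : Subgroup G) Ω) ≠ 4 := by
      intro h
      have h10 : fixedPoints (P : Subgroup G) Ω = Λ := by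
        apply Set.eq_of_subset_of_ncard_le hsub
        rw [← Nat.card_coe_set_eq, ← Nat.card_coe_set_eq, h, hc]
      apply hPM
      intro p hp
      apply fixing_le_stab Λ
      rw [mem_fixingSubgroup_iff]
      intro y hy
      rw [← h10] at hy
      exact hy ⟨p, hp⟩
    have h10 : Nat.card (fixedPoints (P : Subgroup G) Ω) = 1 := by
      unfold Nat.ModEq at h7
      omega
    obtain ⟨⟨⟨b, hb⟩⟩, hss⟩ := (Nat.card_eq_one_iff_unique.1 h10).symm
    have h11 : q • b ∈ fixedPoints (P : Subgroup G) Ω := by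
      rintro ⟨p, hp⟩
      change p • q • b = q • b
      have h12 : q⁻¹ * p * q ∈ (P : Subgroup G) := by
        have := (Subgroup.mem_normalizer_iff.1 ((Subgroup.normalizer _).inv_mem hq) p).1 hp
        rwa [inv_inv] at this
      have h13 : (q⁻¹ * p * q) • b = b := hb ⟨_, h12⟩
      rw [mul_assoc, mul_smul, inv_smul_eq_iff, mul_smul] at h13
      exact h13
    have h12 : q • b = b := congrArg Subtype.val (@Subsingleton.elim _ hss ⟨q • b, h11⟩ ⟨b, hb⟩)
    exact PC.two_elt hinv hq2 h12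

/-- [PC] part C -/
theorem partC [IsSimpleGroup G] (hna : ¬ IsMulCommutative G) [FaithfulSMul G Ω] (htrans : IsPretransitive G Ω)
    (hfix : ∀ g : G, g ≠ 1 → Nat.card (fixedBy Ω g) ≤ 4) (hinv : ∀ g : G, orderOf g = 2 → fixedBy Ω g = ∅)
    (P : Sylow 3 G) (a : Ω) (h3 : 3 ∣ Nat.card (stabilizer G a)) :
      (∃ H : Subgroup G, H ≠ ⊤ ∧ 3 ∣ Nat.card H ∧ ∀ g : G, g ∉ H → ¬ 3 ∣ Nat.card ↥(H ⊓ H.map (MulAut.conj g).toMonoidHom)) ∨
       (Nat.card P = 9 ∧ ∀ x ∈ (P : Subgroup G), x ^ 3 = 1) ∨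
       (Nat.card P = 27 ∧ Cfsg.IsExtraspecial 3 (P : Subgroup G) ∧ ∀ x ∈ (P : Subgroup G), x ^ 3 = 1) := by
  haveI : Fact (Nat.Prime 3) := ⟨Nat.prime_three⟩
  have hperf : commutator G = ⊤ := by
    rcases (inferInstance : (commutator G).Normal).eq_bot_or_eq_top with h | h
    · exfalso
      apply hna
      refine ⟨⟨fun x y => ?_⟩⟩
      have h1 : ⁅x, y⁆ ∈ commutator G := Subgroup.commutator_mem_commutator (Subgroup.mem_top _) (Subgroup.mem_top _)
      rw [h, Subgroup.mem_bot, commutatorElement_eq_one_iff_mul_comm] at h1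
      exact h1
    · exact h
  obtain ⟨w0, hw0⟩ := exists_prime_orderOf_dvd_card' (G := stabilizer G a) 3 h3
  obtain ⟨w, hw⟩ : ∃ w : G, w = (w0 : G) := ⟨_, rfl⟩
  have hw3 : orderOf w = 3 := by rw [hw, Subgroup.orderOf_coe]; exact hw0
  have hwa : a ∈ fixedBy Ω w := by rw [hw]; exact w0.2
  have hpow3 : ∀ v : G, orderOf v = 3 → ∃ k : ℕ, v ^ 3 ^ k = 1 := fun v hv =>
    ⟨1, by rw [pow_one, ← hv]; exact pow_orderOf_eq_one v⟩
  have hne1 : ∀ v : G, orderOf v = 3 → v ≠ 1 := by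
    intro v hv h; rw [h, orderOf_one] at hv; omega
  have hD3 : ∀ v : G, orderOf v = 3 → 3 ∣ Nat.card (fixingSubgroup G (fixedBy Ω v)) := by
    intro v hv
    have h1 : v ∈ fixingSubgroup G (fixedBy Ω v) := mem_fixing.2 (le_refl _)
    have h2 : orderOf (⟨v, h1⟩ : fixingSubgroup G (fixedBy Ω v)) = 3 := by
      rw [← hv, ← Subgroup.orderOf_coe]
    rw [← h2]
    exact orderOf_dvd_natCard _
  have hwpos : 0 < Nat.card (fixedBy Ω w) := by
    haveI : Nonempty (fixedBy Ω w) := ⟨⟨a, hwa⟩⟩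
    exact Nat.card_pos
  have hwmod := PC.modEq3 (Ω := Ω) (hpow3 w hw3)
  have hw4 := hfix w (hne1 w hw3)
  have hfin : (∃ Q : Sylow 3 G, PC.Concl (Q : Subgroup G)) →
       (Nat.card P = 9 ∧ ∀ x ∈ (P : Subgroup G), x ^ 3 = 1) ∨
       (Nat.card P = 27 ∧ Cfsg.IsExtraspecial 3 (P : Subgroup G) ∧ ∀ x ∈ (P : Subgroup G), x ^ 3 = 1) := by
    rintro ⟨Q, hQ⟩
    have h1 : PC.Concl (P : Subgroup G) := PC.Concl.of_equiv (Sylow.equiv Q P) hQ
    rcases h1.final with ⟨h2, h4⟩ | ⟨h2, h4, h5⟩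
    · exact Or.inl ⟨h2, fun x hx => congrArg Subtype.val (h4 ⟨x, hx⟩)⟩
    · exact Or.inr ⟨h2, h4, fun x hx => congrArg Subtype.val (h5 ⟨x, hx⟩)⟩
  have heq : ∀ {Λ : Set Ω} {v : G}, v ∈ fixingSubgroup G Λ → Nat.card (fixedBy Ω v) ≤ Nat.card Λ → fixedBy Ω v = Λ := by
    intro Λ v hv h
    symm
    apply Set.eq_of_subset_of_ncard_le (mem_fixing.1 hv)
    rw [← Nat.card_coe_set_eq, ← Nat.card_coe_set_eq]
    exact h
  have hle : ∀ {Λ : Set Ω} {v : G}, v ∈ fixingSubgroup G Λ → Nat.card Λ ≤ Nat.card (fixedBy Ω v) := by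
    intro Λ v hv
    exact Nat.card_mono (Set.toFinite _) (mem_fixing.1 hv)
  unfold Nat.ModEq at hwmod
  have hmod : Nat.card Ω % 3 = 0 ∨ Nat.card Ω % 3 = 1 ∨ Nat.card Ω % 3 = 2 := by omega
  rcases hmod with hm | hm | hm
  · -- residue 0
    have hc : Nat.card (fixedBy Ω w) = 3 := by omega
    rcases pc_set htrans hperf hfix hinv (fixedBy Ω w) (Or.inl ⟨hc, Nat.dvd_of_mod_eq_zero hm⟩) (by
      intro v hv hv1 hv3
      have h1 := PC.modEq3 (Ω := Ω) hv3
      have h2 := hfix v hv1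
      unfold Nat.ModEq at h1
      exact heq hv (by omega)) (hD3 w hw3) with h | h
    · exact Or.inl h
    · exact Or.inr (hfin h)
  · -- residue 1
    by_cases h4 : ∃ t : G, orderOf t = 3 ∧ Nat.card (fixedBy Ω t) = 4
    · obtain ⟨t, ht, ht4⟩ := h4
      rcases pc_set htrans hperf hfix hinv (fixedBy Ω t) (Or.inr ⟨ht4, hm⟩) (by
        intro v hv hv1 hv3
        exact fixedBy_eq hfix ht4 hv hv1) (hD3 t ht) with h | h
      · exact Or.inl h
      · exact Or.inr (hfin h)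
    · left
      have hc : Nat.card (fixedBy Ω w) = 1 := by
        have h5 : Nat.card (fixedBy Ω w) ≠ 4 := fun h => h4 ⟨w, hw3, h⟩
        omega
      refine pc_emb htrans (fixedBy Ω w) ⟨a, hwa⟩ ?_ (hD3 w hw3) ?_
      · intro v hv hv1 hv3
        have h1 := PC.modEq3 (Ω := Ω) hv3
        have h2 := hfix v hv1
        unfold Nat.ModEq at h1
        have h5 : Nat.card (fixedBy Ω v) ≠ 4 := by
          intro h6
          obtain ⟨k, hk⟩ := hv3
          obtain ⟨j, hj, hj'⟩ := (Nat.dvd_prime_pow Nat.prime_three).1 (orderOf_dvd_of_pow_eq_one hk)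
          rcases j with _ | j
          · exact hv1 (orderOf_eq_one_iff.1 (by simpa using hj'))
          · have h7 : orderOf (v ^ 3 ^ j) = 3 := by
              rw [orderOf_pow_of_dvd (by positivity) (by rw [hj', pow_succ]; exact Dvd.intro _ rfl), hj', pow_succ]
              exact Nat.mul_div_cancel_left 3 (by positivity)
            apply h4
            refine ⟨v ^ 3 ^ j, h7, le_antisymm (hfix _ (hne1 _ h7)) ?_⟩
            rw [← h6]
            apply Nat.card_mono (Set.toFinite _)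
            intro x hx
            exact PC.pow_fix hx _
        exact heq hv (by omega)
      · intro h
        have h5 := h.trans (pc_rel (G := G) (fixedBy Ω w) one_ne_zero hc)
        rw [Nat.factorial_one] at h5
        omega
  · -- residue 2
    left
    have hc : Nat.card (fixedBy Ω w) = 2 := by omega
    refine pc_emb htrans (fixedBy Ω w) ⟨a, hwa⟩ ?_ (hD3 w hw3) ?_
    · intro v hv hv1 hv3
      have h1 := PC.modEq3 (Ω := Ω) hv3
      have h2 := hfix v hv1
      unfold Nat.ModEq at h1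
      exact heq hv (by omega)
    · intro h
      have h5 := h.trans (pc_rel (G := G) (fixedBy Ω w) two_ne_zero hc)
      rw [Nat.factorial_two] at h5
      omega

end fin

end Cfsg.Agent.H96.Fx
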