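import Mathlib
import Cfsg.Prelude
import Cfsg.Agent.H96.Fx.Base

set_option autoImplicit false
open MulAction
open scoped Pointwise

namespace Cfsg.Agent.H96.Fx.PC

section
variable {G Ω : Type*} [Group G] [MulAction G Ω]

theorem pow_fix {q : G} {x : Ω} (hx : q • x = x) (n : ℕ) : q ^ n • x = x := by
  induction n with
  | zero => simp
  | succ n ih => rw [pow_succ, mul_smul, hx, ih]

/-- a 2-element with a fixed point is trivial -/
theorem two_elt (hinv : ∀ g : G, orderOf g = 2 → fixedBy Ω g = ∅) {q : G}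
    (hq : ∃ k : ℕ, q ^ 2 ^ k = 1) {x : Ω} (hx : q • x = x) : q = 1 := by
  by_contra h1
  obtain ⟨k, hk⟩ := hq
  obtain ⟨m, hm, hm'⟩ := (Nat.dvd_prime_pow Nat.prime_two).1 (orderOf_dvd_of_pow_eq_one hk)
  have hm1 : m ≠ 0 := by
    rintro rfl
    exact h1 (orderOf_eq_one_iff.1 (by simpa using hm'))
  obtain ⟨j, rfl⟩ := Nat.exists_eq_succ_of_ne_zero hm1
  have h2 : orderOf (q ^ 2 ^ j) = 2 := by
    rw [orderOf_pow' q (by positivity), hm', Nat.succ_eq_add_one, pow_succ, Nat.gcd_mul_right_left]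
    exact Nat.mul_div_cancel_left 2 (by positivity)
  have h3 := hinv _ h2
  have h4 : x ∈ fixedBy Ω (q ^ 2 ^ j) := pow_fix hx _
  rw [h3] at h4
  exact h4

/-- an element acting as an involution fixing a point -/
theorem odd_part [Finite G] (hinv : ∀ g : G, orderOf g = 2 → fixedBy Ω g = ∅) {n : ℕ} (M : Subgroup G)
    (ρ : M →* Equiv.Perm (Fin n)) (pt : Fin n → Ω) (hρ : ∀ (m : M) (i : Fin n), (m : G) • pt i = pt (ρ m i))
    (m : M) (i : Fin n) (h2 : ρ m * ρ m = 1) (hi : ρ m i = i) : ρ m = 1 := by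
  obtain ⟨a, b, hb, hab⟩ := Nat.exists_eq_two_pow_mul_odd (orderOf_pos m).ne'
  obtain ⟨c, hc⟩ := hb
  have h3 : m ^ b = 1 := by
    have h5 : ((m ^ b : M) : G) = 1 := by
      refine two_elt hinv (q := ((m ^ b : M) : G)) ⟨a, ?_⟩ (x := pt i) ?_
      · rw [← Subgroup.coe_pow, ← pow_mul, mul_comm b, ← hab, pow_orderOf_eq_one]; rfl
      · rw [hρ, map_pow]
        have h6 : (ρ m ^ b) i = i := by
          have : ∀ k : ℕ, (ρ m ^ k) i = i := by
            intro k
            induction k with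
            | zero => simp
            | succ k ih => rw [pow_succ, Equiv.Perm.mul_apply, hi, ih]
          exact this b
        rw [h6]
    exact Subtype.ext h5
  have h4 : ρ m ^ b = 1 := by rw [← map_pow, h3, map_one]
  rw [hc, pow_succ, pow_mul, pow_two, h2, one_pow, one_mul] at h4
  exact h4

end

/-- the Klein four-group of S4 -/
def V4 : Subgroup (Equiv.Perm (Fin 4)) where
  carrier := {σ | σ * σ = 1 ∧ Equiv.Perm.sign σ = 1}
  one_mem' := by simp
  inv_mem' := by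
    intro a ha
    refine ⟨?_, ?_⟩
    · rw [← mul_inv_rev, ha.1, inv_one]
    · rw [Equiv.Perm.sign_inv]; exact ha.2
  mul_mem' := by
    intro a b ha hb
    have : ∀ a b : Equiv.Perm (Fin 4), a * a = 1 ∧ Equiv.Perm.sign a = 1 → b * b = 1 ∧ Equiv.Perm.sign b = 1 →
        (a * b) * (a * b) = 1 ∧ Equiv.Perm.sign (a * b) = 1 := by decide +kernel
    exact this a b ha hb

instance : V4.Normal := by
  constructor
  intro a ha g
  refine ⟨?_, ?_⟩
  · have := ha.1
    calc g * a * g⁻¹ * (g * a * g⁻¹) = g * (a * a) * g⁻¹ := by group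
      _ = 1 := by rw [this]; group
  · rw [map_mul, map_mul, ha.2, map_inv]; simp

theorem mem_V4 {σ : Equiv.Perm (Fin 4)} : σ ∈ V4 ↔ σ * σ = 1 ∧ Equiv.Perm.sign σ = 1 := Iff.rfl

theorem card_V4 : Nat.card V4 = 4 := by
  have : Nat.card V4 = Nat.card {σ : Equiv.Perm (Fin 4) // σ * σ = 1 ∧ Equiv.Perm.sign σ = 1} := rfl
  rw [this, Nat.card_eq_fintype_card]
  decide +kernel

theorem card_alt {n : ℕ} [Nontrivial (Fin n)] : 2 * Nat.card (alternatingGroup (Fin n)) = n.factorial := by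
  rw [Nat.card_eq_fintype_card, two_mul_card_alternatingGroup, Fintype.card_perm, Fintype.card_fin]

theorem V4_rel : V4.relIndex (alternatingGroup (Fin 4)) = 3 := by
  have hle : V4 ≤ alternatingGroup (Fin 4) := fun σ h => Equiv.Perm.mem_alternatingGroup.2 h.2
  have h1 := Subgroup.relIndex_mul_relIndex ⊥ V4 (alternatingGroup (Fin 4)) bot_le hle
  rw [Subgroup.relIndex_bot_left, Subgroup.relIndex_bot_left, card_V4] at h1
  have h2 := card_alt (n := 4)
  have h3 : (4 : ℕ).factorial = 24 := by decide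
  omega

theorem bot_rel : (⊥ : Subgroup (Equiv.Perm (Fin 3))).relIndex (alternatingGroup (Fin 3)) = 3 := by
  rw [Subgroup.relIndex_bot_left]
  have h2 := card_alt (n := 3)
  have h3 : (3 : ℕ).factorial = 6 := by decide
  omega

theorem odd3 : ∀ σ : Equiv.Perm (Fin 3), Equiv.Perm.sign σ ≠ 1 → σ * σ = 1 ∧ ∃ i, σ i = i := by decide +kernel

theorem odd4 : ∀ s c : Equiv.Perm (Fin 4), Equiv.Perm.sign s ≠ 1 → c * c * c = 1 → c ≠ 1 →
    (s * s = 1 ∧ ∃ i, s i = i) ∨ ((s * c) * (s * c) = 1 ∧ s * c ≠ 1 ∧ ∃ i, (s * c) i = i) ∨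
      ((s * (c * c)) * (s * (c * c)) = 1 ∧ s * (c * c) ≠ 1 ∧ ∃ i, (s * (c * c)) i = i) := by decide +kernel

theorem three4 : ∀ σ : Equiv.Perm (Fin 4), Equiv.Perm.sign σ = 1 → σ * σ ≠ 1 → ∃ i, σ i = i := by decide +kernel

/-- all elements of the image are even -/
theorem even4 (R : Subgroup (Equiv.Perm (Fin 4))) (h3 : 3 ∣ Nat.card R)
    (hR : ∀ σ ∈ R, σ * σ = 1 → (∃ i, σ i = i) → σ = 1) : R ≤ alternatingGroup (Fin 4) := by
  obtain ⟨c, hc⟩ := exists_prime_orderOf_dvd_card' (G := R) 3 h3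
  have hc3 : (c : Equiv.Perm (Fin 4)) * c * c = 1 := by
    have h := pow_orderOf_eq_one c
    rw [hc] at h
    have h' := congrArg (Subtype.val) h
    rw [pow_succ, pow_two] at h'
    exact h'
  have hc1 : (c : Equiv.Perm (Fin 4)) ≠ 1 := by
    intro h
    have : c = 1 := Subtype.ext h
    rw [this, orderOf_one] at hc
    omega
  intro s hs
  rw [Equiv.Perm.mem_alternatingGroup]
  by_contra hsgn
  rcases odd4 s c hsgn hc3 hc1 with h | h | h
  · have := hR s hs h.1 h.2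
    rw [this] at hsgn
    exact hsgn (map_one _)
  · exact h.2.1 (hR _ (R.mul_mem hs c.2) h.1 h.2.2)
  · exact h.2.1 (hR _ (R.mul_mem hs (R.mul_mem c.2 c.2)) h.1 h.2.2)

theorem even3 (R : Subgroup (Equiv.Perm (Fin 3)))
    (hR : ∀ σ ∈ R, σ * σ = 1 → (∃ i, σ i = i) → σ = 1) : R ≤ alternatingGroup (Fin 3) := by
  intro s hs
  rw [Equiv.Perm.mem_alternatingGroup]
  by_contra hsgn
  have h := odd3 s hsgn
  have := hR s hs h.1 h.2
  rw [this] at hsgn
  exact hsgn (map_one _)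

/-- the index-3 subgroup -/
theorem relIndex_three {n : ℕ} (V : Subgroup (Equiv.Perm (Fin n))) [V.Normal]
    (hV : V.relIndex (alternatingGroup (Fin n)) = 3) (hVA : V ≤ alternatingGroup (Fin n)) (hV3 : ¬ 3 ∣ Nat.card V)
    (R : Subgroup (Equiv.Perm (Fin n))) (hR : R ≤ alternatingGroup (Fin n)) (h3 : 3 ∣ Nat.card R) :
    V.relIndex R = 3 := by
  have h1 := Subgroup.relIndex_mul_relIndex V (V ⊔ R) (alternatingGroup (Fin n)) le_sup_left (sup_le hVA hR)
  rw [Subgroup.relIndex_sup_left, hV] at h1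
  have h2 : V.relIndex R ∣ 3 := ⟨_, h1.symm⟩
  rcases (Nat.dvd_prime Nat.prime_three).1 h2 with h | h
  · exfalso
    rw [Subgroup.relIndex_eq_one] at h
    exact hV3 (h3.trans (Subgroup.card_dvd_of_le h))
  · exact h

end Cfsg.Agent.H96.Fx.PC
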