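import Mathlib

set_option autoImplicit false
set_option linter.style.haveILetI false

namespace Cfsg.Agent.H96.Fx.T3a

/-- a power of 3 dividing 9, not 1 and not 9, is 3 -/
theorem eq_three {n : ℕ} (h : n ∣ 9) (h1 : n ≠ 1) (h9 : n ≠ 9) : n = 3 := by
  have hle : n ≤ 9 := Nat.le_of_dvd (by norm_num) h
  interval_cases n <;> first | rfl | (exfalso; omega)

section
variable {P : Type*} [Group P] [Finite P]

theorem pa (hP : IsPGroup 3 P) (e : P) (h9 : Nat.card (Subgroup.centralizer ({e} : Set P)) = 9)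
    (h27 : 27 ≤ Nat.card P) :
    Nat.card (Subgroup.center P) = 3 ∧ e ∉ Subgroup.center P ∧
      ∃ p₀ : P, p₀ * e * p₀⁻¹ * e⁻¹ ∈ Subgroup.center P ∧ p₀ * e * p₀⁻¹ * e⁻¹ ≠ 1 := by
  classical
  haveI : Fact (Nat.Prime 3) := ⟨Nat.prime_three⟩
  set C := Subgroup.centralizer ({e} : Set P) with hC
  have hCmem : ∀ x : P, x ∈ C ↔ e * x = x * e := by
    intro x
    rw [hC, Subgroup.mem_centralizer_iff]
    constructor
    · intro h; exact h e rfl
    · intro h y hy
      rw [Set.mem_singleton_iff.mp hy]; exact h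
  have hZC : Subgroup.center P ≤ C := by
    intro x hx
    rw [hCmem]
    exact (Subgroup.mem_center_iff.mp hx) e
  haveI : Nontrivial P := Finite.one_lt_card_iff_nontrivial.mp (by omega)
  have heC : e ∈ C := (hCmem e).mpr rfl
  have hCtop : C ≠ ⊤ := by
    intro h
    rw [h, Subgroup.card_top] at h9
    omega
  have heZ : e ∉ Subgroup.center P := by
    intro h
    apply hCtop
    rw [eq_top_iff]
    intro x _
    rw [hCmem]
    exact ((Subgroup.mem_center_iff.mp h) x).symm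
  have hZ1 : Nat.card (Subgroup.center P) ≠ 1 := by
    haveI := hP.center_nontrivial
    have := Finite.one_lt_card (α := Subgroup.center P)
    omega
  have hZdvd : Nat.card (Subgroup.center P) ∣ 9 := by
    rw [← h9]; exact Subgroup.card_dvd_of_le hZC
  have hZ9 : Nat.card (Subgroup.center P) ≠ 9 := by
    intro h
    have : Subgroup.center P = C := Subgroup.eq_of_le_of_card_ge hZC (by rw [h, h9])
    exact heZ (this ▸ heC)
  have hZ3 := eq_three hZdvd hZ1 hZ9
  refine ⟨hZ3, heZ, ?_⟩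
  -- second centre
  let f : P →* P ⧸ Subgroup.center P := QuotientGroup.mk' _
  have hfs : Function.Surjective f := QuotientGroup.mk'_surjective _
  have hf1 : ∀ x, f x = 1 ↔ x ∈ Subgroup.center P := fun x => QuotientGroup.eq_one_iff x
  have hQ : IsPGroup 3 (P ⧸ Subgroup.center P) := hP.of_surjective f hfs
  haveI : Nontrivial (P ⧸ Subgroup.center P) := by
    refine ⟨f e, 1, ?_⟩
    intro h
    exact heZ ((hf1 e).mp h)
  haveI := hQ.center_nontrivial
  obtain ⟨⟨y, hy⟩, hy1⟩ := exists_ne (1 : Subgroup.center (P ⧸ Subgroup.center P))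
  obtain ⟨x, rfl⟩ := hfs y
  have hxZ : x ∉ Subgroup.center P := by
    intro h
    apply hy1
    apply Subtype.ext
    exact (hf1 x).mpr h
  have hx2 : ∀ g : P, g * x * g⁻¹ * x⁻¹ ∈ Subgroup.center P := by
    intro g
    rw [← hf1, map_mul, map_mul, map_mul, map_inv, map_inv]
    have := (Subgroup.mem_center_iff.mp hy) (f g)
    rw [this]; group
  by_cases hxC : x ∈ C
  · -- C = <x> Z
    set K := Subgroup.zpowers x ⊔ Subgroup.center P with hK
    have hKC : K ≤ C := sup_le (by rw [Subgroup.zpowers_le]; exact hxC) hZC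
    have hK9 : Nat.card K = 9 := by
      have h1 : Nat.card K ∣ 9 := by rw [← h9]; exact Subgroup.card_dvd_of_le hKC
      have h2 : Nat.card (Subgroup.center P) ∣ Nat.card K := Subgroup.card_dvd_of_le le_sup_right
      by_contra hne
      have h3 : Nat.card K ≠ 1 := by
        intro h; rw [h, hZ3] at h2; omega
      have h4 := eq_three h1 h3 hne
      have h5 : Subgroup.center P = K :=
        Subgroup.eq_of_le_of_card_ge le_sup_right (by rw [h4, hZ3])
      apply hxZ
      rw [h5]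
      exact (le_sup_left : Subgroup.zpowers x ≤ K) (Subgroup.mem_zpowers x)
    have hKC' : K = C := Subgroup.eq_of_le_of_card_ge hKC (by rw [hK9, h9])
    have heK : e ∈ K := hKC'.symm ▸ heC
    obtain ⟨a, ha, z, hz, haz⟩ := Subgroup.mem_sup_of_normal_right.mp heK
    obtain ⟨k, rfl⟩ := Subgroup.mem_zpowers_iff.mp ha
    obtain ⟨g, hg⟩ : ∃ g, g ∉ C := by
      by_contra h
      push Not at h
      exact hCtop (eq_top_iff.mpr (fun g _ => h g))
    refine ⟨g, ?_, ?_⟩
    · rw [← hf1]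
      have h1 : f (g * e * g⁻¹ * e⁻¹) = f g * f e * (f g)⁻¹ * (f e)⁻¹ := by simp
      have h2 : f e = f x ^ k := by
        rw [← haz, map_mul, map_zpow, (hf1 z).mpr hz, mul_one]
      have h3 : Commute (f g) (f x) := (Subgroup.mem_center_iff.mp hy) (f g)
      have h4 : f g * f e = f e * f g := by
        rw [h2]; exact (h3.zpow_right k)
      rw [h1, h4]; group
    · intro h
      apply hg
      rw [hCmem]
      have h1 : g * e * g⁻¹ = e := mul_inv_eq_one.mp h
      have h2 : g * e = e * g := mul_inv_eq_iff_eq_mul.mp h1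
      exact h2.symm
  · refine ⟨x, ?_, ?_⟩
    · have h1 := Subgroup.inv_mem _ (hx2 e)
      have h2 : (e * x * e⁻¹ * x⁻¹)⁻¹ = x * e * x⁻¹ * e⁻¹ := by group
      rw [h2] at h1
      exact h1
    · intro h
      apply hxC
      rw [hCmem]
      have h1 : x * e * x⁻¹ = e := mul_inv_eq_one.mp h
      have h2 : x * e = e * x := mul_inv_eq_iff_eq_mul.mp h1
      exact h2.symm

/-- every `e z`, `z` central, is conjugate to `e` -/
theorem conj_mul (hP : IsPGroup 3 P) (e : P)
    (h9 : Nat.card (Subgroup.centralizer ({e} : Set P)) = 9)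
    (h27 : 27 ≤ Nat.card P) (z : P) (hz : z ∈ Subgroup.center P) :
    ∃ g : P, g * e * g⁻¹ = e * z := by
  classical
  haveI : Fact (Nat.Prime 3) := ⟨Nat.prime_three⟩
  obtain ⟨hZ3, heZ, p₀, hp, hp1⟩ := pa hP e h9 h27
  set z₀ := p₀ * e * p₀⁻¹ * e⁻¹ with hz0
  have hz0c : ∀ g : P, g * z₀ = z₀ * g := fun g => (Subgroup.mem_center_iff.mp hp) g
  have h1 : (⟨z, hz⟩ : Subgroup.center P) ∈ Submonoid.powers (⟨z₀, hp⟩ : Subgroup.center P) :=
    mem_powers_of_prime_card hZ3 (by
      intro h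
      exact hp1 (congrArg Subtype.val h))
  obtain ⟨k, hk⟩ := h1
  have hk' : z₀ ^ k = z := congrArg Subtype.val hk
  refine ⟨p₀ ^ k, ?_⟩
  rw [← hk']
  clear hk' hk
  induction k with
  | zero => simp
  | succ k ih =>
    have h2 : p₀ * e * p₀⁻¹ = e * z₀ := by
      rw [hz0c e, hz0]; group
    calc p₀ ^ (k + 1) * e * (p₀ ^ (k + 1))⁻¹ = p₀ ^ k * (p₀ * e * p₀⁻¹) * (p₀ ^ k)⁻¹ := by
          rw [pow_succ]; group
      _ = (p₀ ^ k * e * (p₀ ^ k)⁻¹) * (p₀ ^ k * z₀ * (p₀ ^ k)⁻¹) := by rw [h2]; group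
      _ = (e * z₀ ^ k) * z₀ := by rw [ih, hz0c (p₀ ^ k)]; group
      _ = e * z₀ ^ (k + 1) := by rw [pow_succ, mul_assoc]

theorem pb (hP : IsPGroup 3 P) (e : P) (he3 : e ^ 3 = 1)
    (h9 : Nat.card (Subgroup.centralizer ({e} : Set P)) = 9)
    (h27 : 27 ≤ Nat.card P) (y : P) (hy : y ∈ Subgroup.centralizer ({e} : Set P)) :
    y ∈ Subgroup.center P ∨ (∃ g : P, g * e * g⁻¹ = y) ∨ (∃ g : P, g * e * g⁻¹ = y⁻¹) := by
  classical
  obtain ⟨hZ3, heZ, p₀, hp, hp1⟩ := pa hP e h9 h27
  set C := Subgroup.centralizer ({e} : Set P) with hC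
  have hCmem : ∀ x : P, x ∈ C ↔ e * x = x * e := by
    intro x
    rw [hC, Subgroup.mem_centralizer_iff]
    constructor
    · intro h; exact h e rfl
    · intro h y hy
      rw [Set.mem_singleton_iff.mp hy]; exact h
  have hZC : Subgroup.center P ≤ C := by
    intro x hx
    rw [hCmem]
    exact (Subgroup.mem_center_iff.mp hx) e
  have heC : e ∈ C := (hCmem e).mpr rfl
  set K := Subgroup.zpowers e ⊔ Subgroup.center P with hK
  have hKC : K ≤ C := sup_le (by rw [Subgroup.zpowers_le]; exact heC) hZC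
  have hK9 : Nat.card K = 9 := by
    have h1 : Nat.card K ∣ 9 := by rw [← h9]; exact Subgroup.card_dvd_of_le hKC
    have h2 : Nat.card (Subgroup.center P) ∣ Nat.card K := Subgroup.card_dvd_of_le le_sup_right
    by_contra hne
    have h3 : Nat.card K ≠ 1 := by
      intro h; rw [h, hZ3] at h2; omega
    have h4 := eq_three h1 h3 hne
    have h5 : Subgroup.center P = K :=
      Subgroup.eq_of_le_of_card_ge le_sup_right (by rw [h4, hZ3])
    apply heZ
    rw [h5]
    exact (le_sup_left : Subgroup.zpowers e ≤ K) (Subgroup.mem_zpowers e)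
  have hKC' : K = C := Subgroup.eq_of_le_of_card_ge hKC (by rw [hK9, h9])
  rw [← hKC'] at hy
  obtain ⟨a, ha, z, hz, haz⟩ := Subgroup.mem_sup_of_normal_right.mp hy
  obtain ⟨k, rfl⟩ := Subgroup.mem_zpowers_iff.mp ha
  have he3' : e ^ (3 : ℤ) = 1 := by exact_mod_cast he3
  have hk : e ^ k = e ^ (k % 3) := by
    conv_lhs => rw [← Int.emod_add_mul_ediv k 3, zpow_add, zpow_mul, he3', one_zpow, mul_one]
  have hk3 : k % 3 = 0 ∨ k % 3 = 1 ∨ k % 3 = 2 := by omega
  have hzc : ∀ g : P, g * z = z * g := fun g => (Subgroup.mem_center_iff.mp hz) g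
  rcases hk3 with h | h | h
  · left
    rw [← haz, hk, h, zpow_zero, one_mul]; exact hz
  · right; left
    obtain ⟨g, hg⟩ := conj_mul hP e h9 h27 z hz
    refine ⟨g, ?_⟩
    rw [hg, ← haz, hk, h, zpow_one]
  · right; right
    obtain ⟨g, hg⟩ := conj_mul hP e h9 h27 z⁻¹ (Subgroup.inv_mem _ hz)
    refine ⟨g, ?_⟩
    rw [hg, ← haz, hk, h, mul_inv_rev]
    have h2 : (e ^ (2 : ℤ))⁻¹ = e := by
      rw [inv_eq_iff_mul_eq_one]
      have : e ^ (2 : ℤ) * e = e ^ (3 : ℤ) := by
        rw [show (3 : ℤ) = 2 + 1 from rfl, zpow_add, zpow_one]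
      rw [this, he3']
    rw [h2]
    have h3 : e * z⁻¹ = z⁻¹ * e := ((Subgroup.mem_center_iff.mp (Subgroup.inv_mem _ hz)) e)
    exact h3

end

end Cfsg.Agent.H96.Fx.T3a
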